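import Cfsg.Agent.Solv.Shumyatsky
import Cfsg.Agent.Gate.S0515

/-! Solvability from the solvability of the fixed points of a coprime operator group. -/

set_option autoImplicit false

namespace Cfsg.Lib.Solv.Act

open Subgroup Cfsg.Agent

universe u

theorem isSolvable_of_fix [Gate.S0515.{u}] {A G : Type u} [Group A] [Group G] [Finite A] [Finite G]
    [IsMulCommutative A] (φ : A →* MulAut G) {p : ℕ} [Fact p.Prime] (hA : ∀ a : A, a ^ p = 1)
    (h3 : p ^ 3 ≤ Nat.card A) (hG : (Nat.card G).Coprime p)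
    (h : ∀ a ≠ 1, Group.IsSolvable (fix φ (zpowers a))) : Group.IsSolvable G := by
  have h1 : Group.IsSolvable (L φ ⊤) := by
    refine Gate.S0515.out p (R φ ⊤) (L φ ⊤) inferInstance ?_ (by rwa [card_R_top])
      (by rwa [card_L_top]) (R_le_normalizer_L_top ⊤) ?_
    · rintro _ ⟨a, -, rfl⟩
      rw [← map_pow, hA, map_one]
    · rintro _ ⟨a, -, rfl⟩ ha
      rw [L_inf_centralizer_inr, top_inf_eq, isSolvable_L]
      exact h a fun h1 => ha (by rw [h1, map_one])
  have := isSolvable_L.1 h1
  exact Group.isSolvable_of_surjective (f := (⊤ : Subgroup G).subtype) fun g => ⟨⟨g, trivial⟩, rfl⟩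

theorem fix_subtype_zpowers {G : Type*} [Group G] (A : Subgroup (MulAut G)) (a : A) :
    fix A.subtype (zpowers a) = (a : MulAut G).toMonoidHom.eqLocus (MonoidHom.id G) :=
  Subgroup.ext fun _ => mem_fix_zpowers

theorem derivedSeries_eq_bot_of_le_of_lowerCentralSeries {G : Type*} [Group G] {W : Subgroup G}
    {m c : ℕ} (h1 : derivedSeries G m ≤ W) (h2 : W.lowerCentralSeries c = ⊥) :
    derivedSeries G (m + c) = ⊥ := by
  refine le_bot_iff.1 ((derivedSeries_add_le_map h1 c).trans
    ((map_mono (Subgroup.derived_le_lower_central c)).trans ?_))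
  rw [map_lowerCentralSeries, ← MonoidHom.range_eq_map, range_subtype, h2]

end Cfsg.Lib.Solv.Act
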