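import Mathlib

/-!
Complete Sylow products: the property that every product of Sylow subgroups (in a fixed order of
the primes) is the whole group passes to subgroups and quotients.
-/

set_option autoImplicit false

namespace Cfsg.Lib.Solv

variable {G : Type*} [Group G] {t : ℕ} {p : Fin t → ℕ}

/-- Every product of Sylow subgroups for the primes `p 0, p 1, …` is the whole group. -/
def SylProdSurj (p : Fin t → ℕ) (G : Type*) [Group G] : Prop :=
  ∀ (S : (i : Fin t) → Sylow (p i) G) (g : G), ∃ s : Fin t → G,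
    (∀ i, s i ∈ (S i : Subgroup G)) ∧ g = (List.ofFn s).prod

/-- Products of Sylow subgroups for the primes `p 0, p 1, …` have unique factorisations. -/
def SylProdInj (p : Fin t → ℕ) (G : Type*) [Group G] : Prop :=
  ∀ (S : (i : Fin t) → Sylow (p i) G) (s s' : Fin t → G), (∀ i, s i ∈ (S i : Subgroup G)) →
    (∀ i, s' i ∈ (S i : Subgroup G)) → (List.ofFn s).prod = (List.ofFn s').prod → s = s'

theorem card_pi_sylow [Finite G] (hp : ∀ i, (p i).Prime) (hi : Function.Injective p)
    (hc : ∀ q : ℕ, q.Prime → q ∣ Nat.card G → ∃ i, p i = q) (S : (i : Fin t) → Sylow (p i) G) :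
    Nat.card ((i : Fin t) → (S i : Subgroup G)) = Nat.card G := by
  have h0 : Nat.card G ≠ 0 := Nat.card_pos.ne'
  rw [Nat.card_pi]
  have h1 : ∀ i, Nat.card (S i : Subgroup G) = p i ^ (Nat.card G).factorization (p i) := fun i =>
    haveI := Fact.mk (hp i)
    (S i).card_eq_multiplicity
  simp only [h1]
  rw [← Finset.prod_image (f := fun q => q ^ (Nat.card G).factorization q) hi.injOn]
  conv_rhs => rw [← Nat.prod_factorization_pow_eq_self h0, Finsupp.prod]
  refine (Finset.prod_subset (fun q hq => ?_) fun q _ hq => ?_).symm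
  · rw [Nat.support_factorization, Nat.mem_primeFactors] at hq
    obtain ⟨i, rfl⟩ := hc q hq.1 hq.2.1
    exact Finset.mem_image_of_mem _ (Finset.mem_univ i)
  · rw [Finsupp.notMem_support_iff.1 hq, pow_zero]

theorem sylProdSurj_iff_inj [Finite G] (hp : ∀ i, (p i).Prime) (hi : Function.Injective p)
    (hc : ∀ q : ℕ, q.Prime → q ∣ Nat.card G → ∃ i, p i = q) :
    SylProdSurj p G ↔ SylProdInj p G := by
  refine forall_congr' fun S => ?_
  let f : ((i : Fin t) → (S i : Subgroup G)) → G := fun s => (List.ofFn fun i => (s i : G)).prod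
  have h1 : Function.Injective f ↔ Function.Surjective f :=
    ⟨fun h => ((Nat.bijective_iff_injective_and_card f).2 ⟨h, card_pi_sylow hp hi hc S⟩).2,
      fun h => ((Nat.bijective_iff_surjective_and_card f).2 ⟨h, card_pi_sylow hp hi hc S⟩).1⟩
  constructor
  · intro h s s' hs hs' e
    have h2 : Function.Surjective f := fun g => by
      obtain ⟨s, hs, e⟩ := h g
      exact ⟨fun i => ⟨s i, hs i⟩, e.symm⟩
    have h3 := h1.2 h2 (a₁ := fun i => ⟨s i, hs i⟩) (a₂ := fun i => ⟨s' i, hs' i⟩) e
    exact funext fun i => congrArg Subtype.val (congrFun h3 i)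
  · intro h g
    obtain ⟨s, e⟩ := h1.1 (fun s s' e => funext fun i => Subtype.ext
      (congrFun (h _ _ (fun i => (s i).2) (fun i => (s' i).2) e) i)) g
    exact ⟨fun i => s i, fun i => (s i).2, e.symm⟩

theorem map_prod_ofFn {H : Type*} [Group H] (f : G →* H) (s : Fin t → G) :
    f (List.ofFn s).prod = (List.ofFn fun i => f (s i)).prod := by
  rw [map_list_prod, List.map_ofFn]
  rfl

theorem SylProdInj.subgroup (h : SylProdInj p G) (H : Subgroup G) : SylProdInj p H := by
  intro S s s' hs hs' e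
  choose T hT using fun i => ((S i).isPGroup'.map H.subtype).exists_le_sylow
  have h1 := h T (fun i => s i) (fun i => s' i) (fun i => hT i ⟨_, hs i, rfl⟩)
    (fun i => hT i ⟨_, hs' i, rfl⟩)
    ((map_prod_ofFn H.subtype s).symm.trans ((congrArg _ e).trans (map_prod_ofFn H.subtype s')))
  exact funext fun i => Subtype.ext (congrFun h1 i)

theorem SylProdSurj.of_surjective [Finite G] (hp : ∀ i, (p i).Prime) (h : SylProdSurj p G)
    {H : Type*} [Group H] (f : G →* H) (hf : Function.Surjective f) : SylProdSurj p H := by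
  intro S g
  choose T hT using fun i =>
    haveI := Fact.mk (hp i)
    Sylow.mapSurjective_surjective hf (p i) (S i)
  obtain ⟨g, rfl⟩ := hf g
  obtain ⟨s, hs, rfl⟩ := h T g
  refine ⟨fun i => f (s i), fun i => ?_, map_prod_ofFn f s⟩
  rw [← hT i]
  exact ⟨_, hs i, rfl⟩

theorem SylProdInj.eq_one (h : SylProdInj p G) {s : Fin t → G}
    (hs : ∀ i, IsPGroup (p i) (Subgroup.zpowers (s i))) (e : (List.ofFn s).prod = 1) : s = 1 := by
  choose T hT using fun i => (hs i).exists_le_sylow
  refine h T s 1 (fun i => hT i (Subgroup.mem_zpowers _)) (fun i => one_mem _) (e.trans ?_)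
  exact (List.prod_eq_one fun x hx => by
    obtain ⟨i, rfl⟩ := List.mem_ofFn.1 hx
    rfl).symm

/-- An enumeration of a set of primes containing the prime divisors of `n` which starts with
three given primes. -/
theorem exists_enum_primes (n : ℕ) (hn : n ≠ 0) {r s u : ℕ} (hr : r.Prime) (hs : s.Prime)
    (hu : u.Prime) (hrs : r ≠ s) (hsu : s ≠ u) (hru : r ≠ u) :
    ∃ (k : ℕ) (q : Fin k → ℕ), (∀ i, (Fin.cons r (Fin.cons s (Fin.cons u q)) : Fin (k + 3) → ℕ) i |>.Prime) ∧
      Function.Injective (Fin.cons r (Fin.cons s (Fin.cons u q)) : Fin (k + 3) → ℕ) ∧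
      ∀ x : ℕ, x.Prime → x ∣ n →
        ∃ i, (Fin.cons r (Fin.cons s (Fin.cons u q)) : Fin (k + 3) → ℕ) i = x := by
  let A : Finset ℕ := n.primeFactors \ {r, s, u}
  have hA : ∀ i, A.orderEmbOfFin rfl i ∈ A := fun i => A.orderEmbOfFin_mem rfl i
  simp only [A, Finset.mem_sdiff, Nat.mem_primeFactors, Finset.mem_insert, Finset.mem_singleton,
    not_or] at hA
  refine ⟨A.card, A.orderEmbOfFin rfl, ?_, ?_, fun x hx hxn => ?_⟩
  · simp only [Fin.forall_fin_succ, Fin.cons_zero, Fin.cons_succ]
    exact ⟨hr, hs, hu, fun i => (hA i).1.1⟩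
  · simp only [Fin.cons_injective_iff, Fin.range_cons, Set.mem_insert_iff, Set.mem_range, not_or,
      not_exists]
    exact ⟨⟨hrs, hru, fun i => (hA i).2.1⟩, ⟨hsu, fun i => (hA i).2.2.1⟩, fun i => (hA i).2.2.2,
      (A.orderEmbOfFin rfl).injective⟩
  · simp only [Fin.exists_fin_succ, Fin.cons_zero, Fin.cons_succ]
    by_contra h
    simp only [not_or] at h
    have h1 : x ∈ Set.range (A.orderEmbOfFin rfl) := by
      rw [Finset.range_orderEmbOfFin]
      simp only [A, Finset.coe_sdiff, Set.mem_diff, Finset.mem_coe, Nat.mem_primeFactors,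
        Finset.mem_insert, Finset.mem_singleton, not_or]
      exact ⟨⟨hx, hxn, hn⟩, Ne.symm h.1, Ne.symm h.2.1, Ne.symm h.2.2.1⟩
    exact h.2.2.2 h1

end Cfsg.Lib.Solv
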