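import Cfsg.Agent.Solv.FlavFixA
import Cfsg.Agent.Solv.Frattini
import Cfsg.Agent.Solv.Cores
import Cfsg.Agent.FT.BG3.CFix

/-!
# Flavell: fixed points of an automorphism of odd prime order on a commutator subgroup
-/

set_option autoImplicit false

open Subgroup
open scoped commutatorElement Pointwise

namespace Cfsg.Lib.Solv.FlavFix

universe u

variable {G : Type u} [Group G]

namespace Ctx

variable [Finite G] {p : ℕ} {H E : Subgroup G} {x : G}

theorem sup_eq (c : Ctx p H x E) {V R : Subgroup G} (hV : IsMinNormal V) (hVH : V ≤ H)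
    [IsMulCommutative V] (hRH : R ≤ H) (hXR : zpowers x ≤ normalizer (R : Set G))
    (hcop : (Nat.card R).Coprime (Nat.card V)) (h0 : V ⊓ centralizer (R : Set G) = ⊥) :
    R ⊔ V = H := by
  have := hV.normal
  have hcv : ∀ a ∈ V, ∀ b ∈ V, a * b = b * a := fun a ha b hb =>
    congrArg Subtype.val (mul_comm' (⟨a, ha⟩ : V) ⟨b, hb⟩)
  by_contra hne
  refine hV.ne_bot (c.quo hV.normal hVH fun v hv => ?_)
  have hs : Group.IsSolvable (zpowers x) := Coprime.isSolvable_zpowers x
  have hsV : Group.IsSolvable V := Coprime.isSolvable_of_isMulCommutative V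
  set R₁ := ⁅R, zpowers x⁆ with hR₁
  have hR₁R : R₁ ≤ R := commutator_le_left_of_le_normalizer hXR
  have hXR₁ : zpowers x ≤ normalizer (R₁ : Set G) := right_le_normalizer_commutator _ _
  have hVR : ⁅V, R₁⁆ ≤ V := commutator_le_left _ _
  obtain ⟨a₀, ha₀, b₀, hb₀, h1⟩ := Coprime.exists_commutator_mul_centralizer (A := R₁) (K := V)
    le_normalizer_of_normal (hcop.coprime_dvd_left (card_dvd_of_le hR₁R)) (Or.inr hsV) hv.1
  obtain ⟨a, ha, b, hb, h2⟩ := Coprime.exists_centralizer_mul_centralizer (A := zpowers x)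
    (le_normalizer_commutator le_normalizer_of_normal hXR₁)
    (le_normalizer_inf_centralizer le_normalizer_of_normal hXR₁)
    (c.cop' (inf_le_left.trans (hVR.trans hVH))) (Or.inl hs) ha₀ hb₀ (h1 ▸ hv.2)
  rw [← h1, ← h2]
  refine E.mul_mem (c.sub (R ⊔ V) (lt_of_le_of_ne (sup_le hRH hVH) hne)
    (le_normalizer_sup hXR le_normalizer_of_normal) ⟨?_, ha.2⟩) ?_
  · exact ((commutator_mono le_sup_right (commutator_mono le_sup_left le_rfl)).trans
      (commutator_le_right_of_le_normalizer (left_le_normalizer_commutator (R ⊔ V) _))) ha.1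
  · set S := R ⊓ CX x with hS
    have hn : S ≤ normalizer ((V ⊓ centralizer (R₁ : Set G) ⊓ CX x : Subgroup G) : Set G) :=
      le_normalizer_inf (le_normalizer_inf_centralizer le_normalizer_of_normal
        (inf_le_left.trans (left_le_normalizer_commutator _ _))) (inf_le_right.trans le_normalizer)
    have hle : V ⊓ centralizer (R₁ : Set G) ⊓ CX x ≤ V := inf_le_left.trans inf_le_left
    obtain ⟨b₁, hb₁, b₂, hb₂, rfl⟩ := Coprime.exists_commutator_mul_centralizer hn
      ((hcop.coprime_dvd_left (card_dvd_of_le inf_le_left)).coprime_dvd_right (card_dvd_of_le hle))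
      (Or.inr (Group.isSolvable_of_isSolvable_injective (inclusion_injective hle))) hb
    have h3 : b₂ = 1 := h0.le (mem_inf.2 ⟨hle hb₂.1, fun r hr => by
      obtain ⟨k, hk, s, hs', rfl⟩ := Coprime.exists_commutator_mul_centralizer hXR (c.cop' hRH)
        (Or.inl hs) hr
      rw [mul_assoc, hb₂.2 s hs', ← mul_assoc, hb₂.1.1.2 k hk, mul_assoc]⟩)
    rw [h3, mul_one]
    refine commutator_le.2 (fun w hw s hs' => ?_) hb₁
    obtain ⟨e, he, n, hn', rfl⟩ := c.dec V hV.normal hVH hV.ne_bot s ⟨hRH hs'.1, hs'.2⟩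
    have h4 : ⁅w, e * n⁆ = w * e * w⁻¹ * e⁻¹ := by
      calc ⁅w, e * n⁆ = w * e * (n * w⁻¹) * n⁻¹ * e⁻¹ := by
            simp only [commutatorElement_def]; group
        _ = _ := by rw [hcv n hn' _ (V.inv_mem (hle hw))]; group
    rw [h4]
    exact E.mul_mem (c.conj w hw.2 e he) (E.inv_mem he)

theorem exists_R (c : Ctx p H x E) {V : Subgroup G} (hV : IsMinNormal V) (hVH : V ≤ H) {q : ℕ}
    [Fact q.Prime] (hq : IsPGroup q V) : ∃ (r : ℕ) (R : Subgroup G), r.Prime ∧ r ≠ q ∧ R ≤ H ∧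
      IsPGroup r R ∧ zpowers x ≤ normalizer (R : Set G) ∧ V ⊓ centralizer (R : Set G) = ⊥ := by
  have := hV.normal
  have := c.normal
  have := c.solv
  let φ := QuotientGroup.mk' (centralizer (V : Set G))
  have hφ : Function.Surjective φ := QuotientGroup.mk'_surjective _
  have : (H.map φ).Normal := c.normal.map φ hφ
  have : Group.IsSolvable (H.map φ) := Group.isSolvable_of_surjective (φ.subgroupMap_surjective H)
  have h1 : H.map φ ≠ ⊥ := fun h => hV.ne_bot (by
    rw [Subgroup.map_eq_bot_iff, QuotientGroup.ker_mk', le_centralizer_iff] at h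
    rw [eq_bot_iff, ← c.center_eq_bot]
    exact le_inf hVH h)
  obtain ⟨r, M, hr, hM, hMH, -, -, hrM⟩ := exists_isMinNormal_elementary_le _ h1
  have := hM.normal
  have : Fact r.Prime := ⟨hr⟩
  set N := H ⊓ M.comap φ with hN
  obtain ⟨R, hRN, hR, hi, hXR⟩ := Coprime.exists_invariant_sylow' (A := zpowers x) (K := N)
    le_normalizer_of_normal (c.cop' inf_le_left) (Or.inl (Coprime.isSolvable_zpowers x)) r
  have hNM : N.map φ = M := by
    rw [hN, inf_comm, ← Subgroup.map_comap_eq_self (f := φ) (H := M) (by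
      rw [MonoidHom.range_eq_top.2 hφ]; exact le_top)]
    refine le_antisymm (map_mono (by rw [map_comap_eq_self_of_surjective hφ]; exact inf_le_left))
      ?_
    rw [map_comap_eq_self_of_surjective hφ]
    intro m hm
    obtain ⟨h, hh, rfl⟩ := hMH hm
    exact ⟨h, ⟨hm, hh⟩, rfl⟩
  have hRM : R.map φ = M := by
    refine (Coprime.eq_of_sylow_le (K := M) (hR.map φ) (fun h => hi ?_)
      (hNM ▸ map_mono hRN) le_rfl hrM).symm
    rw [← hNM] at h
    refine h.trans ?_
    rw [← relIndex_comap]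
    exact relIndex_dvd_of_le_left _ (le_comap_map _ _)
  have h2 : V ⊓ centralizer (R : Set G) = ⊥ := by
    have h3 : V ⊓ centralizer (R : Set G) = V ⊓ centralizer (M.comap φ : Set G) := by
      refine le_antisymm (fun v hv => ⟨hv.1, fun m hm => ?_⟩)
        (inf_le_inf_left _ (centralizer_le (hRN.trans inf_le_right)))
      obtain ⟨s, hs, h4⟩ := hRM.ge hm
      obtain ⟨z, hz, rfl⟩ := (QuotientGroup.mk'_eq_mk' _).1 h4
      rw [mul_assoc, ← hz v hv.1, ← mul_assoc, hv.2 s hs, mul_assoc]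
    rw [h3]
    refine hV.eq_bot_of_lt (lt_of_le_of_ne inf_le_left fun h => hM.ne_bot ?_)
    have h4 := le_centralizer_iff.1 (h.ge.trans inf_le_right)
    rw [← map_comap_eq_self_of_surjective hφ M, Subgroup.map_eq_bot_iff, QuotientGroup.ker_mk']
    exact h4
  refine ⟨r, R, hr, ?_, hRN.trans inf_le_left, hR, hXR, h2⟩
  rintro rfl
  exact PG.inf_centralizer_ne_bot hR hq le_normalizer_of_normal hV.ne_bot h2

theorem false (c : Ctx p H x E) : False := by
  have := c.normal
  have := c.solv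
  have h0 : H ≠ ⊥ := fun h => c.ne (by rw [h, bot_inf_eq]; exact bot_le)
  obtain ⟨q, V, hq, hV, hVH, hVc, -, hqV⟩ := exists_isMinNormal_elementary_le H h0
  have := hV.normal
  have : Fact q.Prime := ⟨hq⟩
  have hcv : V ≤ centralizer (V : Set G) := fun a ha b hb =>
    congrArg Subtype.val (mul_comm' (⟨b, hb⟩ : V) ⟨a, ha⟩)
  obtain ⟨r, R₀, hr, hrq, hR₀H, hR₀, hXR₀, h1⟩ := c.exists_R hV hVH hqV
  have : Fact r.Prime := ⟨hr⟩
  have hcop₀ : (Nat.card R₀).Coprime (Nat.card V) :=
    IsPGroup.coprime_card_of_ne r q hrq R₀ V hR₀ hqV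
  have h2 := c.sup_eq hV hVH hR₀H hXR₀ hcop₀ h1
  have hHV : ¬ H ≤ V := fun h => hV.ne_bot (by
    rw [eq_bot_iff, ← c.center_eq_bot]
    exact le_inf hVH (hcv.trans (centralizer_le h)))
  have h3 : R₀ ⊓ centralizer (V : Set G) = ⊥ := by
    by_contra h
    refine PG.inf_centralizer_ne_bot hR₀ (hR₀.to_le inf_le_left)
      (le_normalizer_inf_centralizer le_normalizer le_normalizer_of_normal) h ?_
    rw [eq_bot_iff, ← c.center_eq_bot]
    refine le_inf (inf_le_left.trans (inf_le_left.trans hR₀H)) ?_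
    rw [le_centralizer_iff, ← h2]
    exact sup_le (le_centralizer_iff.1 inf_le_right)
      (le_centralizer_iff.1 (inf_le_left.trans inf_le_right))
  set R := R₀ ⊓ centralizer (R₀ : Set G) with hR
  have hXR : zpowers x ≤ normalizer (R : Set G) := le_normalizer_inf_centralizer hXR₀ hXR₀
  have hRH : R ≤ H := inf_le_left.trans hR₀H
  have hcop : ∀ T ≤ R, (Nat.card T).Coprime (Nat.card V) := fun T hT =>
    hcop₀.coprime_dvd_left (card_dvd_of_le (hT.trans inf_le_left))
  have hC : ∀ T ≤ R, T ≠ ⊥ → zpowers x ≤ normalizer (T : Set G) →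
      V ⊓ centralizer (T : Set G) = ⊥ := fun T hT hT0 hXT => by
    have : (V ⊓ centralizer (T : Set G)).Normal := c.normal_of (by
      rw [← h2]
      refine sup_le (le_normalizer_inf_centralizer le_normalizer_of_normal
        ((le_centralizer_iff.1 (hT.trans inf_le_right)).trans (centralizer_le_normalizer _)))
        ((hcv.trans (centralizer_le inf_le_left)).trans (centralizer_le_normalizer _)))
      (le_normalizer_inf_centralizer le_normalizer_of_normal hXT)
    refine hV.eq_bot_of_lt (lt_of_le_of_ne inf_le_left fun h => hT0 ?_)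
    rw [eq_bot_iff, ← h3]
    exact le_inf (hT.trans inf_le_left) (le_centralizer_iff.1 (h.ge.trans inf_le_right))
  have h4 : ∀ T ≤ R, T ≠ ⊥ → zpowers x ≤ normalizer (T : Set G) → T ⊔ V = H :=
    fun T hT hT0 hXT => c.sup_eq hV hVH (hT.trans hRH) hXT (hcop T hT) (hC T hT hT0 hXT)
  have hR0 : R ≠ ⊥ := PG.inf_centralizer_ne_bot hR₀ hR₀ le_normalizer fun h => hHV (by
    rw [← h2, h, bot_sup_eq])
  have h5 : R ⊓ CX x = ⊥ := by
    by_contra h
    have h6 := h4 _ inf_le_left h (le_normalizer_inf_centralizer hXR le_normalizer)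
    refine hHV ?_
    rw [← c.comm, ← h6]
    exact commutator_sup_left_le ((commutator_eq_bot_iff_le_centralizer.2 inf_le_right).le.trans
      bot_le) (commutator_le_left _ _)
  obtain ⟨h, hh, hh1⟩ := (Subgroup.bot_or_exists_ne_one R).resolve_left hR0
  have hhx : ⁅h, x⁆ ≠ 1 := fun h6 => hh1 (h5.le (mem_inf.2
    ⟨hh, mem_CX.2 (commutatorElement_eq_one_iff_mul_comm.1 h6).symm⟩))
  have hx1 : x ≠ 1 := fun h6 => hhx (by rw [h6]; simp)
  have : Fact p.Prime := ⟨c.prime⟩
  have hox : Nat.card (zpowers x) = p := by rw [Nat.card_zpowers, orderOf_eq_prime c.pow hx1]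
  set y := h * x * h⁻¹ with hy
  have hxy : ⁅h, x⁆ = y * x⁻¹ := rfl
  have hhR : ⁅h, x⁆ ∈ R :=
    commutator_le_left_of_le_normalizer hXR (commutator_mem_commutator hh (mem_zpowers x))
  have h6 : R ⊓ BX x h ⊔ V = H := h4 _ inf_le_left (fun h7 => hhx (h7.le (mem_inf.2 ⟨hhR, by
      rw [hxy]
      exact mul_mem (mem_sup_right (mem_zpowers _)) (mem_sup_left (inv_mem (mem_zpowers _)))⟩)))
    (le_normalizer_inf hXR (le_sup_left.trans le_normalizer))
  have hcA : (Nat.card (R ⊔ zpowers x : Subgroup G)).Coprime (Nat.card V) :=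
    ((hcop R le_rfl).mul_left (c.cop' hVH)).coprime_dvd_left (card_sup_dvd_of_le_normalizer hXR)
  have hxA : x ∈ R ⊔ zpowers x := mem_sup_right (mem_zpowers x)
  have hyA : y ∈ R ⊔ zpowers x :=
    mul_mem (mul_mem (mem_sup_left hh) hxA) (mem_sup_left (inv_mem hh))
  have key : ∀ w ∈ V, ∃ n ∈ V ⊓ CX x, ∃ m ∈ V ⊓ CX x, w = n * (h * m * h⁻¹) := by
    intro w hw
    set B := BX x (w * h) with hB
    have hxB : x ∈ B := mem_sup_left (mem_zpowers x)
    have hyB : w * y * w⁻¹ ∈ B := by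
      rw [show w * y * w⁻¹ = w * h * x * (w * h)⁻¹ by rw [hy]; group]
      exact mem_sup_right (mem_zpowers _)
    have hBV : B ⊔ V = ⊤ := by
      rw [eq_top_iff, ← c.sup, ← h6]
      refine sup_le (sup_le (inf_le_right.trans (sup_le (le_sup_left.trans le_sup_left) ?_))
        le_sup_right) (le_sup_left.trans le_sup_left)
      rw [zpowers_le, ← hy, show y = w⁻¹ * (w * y * w⁻¹) * w by group]
      exact mul_mem (mul_mem (mem_sup_right (V.inv_mem hw)) (mem_sup_left hyB)) (mem_sup_right hw)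
    have hVB : V ⊓ B = ⊥ :=
      hV.eq_bot_of_lt (hM := inf_normal_of_sup_eq_top_of_isMulCommutative hBV)
        (lt_of_le_of_ne inf_le_left fun h7 => hV.ne_bot (c.quo hV.normal hVH
          ((inf_le_inf_right _ (h7.ge.trans inf_le_right)).trans (c.two _))))
    obtain ⟨n, hn, h7⟩ := Coprime.exists_conj_le (A := R ⊔ zpowers x) (K := V)
      le_normalizer_of_normal hcA (Or.inr (Coprime.isSolvable_of_isMulCommutative V)) (L := B)
      (fun a _ => by
        have h8 : a ∈ V ⊔ B := by rw [sup_comm, hBV]; exact mem_top a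
        obtain ⟨k, hk, b, hb, rfl⟩ := (mem_sup_of_le_normalizer le_normalizer_of_normal).1 h8
        exact ⟨k⁻¹, V.inv_mem hk, by simpa using hb⟩)
    have h8 : ∀ a ∈ R ⊔ zpowers x, ∀ u ∈ V, u * a * u⁻¹ ∈ B → a * (n⁻¹ * u) = n⁻¹ * u * a := by
      intro a ha u hu h9
      have h10 : n * a * n⁻¹ * (u * a * u⁻¹)⁻¹ = 1 := hVB.le (mem_inf.2 ⟨by
        rw [show n * a * n⁻¹ * (u * a * u⁻¹)⁻¹ = n * (a * (n⁻¹ * u) * a⁻¹) * u⁻¹ by group]
        exact V.mul_mem (V.mul_mem hn (hV.normal.conj_mem _ (V.mul_mem (V.inv_mem hn) hu) a))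
          (V.inv_mem hu), B.mul_mem (h7 (conj_mem_conj_smul n ha)) (B.inv_mem h9)⟩)
      calc a * (n⁻¹ * u) = n⁻¹ * (n * a * n⁻¹ * (u * a * u⁻¹)⁻¹) * u * a := by group
        _ = _ := by rw [h10, mul_one]
    refine ⟨n, ⟨hn, ?_⟩, h⁻¹ * (n⁻¹ * w) * h, ⟨?_, ?_⟩, by group⟩
    · have h9 := h8 x hxA 1 V.one_mem (by simpa using hxB)
      rw [mul_one] at h9
      simpa using (CX x).inv_mem (mem_CX.2 h9)
    · simpa using hV.normal.conj_mem _ (V.mul_mem (V.inv_mem hn) hw) h⁻¹
    · have h9 := h8 y hyA w hw hyB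
      refine mem_CX.2 ?_
      calc x * (h⁻¹ * (n⁻¹ * w) * h) = h⁻¹ * (y * (n⁻¹ * w)) * h := by rw [hy]; group
        _ = _ := by rw [h9, hy]; group
  have h7 := FT.Frobenius_Wielandt_card (K := R) (R := zpowers x) (M := V) hXR (fun z hz hz1 => by
      rw [eq_bot_iff, ← h5]
      refine inf_le_inf_left _ fun a ha => mem_CX.2 ?_
      obtain ⟨k, hk⟩ := mem_zpowers_of_prime_card hox (g := ⟨z, hz⟩) (g' := ⟨x, mem_zpowers x⟩)
        fun h8 => hz1 (congrArg Subtype.val h8)
      have h9 : z ^ k = x := congrArg Subtype.val hk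
      rw [← h9]
      exact (Commute.zpow_left (ha z (Set.mem_singleton z)) k).eq)
    (Coprime.isSolvable_of_isMulCommutative V) le_normalizer_of_normal le_normalizer_of_normal
    (hcop R le_rfl).symm (c.cop' hVH).symm (hC R le_rfl hR0 hXR)
  have h8 : Nat.card V ≤ Nat.card (↥(V ⊓ CX x) × ↥(V ⊓ CX x)) :=
    Nat.card_le_card_of_surjective
      (fun a => (⟨a.1 * (h * a.2 * h⁻¹), V.mul_mem a.1.2.1 (hV.normal.conj_mem _ a.2.2.1 h)⟩ : V))
      fun w => by
        obtain ⟨n, hn, m, hm, h9⟩ := key w w.2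
        exact ⟨(⟨n, hn⟩, ⟨m, hm⟩), Subtype.ext h9.symm⟩
  have h9 : 1 < Nat.card V := (one_lt_card_iff_ne_bot V).2 hV.ne_bot
  rw [Nat.card_prod, h7, hox] at h8
  rw [h7, hox] at h9
  have h10 := (Nat.one_lt_pow_iff c.prime.ne_zero).1 h9
  rw [← pow_two, Nat.pow_le_pow_iff_right h10] at h8
  exact c.odd (le_antisymm h8 c.prime.two_le)

end Ctx

/-- The subgroup generated by the fixed points of `x` in the subgroups `⟨x, g x g⁻¹⟩`. -/
def EX (x : G) : Subgroup G := ⨆ g : G, BX x g ⊓ CX x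

theorem map_BX {G' : Type*} [Group G'] (f : G →* G') (x g : G) :
    (BX x g).map f = BX (f x) (f g) := by
  rw [Subgroup.map_sup, MonoidHom.map_zpowers, MonoidHom.map_zpowers, map_mul, map_mul, map_inv]

theorem map_EX_le {G' : Type u} [Group G'] (f : G →* G') (x : G) : (EX x).map f ≤ EX (f x) := by
  rw [EX, Subgroup.map_iSup]
  refine iSup_le fun g => le_trans ?_ (le_iSup _ (f g))
  rintro _ ⟨a, ha, rfl⟩
  exact ⟨map_BX f x g ▸ mem_map_of_mem f ha.1,
    mem_CX.2 (by rw [← map_mul, ← map_mul, mem_CX.1 ha.2])⟩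

theorem main {p : ℕ} (hp : p.Prime) (hp2 : p ≠ 2) (G : Type u) [Group G] [Finite G] :
    ∀ (H : Subgroup G) (x : G), x ^ p = 1 → zpowers x ≤ normalizer (H : Set G) →
      Group.IsSolvable H → (Nat.card H).Coprime p → ⁅H, zpowers x⁆ ⊓ CX x ≤ EX x := by
  refine card_induction (P := fun G _ _ => ∀ (H : Subgroup G) (x : G), x ^ p = 1 →
    zpowers x ≤ normalizer (H : Set G) → Group.IsSolvable H → (Nat.card H).Coprime p →
    ⁅H, zpowers x⁆ ⊓ CX x ≤ EX x) ?_ G
  intro G _ _ ih H₀ x hx hn₀ hs₀ hc₀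
  have hcop : ∀ K : Subgroup G, (Nat.card K).Coprime p →
      (Nat.card (zpowers x)).Coprime (Nat.card K) := fun K hK => by
    rw [Nat.card_zpowers]
    exact hK.symm.coprime_dvd_left (orderOf_dvd_of_pow_eq_one hx)
  have hsub : ∀ M ≤ H₀, zpowers x ≤ normalizer (M : Set G) → M ⊔ zpowers x ≠ ⊤ →
      ⁅M, zpowers x⁆ ⊓ CX x ≤ EX x := by
    intro M hM hXM hne
    set L := M ⊔ zpowers x with hL
    have hML : M ≤ L := le_sup_left
    have hxL : x ∈ L := mem_sup_right (mem_zpowers x)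
    have h1 := ih L (card_lt_of_ne_top hne) (M.subgroupOf L) ⟨x, hxL⟩ (Subtype.ext hx)
      (zpowers_le.2 (mem_normalizer_of_conj_mem fun m hm =>
        conj_mem_of_mem_normalizer (g := x) (H := M) (hXM (mem_zpowers x)) hm))
      (Group.isSolvable_of_isSolvable_injective (f := (inclusion hM).comp
        (subgroupOfEquivOfLe hML).toMonoidHom)
        ((inclusion_injective hM).comp (subgroupOfEquivOfLe hML).injective))
      (by rw [card_subgroupOf_of_le hML]; exact hc₀.coprime_dvd_left (card_dvd_of_le hM))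
    intro a ha
    have h2 : a ∈ (⁅M.subgroupOf L, zpowers (⟨x, hxL⟩ : L)⁆).map L.subtype := by
      rw [map_commutator, map_subgroupOf_eq_of_le hML, MonoidHom.map_zpowers]
      exact ha.1
    obtain ⟨a, h3, rfl⟩ := h2
    have h4 : x * (a : G) = a * x := mem_CX.1 ha.2
    exact map_EX_le L.subtype ⟨x, hxL⟩ (mem_map_of_mem _
      (h1 (mem_inf.2 ⟨h3, mem_CX.2 (Subtype.ext h4)⟩)))
  set H := ⁅H₀, zpowers x⁆ with hH
  have hle : H ≤ H₀ := commutator_le_left_of_le_normalizer hn₀
  have hn : zpowers x ≤ normalizer (H : Set G) := right_le_normalizer_commutator _ _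
  have hcm : ⁅H, zpowers x⁆ = H := Coprime.commutator_commutator hn₀ (hcop _ hc₀)
  by_cases htop : H ⊔ zpowers x = ⊤
  swap
  · exact hcm ▸ hsub H hle hn htop
  have hc : (Nat.card H).Coprime p := hc₀.coprime_dvd_left (card_dvd_of_le hle)
  have hs : Group.IsSolvable H := Group.isSolvable_of_isSolvable_injective (inclusion_injective hle)
  have hEC : EX x ≤ CX x := iSup_le fun _ => inf_le_right
  by_contra hne
  refine Ctx.false (p := p) (H := H) (x := x) (E := EX x)
    { prime := hp, odd := hp2, pow := hx, solv := hs, cop := hc, sup := htop, comm := hcm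
      le := hEC, ne := hne
      normal := by
        rw [← normalizer_eq_top_iff, eq_top_iff, ← htop]
        exact sup_le le_normalizer hn
      conj := fun a ha e he => by
        have h1 := map_EX_le (MulAut.conj a).toMonoidHom x (mem_map_of_mem _ he)
        have h2 : (MulAut.conj a).toMonoidHom x = x := by
          change a * x * a⁻¹ = x
          rw [← mem_CX.1 ha, mul_inv_cancel_right]
        rwa [h2] at h1
      two := fun g => le_iSup (fun g => BX x g ⊓ CX x) g
      sub := fun M hM hXM => hsub M (hM.le.trans hle) hXM fun h => hM.ne (by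
        have h1 := sup_inf_assoc_of_le_normalizer hXM hM.le
        rw [h, top_inf_eq, inf_eq_bot_of_coprime_card (hcop H hc), sup_bot_eq] at h1
        exact h1.symm)
      dec := fun N hN hNH hN0 a ha => ?_ }
  let φ := QuotientGroup.mk' N
  have hφ : Function.Surjective φ := QuotientGroup.mk'_surjective N
  have h1 := ih (G ⧸ N) (card_quotient_lt hN0) (H.map φ) (φ x) (by rw [← map_pow, hx, map_one])
    (by rw [← MonoidHom.map_zpowers]; exact (map_mono hn).trans (le_normalizer_map φ))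
    (Group.isSolvable_of_surjective (φ.subgroupMap_surjective H))
    (hc.coprime_dvd_left (card_map_dvd H φ))
  have h2 : EX (φ x) ≤ (EX x).map φ := iSup_le fun g => by
    obtain ⟨g, rfl⟩ := hφ g
    rw [← map_BX, CX, ← MonoidHom.map_zpowers, ← Coprime.map_inf_centralizer' φ
      (le_sup_left.trans le_normalizer) (hcop _ (hc.coprime_dvd_left (card_dvd_of_le
        (inf_le_right.trans ((QuotientGroup.ker_mk' N).le.trans hNH)))))
      (Or.inl (Coprime.isSolvable_zpowers x))]
    exact map_mono (le_iSup (fun g => BX x g ⊓ CX x) g)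
  obtain ⟨e, he, h3⟩ := h2 (h1 (mem_inf.2 ⟨by
    rw [← MonoidHom.map_zpowers, ← map_commutator, hcm]
    exact mem_map_of_mem φ ha.1, mem_CX.2 (by rw [← map_mul, ← map_mul, mem_CX.1 ha.2])⟩))
  obtain ⟨n, hn', h4⟩ := (QuotientGroup.mk'_eq_mk' _).1 h3
  exact ⟨e, he, n, hn', h4.symm⟩

end Cfsg.Lib.Solv.FlavFix
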