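/-
Criteria for supersolvability of finite groups: Zappa (hereditary converse of Lagrange),
Huppert (maximal subgroups of prime index), saturation.
-/
import Mathlib.FieldTheory.Finite.Basic
import Cfsg.Agent.Solv.SupersolvableFinite
import Cfsg.Agent.Solv.MinNormal
import Cfsg.Agent.Solv.ElemAb
import Cfsg.Agent.Solv.Fitting
import Cfsg.Agent.Solv.FrattiniNilpotent

set_option autoImplicit false

namespace Cfsg.Lib.Solv

open Subgroup
open scoped commutatorElement

universe u

variable {G : Type u} [Group G]

/-! ### The centre of a normal subgroup -/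

theorem inf_centralizer_ne_bot_of_isNilpotent {P : Subgroup G} (hP : Group.IsNilpotent P)
    (hne : P ≠ ⊥) : P ⊓ centralizer (P : Set G) ≠ ⊥ := by
  have := (nontrivial_iff_ne_bot P).mpr hne
  rw [← map_subtype_center, Ne, map_eq_bot_iff_of_injective _ P.subtype_injective]
  exact Group.IsNilpotent.center_ne_bot P

/-- A subgroup of the centre of `P` normalised by a supplement `M` of `P` is normal. -/
theorem normal_of_le_centralizer_of_sup_eq_top {P M N : Subgroup G} (h : P ⊔ M = ⊤)
    (hP : N ≤ centralizer (P : Set G)) (hM : M ≤ normalizer (N : Set G)) : N.Normal := by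
  rw [← normalizer_eq_top_iff, eq_top_iff, ← h]
  exact sup_le ((le_centralizer_iff.mp hP).trans (centralizer_le_normalizer _)) hM

/-- If a finite group is the product of a nilpotent normal subgroup and a supersolvable subgroup
of prime index (or index one), then it is supersolvable. -/
theorem isSupersolvable_of_nilpotent_sup_index_prime [Finite G] {p : ℕ} (hp : p.Prime)
    (P M : Subgroup G) [hPn : P.Normal] (hP : Group.IsNilpotent P) (hM : IsSupersolvable M)
    (hsup : P ⊔ M = ⊤) (hidx : M.index ∣ p) : IsSupersolvable G := by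
  refine isSupersolvable_of_quotient_closed (C := fun G _ => ∃ P M : Subgroup G, P.Normal ∧
    Group.IsNilpotent P ∧ IsSupersolvable M ∧ P ⊔ M = ⊤ ∧ M.index ∣ p) ?_ ?_ G
    ⟨P, M, hPn, hP, hM, hsup, hidx⟩
  · rintro G _ _ N _ ⟨P, M, h1, h2, h3, h4, h5⟩
    have hs := QuotientGroup.mk'_surjective N
    refine ⟨P.map (QuotientGroup.mk' N), M.map (QuotientGroup.mk' N), h1.map _ hs,
      isNilpotent_map _ _ h2, isSupersolvable_map _ h3, ?_, (index_map_dvd _ hs).trans h5⟩
    rw [← Subgroup.map_sup, h4, map_top_of_surjective _ hs]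
  · rintro G _ _ _ ⟨P, M, h1, h2, h3, h4, h5⟩ _
    by_cases hP : P = ⊥
    · rw [hP, bot_sup_eq] at h4
      rw [h4, isSupersolvable_top_iff] at h3
      obtain ⟨N, hN, hq⟩ := exists_normal_card_prime_of_isSupersolvable h3
      have := Fact.mk hq
      exact ⟨N, hN, fun h => hq.ne_one (card_eq_one.mpr h), isCyclic_of_prime_card rfl⟩
    set Z := P ⊓ centralizer (P : Set G) with hZ
    have hZne : Z ≠ ⊥ := inf_centralizer_ne_bot_of_isNilpotent h2 hP
    have hZn : Z.Normal := inferInstance
    by_cases hZM : Z.subgroupOf M = ⊥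
    · refine ⟨Z, hZn, hZne, ?_⟩
      have h6 : Nat.card Z ∣ p := by
        have h7 := card_sup_mul_card_inf_of_normal M Z
        rw [subgroupOf_eq_bot, disjoint_iff, inf_comm] at hZM
        rw [hZM, card_bot, mul_one] at h7
        have h8 := card_mul_relIndex_of_le (le_sup_left : M ≤ M ⊔ Z)
        rw [h7] at h8
        rw [← Nat.eq_of_mul_eq_mul_left Nat.card_pos h8]
        exact (relIndex_dvd_index_of_le le_sup_left).trans h5
      rcases (Nat.dvd_prime hp).mp h6 with h | h
      · exact absurd (card_eq_one.mp h) hZne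
      · have := Fact.mk hp
        exact isCyclic_of_prime_card h
    · obtain ⟨N, hN, hNn, hq⟩ := exists_normal_card_prime_le_of_isSupersolvable h3 _ hZM
      have := Fact.mk hq
      have hc : Nat.card (N.map M.subtype) = Nat.card N := card_map_subtype N
      refine ⟨N.map M.subtype, normal_of_le_centralizer_of_sup_eq_top h4 ?_
        (le_normalizer_map_subtype N), fun h => hq.ne_one (hc ▸ card_eq_one.mpr h),
        isCyclic_of_prime_card hc⟩
      exact (map_le_iff_le_comap.mpr hN).trans inf_le_right

/-! ### Eigenvectors over the prime field -/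

theorem exists_eigenvector_of_pow_eq_self {p : ℕ} [Fact p.Prime] {V : Type*} [AddCommGroup V]
    [Module (ZMod p) V] [Nontrivial V] (T : Module.End (ZMod p) V) (hT : T ^ p = T) :
    ∃ (c : ZMod p) (v : V), v ≠ 0 ∧ T v = c • v := by
  classical
  by_contra hcon
  push Not at hcon
  have h1 : ∀ s : Finset (ZMod p), Function.Injective
      (Polynomial.aeval T (∏ c ∈ s, (Polynomial.X - Polynomial.C c))) := by
    intro s
    induction s using Finset.induction_on with
    | empty => rw [Finset.prod_empty, map_one]; exact Function.injective_id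
    | insert c s hc ih =>
      rw [Finset.prod_insert hc, map_mul, Module.End.mul_eq_comp, LinearMap.coe_comp]
      refine Function.Injective.comp ?_ ih
      rw [injective_iff_map_eq_zero]
      intro v hv
      by_contra hv0
      apply hcon c v hv0
      simpa [sub_eq_zero] using hv
  have hp : p.Prime := Fact.out
  have h2 : (∏ c : ZMod p, (Polynomial.X - Polynomial.C c)) =
      (Polynomial.X ^ p - Polynomial.X : Polynomial (ZMod p)) := by
    have hm : (Polynomial.X ^ p - Polynomial.X : Polynomial (ZMod p)).Monic := by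
      apply Polynomial.Monic.sub_of_left (Polynomial.monic_X_pow p)
      rw [Polynomial.degree_X_pow, Polynomial.degree_X]
      exact_mod_cast hp.one_lt
    have hr := FiniteField.roots_X_pow_card_sub_X (ZMod p)
    rw [ZMod.card] at hr
    have := Polynomial.prod_multiset_X_sub_C_of_monic_of_roots_card_eq hm (by
      rw [hr, FiniteField.X_pow_card_sub_X_natDegree_eq _ hp.one_lt]
      simp)
    rw [hr] at this
    exact this
  have h3 := h1 Finset.univ
  rw [h2] at h3
  obtain ⟨v, hv⟩ := exists_ne (0 : V)
  apply hv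
  apply h3
  simp [hT]

/-- If `G` induces on the elementary abelian minimal normal `p`-subgroup `N` an abelian group of
exponent dividing `p - 1`, then `N` is cyclic. -/
theorem IsMinNormal.isCyclic_of_comm_of_pow [Finite G] {N : Subgroup G} (hN : IsMinNormal N)
    {p : ℕ} [hp : Fact p.Prime] (hNp : IsPGroup p N)
    (hcomm : _root_.commutator G ≤ centralizer (N : Set G))
    (hpow : ∀ g : G, g ^ (p - 1) ∈ centralizer (N : Set G)) : IsCyclic N := by
  have := hN.normal
  obtain ⟨h1, h2⟩ := hN.elementary_of_isPGroup hNp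
  have : ElemAb p N := ElemAb.of_subgroup h2
  have := (nontrivial_iff_ne_bot N).mpr hN.ne_bot
  have key : ∀ g : G, ∃ k : ℕ, ∀ n ∈ N, g * n * g⁻¹ = n ^ k := by
    intro g
    let ρ : G →* Module.End (ZMod p) (Vec p N) :=
      { toFun := fun g => Vec.linMap p (MulAut.conjNormal g : MulAut N)
        map_one' := by ext; simp
        map_mul' := fun a b => by ext; simp }
    have hρ : ρ g ^ p = ρ g := by
      have hgp : g ^ p = g * g ^ (p - 1) := by
        rw [← pow_succ', Nat.sub_add_cancel hp.out.one_le]
      rw [← map_pow, hgp, map_mul]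
      have : ρ (g ^ (p - 1)) = 1 := by
        ext v
        apply Vec.toMul.injective
        apply Subtype.ext
        change g ^ (p - 1) * (Vec.toMul v : N) * (g ^ (p - 1))⁻¹ = (Vec.toMul v : N)
        rw [← hpow g _ (Vec.toMul v).2, mul_inv_cancel_right]
      rw [this, mul_one]
    obtain ⟨c, v, hv0, hv⟩ := exists_eigenvector_of_pow_eq_self (ρ g) hρ
    have hv' : g * (Vec.toMul v : N) * g⁻¹ = ((Vec.toMul v : N) : G) ^ c.val := by
      have := congrArg (fun w => ((Vec.toMul w : N) : G)) hv
      simp only [Vec.toMul_smul] at this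
      exact this
    let E : Subgroup G :=
      { carrier := {n | n ∈ N ∧ g * n * g⁻¹ = n ^ c.val}
        one_mem' := ⟨N.one_mem, by simp⟩
        mul_mem' := by
          rintro a b ⟨ha, ha'⟩ ⟨hb, hb'⟩
          refine ⟨N.mul_mem ha hb, ?_⟩
          have hab : Commute a b := congrArg Subtype.val (h1.is_comm.comm ⟨a, ha⟩ ⟨b, hb⟩)
          rw [hab.mul_pow, ← ha', ← hb']
          group
        inv_mem' := by
          rintro a ⟨ha, ha'⟩
          refine ⟨N.inv_mem ha, ?_⟩
          rw [inv_pow, ← ha']
          group }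
    have hEn : E.Normal := by
      refine ⟨fun n hn x => ⟨Normal.conj_mem inferInstance n hn.1 x, ?_⟩⟩
      have h3 : ⁅x⁻¹, g⁻¹⁆⁻¹ ∈ centralizer (N : Set G) :=
        inv_mem (hcomm (commutator_mem_commutator (mem_top _) (mem_top _)))
      have h4 := h3 n hn.1
      rw [conj_pow, ← hn.2]
      calc g * (x * n * x⁻¹) * g⁻¹ = x * g * (⁅x⁻¹, g⁻¹⁆⁻¹ * n) * x⁻¹ * g⁻¹ := by
            rw [commutatorElement_def]; group
        _ = x * (g * n * g⁻¹) * x⁻¹ := by
            rw [← h4, commutatorElement_def]; group
    have hE : E = N := by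
      refine hN.eq_of_le (fun h => hv0 ?_) (fun n hn => hn.1)
      have : ((Vec.toMul v : N) : G) ∈ E := ⟨(Vec.toMul v).2, hv'⟩
      rw [h, mem_bot] at this
      exact Vec.toMul.injective (Subtype.ext this)
    exact ⟨c.val, fun n hn => (hE ▸ hn : n ∈ E).2⟩
  obtain ⟨⟨x, hx⟩, hx1⟩ := ne_bot_iff_exists_ne_one.mp hN.ne_bot
  have hxn : (zpowers x).Normal := by
    refine ⟨fun n hn g => ?_⟩
    obtain ⟨k, hk⟩ := key g
    rw [hk n (zpowers_le.mpr hx hn)]
    exact pow_mem hn k
  have : zpowers x = N :=
    hN.eq_of_le (fun h => hx1 (Subtype.ext (zpowers_eq_bot.mp h))) (zpowers_le.mpr hx)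
  rw [← this]
  infer_instance

/-! ### The residual for abelian groups of exponent dividing `p - 1` -/

/-- The intersection of the kernels of all homomorphisms to the units of `ZMod p`. -/
def unitsResidual (p : ℕ) (G : Type u) [Group G] : Subgroup G :=
  ⨅ φ : G →* (ZMod p)ˣ, φ.ker

instance unitsResidual_normal (p : ℕ) : (unitsResidual p G).Normal :=
  normal_iInf_normal (fun _ => inferInstance)

theorem commutator_le_unitsResidual (p : ℕ) : _root_.commutator G ≤ unitsResidual p G :=
  le_iInf fun φ => Abelianization.commutator_subset_ker φ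

theorem pow_mem_unitsResidual (p : ℕ) [Fact p.Prime] (g : G) : g ^ (p - 1) ∈ unitsResidual p G := by
  rw [unitsResidual, mem_iInf]
  intro φ
  rw [MonoidHom.mem_ker, map_pow, ZMod.units_pow_card_sub_one_eq_one]

theorem map_mem_unitsResidual {p : ℕ} {G' : Type*} [Group G'] (f : G →* G') {x : G}
    (hx : x ∈ unitsResidual p G) : f x ∈ unitsResidual p G' := by
  rw [unitsResidual, mem_iInf] at hx ⊢
  intro φ
  exact hx (φ.comp f)

theorem unitsResidual_le_centralizer {p : ℕ} (N : Subgroup G) [N.Normal] [IsCyclic N]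
    (h : Nat.card N = p) : unitsResidual p G ≤ centralizer (N : Set G) := by
  subst h
  rw [← ker_conjUnits]
  exact iInf_le _ _

/-- In a finite group, a `p'`-element of the residual centralizes every hypercyclically embedded
`p`-subgroup. -/
theorem CycChain.mem_centralizer_of_mem_unitsResidual [Finite G] {p : ℕ} [hp : Fact p.Prime]
    {P : Subgroup G} (hc : CycChain P) (hP : IsPGroup p P) {x : G} (hx : x ∈ unitsResidual p G)
    (hcop : (orderOf x).Coprime p) : x ∈ centralizer (P : Set G) := by
  induction hn : Nat.card G using Nat.strong_induction_on generalizing G with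
  | _ n ih =>
  by_cases hPb : P = ⊥
  · subst hPb
    intro y hy
    rw [SetLike.mem_coe, mem_bot] at hy
    simp [hy]
  obtain ⟨Z, hZP, hZn, hq⟩ := hc.exists_normal_card_prime hPb
  have hZp : Nat.card Z = p := by
    obtain ⟨k, hk⟩ := IsPGroup.iff_card.mp (hP.to_le hZP)
    rw [hk] at hq ⊢
    rw [(Nat.Prime.pow_eq_iff hp.out).mpr ⟨rfl, ?_⟩]
    exact (Nat.Prime.eq_one_of_pow hq)
  have : IsCyclic Z := isCyclic_of_prime_card hZp
  have hxZ := unitsResidual_le_centralizer Z hZp hx
  have h1 := ih _ (hn ▸ card_quotient_lt_of_card_prime hq)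
    (hc.map (QuotientGroup.mk'_surjective Z)) (hP.map _) (map_mem_unitsResidual (QuotientGroup.mk' Z) hx)
    (hcop.coprime_dvd_left (orderOf_map_dvd _ x)) rfl
  intro u hu
  have h2 : QuotientGroup.mk' Z u * QuotientGroup.mk' Z x =
      QuotientGroup.mk' Z x * QuotientGroup.mk' Z u := h1 _ (mem_map_of_mem _ hu)
  have h3 : u⁻¹ * x * u * x⁻¹ ∈ Z := by
    rw [← QuotientGroup.eq_one_iff]
    change QuotientGroup.mk' Z _ = 1
    simp only [map_mul, map_inv]
    rw [mul_assoc (QuotientGroup.mk' Z u)⁻¹, ← h2]
    group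
  set z := u⁻¹ * x * u * x⁻¹ with hz
  have hzx : Commute z x := hxZ z h3
  have h4 : u⁻¹ * x * u = z * x := by rw [hz]; group
  have h5 : u⁻¹ * x ^ p * u = x ^ p := by
    have h6 : z ^ p = 1 := by
      have := pow_card_eq_one' (G := Z) (x := ⟨z, h3⟩)
      rw [hZp] at this
      exact congrArg Subtype.val this
    calc u⁻¹ * x ^ p * u = (u⁻¹ * x * u⁻¹⁻¹) ^ p := by rw [conj_pow, inv_inv]
      _ = x ^ p := by rw [inv_inv, h4, hzx.mul_pow, h6, one_mul]
  have h7 : Commute u (x ^ p) := by
    rw [Commute, SemiconjBy]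
    conv_lhs => rw [← h5]
    group
  obtain ⟨m, hm⟩ := exists_pow_eq_self_of_coprime hcop.symm
  rw [← hm]
  exact h7.pow_right m

/-! ### Groups all of whose maximal subgroups have prime index -/

theorem sylow_normal_of_forall_isCoatom_index_prime [Finite G]
    (h : ∀ M : Subgroup G, IsCoatom M → M.index.Prime) {p : ℕ} [hp : Fact p.Prime]
    (hmax : ∀ q : ℕ, q.Prime → q ∣ Nat.card G → q ≤ p) (P : Sylow p G) :
    (P : Subgroup G).Normal := by
  by_contra hn
  obtain ⟨M, hM, hle⟩ := (eq_top_or_exists_le_coatom (normalizer ((P : Subgroup G) : Set G))).resolve_left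
    (fun h => hn (normalizer_eq_top_iff.mp h))
  have hPM : (P : Subgroup G) ≤ M := le_normalizer.trans hle
  have h1 := card_sylow_modEq_one p G
  have h2 := card_sylow_modEq_one p M
  rw [P.card_eq_index_normalizer, ← P.coe_coe] at h1
  rw [(P.subtype hPM).card_eq_index_normalizer, ← Sylow.coe_coe, Sylow.coe_subtype,
    ← subgroupOf_normalizer_eq hPM] at h2
  rw [← relIndex_mul_index hle] at h1
  have h3 : M.index ≡ 1 [MOD p] := by
    have := (h2.mul_right M.index).symm.trans h1
    rwa [one_mul] at this
  have hq := h M hM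
  have h4 := hmax _ hq M.index_dvd_card
  rcases h4.lt_or_eq with h4 | h4
  · exact hq.ne_one (Nat.ModEq.eq_of_lt_of_lt h3 h4 hp.out.one_lt)
  · exact P.not_dvd_index ((dvd_of_eq h4.symm).trans (index_dvd_of_le hPM))

theorem exists_max_prime_dvd {n : ℕ} (hn : 1 < n) :
    ∃ p : ℕ, p.Prime ∧ p ∣ n ∧ ∀ q : ℕ, q.Prime → q ∣ n → q ≤ p := by
  have hne : n.primeFactors.Nonempty := Nat.nonempty_primeFactors.mpr hn
  have hmem := Finset.max'_mem _ hne
  exact ⟨_, Nat.prime_of_mem_primeFactors hmem, Nat.dvd_of_mem_primeFactors hmem,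
    fun q hq hd => Finset.le_max' _ _ (Nat.mem_primeFactors.mpr ⟨hq, hd, by omega⟩)⟩

theorem forall_isCoatom_index_prime_quotient (h : ∀ M : Subgroup G, IsCoatom M → M.index.Prime)
    (N : Subgroup G) [N.Normal] : ∀ M : Subgroup (G ⧸ N), IsCoatom M → M.index.Prime := by
  intro M hM
  have hs := QuotientGroup.mk'_surjective N
  rw [← index_comap_of_surjective _ hs]
  exact h _ (isCoatom_comap_of_surjective' hs hM)

/-- Huppert's theorem. -/
theorem isSupersolvable_of_forall_isCoatom_index_prime [Finite G]
    (h : ∀ M : Subgroup G, IsCoatom M → M.index.Prime) : IsSupersolvable G := by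
  refine isSupersolvable_of_quotient_closed
    (C := fun G _ => ∀ M : Subgroup G, IsCoatom M → M.index.Prime) ?_ ?_ G h
  · intro G _ _ N _ h
    exact forall_isCoatom_index_prime_quotient h N
  intro G _ _ _ h ih
  by_contra hcon
  have hcon' : ∀ N : Subgroup G, N.Normal → ¬ (Nat.card N).Prime := fun N hN hq =>
    have := Fact.mk hq
    hcon ⟨N, hN, fun h => hq.ne_one (card_eq_one.mpr h), isCyclic_of_prime_card rfl⟩
  obtain ⟨p, hp, hdvd, hmax⟩ := exists_max_prime_dvd (Finite.one_lt_card (α := G))
  have := Fact.mk hp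
  obtain ⟨P⟩ : Nonempty (Sylow p G) := inferInstance
  have hPn := sylow_normal_of_forall_isCoatom_index_prime h hmax P
  have hPne : (P : Subgroup G) ≠ ⊥ := P.ne_bot_of_dvd_card hdvd
  obtain ⟨N, hN, hNZ⟩ := exists_isMinNormal_le ((P : Subgroup G) ⊓ centralizer ((P : Subgroup G) : Set G))
    (inf_centralizer_ne_bot_of_isNilpotent P.isPGroup'.isNilpotent hPne)
  have hNn := hN.normal
  have hNP : N ≤ P := hNZ.trans inf_le_left
  have hNC : N ≤ centralizer ((P : Subgroup G) : Set G) := hNZ.trans inf_le_right
  have hNp : IsPGroup p N := P.isPGroup'.to_le hNP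
  -- `N` is the unique minimal normal subgroup
  have huniq : ∀ M : Subgroup G, M.Normal → M ≠ ⊥ → N ≤ M := by
    intro M hM hne
    refine hN.le_of_inf_ne_bot (fun hb => ?_)
    obtain ⟨K, hK, hq⟩ := exists_normal_card_prime_of_isSupersolvable
      (isSupersolvable_of_quotient_of_quotient N M hb (ih N hN.ne_bot) (ih M hne))
    exact hcon' K hK hq
  -- `N` lies in the Frattini subgroup
  have hNF : N ≤ frattini G := by
    refine le_iInf₂ (fun M hM => ?_)
    by_contra hNM
    have h1 : M ⊔ N = ⊤ := hM.2 _ (left_lt_sup.mpr hNM)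
    have h2 : (M ⊓ N).Normal := by
      refine normal_of_le_centralizer_of_sup_eq_top (P := N) (M := M) (by rw [sup_comm, h1])
        (inf_le_right.trans (hNC.trans (centralizer_le hNP))) ?_
      exact le_normalizer_inf le_normalizer (le_normalizer_of_normal)
    have h3 : M ⊓ N = ⊥ := hN.eq_bot_of_lt (inf_lt_right.mpr hNM)
    have h4 := index_mul_card_inf_of_sup_eq_top h1
    rw [h3, card_bot, mul_one] at h4
    exact hcon' N hNn (h4 ▸ h M hM)
  -- the Fitting subgroup is `P`
  have hF : fittingSubgroup G ≤ P := by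
    refine IsPGroup.le_sylow_of_normal ?_ P
    rw [isPGroup_iff_primeFactors_card_subset hp.ne_zero]
    intro q hq
    have hq' := Nat.prime_of_mem_primeFactors hq
    have := Fact.mk hq'
    obtain ⟨Q⟩ : Nonempty (Sylow q (fittingSubgroup G)) := inferInstance
    have : (Q : Subgroup (fittingSubgroup G)).Characteristic :=
      Q.characteristic_of_normal inferInstance
    have h1 : N ≤ (Q : Subgroup (fittingSubgroup G)).map (fittingSubgroup G).subtype := by
      refine huniq _ inferInstance ?_
      rw [Ne, map_eq_bot_iff_of_injective _ (fittingSubgroup G).subtype_injective]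
      exact Q.ne_bot_of_dvd_card (Nat.dvd_of_mem_primeFactors hq)
    have h2 : IsPGroup q N := (Q.isPGroup'.map _).to_le h1
    rw [hp.primeFactors, Finset.mem_singleton]
    by_contra hne
    have := IsPGroup.disjoint_of_ne q p hne N N h2 hNp
    exact hN.ne_bot (disjoint_self.mp this)
  have hGN := ih N hN.ne_bot
  have hsolv := isSolvable_of_isSupersolvable hGN
  have hK : unitsResidual p G ≤ P := by
    refine IsPGroup.le_sylow_of_normal ?_ P
    rw [isPGroup_iff_primeFactors_card_subset hp.ne_zero]
    intro q hq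
    have hq' := Nat.prime_of_mem_primeFactors hq
    have := Fact.mk hq'
    rw [hp.primeFactors, Finset.mem_singleton]
    by_contra hne
    obtain ⟨⟨x, hx⟩, hxq⟩ := exists_prime_orderOf_dvd_card' q (Nat.dvd_of_mem_primeFactors hq)
    rw [← Subgroup.orderOf_coe] at hxq
    simp only at hxq
    have hcop : (orderOf x).Coprime p := hxq ▸ (Nat.coprime_primes hq' hp).mpr hne
    have hs := QuotientGroup.mk'_surjective N
    have := hPn.map _ hs
    have h1 := (hGN.cycChain ((P : Subgroup G).map (QuotientGroup.mk' N))).mem_centralizer_of_mem_unitsResidual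
      (P.isPGroup'.map _) (map_mem_unitsResidual (QuotientGroup.mk' N) hx)
      (hcop.coprime_dvd_left (orderOf_map_dvd _ x))
    have h2 : fittingSubgroup (G ⧸ N) ≤ (P : Subgroup G).map (QuotientGroup.mk' N) := by
      rw [fitting_quotient_of_le_frattini N hNF]
      exact map_mono hF
    have h3 := h2 (centralizer_fitting_le (G ⧸ N) (centralizer_le h2 h1))
    have h4 : x ∈ (P : Subgroup G) := by
      have h5 : x ∈ ((P : Subgroup G).map (QuotientGroup.mk' N)).comap (QuotientGroup.mk' N) := h3
      rwa [comap_map_eq, QuotientGroup.ker_mk', sup_eq_left.mpr hNP] at h5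
    obtain ⟨k, hk⟩ := IsPGroup.iff_orderOf.mp P.isPGroup' ⟨x, h4⟩
    rw [← Subgroup.orderOf_coe] at hk
    simp only at hk
    rw [hxq] at hk
    exact hne ((Nat.prime_dvd_prime_iff_eq hq' hp).mp (hq'.dvd_of_dvd_pow (dvd_of_eq hk)))
  have hKC : unitsResidual p G ≤ centralizer (N : Set G) := hK.trans (le_centralizer_iff.mp hNC)
  exact hcon ⟨N, hNn, hN.ne_bot, hN.isCyclic_of_comm_of_pow hNp
    ((commutator_le_unitsResidual p).trans hKC) (fun g => hKC (pow_mem_unitsResidual p g))⟩

theorem isSupersolvable_iff_forall_isCoatom_index_prime [Finite G] :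
    IsSupersolvable G ↔ ∀ M : Subgroup G, IsCoatom M → M.index.Prime :=
  ⟨fun h _ hM => index_prime_of_isCoatom_of_isSupersolvable h hM,
    isSupersolvable_of_forall_isCoatom_index_prime⟩

/-- Supersolvability is saturated. -/
theorem isSupersolvable_of_quotient_of_le_frattini [Finite G] (N : Subgroup G) [N.Normal]
    (hN : N ≤ frattini G) (h : IsSupersolvable (G ⧸ N)) : IsSupersolvable G := by
  refine isSupersolvable_of_forall_isCoatom_index_prime (fun M hM => ?_)
  have hk : (QuotientGroup.mk' N).ker ≤ M := by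
    rw [QuotientGroup.ker_mk']
    exact hN.trans (frattini_le_coatom hM)
  have hs := QuotientGroup.mk'_surjective N
  rw [← index_map_eq _ hs hk]
  exact index_prime_of_isCoatom_of_isSupersolvable h (isCoatom_map_of_surjective_of_ker_le hs hM hk)

end Cfsg.Lib.Solv
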