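import Cfsg.Agent.Solv.Hall
import Cfsg.Agent.Solv.Factor
import Cfsg.Agent.Char.Burnside
import Cfsg.Agent.S0007

/-!
# Converses of Hall's theorem

Wielandt's three solvable subgroups theorem, P. Hall's criterion (existence of all
`p`-complements implies solvability), and the criterion by Sylow systems.
-/

set_option autoImplicit false

open Pointwise

namespace Cfsg.Lib.Solv

universe u

/-- If `G = H₁ H₂` and `N ≤ H₂` is normalised by `H₁`, the normal closure of `N` lies in `H₂`. -/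
theorem normalClosure_le_of_forall_mul {G : Type*} [Group G] {H₁ H₂ N : Subgroup G}
    (h12 : ∀ g : G, ∃ x ∈ H₁, ∃ y ∈ H₂, g = x * y) (hN : H₁ ≤ Subgroup.normalizer (N : Set G))
    (hN2 : N ≤ H₂) : Subgroup.normalClosure (N : Set G) ≤ H₂ := by
  refine le_trans ?_ H₂.normalCore_le
  apply Subgroup.normalClosure_le_normal
  intro n hn g
  obtain ⟨y, hy, x, hx, rfl⟩ := forall_mul_symm h12 g
  have : y * x * n * (y * x)⁻¹ = y * (x * n * x⁻¹) * y⁻¹ := by group
  rw [this]
  exact H₂.mul_mem (H₂.mul_mem hy (hN2 (conj_mem_of_mem_normalizer (hN hx) hn))) (H₂.inv_mem hy)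

/-- If `G = H₁ H₂`, a `p`-subgroup normalised by `H₁` lies in `H₂` when `p ∤ |G : H₂|`. -/
theorem le_of_forall_mul_of_not_dvd_index {G : Type*} [Group G] [Finite G] {H₁ H₂ N : Subgroup G}
    (h12 : ∀ g : G, ∃ x ∈ H₁, ∃ y ∈ H₂, g = x * y) (hN : H₁ ≤ Subgroup.normalizer (N : Set G))
    {p : ℕ} [hp : Fact p.Prime] (hP : IsPGroup p N) (h : ¬ p ∣ H₂.index) : N ≤ H₂ := by
  obtain ⟨S, hS⟩ := (hallD_singleton p H₂).exists_isPiHallOf
  have hS' : IsPiHall {p} S := isPiHall_of_isPiHallOf hS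
    ((isPiNum_compl_singleton_iff hp.out).mpr (hp.out.coprime_iff_not_dvd.mpr h).symm)
  obtain ⟨g, hg⟩ := (hallD_singleton p G).exists_conj_le hS' (isPiSubgroup_singleton_iff.mpr hP)
  obtain ⟨y, hy, x, hx, rfl⟩ := forall_mul_symm h12 g
  rw [conj_mul_smul, conj_smul_eq_of_mem_normalizer (hN hx)] at hg
  have := conj_smul_le_iff_le_conj_inv_smul.mp (hg.trans hS.1)
  rwa [Subgroup.conj_smul_eq_self_of_mem (H₂.inv_mem hy)] at this

theorem forall_mul_map {G G' : Type*} [Group G] [Group G'] {f : G →* G'}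
    (hf : Function.Surjective f) {H₁ H₂ : Subgroup G}
    (h12 : ∀ g : G, ∃ x ∈ H₁, ∃ y ∈ H₂, g = x * y) :
    ∀ g : G', ∃ x ∈ H₁.map f, ∃ y ∈ H₂.map f, g = x * y := by
  intro g
  obtain ⟨g, rfl⟩ := hf g
  obtain ⟨x, hx, y, hy, rfl⟩ := h12 g
  exact ⟨f x, ⟨x, hx, rfl⟩, f y, ⟨y, hy, rfl⟩, map_mul f x y⟩

/-- **Wielandt**: `G = H₁ H₂ = H₁ H₃` with solvable factors and `|G : H₂|`, `|G : H₃|` coprime is
solvable. -/
theorem isSolvable_of_three_solvable (G : Type u) [Group G] [Finite G] :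
    ∀ H₁ H₂ H₃ : Subgroup G, Group.IsSolvable H₁ → Group.IsSolvable H₂ → Group.IsSolvable H₃ →
      (∀ g : G, ∃ x ∈ H₁, ∃ y ∈ H₂, g = x * y) → (∀ g : G, ∃ x ∈ H₁, ∃ y ∈ H₃, g = x * y) →
      H₂.index.Coprime H₃.index → Group.IsSolvable G := by
  refine card_induction (P := fun G _ _ => ∀ H₁ H₂ H₃ : Subgroup G, Group.IsSolvable H₁ →
    Group.IsSolvable H₂ → Group.IsSolvable H₃ →
      (∀ g : G, ∃ x ∈ H₁, ∃ y ∈ H₂, g = x * y) → (∀ g : G, ∃ x ∈ H₁, ∃ y ∈ H₃, g = x * y) →
      H₂.index.Coprime H₃.index → Group.IsSolvable G) ?_ G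
  intro G _ _ ih H₁ H₂ H₃ h₁ h₂ h₃ h12 h13 hcop
  by_cases h0 : H₁ = ⊥
  · refine Group.isSolvable_of_surjective (f := H₂.subtype) fun g => ?_
    obtain ⟨x, hx, y, hy, rfl⟩ := h12 g
    rw [h0, Subgroup.mem_bot] at hx
    exact ⟨⟨y, hy⟩, by simp [hx]⟩
  have := (Subgroup.nontrivial_iff_ne_bot H₁).mpr h0
  obtain ⟨p, N₀, hp, hN₀, -, -, hP₀⟩ := exists_isMinNormal_elementary H₁
  have := Fact.mk hp
  have := hN₀.normal
  have hN : H₁ ≤ Subgroup.normalizer ((N₀.map H₁.subtype : Subgroup G) : Set G) :=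
    le_normalizer_map_subtype N₀
  have hP : IsPGroup p (N₀.map H₁.subtype) := hP₀.map _
  have hne : N₀.map H₁.subtype ≠ ⊥ := fun h =>
    hN₀.ne_bot ((Subgroup.map_eq_bot_iff_of_injective N₀ H₁.subtype_injective).mp h)
  have hsolv : Group.IsSolvable (Subgroup.normalClosure
      ((N₀.map H₁.subtype : Subgroup G) : Set G)) := by
    by_cases h : p ∣ H₂.index
    · have h' : ¬ p ∣ H₃.index := fun h' =>
        hp.one_lt.ne' (Nat.eq_one_of_dvd_coprimes hcop h h')
      exact Group.isSolvable_of_isSolvable_injective (Subgroup.inclusion_injective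
        (normalClosure_le_of_forall_mul h13 hN (le_of_forall_mul_of_not_dvd_index h13 hN hP h')))
    · exact Group.isSolvable_of_isSolvable_injective (Subgroup.inclusion_injective
        (normalClosure_le_of_forall_mul h12 hN (le_of_forall_mul_of_not_dvd_index h12 hN hP h)))
  set M := Subgroup.normalClosure ((N₀.map H₁.subtype : Subgroup G) : Set G) with hM
  have hM0 : M ≠ ⊥ := fun h => hne (le_bot_iff.mp (h ▸ Subgroup.le_normalClosure))
  have hsurj := QuotientGroup.mk'_surjective M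
  have hq := ih (G ⧸ M) (card_quotient_lt hM0) _ _ _ (SZ.isSolvable_map _ H₁ h₁)
    (SZ.isSolvable_map _ H₂ h₂) (SZ.isSolvable_map _ H₃ h₃) (forall_mul_map hsurj h12)
    (forall_mul_map hsurj h13)
    ((hcop.coprime_dvd_left (Subgroup.index_map_dvd H₂ hsurj)).coprime_dvd_right
      (Subgroup.index_map_dvd H₃ hsurj))
  exact (Group.isSolvable_iff_subgroup_quotient M).mpr ⟨hsolv, hq⟩

/-- **Wielandt**: three solvable subgroups of pairwise coprime indices force solvability. -/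
theorem isSolvable_of_three_coprime_index {G : Type*} [Group G] [Finite G]
    {H₁ H₂ H₃ : Subgroup G} (h₁ : Group.IsSolvable H₁) (h₂ : Group.IsSolvable H₂)
    (h₃ : Group.IsSolvable H₃) (h12 : H₁.index.Coprime H₂.index) (h13 : H₁.index.Coprime H₃.index)
    (h23 : H₂.index.Coprime H₃.index) : Group.IsSolvable G :=
  isSolvable_of_three_solvable G H₁ H₂ H₃ h₁ h₂ h₃ (Cfsg.Agent.S0007.result H₁ H₂ h12).2
    (Cfsg.Agent.S0007.result H₁ H₃ h13).2 h23

theorem relIndex_eq_index_of_coprime_index {G : Type*} [Group G] [Finite G] {H K : Subgroup G}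
    (h : H.index.Coprime K.index) : H.relIndex K = H.index := by
  have h1 := (Cfsg.Agent.S0007.result H K h).1
  rw [← Subgroup.relIndex_mul_index (inf_le_right : H ⊓ K ≤ K), Subgroup.inf_relIndex_right] at h1
  exact Nat.eq_of_mul_eq_mul_right (Nat.pos_of_ne_zero Subgroup.index_ne_zero_of_finite) h1

/-- **P. Hall**: a finite group having a Hall `p'`-subgroup for every prime `p` is solvable. -/
theorem isSolvable_of_forall_exists_isPiHall_compl (G : Type u) [Group G] [Finite G] :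
    (∀ p : ℕ, p.Prime → ∃ H : Subgroup G, IsPiHall {p}ᶜ H) → Group.IsSolvable G := by
  refine card_induction (P := fun G _ _ =>
    (∀ p : ℕ, p.Prime → ∃ H : Subgroup G, IsPiHall {p}ᶜ H) → Group.IsSolvable G) ?_ G
  intro G _ _ ih h
  have hidx : ∀ {p q : ℕ} {H K : Subgroup G}, p ≠ q → IsPiHall {p}ᶜ H → IsPiHall {q}ᶜ K →
      H.index.Coprime K.index := fun {p q H K} hpq hH hK =>
    (isPiHall_iff.mp hH).2.coprime_of_disjoint (isPiHall_iff.mp hK).2 (by simpa using hpq)
  have hsolv : ∀ (p : ℕ) (H : Subgroup G), p.Prime → p ∣ Nat.card G → IsPiHall {p}ᶜ H →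
      Group.IsSolvable H := by
    intro p H hp hpG hH
    have hne : H ≠ ⊤ := by
      rintro rfl
      exact hH.1 p hp (by rwa [Subgroup.card_top]) rfl
    refine ih H (card_lt_of_ne_top hne) fun q hq => ?_
    by_cases hqp : q = p
    · subst hqp
      exact ⟨⊤, isPiHall_iff.mpr ⟨by rw [Subgroup.card_top]; exact hH.1, by
        rw [Subgroup.index_top]; exact IsPiNum.one _⟩⟩
    · obtain ⟨K, hK⟩ := h q hq
      refine ⟨K.subgroupOf H, isPiHall_iff.mpr ⟨isPiSubgroup_subgroupOf hK.1 H, ?_⟩⟩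
      have := relIndex_eq_index_of_coprime_index (hidx hqp hK hH)
      rw [Subgroup.relIndex] at this
      rw [this]
      exact (isPiHall_iff.mp hK).2
  by_cases h1 : ∃ p : ℕ, p.Prime ∧ p ∣ Nat.card G
  swap
  · exact Cfsg.Lib.Char.isSolvable_of_prime_dvd_card Nat.prime_two Nat.prime_two G
      fun r hr hd => absurd ⟨r, hr, hd⟩ h1
  obtain ⟨p, hp, hpG⟩ := h1
  by_cases h2 : ∃ q : ℕ, q.Prime ∧ q ∣ Nat.card G ∧ q ≠ p
  swap
  · refine Cfsg.Lib.Char.isSolvable_of_prime_dvd_card hp hp G fun r hr hd => Or.inl ?_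
    by_contra hne
    exact h2 ⟨r, hr, hd, hne⟩
  obtain ⟨q, hq, hqG, hqp⟩ := h2
  by_cases h3 : ∃ r : ℕ, r.Prime ∧ r ∣ Nat.card G ∧ r ≠ p ∧ r ≠ q
  swap
  · refine Cfsg.Lib.Char.isSolvable_of_prime_dvd_card hp hq G fun r hr hd => ?_
    by_contra hne
    rw [not_or] at hne
    exact h3 ⟨r, hr, hd, hne⟩
  obtain ⟨r, hr, hrG, hrp, hrq⟩ := h3
  obtain ⟨H₁, hH₁⟩ := h p hp
  obtain ⟨H₂, hH₂⟩ := h q hq
  obtain ⟨H₃, hH₃⟩ := h r hr
  exact isSolvable_of_three_coprime_index (hsolv p H₁ hp hpG hH₁) (hsolv q H₂ hq hqG hH₂)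
    (hsolv r H₃ hr hrG hH₃) (hidx hqp.symm hH₁ hH₂) (hidx hrp.symm hH₁ hH₃) (hidx hrq.symm hH₂ hH₃)

/-- Hall `p'`-subgroups are the subgroups whose index is the `p`-part of the group order. -/
theorem isPiHall_compl_singleton_iff {G : Type*} [Group G] [Finite G] {p : ℕ} (hp : p.Prime)
    {H : Subgroup G} : IsPiHall {p}ᶜ H ↔ H.index = p ^ (Nat.card G).factorization p := by
  have hG : Nat.card G ≠ 0 := Nat.card_pos.ne'
  rw [isPiHall_iff, compl_compl, isPiNum_compl_singleton_iff hp,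
    isPiNum_singleton_iff hp Subgroup.index_ne_zero_of_finite]
  constructor
  · rintro ⟨h1, k, hk⟩
    rw [hk, ← H.card_mul_index, Nat.factorization_mul Nat.card_pos.ne'
      Subgroup.index_ne_zero_of_finite, hk, Finsupp.add_apply,
      Nat.factorization_eq_zero_of_not_dvd (hp.coprime_iff_not_dvd.mp h1.symm),
      hp.factorization_pow]
    simp
  · intro h
    refine ⟨(hp.coprime_iff_not_dvd.mpr fun hd => ?_).symm, _, h⟩
    apply Nat.pow_succ_factorization_not_dvd hG hp
    conv_rhs => rw [← H.card_mul_index, h]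
    rw [pow_succ']
    exact Nat.mul_dvd_mul_right hd _

/-- The product of two permuting subgroups is their join. -/
theorem coe_sup_eq_mul_of_mul_comm {G : Type*} [Group G] {A B : Subgroup G}
    (h : (A : Set G) * (B : Set G) = (B : Set G) * (A : Set G)) :
    ((A ⊔ B : Subgroup G) : Set G) = (A : Set G) * (B : Set G) := by
  let S : Subgroup G :=
    { carrier := (A : Set G) * (B : Set G)
      one_mem' := ⟨1, A.one_mem, 1, B.one_mem, mul_one 1⟩
      mul_mem' := fun {x y} hx hy => by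
        have : x * y ∈ ((A : Set G) * (B : Set G)) * ((A : Set G) * (B : Set G)) :=
          Set.mul_mem_mul hx hy
        rwa [mul_assoc, ← mul_assoc (B : Set G), ← h, mul_assoc, coe_mul_coe, ← mul_assoc,
          coe_mul_coe] at this
      inv_mem' := fun {x} hx => by
        have : x⁻¹ ∈ ((A : Set G) * (B : Set G))⁻¹ := Set.inv_mem_inv.mpr hx
        rwa [mul_inv_rev, inv_coe_set, inv_coe_set, ← h] at this }
  have : S = A ⊔ B := eq_sup_of_coe_eq_mul rfl
  rw [← this]; rfl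

/-- In a Sylow system the subgroups indexed by a finite set of primes generate a Hall subgroup. -/
theorem exists_isPiHall_of_sylowSystem {G : Type*} [Group G] [Finite G]
    (S : (p : Nat.Primes) → Sylow (p : ℕ) G)
    (hS : ∀ p q : Nat.Primes, (S p : Set G) * (S q : Set G) = (S q : Set G) * (S p : Set G))
    (T : Finset Nat.Primes) :
    ∃ H : Subgroup G, IsPiSubgroup ((↑) '' (T : Set Nat.Primes)) H ∧
      (∀ q ∈ T, (S q : Subgroup G) ≤ H) ∧
      ∀ q : Nat.Primes, (H : Set G) * (S q : Set G) = (S q : Set G) * (H : Set G) := by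
  classical
  induction T using Finset.induction_on with
  | empty => exact ⟨⊥, isPiSubgroup_bot, by simp, fun q => by simp⟩
  | insert a T _ ih =>
    obtain ⟨H, h1, h2, h3⟩ := ih
    have := Fact.mk a.2
    have hsup : ((H ⊔ (S a : Subgroup G) : Subgroup G) : Set G) = (H : Set G) * (S a : Set G) :=
      coe_sup_eq_mul_of_mul_comm (h3 a)
    refine ⟨H ⊔ (S a : Subgroup G), ?_, ?_, fun q => ?_⟩
    · refine IsPiNum.of_dvd (IsPiNum.mul (IsPiNum.mono h1 ?_)
        (isPiSubgroup_of_isPGroup ?_ (S a).isPGroup'))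
        (Dvd.intro _ (card_mul_card_inf_of_coe_eq_mul hsup))
      · exact Set.image_mono (by simp)
      · exact ⟨a, by simp, rfl⟩
    · intro q hq
      rcases Finset.mem_insert.mp hq with rfl | hq
      · exact le_sup_right
      · exact (h2 q hq).trans le_sup_left
    · rw [hsup, mul_assoc, hS a q, ← mul_assoc, h3 q, mul_assoc]

/-- A finite group with a Sylow system is solvable. -/
theorem isSolvable_of_sylowSystem {G : Type*} [Group G] [Finite G]
    (S : (p : Nat.Primes) → Sylow (p : ℕ) G)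
    (hS : ∀ p q : Nat.Primes, (S p : Set G) * (S q : Set G) = (S q : Set G) * (S p : Set G)) :
    Group.IsSolvable G := by
  classical
  refine isSolvable_of_forall_exists_isPiHall_compl G fun p hp => ?_
  obtain ⟨H, h1, h2, -⟩ := exists_isPiHall_of_sylowSystem S hS
    (((Nat.card G).primeFactors.erase p).subtype Nat.Prime)
  refine ⟨H, IsPiNum.mono h1 ?_, fun q hq hqp hd => ?_⟩
  · rintro _ ⟨q, hq, rfl⟩
    exact Finset.ne_of_mem_erase (Finset.mem_subtype.mp hq)
  · have := Fact.mk hq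
    have hle := h2 ⟨q, hq⟩ (Finset.mem_subtype.mpr (Finset.mem_erase.mpr ⟨hqp,
      Nat.mem_primeFactors.mpr ⟨hq, hd.trans H.index_dvd_card, Nat.card_pos.ne'⟩⟩))
    exact (S ⟨q, hq⟩).not_dvd_index (hd.trans (Subgroup.index_dvd_of_le hle))

end Cfsg.Lib.Solv
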