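import Cfsg.Agent.Solv.DerivedLength
import Cfsg.Agent.Solv.PGroupNormal

/-!
# Derived length of linear `p`-groups in characteristic prime to `p`
-/

set_option autoImplicit false

namespace Cfsg.Lib.Solv.PLin

open scoped commutatorElement
open Module

universe u v w

theorem card_mul_le_finrank {K V ι : Type*} [Field K] [AddCommGroup V] [Module K V]
    [FiniteDimensional K V] [Fintype ι] (f : End K V) (μ : ι → K) (hμ : Function.Injective μ)
    {d : ℕ} (hd : ∀ i, d ≤ finrank K (f.eigenspace (μ i))) :
    Fintype.card ι * d ≤ finrank K V := by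
  classical
  have h1 := (f.eigenspaces_iSupIndep.comp hμ).dfinsupp_lsum_injective
  have h2 := LinearMap.finrank_le_finrank_of_injective h1
  refine le_trans ?_ h2
  have h3 : finrank K (Π₀ i, ((f.eigenspace ∘ μ) i)) = ∑ i, finrank K (f.eigenspace (μ i)) :=
    finrank_directSum (R := K) (fun i => f.eigenspace (μ i))
  rw [h3]
  calc Fintype.card ι * d = ∑ _i : ι, d := by simp
    _ ≤ _ := Finset.sum_le_sum fun i _ => hd i

theorem exists_central_mod {P : Type*} [Group P] [Finite P] {p : ℕ} [Fact p.Prime]
    (hP : IsPGroup p P) (N : Subgroup P) [N.Normal] (hN : N ≠ ⊤) :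
    ∃ z, z ∉ N ∧ z ^ p ∈ N ∧ ∀ g, ⁅z, g⁆ ∈ N := by
  have : Nontrivial (P ⧸ N) := QuotientGroup.nontrivial_iff.2 hN
  obtain ⟨z, -, hz, ho⟩ := PG.exists_mem_center_orderOf_eq (hP.to_quotient N) ⊤ top_ne_bot
  obtain ⟨z, rfl⟩ := QuotientGroup.mk_surjective z
  refine ⟨z, fun h => ?_, ?_, fun g => ?_⟩
  · rw [(QuotientGroup.eq_one_iff z).2 h, orderOf_one] at ho
    exact (Fact.out : p.Prime).ne_one ho.symm
  · rw [← QuotientGroup.eq_one_iff, QuotientGroup.mk_pow, ← ho, pow_orderOf_eq_one]
  · rw [← QuotientGroup.eq_one_iff, ← QuotientGroup.mk'_apply, map_commutatorElement,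
      commutatorElement_eq_one_iff_mul_comm]
    exact (Subgroup.mem_center_iff.1 hz _).symm

section

variable {K : Type u} [Field K] {P : Type v} [Group P] {V : Type w} [AddCommGroup V] [Module K V]

/-- Concrete irreducibility. -/
def Irr (ρ : Representation K P V) : Prop :=
  Nontrivial V ∧ ∀ U : Submodule K V, (∀ g, U ≤ U.comap (ρ g)) → U = ⊥ ∨ U = ⊤

theorem Irr.schur [IsAlgClosed K] [FiniteDimensional K V] {ρ : Representation K P V} (h : Irr ρ)
    (f : End K V) (hf : ∀ g, f * ρ g = ρ g * f) : ∃ c : K, f = c • 1 := by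
  have := h.1
  obtain ⟨c, hc⟩ := End.exists_eigenvalue f
  refine ⟨c, ?_⟩
  rcases h.2 (f.eigenspace c) (fun g v hv => by
    rw [Submodule.mem_comap, End.mem_eigenspace_iff, ← End.mul_apply, hf, End.mul_apply,
      End.mem_eigenspace_iff.1 hv, map_smul]) with h1 | h1
  · exact absurd h1 hc
  · ext v
    exact End.mem_eigenspace_iff.1 (h1 ▸ Submodule.mem_top)

/-- A normal subgroup of invertible order acting non-trivially acts without fixed vectors on some
irreducible constituent. -/
theorem exists_irr [FiniteDimensional K V] (ρ : Representation K P V) (D : Subgroup P)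
    [hD : D.Normal] [Finite D] (hcard : (Nat.card D : K) ≠ 0) (hnt : ¬ D ≤ ρ.ker) :
    ∃ (W : Submodule K V) (hW : ∀ g, W ≤ W.comap (ρ g)), Irr (ρ.subrepresentation W hW) ∧
      ∀ w ∈ W, (∀ d ∈ D, ρ d w = w) → w = 0 := by
  have := Fintype.ofFinite D
  let s : End K V := ∑ z : D, ρ z
  have hs2 : ∀ v, (∀ z ∈ D, ρ z v = v) → s v = (Nat.card D : K) • v := fun v hv => by
    simp only [s, LinearMap.sum_apply]
    rw [Finset.sum_congr rfl fun (z : D) _ => hv z z.2, Finset.sum_const, Finset.card_univ,
      Nat.card_eq_fintype_card, Nat.cast_smul_eq_nsmul]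
  have hs3 : ∀ g v, s (ρ g v) = ρ g (s v) := fun g v => by
    simp only [s, LinearMap.sum_apply, map_sum]
    rw [← Equiv.sum_comp (MulAut.conjNormal g : MulAut D).toEquiv (fun z : D => ρ z (ρ g v))]
    refine Finset.sum_congr rfl fun z _ => ?_
    rw [← Module.End.mul_apply, ← Module.End.mul_apply, ← map_mul, ← map_mul]
    simp
  have hs1 : ∀ y ∈ D, ∀ v, s (ρ y v) = s v := fun y hy v => by
    simp only [s, LinearMap.sum_apply]
    rw [← Equiv.sum_comp (Equiv.mulRight (⟨y, hy⟩ : D)) (fun z : D => ρ z v)]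
    refine Finset.sum_congr rfl fun z _ => ?_
    simp
  have h₂ : ∀ g, LinearMap.ker s ≤ (LinearMap.ker s).comap (ρ g) := fun g v hv => by
    rw [Submodule.mem_comap, LinearMap.mem_ker, hs3, LinearMap.mem_ker.1 hv, map_zero]
  have hne : LinearMap.ker s ≠ ⊥ := fun h => hnt fun d hd => by
    rw [MonoidHom.mem_ker]
    ext v
    have : ρ d v - v ∈ LinearMap.ker s := by rw [LinearMap.mem_ker, map_sub, hs1 d hd, sub_self]
    rw [h, Submodule.mem_bot, sub_eq_zero] at this
    exact this
  obtain ⟨W, ⟨hW, hW0, hWs⟩, hmin⟩ := WellFounded.has_min (wellFounded_lt (α := Submodule K V))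
    {W | (∀ g, W ≤ W.comap (ρ g)) ∧ W ≠ ⊥ ∧ W ≤ LinearMap.ker s} ⟨_, h₂, hne, le_rfl⟩
  refine ⟨W, hW, ⟨Submodule.nontrivial_iff_ne_bot.2 hW0, fun U hU => ?_⟩, fun w hw hd => ?_⟩
  · by_contra! hc
    refine hmin (U.map W.subtype) ⟨fun g => ?_, ?_, (Submodule.map_subtype_le W U).trans hWs⟩ ?_
    · rintro _ ⟨x, hx, rfl⟩
      exact ⟨_, hU g hx, rfl⟩
    · intro h
      apply hc.1
      apply Submodule.map_injective_of_injective W.subtype_injective
      rw [h, Submodule.map_bot]
    · refine lt_of_le_of_ne (Submodule.map_subtype_le W U) fun h => hc.2 ?_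
      apply Submodule.map_injective_of_injective W.subtype_injective
      rw [h, Submodule.map_subtype_top]
  · have h1 : s w = 0 := hWs hw
    rw [hs2 w hd] at h1
    exact (smul_eq_zero.1 h1).resolve_left hcard

end

theorem cast_card_ne_zero {K P : Type*} [Field K] [Group P] [Finite P] {p : ℕ} [Fact p.Prime]
    (hp : (p : K) ≠ 0) (hP : IsPGroup p P) (D : Subgroup P) : (Nat.card D : K) ≠ 0 := by
  obtain ⟨n, hn⟩ := (hP.to_subgroup D).exists_card_eq
  rw [hn, Nat.cast_pow]
  exact pow_ne_zero _ hp

/-- Over an algebraically closed field, a `p`-group acting on a space of dimension `< p ^ k` has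
derived length at most `k`. -/
theorem derivedSeries_le_ker {K : Type u} [Field K] [IsAlgClosed K] {p : ℕ} [hp : Fact p.Prime]
    (hpK : (p : K) ≠ 0) (k : ℕ) : ∀ (P : Type v) [Group P] [Finite P] (V : Type w)
    [AddCommGroup V] [Module K V] [FiniteDimensional K V] (ρ : Representation K P V),
    IsPGroup p P → finrank K V < p ^ k → derivedSeries P k ≤ ρ.ker := by
  induction k with
  | zero =>
    intro P _ _ V _ _ _ ρ _ h g _
    have : Subsingleton V := finrank_zero_iff.1 (by simpa using h)
    rw [MonoidHom.mem_ker]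
    ext v
    exact Subsingleton.elim _ _
  | succ k ih =>
    intro P _ _ V _ _ _ ρ0 hP hdim
    by_contra hnt
    obtain ⟨W, hW, hirr, hfix⟩ := exists_irr ρ0 _ (cast_card_ne_zero hpK hP _) hnt
    set ρ := ρ0.subrepresentation W hW with hρ
    have hdimW : finrank K W < p ^ (k + 1) := (Submodule.finrank_le W).trans_lt hdim
    have hfix' : ∀ w : W, (∀ d ∈ derivedSeries P (k + 1), ρ d w = w) → w = 0 := fun w hw =>
      Subtype.ext (hfix w w.2 fun d hd => congrArg Subtype.val (hw d hd))
    clear_value ρ
    have := hirr.1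
    have hinv : ∀ a : P, ρ a⁻¹ * ρ a = 1 := fun a => by rw [← map_mul, inv_mul_cancel, map_one]
    have hinv' : ∀ a : P, ρ a * ρ a⁻¹ = 1 := fun a => by rw [← map_mul, mul_inv_cancel, map_one]
    let Z : Subgroup P := (Subgroup.centralizer (ρ.toHomUnits.range : Set (End K W)ˣ)).comap
      ρ.toHomUnits
    have hZ : ∀ x, x ∈ Z ↔ ∀ g, ρ x * ρ g = ρ g * ρ x := fun x => by
      simp only [Z, Subgroup.mem_comap, Subgroup.mem_centralizer_iff, SetLike.mem_coe,
        MonoidHom.mem_range, forall_exists_index, Units.ext_iff,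
        Units.val_mul, MonoidHom.coe_toHomUnits]
      exact ⟨fun h g => (h (ρ.toHomUnits g) g rfl).symm, fun h u g e => e ▸ (h g).symm⟩
    have hZn : Z.Normal := ⟨fun x hx g => (hZ _).2 fun h => by
      have h1 : ρ (g * x * g⁻¹) = ρ x := by
        rw [map_mul, map_mul, ← (hZ x).1 hx g, mul_assoc, hinv', mul_one]
      rw [h1, (hZ x).1 hx]⟩
    have hder : derivedSeries P (k + 1) ≤ commutator P := by
      rw [← derivedSeries_one]
      exact derivedSeries_antitone P (by omega)
    by_cases hT : Z = ⊤
    · obtain ⟨w, hw⟩ := exists_ne (0 : W)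
      refine hw (hfix' w fun d hd => ?_)
      have h1 : commutator P ≤ ρ.ker := by
        rw [commutator_def, Subgroup.commutator_le]
        intro a _ b _
        rw [MonoidHom.mem_ker, commutatorElement_def, map_mul, map_mul, map_mul,
          (hZ a).1 (hT ▸ Subgroup.mem_top a) b, mul_assoc (ρ b), hinv', mul_one, hinv']
      rw [MonoidHom.mem_ker.1 (h1 (hder hd)), End.one_apply]
    obtain ⟨a, haZ, hap, hac⟩ := exists_central_mod hP Z hT
    have hμ : ∀ g, ∃ c : K, ρ a * ρ g = c • (ρ g * ρ a) := fun g => by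
      obtain ⟨c, hc⟩ := hirr.schur (ρ ⁅a, g⁆) ((hZ _).1 (hac g))
      refine ⟨c, ?_⟩
      have h3 : a * g = ⁅a, g⁆ * (g * a) := by rw [commutatorElement_def]; group
      rw [← map_mul, h3, map_mul, hc, map_mul, smul_mul_assoc, one_mul]
    choose μ hμ using hμ
    have huniq : ∀ (g : P) (c d : K), c • ρ g = d • ρ g → c = d := fun g c d h => by
      have h1 := congrArg (· * ρ g⁻¹) h
      simp only [smul_mul_assoc, hinv'] at h1
      exact smul_left_injective K (one_ne_zero (α := End K W)) h1
    let m : P →* K :=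
      { toFun := μ
        map_one' := huniq a _ _ (by simpa using (hμ 1).symm)
        map_mul' := fun g h => huniq (g * h * a) _ _ (by
          rw [map_mul, ← hμ, map_mul, ← mul_assoc, hμ, smul_mul_assoc, mul_assoc, hμ,
            mul_smul_comm, smul_smul, mul_assoc]) }
    have hm : ∀ g, m g = μ g := fun _ => rfl
    obtain ⟨g, hg⟩ : ∃ g, μ g ≠ 1 := by
      by_contra! h
      exact haZ ((hZ a).2 fun g => by rw [hμ, h, one_smul])
    have hpow : ∀ n : ℕ, ρ (a ^ n) * ρ g = μ g ^ n • (ρ g * ρ (a ^ n)) := fun n => by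
      induction n with
      | zero => simp
      | succ n ihn =>
        rw [pow_succ, map_mul, mul_assoc, hμ, mul_smul_comm, ← mul_assoc, ihn, smul_mul_assoc,
          smul_smul, pow_succ', mul_assoc]
    have hμp : μ g ^ p = 1 := huniq (g * a ^ p) _ _ (by
      rw [map_mul, ← hpow, (hZ _).1 hap, one_smul])
    have hord : orderOf (μ g) = p := orderOf_eq_prime hμp hg
    obtain ⟨l, hl⟩ := End.exists_eigenvalue (ρ a)
    have hl0 : l ≠ 0 := by
      rintro rfl
      obtain ⟨w, hw⟩ := hl.exists_hasEigenvector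
      have h1 := hw.apply_eq_smul
      rw [zero_smul] at h1
      apply hw.2
      rw [← End.one_apply (R := K) w, ← hinv a, End.mul_apply, h1, map_zero]
    have hmap : ∀ (h : P) (w : W), w ∈ End.eigenspace (ρ a) l →
        ρ h w ∈ End.eigenspace (ρ a) (μ h * l) := fun h w hw => by
      rw [End.mem_eigenspace_iff] at hw ⊢
      rw [← End.mul_apply, hμ, LinearMap.smul_apply, End.mul_apply, hw, map_smul, smul_smul]
    have hdimE : finrank K (End.eigenspace (ρ a) l) < p ^ k := by
      have h1 := card_mul_le_finrank (ρ a) (fun i : Fin p => μ (g ^ (i : ℕ)) * l)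
        (fun i j hij => by
          have h2 := mul_right_cancel₀ hl0 hij
          rw [← hm, ← hm, map_pow, map_pow, hm] at h2
          exact Fin.ext (pow_injOn_Iio_orderOf (by rw [hord]; exact i.2) (by rw [hord]; exact j.2)
            h2))
        (d := finrank K (End.eigenspace (ρ a) l)) fun i =>
          LinearMap.finrank_le_finrank_of_injective
            (f := (ρ (g ^ (i : ℕ))).restrict (hmap _)) fun x y hxy => Subtype.ext (by
              have h3 := congrArg (fun z : End.eigenspace (ρ a) _ => ρ (g ^ (i : ℕ))⁻¹ z) hxy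
              simpa only [LinearMap.coe_restrict_apply, ← End.mul_apply, hinv, End.one_apply]
                using h3)
      rw [Fintype.card_fin] at h1
      have h2 := h1.trans_lt hdimW
      rw [pow_succ'] at h2
      exact Nat.lt_of_mul_lt_mul_left h2
    have hE : ∀ x : commutator P, End.eigenspace (ρ a) l ≤
        (End.eigenspace (ρ a) l).comap ((ρ.comp (commutator P).subtype) x) := fun x w hw => by
      have h1 : m.toHomUnits x = 1 := Abelianization.commutator_subset_ker m.toHomUnits x.2
      have h2 : μ x = 1 := congrArg Units.val h1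
      have h3 := hmap x w hw
      rwa [h2, one_mul] at h3
    have h1 := ih (commutator P) _ (Representation.subrepresentation
      (ρ.comp (commutator P).subtype) _ hE) (hP.to_subgroup _) hdimE
    obtain ⟨w, hw⟩ := hl.exists_hasEigenvector
    refine hw.2 (hfix' w fun d hd => ?_)
    rw [add_comm] at hd
    obtain ⟨d, hd', rfl⟩ := derivedSeries_add_le_map (derivedSeries_one P).le k hd
    exact congrArg (fun f : End K (End.eigenspace (ρ a) l) => (f ⟨w, hw.1⟩ : W))
      (MonoidHom.mem_ker.1 (h1 hd'))

/-- Upper bound for the derived length of a `p`-subgroup of `GL_n(q)`. -/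
theorem derivedSeries_eq_bot_GL {F : Type*} [Field F] [Fintype F] {p : ℕ} [hp : Fact p.Prime]
    (hpq : ¬ p ∣ Fintype.card F) {n k : ℕ}
    (hn : n < orderOf (Fintype.card F : ZMod p) * p ^ k) (P : Subgroup (GL (Fin n) F))
    (hP : IsPGroup p P) : derivedSeries P k = ⊥ := by
  classical
  let K := AlgebraicClosure F
  have hpF : (p : F) ≠ 0 := by
    intro h
    obtain ⟨l, hl⟩ := CharP.exists F
    obtain ⟨m, hlp, hm⟩ := FiniteField.card F l
    rw [CharP.cast_eq_zero_iff F l, Nat.prime_dvd_prime_iff_eq hlp hp.out] at h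
    exact hpq (by rw [hm, h]; exact dvd_pow_self p m.ne_zero)
  have hpK : (p : K) ≠ 0 := by
    rw [← map_natCast (algebraMap F K)]
    exact (map_ne_zero _).2 hpF
  let ρ : Representation K P (Fin n → K) :=
    { toFun := fun g => Matrix.toLin' (((g : GL (Fin n) F) : Matrix (Fin n) (Fin n) F).map
        (algebraMap F K))
      map_one' := by simp [Matrix.map_one, Module.End.one_eq_id]
      map_mul' := fun g h => by
        rw [Subgroup.coe_mul, Units.val_mul, Matrix.map_mul, Matrix.toLin'_mul]
        rfl }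
  have hρ : ∀ (g : P) (v : Fin n → K), ρ g v =
      (((g : GL (Fin n) F) : Matrix (Fin n) (Fin n) F).map (algebraMap F K)).mulVec v :=
    fun g v => rfl
  have hker : ρ.ker = ⊥ := by
    rw [eq_bot_iff]
    intro g hg
    rw [Subgroup.mem_bot]
    have h1 : ((g : GL (Fin n) F) : Matrix (Fin n) (Fin n) F).map (algebraMap F K) =
        (1 : Matrix (Fin n) (Fin n) F).map (algebraMap F K) := by
      apply Matrix.toLin'.injective
      rw [Matrix.map_one _ (map_zero _) (map_one _), Matrix.toLin'_one]
      exact MonoidHom.mem_ker.1 hg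
    exact Subtype.ext (Units.ext (Matrix.map_injective (algebraMap F K).injective h1))
  rw [← le_bot_iff, ← hker]
  by_contra hnt
  obtain ⟨W, hW, hirr, hfix⟩ := exists_irr ρ _ (cast_card_ne_zero hpK hP _) hnt
  have := hirr.1
  have hnt' : ¬ derivedSeries P k ≤ (ρ.subrepresentation W hW).ker := fun h => by
    obtain ⟨w, hw⟩ := exists_ne (0 : W)
    exact hw (Subtype.ext (hfix w w.2 fun d hd =>
      congrArg (fun f : End K W => (f w : Fin n → K)) (MonoidHom.mem_ker.1 (h hd))))
  refine hnt' (derivedSeries_le_ker hpK k P W _ hP ?_)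
  obtain ⟨z, hz, hzp, hzc⟩ := exists_central_mod hP (ρ.subrepresentation W hW).ker
    fun h => hnt' (h ▸ le_top)
  obtain ⟨ζ, hζ⟩ := hirr.schur (ρ.subrepresentation W hW z) fun g => by
    have h3 : z * g = ⁅z, g⁆ * (g * z) := by rw [commutatorElement_def]; group
    rw [← map_mul, h3, map_mul, MonoidHom.mem_ker.1 (hzc g), one_mul, map_mul]
  have hζ1 : ζ ≠ 1 := fun h => hz (by rw [MonoidHom.mem_ker, hζ, h, one_smul])
  have hζp : ζ ^ p = 1 := by
    have h1 := MonoidHom.mem_ker.1 hzp
    rw [map_pow, hζ, smul_pow, one_pow] at h1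
    obtain ⟨w, hw⟩ := exists_ne (0 : W)
    have h2 : ζ ^ p • w = (1 : K) • w := by
      rw [one_smul]
      exact congrArg (fun f : End K W => f w) h1
    exact smul_left_injective K hw h2
  have hord : orderOf ζ = p := orderOf_eq_prime hζp hζ1
  let σ := FiniteField.frobeniusAlgEquivOfAlgebraic F K
  have hσ : ∀ (i : ℕ) (x : K), (σ ^ i) x = x ^ Fintype.card F ^ i := fun i x => by
    induction i with
    | zero => simp
    | succ i ih =>
      rw [pow_succ', AlgEquiv.mul_apply, ih, pow_succ, pow_mul]
      rfl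
  have hWE : W ≤ End.eigenspace (ρ z) ζ := fun w hw => by
    rw [End.mem_eigenspace_iff]
    exact congrArg (fun f : End K W => (f ⟨w, hw⟩ : Fin n → K)) hζ
  have h1 := card_mul_le_finrank (ρ z)
    (fun i : Fin (orderOf (Fintype.card F : ZMod p)) => (σ ^ (i : ℕ)) ζ)
    (fun i j hij => by
      simp only [hσ] at hij
      rw [(isOfFinOrder_iff_pow_eq_one.2 ⟨p, hp.out.pos, hζp⟩).pow_eq_pow_iff_modEq, hord, ← ZMod.natCast_eq_natCast_iff, Nat.cast_pow,
        Nat.cast_pow] at hij
      exact Fin.ext (pow_injOn_Iio_orderOf i.2 j.2 hij))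
    (d := finrank K W) fun i => by
      let j : W →+ End.eigenspace (ρ z) ((σ ^ (i : ℕ)) ζ) :=
        { toFun := fun w => ⟨fun t => (σ ^ (i : ℕ)) ((w : Fin n → K) t), by
            have h2 := End.mem_eigenspace_iff.1 (hWE w.2)
            rw [End.mem_eigenspace_iff]
            funext t
            have h3 := congrArg (σ ^ (i : ℕ)) (congrFun h2 t)
            simpa only [hρ, Matrix.mulVec, dotProduct, map_sum, map_mul, Matrix.map_apply,
              AlgEquiv.commutes, Pi.smul_apply, smul_eq_mul] using h3⟩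
          map_zero' := by ext t; simp
          map_add' := fun a b => by ext t; simp }
      have h4 := rank_le_of_surjective_injective (σ ^ (i : ℕ)) j (σ ^ (i : ℕ)).surjective
        (fun a b hab => by
          ext t
          exact (σ ^ (i : ℕ)).injective (congrFun (congrArg Subtype.val hab) t))
        (fun r w => by ext t; simp [j])
      exact finrank_le_finrank_of_rank_le_rank (by simpa using h4) (rank_lt_aleph0 _ _)
  rw [Fintype.card_fin, finrank_fin_fun] at h1
  exact Nat.lt_of_mul_lt_mul_left (h1.trans_lt hn)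

/-- The representation of a wreath product induced from a representation of the base. -/
def wreathRep {F G Q V : Type*} [Field F] [Group G] [Group Q] [AddCommGroup V] [Module F V]
    (ρ : Representation F G V) : Representation F (G ≀ᵣ Q) (Q → V) where
  toFun w := LinearMap.pi fun x => ρ (w.left x) ∘ₗ LinearMap.proj (w.right⁻¹ * x)
  map_one' := by ext v x; simp
  map_mul' a b := by ext v x; simp [mul_assoc]

theorem wreathRep_injective {F G Q V : Type*} [Field F] [Group G] [Group Q] [AddCommGroup V]
    [Module F V] [Nontrivial V] (ρ : Representation F G V) (hρ : Function.Injective ρ) :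
    Function.Injective (wreathRep (Q := Q) ρ) := by
  classical
  rw [injective_iff_map_eq_one]
  intro w hw
  have h : ∀ (v : Q → V) (x : Q), ρ (w.left x) (v (w.right⁻¹ * x)) = v x := fun v x =>
    congrFun (congrArg (fun f : End F (Q → V) => f v) hw) x
  have h1 : w.right = 1 := by
    by_contra h1
    obtain ⟨u, hu⟩ := exists_ne (0 : V)
    have h2 := h (Pi.single 1 u) 1
    rw [mul_one, Pi.single_eq_of_ne (inv_ne_one.2 h1), map_zero, Pi.single_eq_same] at h2
    exact hu h2.symm
  ext x
  · apply hρ
    ext u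
    simpa using h (fun _ => u) x
  · exact h1

theorem derivedSeries_wreath_ne_bot {G Q : Type*} [Group G] [CommGroup Q] [Nontrivial Q] {k : ℕ}
    (h : derivedSeries G k ≠ ⊥) : derivedSeries (G ≀ᵣ Q) (k + 1) ≠ ⊥ := by
  classical
  intro h1
  have hr : ∀ w : commutator (G ≀ᵣ Q), (w : G ≀ᵣ Q).right = 1 := fun w =>
    Abelianization.commutator_subset_ker (RegularWreathProduct.rightHom (D := G) (Q := Q)) w.2
  let π : commutator (G ≀ᵣ Q) →* G :=
    { toFun := fun w => (w : G ≀ᵣ Q).left 1
      map_one' := rfl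
      map_mul' := fun a b => by simp [hr a] }
  have hπ : Function.Surjective π := fun g => by
    obtain ⟨q, hq⟩ := exists_ne (1 : Q)
    refine ⟨⟨⁅(⟨Pi.mulSingle 1 g, 1⟩ : G ≀ᵣ Q), RegularWreathProduct.inl q⁆,
      Subgroup.commutator_mem_commutator (Subgroup.mem_top _) (Subgroup.mem_top _)⟩, ?_⟩
    simp [π, commutatorElement_def, hq]
  refine h (derivedSeries_eq_bot_of_surjective π hπ ?_)
  have h2 : ∀ j, (derivedSeries (commutator (G ≀ᵣ Q)) j).map (commutator (G ≀ᵣ Q)).subtype =
      derivedSeries (G ≀ᵣ Q) (j + 1) := fun j => by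
    induction j with
    | zero => rw [derivedSeries_zero, ← MonoidHom.range_eq_map, Subgroup.range_subtype]; rfl
    | succ j ih => rw [map_subtype_derivedSeries_succ, ih, ← derivedSeries_succ]
  rw [← Subgroup.map_eq_bot_iff_of_injective _ (commutator (G ≀ᵣ Q)).subtype_injective, h2, h1]

theorem exists_rep_derivedSeries_ne_bot (F : Type u) [Field F] [Fintype F] {p : ℕ}
    [hp : Fact p.Prime] (hpq : ¬ p ∣ Fintype.card F) (k : ℕ) :
    ∃ (G : Type u) (_ : Group G) (_ : Finite G) (V : Type u) (_ : AddCommGroup V) (_ : Module F V)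
      (_ : FiniteDimensional F V) (ρ : Representation F G V), Function.Injective ρ ∧
      IsPGroup p G ∧ derivedSeries G k ≠ ⊥ ∧
      finrank F V = orderOf (Fintype.card F : ZMod p) * p ^ k := by
  classical
  have he : 0 < orderOf (Fintype.card F : ZMod p) := by
    refine (isOfFinOrder_iff_pow_eq_one.2 ⟨p - 1, by have := hp.out.two_le; omega, ?_⟩).orderOf_pos
    exact ZMod.pow_card_sub_one_eq_one (by rwa [Ne, ZMod.natCast_eq_zero_iff])
  induction k with
  | zero =>
    set e := orderOf (Fintype.card F : ZMod p) with he'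
    have h1 : p ∣ Nat.card (GL (Fin e) F) := by
      rw [Matrix.card_GL_field]
      refine Dvd.dvd.trans ?_ (Finset.dvd_prod_of_mem _ (Finset.mem_univ (⟨0, he⟩ : Fin e)))
      rw [← ZMod.natCast_eq_zero_iff, Nat.cast_sub (Nat.pow_le_pow_right Fintype.card_pos
        (Nat.zero_le _))]
      simp [he', pow_orderOf_eq_one]
    obtain ⟨x, hx⟩ := exists_prime_orderOf_dvd_card' p h1
    refine ⟨Subgroup.zpowers x, inferInstance, inferInstance, Fin e → F, inferInstance,
      inferInstance, inferInstance, (Units.coeHom _).comp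
        (Matrix.GeneralLinearGroup.toLin.toMonoidHom.comp (Subgroup.zpowers x).subtype),
      Units.val_injective.comp (Matrix.GeneralLinearGroup.toLin.injective.comp
        Subtype.val_injective), IsPGroup.of_card (n := 1) (by rw [Nat.card_zpowers, hx, pow_one]),
      ?_, by simp⟩
    rw [Ne, derivedSeries_zero_eq_bot_iff, not_subsingleton_iff_nontrivial,
      ← Finite.one_lt_card_iff_nontrivial, Nat.card_zpowers, hx]
    exact hp.out.one_lt
  | succ k ih =>
    obtain ⟨G, _, _, V, _, _, _, ρ, hρ, hG, hd, hV⟩ := ih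
    have : Nontrivial V := nontrivial_of_finrank_pos (R := F) (by
      rw [hV]; exact Nat.mul_pos he (pow_pos hp.out.pos _))
    refine ⟨G ≀ᵣ Multiplicative (ZMod p), inferInstance, inferInstance,
      Multiplicative (ZMod p) → V, inferInstance, inferInstance, inferInstance, wreathRep ρ,
      wreathRep_injective ρ hρ, ?_, derivedSeries_wreath_ne_bot hd, ?_⟩
    · obtain ⟨n, hn⟩ := hG.exists_card_eq
      refine IsPGroup.of_card (n := n * p + 1) ?_
      rw [RegularWreathProduct.card, hn, Nat.card_congr Multiplicative.toAdd, Nat.card_zmod,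
        pow_succ, pow_mul]
    · rw [finrank_pi_fintype, Finset.sum_const, Finset.card_univ, Fintype.card_multiplicative,
        ZMod.card, hV, smul_eq_mul]
      ring

/-- A faithful representation of dimension at most `n` gives an embedding in `GL_n`. -/
theorem exists_injective_GL {F G V : Type*} [Field F] [Group G] [AddCommGroup V] [Module F V]
    [FiniteDimensional F V] (ρ : Representation F G V) (hρ : Function.Injective ρ) {n : ℕ}
    (hn : finrank F V ≤ n) : ∃ φ : G →* GL (Fin n) F, Function.Injective φ := by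
  classical
  let e : (V × (Fin (n - finrank F V) → F)) ≃ₗ[F] (Fin n → F) :=
    LinearEquiv.ofFinrankEq _ _ (by simp; omega)
  let ρ' : G →* End F (V × (Fin (n - finrank F V) → F)) :=
    { toFun := fun g => (ρ g).prodMap LinearMap.id
      map_one' := by ext <;> simp
      map_mul' := fun a b => by ext <;> simp }
  have h1 : Function.Injective ρ' := fun a b h => hρ (by
    ext v
    exact congrArg (fun f : End F (V × (Fin (n - finrank F V) → F)) => (f (v, 0)).1) h)
  let ψ : G →* Matrix (Fin n) (Fin n) F :=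
    (LinearMap.toMatrixAlgEquiv'.toMulEquiv.toMonoidHom.comp
      e.conjRingEquiv.toMulEquiv.toMonoidHom).comp ρ'
  have h2 : Function.Injective ψ :=
    (LinearMap.toMatrixAlgEquiv'.injective.comp e.conjRingEquiv.injective).comp h1
  exact ⟨ψ.toHomUnits, fun a b h => h2 (congrArg Units.val h)⟩

end Cfsg.Lib.Solv.PLin
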