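import Cfsg.Prelude.Def_SylowChains
import Cfsg.Agent.Block.SylowIn

/-!
Families of subgroups controlling Sylow intersections, as reflexive-transitive closures.
-/

set_option autoImplicit false

namespace Cfsg.Lib.Solv.SC

open Cfsg.Lib.Block Subgroup
open scoped Pointwise

theorem reflTransGen_iff_fin {α : Type*} {r : α → α → Prop} {a b : α} :
    Relation.ReflTransGen r a b ↔ ∃ (n : ℕ) (c : Fin (n + 1) → α), c 0 = a ∧ c (Fin.last n) = b ∧
      ∀ i : Fin n, r (c i.castSucc) (c i.succ) := by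
  constructor
  · intro h
    induction h with
    | refl => exact ⟨0, fun _ => a, rfl, rfl, fun i => i.elim0⟩
    | @tail U V _ h ih =>
      obtain ⟨n, c, h0, h1, h2⟩ := ih
      refine ⟨n + 1, Fin.snoc (α := fun _ => α) c V, ?_, by simp, ?_⟩
      · rw [← h0]
        exact Fin.snoc_castSucc (α := fun _ => α) V c 0
      · intro i
        refine Fin.lastCases ?_ (fun j => ?_) i
        · simp only [Fin.snoc_castSucc, Fin.succ_last, Fin.snoc_last, h1]
          exact h
        · rw [Fin.snoc_castSucc, Fin.succ_castSucc, Fin.snoc_castSucc]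
          exact h2 j
  · rintro ⟨n, c, rfl, rfl, h⟩
    have : ∀ i : Fin (n + 1), Relation.ReflTransGen r (c 0) (c i) := by
      intro i
      induction i using Fin.induction with
      | zero => exact Relation.ReflTransGen.refl
      | succ i ih => exact ih.tail (h i)
    exact this _

variable {G : Type*} [Group G] {p : ℕ}

/-- One step in a chain controlling the subgroup `A`. -/
def Step (p : ℕ) (𝓕 : Set (Subgroup G)) (A : Subgroup G) (S T : Sylow p G) : Prop :=
  ∃ (X : Subgroup G) (x : G), X ∈ sylowMembers p 𝓕 (S : Subgroup G) ∧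
    X ∈ sylowMembers p 𝓕 (T : Subgroup G) ∧ x ∈ X ∧
    subgroupConjRight x (T : Subgroup G) = (S : Subgroup G) ∧ A ≤ (T : Subgroup G) ⊓ X

/-- Chains controlling the subgroup `A`. -/
def Chain (p : ℕ) (𝓕 : Set (Subgroup G)) (A : Subgroup G) (S T : Sylow p G) : Prop :=
  Relation.ReflTransGen (Step p 𝓕 A) S T

theorem controls_iff {𝓕 : Set (Subgroup G)} :
    ControlsSylowIntersections p 𝓕 ↔ ∀ S T : Sylow p G, S ≠ T →
      (S : Subgroup G) ⊓ (T : Subgroup G) ≠ ⊥ →
      Chain p 𝓕 ((S : Subgroup G) ⊓ (T : Subgroup G)) S T := by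
  refine forall₄_congr fun S T _ _ => ?_
  rw [Chain, reflTransGen_iff_fin]
  constructor
  · rintro ⟨n, c, X, x, h0, h1, h2⟩
    exact ⟨n, c, h0, h1, fun i => ⟨X i, x i, h2 i⟩⟩
  · rintro ⟨n, c, h0, h1, h2⟩
    choose X x h using h2
    exact ⟨n, c, X, x, h0, h1, h⟩

theorem controls_iff' {𝓕 : Set (Subgroup G)} :
    ControlsSylowIntersections p 𝓕 ↔ ∀ S T : Sylow p G,
      (S : Subgroup G) ⊓ (T : Subgroup G) ≠ ⊥ →
      Chain p 𝓕 ((S : Subgroup G) ⊓ (T : Subgroup G)) S T := by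
  rw [controls_iff]
  refine forall₂_congr fun S T => ⟨fun h h1 => ?_, fun h _ h1 => h h1⟩
  by_cases hST : S = T
  · subst hST
    exact Relation.ReflTransGen.refl
  · exact h hST h1

theorem mem_sylowMembers {𝓕 : Set (Subgroup G)} {S X : Subgroup G} :
    X ∈ sylowMembers p 𝓕 S ↔ X ∈ 𝓕 ∧ IsSylowIn p (S ⊓ X) X := Iff.rfl

theorem Step.mono {𝓕 𝓕' : Set (Subgroup G)} {A A' : Subgroup G} {S T : Sylow p G}
    (h : Step p 𝓕 A S T) (h1 : 𝓕 ⊆ 𝓕') (h2 : A' ≤ A) : Step p 𝓕' A' S T := by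
  obtain ⟨X, x, a, b, c, d, e⟩ := h
  exact ⟨X, x, ⟨h1 a.1, a.2⟩, ⟨h1 b.1, b.2⟩, c, d, h2.trans e⟩

theorem Chain.mono {𝓕 𝓕' : Set (Subgroup G)} {A A' : Subgroup G} {S T : Sylow p G}
    (h : Chain p 𝓕 A S T) (h1 : 𝓕 ⊆ 𝓕') (h2 : A' ≤ A) : Chain p 𝓕' A' S T :=
  Relation.ReflTransGen.mono (fun _ _ h => Step.mono h h1 h2) _ _ h

theorem map_conj_mem {𝓕 : Set (Subgroup G)} (h : IsNormalSet 𝓕) {X : Subgroup G} (hX : X ∈ 𝓕)
    (g : G) : X.map (MulAut.conj g).toMonoidHom ∈ 𝓕 := by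
  have := h X hX g⁻¹
  rwa [subgroupConjRight, inv_inv] at this

theorem map_conj_mem_sylowMembers {𝓕 : Set (Subgroup G)} (h : IsNormalSet 𝓕) {S X : Subgroup G}
    (hX : X ∈ sylowMembers p 𝓕 S) (g : G) :
    X.map (MulAut.conj g).toMonoidHom ∈ sylowMembers p 𝓕 (S.map (MulAut.conj g).toMonoidHom) := by
  refine ⟨map_conj_mem h hX.1 g, ?_⟩
  rw [← map_inf _ _ _ (MulAut.conj g).injective]
  exact IsSylowIn.map_conj hX.2 g

theorem coe_smul (g : G) (S : Sylow p G) :
    ((g • S : Sylow p G) : Subgroup G) = (S : Subgroup G).map (MulAut.conj g).toMonoidHom := rfl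

/-- The fusion form of a chain. -/
def FRel (p : ℕ) (𝓕 : Set (Subgroup G)) (S : Subgroup G) (A : Set G) (z z' : G) : Prop :=
  ∃ Y ∈ sylowMembers p 𝓕 S, z⁻¹ * z' ∈ Y ∧ conjRight z' A ⊆ (S : Set G) ∩ (Y : Set G)

theorem Chain.exists_frel {𝓕 : Set (Subgroup G)} (h𝓕 : IsNormalSet 𝓕) {D : Subgroup G}
    {A : Set G} (hA : A ⊆ D) {S T : Sylow p G} (h : Chain p 𝓕 D S T) :
    ∃ z : G, Relation.ReflTransGen (FRel p 𝓕 S A) 1 z ∧ T = z • S := by
  induction h with
  | refl => exact ⟨1, Relation.ReflTransGen.refl, (one_smul _ _).symm⟩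
  | @tail U V _ h ih =>
    obtain ⟨z, hz, rfl⟩ := ih
    obtain ⟨X, x, h1, h2, h3, h4, h5⟩ := h
    have hV : V = (x * z) • S := by
      rw [mul_smul]
      apply Sylow.ext
      rw [coe_smul x, ← h4, subgroupConjRight, map_conj_map_conj, mul_inv_cancel, map_conj_one]
    refine ⟨x * z, hz.tail ⟨X.map (MulAut.conj z⁻¹).toMonoidHom, ?_, ?_, ?_⟩, hV⟩
    · have := map_conj_mem_sylowMembers h𝓕 h1 z⁻¹
      rwa [coe_smul, map_conj_map_conj, inv_mul_cancel, map_conj_one] at this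
    · rw [mem_map_conj_iff]
      simpa [mul_assoc] using h3
    · rintro _ ⟨a, ha, rfl⟩
      have ha' := mem_inf.1 (h5 (hA ha))
      refine ⟨?_, ?_⟩
      · have := ha'.1
        rwa [hV, coe_smul, mem_map_conj_iff] at this
      · rw [SetLike.mem_coe, mem_map_conj_iff]
        have := mul_mem (mul_mem (inv_mem h3) ha'.2) h3
        simpa [mul_assoc] using this

theorem chain_of_frel {𝓕 : Set (Subgroup G)} (h𝓕 : IsNormalSet 𝓕) {D : Subgroup G}
    {S : Sylow p G} {z : G} (h : Relation.ReflTransGen (FRel p 𝓕 S D) 1 z) :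
    Chain p 𝓕 D S (z • S) := by
  induction h with
  | refl => rw [one_smul]; exact Relation.ReflTransGen.refl
  | @tail z z' _ h ih =>
    obtain ⟨Y, h1, h2, h3⟩ := h
    have hY : Y.map (MulAut.conj z).toMonoidHom = Y.map (MulAut.conj z').toMonoidHom := by
      conv_lhs => rw [← map_conj_eq_self_of_mem h2, map_conj_map_conj, mul_inv_cancel_left]
    refine ih.tail ⟨Y.map (MulAut.conj z).toMonoidHom, z' * z⁻¹,
      map_conj_mem_sylowMembers h𝓕 h1 z, ?_, ?_, ?_, ?_⟩
    · rw [hY]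
      exact map_conj_mem_sylowMembers h𝓕 h1 z'
    · rw [mem_map_conj_iff]
      simpa [mul_assoc] using h2
    · rw [subgroupConjRight, coe_smul, coe_smul, map_conj_map_conj]
      simp
    · intro a ha
      have := h3 ⟨a, ha, rfl⟩
      rw [hY, coe_smul, mem_inf, mem_map_conj_iff, mem_map_conj_iff]
      exact this

theorem frel_iff_fin {𝓕 : Set (Subgroup G)} {S : Subgroup G} {A : Set G} {z : G} :
    Relation.ReflTransGen (FRel p 𝓕 S A) 1 z ↔
      ∃ (n : ℕ) (Y : Fin n → Subgroup G) (y : Fin n → G),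
        (∀ i : Fin n, Y i ∈ sylowMembers p 𝓕 S ∧ y i ∈ Y i) ∧ z = (List.ofFn y).prod ∧
        ∀ i : Fin n, conjRight (((List.ofFn y).take (i.val + 1)).prod) A ⊆
          (S : Set G) ∩ (Y i : Set G) := by
  have hlast : ∀ {n : ℕ} (y : Fin n → G), Fin.partialProd y (Fin.last n) = (List.ofFn y).prod := by
    intro n y
    rw [Fin.partialProd, List.take_of_length_le (by simp)]
  rw [reflTransGen_iff_fin]
  constructor
  · rintro ⟨n, c, h0, h1, h2⟩
    choose Y h3 h4 h5 using h2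
    have h6 := Fin.partialProd_left_inv c
    rw [h0, one_smul] at h6
    refine ⟨n, Y, fun i => (c i.castSucc)⁻¹ * c i.succ, fun i => ⟨h3 i, h4 i⟩, ?_, fun i => ?_⟩
    · rw [← hlast, h6, h1]
    · have h7 := congrFun h6 i.succ
      rw [Fin.partialProd, Fin.val_succ] at h7
      rw [h7]
      exact h5 i
  · rintro ⟨n, Y, y, h1, rfl, h3⟩
    refine ⟨n, Fin.partialProd y, Fin.partialProd_zero y, hlast y, fun i => ⟨Y i, (h1 i).1, ?_, ?_⟩⟩
    · rw [Fin.partialProd_succ, inv_mul_cancel_left]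
      exact (h1 i).2
    · exact h3 i

/-! ### Families induced by a functor -/

/-- Adjacent Sylow subgroups of `M` for the functor `f`. -/
def FStep (p : ℕ) (f : Subgroup G → Set (Subgroup G)) (M A P Q : Subgroup G) : Prop :=
  IsSylowIn p P M ∧ IsSylowIn p Q M ∧ (∃ F ∈ f P, F ∈ f Q) ∧ A ≤ Q

variable [Finite G] [hp : Fact p.Prime] {f : Subgroup G → Set (Subgroup G)}

omit [Finite G] hp in
theorem le_normalizer_of_mem (hf : IsNormalizerFunctor p f) {P F : Subgroup G}
    (hP : IsPGroup p P) (hF : F ∈ f P) : P ≤ normalizer (F : Set G) :=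
  le_normalizer.trans ((hf P hP).1 F hF).2

theorem mem_of_le_normalizer (hf : IsNormalizerFunctor p f) {M R S F : Subgroup G}
    (hR : IsSylowIn p R M) (hS : IsSylowIn p S M) (hF : F ∈ f R)
    (hSF : S ≤ normalizer (F : Set G)) : F ∈ f S := by
  have hR' : IsSylowIn p R (M ⊓ normalizer (F : Set G)) :=
    hR.of_le (le_inf hR.le (le_normalizer_of_mem hf hR.isPGroup hF)) inf_le_left
  have hS' : IsSylowIn p S (M ⊓ normalizer (F : Set G)) := hS.of_le (le_inf hS.le hSF) inf_le_left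
  obtain ⟨x, hx, rfl⟩ := hR'.exists_conj hS'
  rw [(hf R hR.isPGroup).2 x]
  exact ⟨F, hF, map_conj_eq_self_iff.2 hx.2⟩

theorem le_of_isSylowIn_inf {S R : Sylow p G} {X : Subgroup G} (hR : (R : Subgroup G) ≤ X)
    (h : IsSylowIn p ((S : Subgroup G) ⊓ X) X) : (S : Subgroup G) ≤ X := by
  have h1 := h.card_eq_card (isSylowIn_of_sylow_le R hR)
  rw [R.card_eq_multiplicity, ← S.card_eq_multiplicity] at h1
  exact inf_eq_left.1 (eq_of_le_of_card_ge inf_le_left h1.ge)

theorem step_of_le {𝓕 : Set (Subgroup G)} {X A : Subgroup G} (hX : X ∈ 𝓕) {S T : Sylow p G}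
    (hS : (S : Subgroup G) ≤ X) (hT : (T : Subgroup G) ≤ X) (hA : A ≤ T) : Step p 𝓕 A S T := by
  obtain ⟨x, hx, h⟩ := (isSylowIn_of_sylow_le T hT).exists_conj (isSylowIn_of_sylow_le S hS)
  refine ⟨X, x⁻¹, ⟨hX, ?_⟩, ⟨hX, ?_⟩, inv_mem hx, ?_, le_inf hA (hA.trans hT)⟩
  · rw [inf_eq_left.2 hS]
    exact isSylowIn_of_sylow_le S hS
  · rw [inf_eq_left.2 hT]
    exact isSylowIn_of_sylow_le T hT
  · rw [subgroupConjRight, inv_inv, h]

theorem step_iff_fstep (hf : IsNormalizerFunctor p f) {M : Subgroup G} {A : Subgroup M}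
    {S T : Sylow p M} :
    Step p ((fun X : Subgroup G => X.subgroupOf M) '' functorFamily p f M) A S T ↔
      FStep p f M (A.map M.subtype) ((S : Subgroup M).map M.subtype)
        ((T : Subgroup M).map M.subtype) := by
  constructor
  · rintro ⟨_, x, ⟨⟨_, ⟨R, F, hF, rfl⟩, rfl⟩, h1⟩, ⟨-, h2⟩, -, -, h3⟩
    have hR : (R : Subgroup M) ≤ (M ⊓ normalizer (F : Set G)).subgroupOf M :=
      map_le_iff_le_comap.1 (le_inf (map_subtype_le _)
        (le_normalizer_of_mem hf (R.isPGroup'.map _) hF))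
    have key : ∀ U : Sylow p M, IsSylowIn p ((U : Subgroup M) ⊓
        (M ⊓ normalizer (F : Set G)).subgroupOf M) ((M ⊓ normalizer (F : Set G)).subgroupOf M) →
        F ∈ f ((U : Subgroup M).map M.subtype) := fun U hU =>
      mem_of_le_normalizer hf (isSylowIn_map p M R) (isSylowIn_map p M U) hF
        ((map_le_iff_le_comap.2 (le_of_isSylowIn_inf hR hU)).trans inf_le_right)
    exact ⟨isSylowIn_map p M S, isSylowIn_map p M T, ⟨F, key S h1, key T h2⟩,
      map_mono (h3.trans inf_le_left)⟩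
  · rintro ⟨-, -, ⟨F, hF1, hF2⟩, hA⟩
    have hX : (M ⊓ normalizer (F : Set G)).subgroupOf M ∈
        (fun X : Subgroup G => X.subgroupOf M) '' functorFamily p f M :=
      ⟨_, ⟨S, F, hF1, rfl⟩, rfl⟩
    refine step_of_le hX ?_ ?_ ((map_le_map_iff_of_injective M.subtype_injective).1 hA)
    · exact map_le_iff_le_comap.1 (le_inf (map_subtype_le _)
        (le_normalizer_of_mem hf (S.isPGroup'.map _) hF1))
    · exact map_le_iff_le_comap.1 (le_inf (map_subtype_le _)
        (le_normalizer_of_mem hf (T.isPGroup'.map _) hF2))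

theorem isFunctorRegular_iff (hf : IsNormalizerFunctor p f) {M : Subgroup G} :
    IsFunctorRegular p f M ↔ ∀ P Q : Subgroup G, IsSylowIn p P M → IsSylowIn p Q M →
      P ⊓ Q ≠ ⊥ → Relation.ReflTransGen (FStep p f M (P ⊓ Q)) P Q := by
  rw [IsFunctorRegular, controls_iff']
  constructor
  · rintro h _ _ ⟨S, rfl⟩ ⟨T, rfl⟩ h0
    rw [← map_inf _ _ _ M.subtype_injective] at h0 ⊢
    have h1 : (S : Subgroup M) ⊓ (T : Subgroup M) ≠ ⊥ := fun h2 => h0 (by rw [h2, Subgroup.map_bot])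
    exact Relation.ReflTransGen.lift (fun U : Sylow p M => (U : Subgroup M).map M.subtype)
      (fun _ _ h => (step_iff_fstep hf).1 h) _ _ (h S T h1)
  · intro h S T h0
    have h1 := h _ _ (isSylowIn_map p M S) (isSylowIn_map p M T) (by
      rw [← map_inf _ _ _ M.subtype_injective, Ne,
        map_eq_bot_iff_of_injective _ M.subtype_injective]
      exact h0)
    rw [← map_inf _ _ _ M.subtype_injective] at h1
    generalize (S : Subgroup M) ⊓ (T : Subgroup M) = A at h1 ⊢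
    clear h0
    generalize hQ : (T : Subgroup M).map M.subtype = Q at h1
    induction h1 generalizing T with
    | refl =>
      have : T = S := Sylow.ext (map_injective M.subtype_injective hQ)
      subst this
      exact Relation.ReflTransGen.refl
    | tail _ h2 ih =>
      obtain ⟨U, rfl⟩ := h2.1
      subst hQ
      exact (ih U rfl).tail ((step_iff_fstep hf).2 h2)

theorem step_of_fstep (hf : IsNormalizerFunctor p f) {M A : Subgroup G} {S T : Sylow p G}
    (h : FStep p f M A S T) : Step p (functorFamily p f ⊤) A S T := by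
  obtain ⟨-, -, ⟨F, hF1, hF2⟩, hA⟩ := h
  obtain ⟨R, hR⟩ := isSylowIn_of_sylow_le S (le_top : (S : Subgroup G) ≤ ⊤)
  have hX : ⊤ ⊓ normalizer (F : Set G) ∈ functorFamily p f ⊤ := ⟨R, F, hR ▸ hF1, rfl⟩
  refine step_of_le hX ?_ ?_ hA
  · exact le_inf le_top (le_normalizer_of_mem hf S.isPGroup' hF1)
  · exact le_inf le_top (le_normalizer_of_mem hf T.isPGroup' hF2)

end Cfsg.Lib.Solv.SC
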