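import Cfsg.Agent.Solv.OneInvB
import Cfsg.Agent.Solv.FrattiniP
import Cfsg.Agent.Solv.PGroupNormal

/-!
Solvable groups with one class of involutions (Thompson): if `O(G) = 1` and there are two
involutions in a Sylow `2`-subgroup, then the Sylow `2`-subgroup is normal.
-/

set_option autoImplicit false

namespace Cfsg.Lib.Solv.OneInv

open Subgroup
open scoped commutatorElement

variable {G : Type*} [Group G] [Finite G]

/-- The solutions of `x² = 1` form a subgroup `V` of order `> 2`, and all involutions are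
conjugate. -/
structure Bas (V : Subgroup G) : Prop where
  memV : ∀ x, x ∈ V ↔ x ^ 2 = 1
  conj : ∀ x y : G, x ≠ 1 → x ^ 2 = 1 → y ≠ 1 → y ^ 2 = 1 → IsConj x y
  three : 2 < Nat.card V

theorem exists_odd_pow (c : G) : ∃ j, Odd (orderOf (c ^ 2 ^ j)) := by
  obtain ⟨j, m, hm, h⟩ := Nat.exists_eq_two_pow_mul_odd (orderOf_pos c).ne'
  refine ⟨j, hm.of_dvd_nat (orderOf_dvd_of_pow_eq_one ?_)⟩
  rw [← pow_mul, ← h, pow_orderOf_eq_one]

theorem exists_invol {P : Subgroup G} (h : 2 ∣ Nat.card P) : ∃ u ∈ P, u ≠ 1 ∧ u ^ 2 = 1 := by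
  obtain ⟨u, hu⟩ := exists_prime_orderOf_dvd_card' (G := P) 2 h
  rw [← orderOf_coe] at hu
  exact ⟨u, u.2, fun e => by simp [e] at hu, hu ▸ pow_orderOf_eq_one _⟩

theorem two_dvd_card {P : Subgroup G} (hP : IsPGroup 2 P) (h : P ≠ ⊥) : 2 ∣ Nat.card P := by
  obtain ⟨k, hk⟩ := IsPGroup.iff_card.1 hP
  rcases k with _ | k
  · exact absurd (card_eq_one.1 hk) h
  · exact hk ▸ dvd_pow_self 2 k.succ_ne_zero

namespace Bas

variable {V : Subgroup G}

omit [Finite G] in
theorem le_of_mem (h : Bas V) {E : Subgroup G} [hE : E.Normal] {u : G} (hu : u ∈ E) (h1 : u ≠ 1)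
    (h2 : u ^ 2 = 1) : V ≤ E := fun v hv => by
  by_cases hv1 : v = 1
  · exact hv1 ▸ one_mem _
  obtain ⟨g, rfl⟩ := isConj_iff.1 (h.conj u v h1 h2 hv1 ((h.memV v).1 hv))
  exact hE.conj_mem u hu g

theorem sylow_le [Group.IsSolvable G] (h : Bas V) (S : Sylow 2 G) :
    (S : Subgroup G) ≤ centralizer V := by
  have := normal_of_memV h.memV
  set C := centralizer (V : Set G) with hC
  by_cases hCt : C = ⊤
  · exact hCt ▸ le_top
  have : Nontrivial (G ⧸ C) := QuotientGroup.nontrivial_iff.2 hCt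
  obtain ⟨r, A, hr, hA, -, -, hAr⟩ := exists_isMinNormal_elementary (G ⧸ C)
  have := Fact.mk hr
  have := hA.normal
  let E := A.comap (QuotientGroup.mk' C)
  let R₀ : Sylow r E := default
  let R := (R₀ : Subgroup E).map E.subtype
  have hRr : IsPGroup r R := R₀.2.map _
  have hE : E ≤ R ⊔ C := by
    rw [← relIndex_eq_one]
    have h1 : (R ⊔ C).relIndex E ∣ R₀.index := by
      have := relIndex_dvd_of_le_left E (le_sup_left : R ≤ R ⊔ C)
      rwa [show R.relIndex E = R₀.index from congrArg index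
        (comap_map_eq_self_of_injective E.subtype_injective _)] at this
    have h2 : (R ⊔ C).relIndex E ∣ Nat.card A := by
      have := relIndex_dvd_of_le_left E (le_sup_right : C ≤ R ⊔ C)
      rwa [show C.relIndex E = Nat.card A by
        rw [← map_comap_eq_self_of_surjective (QuotientGroup.mk'_surjective C) A,
          ← relIndex_ker, QuotientGroup.ker_mk']] at this
    obtain ⟨k, hk⟩ := IsPGroup.iff_card.1 hAr
    have h3 : (Nat.card A).Coprime R₀.index := by
      rw [hk]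
      exact (hr.coprime_iff_not_dvd.2 R₀.not_dvd_index).pow_left k
    exact Nat.eq_one_of_dvd_coprimes h3 h2 h1
  have hfix : ∀ u ∈ V, u ∈ centralizer (R : Set G) → u = 1 := fun u hu huR => by_contra fun h1 => by
    have h2 : u ∈ centralizer (E : Set G) := by
      refine le_centralizer_iff.1 (hE.trans (sup_le ?_ ?_) : E ≤ centralizer (zpowers u : Set G))
        (mem_zpowers u)
      · exact le_centralizer_iff.1 (zpowers_le_of_mem huR)
      · exact centralizer_le (zpowers_le_of_mem hu)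
    have h3 : E ≤ C := le_centralizer_iff.1 (h.le_of_mem h2 h1 ((h.memV u).1 hu))
    refine hA.ne_bot (eq_bot_iff.2 fun a ha => ?_)
    obtain ⟨g, rfl⟩ := QuotientGroup.mk'_surjective C a
    exact (QuotientGroup.eq_one_iff g).2 (h3 ha)
  by_cases h2 : 2 ∣ Nat.card (normalizer (R : Set G))
  · exfalso
    by_cases hr2 : r = 2
    · subst hr2
      refine PG.inf_centralizer_ne_bot hRr (isPGroup_of_memV h.memV) (le_normalizer_of_normal)
        (fun e => ?_) (eq_bot_iff.2 fun u hu => hfix u hu.1 hu.2)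
      have := h.three
      simp [e] at this
    obtain ⟨u, hu, hu1, hu2⟩ := exists_invol h2
    have huV := (h.memV u).2 hu2
    refine hu1 (hfix u huV (mem_centralizer_iff.2 fun x hx => ?_))
    have h3 : ⁅x, u⁆ ∈ V ⊓ R := mem_inf.2 ⟨by
      rw [commutatorElement_def]
      exact mul_mem (Normal.conj_mem inferInstance u huV x) (inv_mem huV), by
      rw [commutatorElement_def, mul_assoc, mul_assoc, ← mul_assoc u]
      exact R.mul_mem hx ((mem_normalizer_iff.1 hu _).1 (R.inv_mem hx))⟩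
    rwa [disjoint_iff.1 (IsPGroup.disjoint_of_ne 2 r (Ne.symm hr2) V R (isPGroup_of_memV h.memV) hRr),
      mem_bot, commutatorElement_eq_one_iff_mul_comm] at h3
  · have h3 : normalizer (R : Set G) ⊔ C = ⊤ := by
      rw [eq_top_iff, ← R₀.normalizer_sup_eq_top]
      exact sup_le le_sup_left (hE.trans (sup_le_sup_right le_normalizer _))
    have h4 : C.index ∣ Nat.card (normalizer (R : Set G)) := by
      rw [← relIndex_top_right, ← h3, relIndex_sup_right]
      exact index_dvd_card _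
    refine le_of_coprime_card_index (coprime_card_of_isPGroup S.2 ?_)
    exact ((Nat.prime_two.coprime_iff_not_dvd).2 fun e => h2 (e.trans h4)).symm

theorem le_of_comm (h : Bas V) (S : Sylow 2 G) (hS : (S : Subgroup G) ≤ centralizer V)
    (K : Subgroup G) (hK : ∀ a b : G, ⁅a, b⁆ ∈ K) : (S : Subgroup G) ≤ K := by
  have := normal_of_memV h.memV
  intro s hs
  by_contra hsK
  let X := {x : G // x ∈ (S : Subgroup G) ∧ s⁻¹ * x ∈ K}
  have ho : ∀ x : X, orderOf (x.1 ^ (orderOf x.1 / 2)) = 2 := fun x => by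
    refine orderOf_pow_orderOf_div (orderOf_pos _).ne' ?_
    obtain ⟨k, hk⟩ := IsPGroup.iff_orderOf.1 S.2 ⟨x.1, x.2.1⟩
    rw [← orderOf_coe] at hk
    rcases k with _ | k
    · have h1 := x.2.2
      rw [orderOf_eq_one_iff.1 hk, mul_one, inv_mem_iff] at h1
      exact absurd h1 hsK
    · exact hk ▸ dvd_pow_self 2 k.succ_ne_zero
  let f : X → {v : V // v ≠ 1} := fun x =>
    ⟨⟨x.1 ^ (orderOf x.1 / 2), (h.memV _).2 (orderOf_dvd_iff_pow_eq_one.1 (ho x).dvd)⟩, fun e => by
      have h1 := ho x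
      rw [show x.1 ^ (orderOf x.1 / 2) = 1 from congrArg Subtype.val e] at h1
      simp at h1⟩
  have hcj : ∀ y ∈ normalizer ((S : Subgroup G) : Set G), ∀ x : G,
      x ∈ (S : Subgroup G) ∧ s⁻¹ * x ∈ K ↔
      MulAut.conj y x ∈ (S : Subgroup G) ∧ s⁻¹ * MulAut.conj y x ∈ K := fun y hy x => by
    refine and_congr (mem_normalizer_iff.1 hy x) ?_
    rw [show s⁻¹ * MulAut.conj y x = s⁻¹ * x * ⁅x⁻¹, y⁆ by
      simp only [commutatorElement_def, MulAut.conj_apply]; group, mul_mem_cancel_right (hK _ _)]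
  have h1 := card_eq_mul_fiber f (f ⟨s, hs, by simp⟩) fun t => by
    generalize f ⟨s, hs, by simp⟩ = t₀
    obtain ⟨g, hg⟩ := isConj_iff.1 (h.conj t₀.1 t.1 (fun e => t₀.2 (Subtype.ext e))
      ((h.memV _).1 t₀.1.2) (fun e => t.2 (Subtype.ext e)) ((h.memV _).1 t.1.2))
    have h2 : g ∈ normalizer ((S : Subgroup G) : Set G) ⊔ centralizer V :=
      (S.normalizer_sup_eq_top' hS).ge trivial
    rw [← SetLike.mem_coe, mul_normal] at h2
    obtain ⟨y, hy, c, hc, rfl⟩ := h2
    have h3 : y * t₀.1 * y⁻¹ = t.1 := by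
      rw [← hg]
      have := hc t₀.1 t₀.1.2
      calc y * t₀.1 * y⁻¹ = y * (t₀.1 * c) * c⁻¹ * y⁻¹ := by group
        _ = _ := by rw [this]; group
    refine ⟨(MulAut.conj y).toEquiv.subtypeEquiv (hcj y hy), fun x => ?_⟩
    rw [Subtype.ext_iff, Subtype.ext_iff, Subtype.ext_iff, Subtype.ext_iff]
    change x.1 ^ (orderOf x.1 / 2) = _ ↔
      MulAut.conj y x.1 ^ (orderOf (MulAut.conj y x.1) / 2) = _
    rw [MulEquiv.orderOf_eq, ← map_pow, ← h3, MulAut.conj_apply, mul_left_inj, mul_right_inj]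
  have h2 : Nat.card X = Nat.card ((S : Subgroup G) ⊓ K : Subgroup G) :=
    Nat.card_congr ((Equiv.mulLeft s⁻¹).subtypeEquiv fun x =>
      and_congr (mul_mem_cancel_left (inv_mem hs)).symm Iff.rfl)
  have h3 : Nat.card {v : V // v ≠ 1} = Nat.card V - 1 := by
    classical
    have := Fintype.ofFinite V
    simp [Fintype.card_subtype_compl]
  obtain ⟨j, hj⟩ := IsPGroup.iff_card.1 (S.2.to_inf_left (K := K))
  obtain ⟨n, hn⟩ := IsPGroup.iff_card.1 (isPGroup_of_memV h.memV)
  have h4 := h.three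
  obtain ⟨i, -, hi⟩ := (Nat.dvd_prime_pow Nat.prime_two).1
    (show Nat.card V - 1 ∣ 2 ^ j from ⟨_, by rw [← hj, ← h2, h1, h3]⟩)
  rw [hn] at hi h4
  rcases i with _ | i
  · omega
  rcases n with _ | n
  · omega
  rw [pow_succ, pow_succ] at hi
  omega

theorem exists_hyp (h : Bas V) {Q : Subgroup G} [hQn : Q.Normal] (hQ : IsPGroup 2 Q) {Ω : Set G}
    [(closure Ω).Normal] (hodd : ∀ x ∈ Ω, Odd (orderOf x)) (hC : closure Ω ≤ centralizer V)
    (hn : ¬ Q ≤ centralizer (closure Ω : Subgroup G)) :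
    ∃ D, Hyp V D ∧ ⁅D, closure Ω⁆ = D ∧
      ∀ E : Subgroup G, E.Normal → E < D → E ≤ centralizer (closure Ω : Subgroup G) := by
  obtain ⟨D, ⟨hDn, hDQ, hDc⟩, hmin⟩ := (wellFounded_lt (α := Subgroup G)).has_min
    {D | D.Normal ∧ D ≤ Q ∧ ¬ D ≤ centralizer (closure Ω : Subgroup G)} ⟨Q, hQn, le_rfl, hn⟩
  replace hmin : ∀ E : Subgroup G, E.Normal → E < D → E ≤ centralizer (closure Ω : Subgroup G) :=
    fun E h1 h2 => by_contra fun h3 => hmin E ⟨h1, h2.le.trans hDQ, h3⟩ h2
  have hD : IsPGroup 2 D := hQ.to_le hDQ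
  have ha : ⁅D, closure Ω⁆ = D := by
    by_contra hne
    have h1 := hmin _ inferInstance (lt_of_le_of_ne (commutator_le_left _ _) hne)
    refine hDc fun d hd => ?_
    rw [centralizer_closure]
    intro x hx
    have h2 : ⁅x, d⁆ ∈ ⁅D, closure Ω⁆ := by
      rw [Subgroup.commutator_comm]
      exact commutator_mem_commutator (subset_closure hx) hd
    exact commutatorElement_eq_one_iff_mul_comm.1 (eq_one_of_conj_eq_mul (d := d) (hodd x hx)
      (pow_two_pow_of_mem hD (commutator_le_left _ _ h2)) (h1 h2 x (subset_closure hx))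
      (by rw [commutatorElement_def]; group))
  have hb : ∀ E : Subgroup G, E.Normal → E < D → E ≤ centralizer D := fun E hE hlt => by
    rw [← le_centralizer_iff, ← commutator_eq_bot_iff_le_centralizer, ← ha]
    refine commutator_commutator_eq_bot_of_rotate ?_ ?_
    · rw [commutator_eq_bot_iff_le_centralizer.2 (le_centralizer_iff.1 (hmin E hE hlt)),
        commutator_bot_left]
    · exact commutator_eq_bot_iff_le_centralizer.2 ((commutator_le_left _ _).trans (hmin E hE hlt))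
  have hD0 : D ≠ ⊥ := fun e => hDc (e ▸ bot_le)
  have hΦ : (frattini D).map D.subtype < D := by
    refine lt_of_le_of_ne (map_subtype_le _) fun e => hD0 ?_
    have h1 : frattini D = ⊤ := map_injective D.subtype_injective
      (by rw [e, ← MonoidHom.range_eq_map, range_subtype])
    have h2 := frattini_nongenerating (K := (⊥ : Subgroup D)) (by rw [h1, bot_sup_eq])
    rw [← map_bot D.subtype, h2, ← MonoidHom.range_eq_map, range_subtype]
  have hsq : ∀ d ∈ D, d ^ 2 ∈ (frattini D).map D.subtype := fun d hd =>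
    ⟨_, pow_mem_frattini hD ⟨d, hd⟩, rfl⟩
  have hcm : ∀ a ∈ D, ∀ b ∈ D, ⁅a, b⁆ ∈ (frattini D).map D.subtype := fun a ha b hb => by
    have := hD.isNilpotent
    exact ⟨⁅(⟨a, ha⟩ : D), (⟨b, hb⟩ : D)⁆, commutator_le_frattini_of_isNilpotent
      (commutator_mem_commutator (mem_top _) (mem_top _)), rfl⟩
  have hZ := hb _ inferInstance hΦ
  have hmul : ∀ a ∈ D, ∀ b ∈ D, (a * b) ^ 4 = a ^ 4 * b ^ 4 := fun a ha b hb => by
    have c1 : ∀ y ∈ D, Commute y ⁅b, a⁆ := fun y hy => hZ (hcm b hb a ha) y hy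
    have c2 : Commute (a ^ 2) (b ^ 2) := hZ (hsq b hb) _ (pow_mem ha 2)
    have h1 : (a * b) ^ 2 = a ^ 2 * b ^ 2 * ⁅b, a⁆ := by
      calc (a * b) ^ 2 = a * (⁅b, a⁆ * (a * b ^ 2)) := by
            simp only [commutatorElement_def, pow_two]; group
        _ = _ := by
          rw [← (c1 _ (mul_mem ha (pow_mem hb 2))).eq]; simp only [pow_two, mul_assoc]
    have h2 : ⁅b, a⁆ ^ 2 = 1 := by
      have h3 : ⁅b ^ 2, a⁆ = 1 :=
        commutatorElement_eq_one_iff_mul_comm.2 (hZ (hsq b hb) a ha).symm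
      rw [← h3]
      calc ⁅b, a⁆ ^ 2 = b * ⁅b, a⁆ * b⁻¹ * ⁅b, a⁆ := by
            rw [(c1 b hb).eq, mul_inv_cancel_right, pow_two]
        _ = _ := by simp only [commutatorElement_def, pow_two]; group
    rw [show 4 = 2 * 2 from rfl, pow_mul, pow_mul, pow_mul, h1,
      (c1 _ (mul_mem (pow_mem ha 2) (pow_mem hb 2))).mul_pow, h2, mul_one, c2.mul_pow]
  have h4 : ∀ d ∈ D, d ^ 4 = 1 := by
    let K : Subgroup G :=
      { carrier := {d | d ∈ D ∧ d ^ 4 = 1}
        one_mem' := ⟨one_mem _, one_pow _⟩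
        mul_mem' := fun {a b} ha hb => ⟨mul_mem ha.1 hb.1, by
          rw [hmul a ha.1 b hb.1, ha.2, hb.2, mul_one]⟩
        inv_mem' := fun {a} ha => ⟨inv_mem ha.1, by rw [inv_pow, ha.2, inv_one]⟩ }
    have h5 : ⁅D, closure Ω⁆ ≤ K := commutator_le.2 fun d hd x hx => ⟨ha.le
      (commutator_mem_commutator hd hx), by
        have h6 := hmin _ inferInstance hΦ (pow_mem (hsq _ (inv_mem hd)) 2) x hx
        rw [commutatorElement_def, mul_assoc, mul_assoc, ← mul_assoc x,
          hmul d hd _ (hDn.conj_mem _ (inv_mem hd) x), conj_pow, show 4 = 2 * 2 from rfl,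
          pow_mul d⁻¹, h6]
        group⟩
    exact fun d hd => (h5 (ha.ge hd)).2
  obtain ⟨u, hu, hu1, hu2⟩ := exists_invol (two_dvd_card hD hD0)
  have hVD : V ≤ D := h.le_of_mem hu hu1 hu2
  have hDV : ¬ D ≤ V := fun e => hDc (e.trans (le_centralizer_iff.1 hC))
  refine ⟨D, ⟨h.memV, h.conj, h.three, hDn, hVD, hDV, fun d hd => (h.memV _).2 ?_,
    fun v hv d hd => ?_⟩, ha, hmin⟩
  · rw [← pow_mul, h4 d hd]
  · exact (hb V (normal_of_memV h.memV) (lt_of_le_not_ge hVD hDV) hv d hd).symm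

theorem normal [Group.IsSolvable G] (h : Bas V) (hO : pPrimeCore 2 G = ⊥) (S : Sylow 2 G) :
    (S : Subgroup G).Normal := by
  have hVn := normal_of_memV h.memV
  have hS := h.sylow_le S
  let N := normalClosure ((S : Subgroup G) : Set G)
  have hNC : N ≤ centralizer V := normalClosure_le_normal hS
  let Ω : Set G := {x | x ∈ N ∧ Odd (orderOf x)}
  have hΩN : closure Ω ≤ N := (closure_le _).2 fun x hx => hx.1
  have hΩn : (closure Ω).Normal := ⟨fun x hx g => by
    have h1 : (closure Ω).map (MulAut.conj g).toMonoidHom ≤ closure Ω := by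
      rw [MonoidHom.map_closure]
      refine closure_mono ?_
      rintro _ ⟨y, hy, rfl⟩
      exact ⟨Normal.conj_mem inferInstance y hy.1 g, by
        rw [MulEquiv.coe_toMonoidHom, MulEquiv.orderOf_eq]; exact hy.2⟩
    exact h1 ⟨x, hx, rfl⟩⟩
  by_cases hn : pCore 2 G ≤ centralizer (closure Ω : Subgroup G)
  · have h1 : closure Ω ≤ pCore 2 G := (le_centralizer_iff.1 hn).trans
      ((IsPSolvable.of_isSolvable 2 G).centralizer_pCore_le hO)
    have h2 : IsPGroup 2 N := fun x => by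
      obtain ⟨j, hj⟩ := exists_odd_pow (x : G)
      exact ⟨j, Subtype.ext (eq_one_of_odd_of_two hj (pow_two_pow_of_mem (pCore_isPGroup 2 G)
        (h1 (subset_closure ⟨pow_mem x.2 _, hj⟩))))⟩
    rw [← S.is_maximal' h2 le_normalClosure]
    infer_instance
  exfalso
  obtain ⟨D, hD, hDΩ, hmin⟩ := h.exists_hyp (pCore_isPGroup 2 G) (fun x hx => hx.2)
    (hΩN.trans hNC) hn
  have hDn := hD.nD
  have hnot : ¬ ∀ x ∈ closure Ω, ∀ d ∈ D, ⁅d, x⁆ ∈ V := fun e =>
    hD.ne (hDΩ.ge.trans (commutator_le.2 fun d hd x hx => e x hx d hd))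
  rcases hD.dichotomy with h1 | ⟨h1, h2⟩
  · refine hnot fun x hx d hd => ?_
    have := h1 _ (inv_mem hd) _ (hDn.conj_mem _ (inv_mem hd) x) (by
      rw [conj_pow, ← hNC (hΩN hx) _ (hD.sq _ (inv_mem hd)), mul_inv_cancel_right])
    rw [commutatorElement_def]
    simpa [mul_assoc] using this
  let π := QuotientGroup.mk' V
  have hπ : Function.Surjective π := QuotientGroup.mk'_surjective V
  let W := D.map π
  have hWn : W.Normal := hDn.map π hπ
  let φ : G →* MulAut W := MulAut.conjNormal.comp π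
  have hφ : ∀ (g d : G) (hd : d ∈ D), φ g ⟨π d, mem_map_of_mem π hd⟩ = ⟨π d, mem_map_of_mem π hd⟩ ↔
      ⁅g, d⁆ ∈ V := fun g d hd => by
    rw [← QuotientGroup.eq_one_iff, Subtype.ext_iff]
    change π g * π d * (π g)⁻¹ = π d ↔ π ⁅g, d⁆ = 1
    rw [map_commutatorElement, commutatorElement_def, mul_inv_eq_one]
  have hφ1 : ∀ g, φ g = 1 ↔ ∀ d ∈ D, ⁅g, d⁆ ∈ V := fun g =>
    ⟨fun e d hd => (hφ g d hd).1 (by rw [e]; rfl), fun e => MulEquiv.ext fun ⟨_, d, hd, rfl⟩ =>
      (hφ g d hd).2 (e d hd)⟩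
  have hfpf : ∀ x ∈ centralizer (V : Set G), Odd (orderOf x) → ∀ w : W, w ≠ 1 → φ x w = w →
      φ x = 1 := by
    rintro x hx ho ⟨_, c, hc, rfl⟩ hw e
    refine (hφ1 x).2 fun d hd => ?_
    rw [commutatorElement_eq_one_iff_mul_comm.2 (hD.comm_of_fix h1 h2 ho (fun v hv => (hx v hv).symm)
      hc (fun hcV => hw (Subtype.ext ((QuotientGroup.eq_one_iff c).2 hcV))) ((hφ x c hc).1 e) d hd)]
    exact one_mem _
  have hker : ¬ closure Ω ≤ φ.ker := fun e => hnot fun x hx d hd => by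
    rw [← inv_mem_iff, commutatorElement_inv]
    exact (hφ1 x).1 (e hx) d hd
  have hW : W ≠ ⊥ := fun e => hD.ne (by
    rwa [Subgroup.map_eq_bot_iff, QuotientGroup.ker_mk'] at e)
  have : Nontrivial W := (nontrivial_iff_ne_bot W).2 hW
  let ψ := φ.rangeRestrict
  have hψ : Function.Surjective ψ := φ.rangeRestrict_surjective
  have : Group.IsSolvable φ.range := Group.isSolvable_of_surjective hψ
  have : ((centralizer (V : Set G)).map ψ).Normal := Normal.map inferInstance ψ hψ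
  obtain ⟨s, hs, hs1⟩ : ∃ s ∈ (S : Subgroup G), ψ s ≠ 1 := by
    by_contra! e
    exact hker (hΩN.trans (normalClosure_le_normal fun s hs => congrArg Subtype.val (e s hs)))
  refine (exists_abelian_quotient ((centralizer (V : Set G)).map ψ)
    (fun P hPn hP => ?_) (fun p hp hp2 P hPC hP => ?_) (mem_map_of_mem ψ (hS hs)) hs1
    ((pow_two_pow_of_mem S.2 hs).imp fun k hk => by rw [← map_pow, hk, map_one])).elim
    fun K ⟨_, hK, hsK⟩ => hsK (h.le_of_comm S hS (K.comap ψ) (fun a b => by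
      rw [mem_comap, map_commutatorElement]; exact hK _ _) hs)
  · obtain ⟨⟨_, c, hc, rfl⟩, hb, hb1⟩ := hP.exists_fixed_point_of_prime_dvd_card_of_fixed_point W
      (two_dvd_card (hD.pD.map π) hW) (a := 1) fun g => map_one (g.1.1 : MulAut W)
    have : ((P.comap ψ).map π).Normal := Normal.map inferInstance π hπ
    let E := D ⊓ (centralizer (((P.comap ψ).map π : Subgroup _) : Set (G ⧸ V))).comap π
    have hE : ∀ d (hd : d ∈ D), d ∈ E ↔ ∀ g ∈ P.comap ψ, ⁅g, d⁆ ∈ V := fun d hd => by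
      simp only [E, mem_inf, hd, true_and, mem_comap (f := π), mem_centralizer_iff, coe_map,
        Set.forall_mem_image, SetLike.mem_coe, ← QuotientGroup.eq_one_iff (N := V)]
      refine forall₂_congr fun g _ => ?_
      change _ ↔ π ⁅g, d⁆ = 1
      rw [map_commutatorElement, commutatorElement_eq_one_iff_mul_comm]
    have hcE : c ∈ E := (hE c hc).2 fun g hg => (hφ g c hc).1 (hb ⟨ψ g, hg⟩)
    by_cases hDE : E < D
    · refine absurd ((closure_le _).2 fun x hx => ?_) hker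
      refine hfpf x (hNC hx.1) hx.2 _ hb1.symm ((hφ x c hc).2 ?_)
      rw [commutatorElement_eq_one_iff_mul_comm.2
        (hmin E inferInstance hDE hcE x (subset_closure hx))]
      exact one_mem _
    · have h3 : E = D := eq_of_le_of_not_lt inf_le_left hDE
      refine eq_bot_iff.2 fun γ hγ => ?_
      obtain ⟨g, rfl⟩ := hψ γ
      exact Subtype.ext ((hφ1 g).2 fun d hd => (hE d hd).1 (h3.ge hd) g hγ)
  · have := Fact.mk hp
    have hF : Perm.IsFC P := Perm.IsFC.of_mulAut (φ.range.subtype.comp P.subtype)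
      fun γ hγ w hw => by_contra fun hw1 => hγ (by
        obtain ⟨c, hc, hcγ⟩ := hPC γ.2
        obtain ⟨j, hj⟩ := exists_odd_pow c
        have h3 : φ c = γ.1.1 := congrArg Subtype.val hcγ
        have h4 := hfpf _ (pow_mem hc _) hj w hw1 (by
          rw [map_pow, h3]
          exact (MulAction.stabilizer (MulAut W) w).pow_mem hw _)
        rw [map_pow, h3] at h4
        obtain ⟨k, hk⟩ := IsPGroup.iff_orderOf.1 hP γ
        exact eq_one_of_odd_of_two (hk ▸ (hp.odd_of_ne_two hp2).pow)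
          ⟨j, Subtype.ext (Subtype.ext h4)⟩)
    exact topEquiv.isCyclic.1 (hF.isCyclic_of_odd_prime hp2 (hP.to_subgroup ⊤))

end Bas

/-- The solutions of `x² = 1` form a subgroup if `O(G) = 1`. -/
theorem exists_bas [Group.IsSolvable G] (hO : pPrimeCore 2 G = ⊥)
    (hc : ∀ x y : G, x ≠ 1 → x ^ 2 = 1 → y ≠ 1 → y ^ 2 = 1 → IsConj x y)
    {x y : G} (hxy : x ≠ y) (hx : x ≠ 1) (hx2 : x ^ 2 = 1) (hy : y ≠ 1) (hy2 : y ^ 2 = 1) :
    ∃ V : Subgroup G, Bas V := by
  have hQ := (IsPSolvable.of_isSolvable 2 G).centralizer_pCore_le hO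
  have h0 : pCore 2 G ≠ ⊥ := fun e => hx (by
    rw [e] at hQ
    exact hQ (mem_centralizer_iff.2 fun g hg => by rw [mem_bot.1 hg, one_mul, mul_one]))
  obtain ⟨u, hu, hu1, hu2⟩ := exists_invol (two_dvd_card ((pCore_isPGroup 2 G).to_inf_left)
    (PG.inf_centralizer_ne_bot (pCore_isPGroup 2 G) (pCore_isPGroup 2 G) le_normalizer h0))
  have h1 : ∀ a : G, a ^ 2 = 1 → a ∈ pCore 2 G ⊓ centralizer (pCore 2 G : Set G) := fun a ha => by
    by_cases ha1 : a = 1
    · exact ha1 ▸ one_mem _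
    obtain ⟨g, rfl⟩ := isConj_iff.1 (hc u a hu1 hu2 ha1 ha)
    exact Normal.conj_mem inferInstance u hu g
  let V : Subgroup G :=
    { carrier := {a | a ^ 2 = 1}
      one_mem' := one_pow _
      mul_mem' := fun {a b} ha hb => by
        change (a * b) ^ 2 = 1
        rw [(show Commute a b from (h1 b hb).2 a (h1 a ha).1).mul_pow, ha, hb, mul_one]
      inv_mem' := fun {a} ha => by
        change a⁻¹ ^ 2 = 1
        rw [inv_pow, ha, inv_one] }
  refine ⟨V, fun _ => Iff.rfl, hc, ?_⟩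
  have := Fintype.ofFinite V
  rw [Nat.card_eq_fintype_card, Fintype.two_lt_card_iff]
  exact ⟨⟨x, hx2⟩, ⟨y, hy2⟩, 1, fun e => hxy (congrArg Subtype.val e),
    fun e => hx (congrArg Subtype.val e), fun e => hy (congrArg Subtype.val e)⟩

end Cfsg.Lib.Solv.OneInv
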