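import Cfsg.Agent.Solv.HalfFixA
import Cfsg.Agent.Solv.HallHigmanCore
import Cfsg.Agent.Solv.FrattiniRep
import Cfsg.Agent.Perm.PermModule

/-!
# Fixed spaces of elements of prime order `p > 3` generating a solvable irreducible group
-/

set_option autoImplicit false

open Module Subgroup
open scoped commutatorElement

namespace Cfsg.Lib.Solv.HalfFix

open HH

universe u v w

section

variable {G : Type*} [Group G] {K V : Type*} [Field K] [AddCommGroup V] [Module K V]

/-- The fixed space of a subgroup. -/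
def fixsp (σ : G →* End K V) (M : Subgroup G) : Submodule K V where
  carrier := {v | ∀ m ∈ M, σ m v = v}
  zero_mem' := fun n _ => by simp
  add_mem' := fun {a b} ha hb n hn => by rw [map_add, ha n hn, hb n hn]
  smul_mem' := fun c v hv n hn => by rw [map_smul, hv n hn]

theorem fixsp_eq_bot {σ : G →* End K V} (hσ : Irr σ) (hf : Function.Injective σ) {M : Subgroup G}
    [hM : M.Normal] (h0 : M ≠ ⊥) : fixsp σ M = ⊥ := by
  refine (hσ (fixsp σ M) fun g v hv m hm => ?_).resolve_right fun h => h0 ?_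
  · have h1 : m * g = g * (g⁻¹ * m * g⁻¹⁻¹) := by group
    rw [← End.mul_apply, ← map_mul, h1, map_mul, End.mul_apply, hv _ (hM.conj_mem _ hm _)]
  · rw [eq_bot_iff]
    intro m hm
    refine hf (LinearMap.ext fun v => ?_)
    rw [map_one]
    exact (h.ge Submodule.mem_top : v ∈ fixsp σ M) m hm

theorem card_ne_zero [Finite G] (l : ℕ) [hl : Fact l.Prime] [CharP K l] [Nontrivial V]
    {σ : G →* End K V} (hσ : Irr σ) (hf : Function.Injective σ) {N : Subgroup G} [N.Normal]
    (hN : Group.IsNilpotent N) : (Nat.card N : K) ≠ 0 := by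
  intro h
  rw [CharP.cast_eq_zero_iff K l] at h
  obtain ⟨P⟩ : Nonempty (Sylow l N) := inferInstance
  have hP : (P : Subgroup N).Normal := inferInstance
  have hc : (P : Subgroup N).Characteristic := Sylow.characteristic_of_normal P hP
  have h0 : (P : Subgroup N).map N.subtype ≠ ⊥ := by
    rw [Ne, map_eq_bot_iff_of_injective _ N.subtype_injective]
    exact P.ne_bot_of_dvd_card h
  obtain ⟨v, -, hv, h1⟩ := Perm.exists_fixed_vector_of_isPGroup (P.isPGroup'.map N.subtype)
    (σ.comp ((P : Subgroup N).map N.subtype).subtype) ⊤ (fun _ _ _ => trivial) top_ne_bot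
  apply hv
  have h2 : v ∈ fixsp σ ((P : Subgroup N).map N.subtype) := fun m hm => h1 ⟨m, hm⟩
  rwa [fixsp_eq_bot hσ hf h0, Submodule.mem_bot] at h2

/-- The action on characters of a normal subgroup. -/
@[reducible] def charAct (N : Subgroup G) [N.Normal] (K : Type*) [Field K] :
    MulAction G (N →* K) where
  smul g χ := χ.comp (MulAut.conjNormal g⁻¹ : MulAut N).toMonoidHom
  one_smul χ := by
    ext n
    change χ ((MulAut.conjNormal (1 : G)⁻¹ : MulAut N) n) = χ n
    rw [inv_one, map_one, MulAut.one_apply]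
  mul_smul a b χ := by
    ext n
    change χ ((MulAut.conjNormal (a * b)⁻¹ : MulAut N) n) =
      χ ((MulAut.conjNormal b⁻¹ : MulAut N) ((MulAut.conjNormal a⁻¹ : MulAut N) n))
    rw [mul_inv_rev, map_mul, MulAut.mul_apply]

theorem case_ab {G : Type u} [Group G] [Finite G] [Group.IsSolvable G] [IsAlgClosed K]
    [FiniteDimensional K V] [Nontrivial V] {σ : G →* End K V} (hσ : Irr σ)
    (hf : Function.Injective σ) {N : Subgroup G} [hNn : N.Normal] (hN : (Nat.card N : K) ≠ 0)
    [IsMulCommutative N] (hZ : ¬ N ≤ center G) {p : ℕ} [hp : Fact p.Prime] (hp3 : 3 < p) {x : G}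
    (hx : x ^ p = 1) (hgen : normalClosure ({x} : Set G) = ⊤) :
    2 * finrank K (LinearMap.ker (σ x - 1)) < finrank K V := by
  classical
  have := Fintype.ofFinite N
  let τ : N →* End K V := σ.comp N.subtype
  obtain ⟨U, hU, -, hU0, hUi⟩ := exists_irr_le τ (U := ⊤) (fun _ _ _ => trivial) top_ne_bot
  have hs : ∀ n : N, ∃ c : K, res τ U hU n = c • 1 := fun n =>
    hUi.exists_scalar fun g => by rw [← map_mul, ← map_mul, mul_comm' n g]
  choose c hc using hs
  have hc' : ∀ n, ∀ u ∈ U, τ n u = c n • u := fun n u hu =>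
    congrArg Subtype.val (LinearMap.congr_fun (hc n) ⟨u, hu⟩)
  obtain ⟨u, hu, hu0⟩ := Submodule.exists_mem_ne_zero_of_ne_bot hU0
  let χ0 : N →* K :=
    { toFun := c
      map_one' := smul_left_injective K hu0 (by
        change c 1 • u = (1 : K) • u
        rw [← hc' 1 u hu, map_one, one_smul]; rfl)
      map_mul' := fun a b => smul_left_injective K hu0 (by
        change c (a * b) • u = (c a * c b) • u
        rw [← hc' _ u hu, map_mul, End.mul_apply, hc' b u hu, map_smul, hc' a u hu, smul_smul,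
          mul_comm]) }
  have hu1 : u ∈ wsp τ χ0 := fun n => hc' n u hu
  let _ := charAct N K
  have hmap : ∀ (g : G) (χ : N →* K), ∀ v ∈ wsp τ χ, σ g v ∈ wsp τ (g • χ) := by
    intro g χ v hv n
    have h1 : (n : G) * g = g * ((MulAut.conjNormal g⁻¹ : MulAut N) n : N) := by
      rw [MulAut.conjNormal_apply]; group
    change σ n (σ g v) = χ ((MulAut.conjNormal g⁻¹ : MulAut N) n) • σ g v
    rw [← End.mul_apply, ← map_mul, h1, map_mul, End.mul_apply, ← map_smul, ← hv]
    rfl
  let H := MulAction.stabilizer G χ0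
  have hH : H ≠ ⊤ := by
    intro h
    have h1 : wsp τ χ0 = ⊤ := by
      refine (hσ _ fun g v hv => ?_).resolve_left fun h0 => hu0 ?_
      · have h2 : g • χ0 = χ0 := (h.ge (mem_top g) : g ∈ H)
        have := hmap g χ0 v hv
        rwa [h2] at this
      · rwa [h0, Submodule.mem_bot] at hu1
    refine hZ fun n hn => mem_center_iff.2 fun g => hf (LinearMap.ext fun v => ?_)
    have h2 : ∀ v, σ n v = χ0 ⟨n, hn⟩ • v := fun v =>
      (h1.ge Submodule.mem_top : v ∈ wsp τ χ0) ⟨n, hn⟩
    rw [map_mul, map_mul, End.mul_apply, End.mul_apply, h2, h2, map_smul]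
  let χ : G ⧸ H → N →* K := MulAction.ofQuotientStabilizer G χ0
  have hχ : Function.Injective χ := MulAction.injective_ofQuotientStabilizer G χ0
  have hχs : ∀ (g : G) ω, χ (g • ω) = g • χ ω := MulAction.ofQuotientStabilizer_smul G χ0
  have hN' : (Fintype.card N : K) ≠ 0 := by rwa [← Nat.card_eq_fintype_card]
  obtain ⟨R, hR, hRc⟩ := exists_reps (p := p) (MulAction.toPermHom G (G ⧸ H) x)
    (by rw [← map_pow, hx, map_one])
  have hb := weight_bound hN' τ χ hχ (fun ω ω' => by
      obtain ⟨g, rfl⟩ := MulAction.exists_smul_eq G ω ω'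
      exact ⟨σ g, rep_injective σ g, fun v hv => hχs g ω ▸ hmap g _ v hv⟩)
    (fun v hv => by
      have := Fintype.ofFinite (G ⧸ H)
      have h1 : ⨆ ω, wsp τ (χ ω) = ⊤ := by
        refine (hσ _ fun g => ?_).resolve_left fun h0 => hu0 ?_
        · have h2 : ⨆ ω, wsp τ (χ ω) ≤ Submodule.comap (σ g) (⨆ ω, wsp τ (χ ω)) :=
            iSup_le fun ω w hw =>
              Submodule.mem_iSup_of_mem (g • ω) (hχs g ω ▸ hmap g _ w hw)
          exact fun w hw => h2 hw
        · rw [← Submodule.mem_bot K, ← h0]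
          refine Submodule.mem_iSup_of_mem ((1 : G) : G ⧸ H) ?_
          have : χ ((1 : G) : G ⧸ H) = χ0 :=
            (MulAction.ofQuotientStabilizer_mk G χ0 1).trans (one_smul _ _)
          rwa [this]
      have h2 : ⨆ ω, wsp τ (χ ω) ≤
          LinearMap.ker (∑ ω, wpr τ (χ ω) - (Fintype.card N : K) • 1) := by
        refine iSup_le fun ω w hw => ?_
        rw [LinearMap.mem_ker, LinearMap.sub_apply, LinearMap.sum_apply, Finset.sum_eq_single ω,
          wpr_self τ _ hw, sub_eq_zero]
        · rfl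
        · intro b _ hb
          exact wpr_ne τ (fun h => hb (hχ h)) hw
        · intro h; exact absurd (Finset.mem_univ _) h
      have h3 := h2 (h1.ge (Submodule.mem_top (x := v)))
      rw [LinearMap.mem_ker, LinearMap.sub_apply, LinearMap.sum_apply,
        Finset.sum_eq_zero (fun ω _ => hv ω), zero_sub, neg_eq_zero] at h3
      exact (smul_eq_zero.1 h3).resolve_left hN')
    (σ x) (MulAut.conjNormal x) (MulAction.toPermHom G (G ⧸ H) x)
    (fun n => by
      change σ x * σ n = σ (x * n * x⁻¹) * σ x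
      rw [← map_mul, ← map_mul, inv_mul_cancel_right])
    (fun ω n => by
      change χ (x • ω) _ = _
      rw [hχs]
      change χ ω ((MulAut.conjNormal x⁻¹ : MulAut N) ((MulAut.conjNormal x : MulAut N) n)) = _
      rw [← MulAut.mul_apply, ← map_mul, inv_mul_cancel, map_one, MulAut.one_apply]) R hR
  have h3 := three_mul_card_le hp.out (by omega) G x H hx hgen hH
  have h4 := QuotientGroup.card_preimage_mk H {ω | MulAction.toPermHom G (G ⧸ H) x ω = ω}
  have h5 : Nat.card {g : G // g⁻¹ * x * g ∈ H} = Nat.card (QuotientGroup.mk ⁻¹'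
      {ω : G ⧸ H | MulAction.toPermHom G (G ⧸ H) x ω = ω}) := by
    refine Nat.card_congr (Equiv.subtypeEquivRight fun g => ?_)
    change _ ↔ ((x * g : G) : G ⧸ H) = (g : G ⧸ H)
    rw [eq_comm, QuotientGroup.eq, mul_assoc]
  rw [h5, h4, card_eq_card_quotient_mul_card_subgroup H] at h3
  have h6 : 3 * Nat.card {ω // MulAction.toPermHom G (G ⧸ H) x ω = ω} ≤ Nat.card (G ⧸ H) := by
    refine Nat.le_of_mul_le_mul_right (c := Nat.card H) ?_ Nat.card_pos
    calc _ = 3 * (Nat.card H * Nat.card {ω // MulAction.toPermHom G (G ⧸ H) x ω = ω}) := by ring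
      _ ≤ _ := h3
  have hd : 0 < finrank K V := finrank_pos
  have hn : 0 < Nat.card (G ⧸ H) := Nat.card_pos
  generalize Nat.card {ω // MulAction.toPermHom G (G ⧸ H) x ω = ω} = f at hRc h6
  generalize Nat.card (G ⧸ H) = n at hRc h6 hb hn
  have hp5 : 5 ≤ p := by
    by_contra h5
    have : p = 4 := by omega
    subst this
    exact absurd hp.out (by decide)
  have h7 : 2 * R.card < n := by
    obtain ⟨k, rfl⟩ : ∃ k, p = k + 5 := ⟨p - 5, by omega⟩
    have : k + 5 - 1 = k + 4 := by omega
    rw [this] at hRc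
    by_contra h8
    push Not at h8
    nlinarith
  by_contra h8
  push Not at h8
  nlinarith

theorem case_nab [Finite G] [IsAlgClosed K] [FiniteDimensional K V] [Nontrivial V]
    {σ : G →* End K V} (hσ : Irr σ) (hf : Function.Injective σ) {N : Subgroup G} [hNn : N.Normal]
    (hN : (Nat.card N : K) ≠ 0) (hc : ∀ m ∈ N, ∀ n ∈ N, ⁅m, n⁆ ∈ center G)
    (hZ : ∀ n ∈ N, (∀ m ∈ N, Commute m n) → n ∈ center G) {q : ℕ} [hq : Fact q.Prime]
    (S : SecRep q N (center G)) {p : ℕ} [hp : Fact p.Prime] (hp3 : 3 < p) {x : G}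
    (hx : x ^ p = 1) (hx1 : σ x ≠ 1) (hD : 2 ≤ finrank (ZMod q) S.V)
    (he : 2 * finrank (ZMod q) (LinearMap.ker (S.ρ x - 1)) < finrank (ZMod q) S.V) :
    2 * finrank K (LinearMap.ker (σ x - 1)) < finrank K V := by
  classical
  have := Fintype.ofFinite N
  have hs : ∀ z : G, ∃ c : K, z ∈ center G → σ z = c • 1 := fun z => by
    by_cases hz : z ∈ center G
    · obtain ⟨c, h⟩ := hσ.exists_scalar (f := σ z) fun g => by
        rw [← map_mul, ← map_mul, mem_center_iff.1 hz g]
      exact ⟨c, fun _ => h⟩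
    · exact ⟨0, fun h => absurd h hz⟩
  choose lam hlam using hs
  have hinj := smul_left_injective K (one_ne_zero (α := End K V))
  have lam1 : lam 1 = 1 := hinj (by
    change lam 1 • (1 : End K V) = (1 : K) • 1
    rw [← hlam 1 (one_mem _), map_one, one_smul])
  have lamm : ∀ a ∈ center G, ∀ b ∈ center G, lam (a * b) = lam a * lam b := fun a ha b hb =>
    hinj (by
      change lam (a * b) • (1 : End K V) = (lam a * lam b) • 1
      rw [← hlam _ (mul_mem ha hb), map_mul, hlam a ha, hlam b hb, smul_mul_smul_comm, mul_one])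
  have lami : ∀ a ∈ center G, ∀ b ∈ center G, lam a = lam b → a = b := fun a ha b hb h =>
    hf (by rw [hlam a ha, hlam b hb, h])
  have cl : ∀ a ∈ N, ∀ b ∈ N, ∀ n ∈ N, ⁅a * b, n⁆ = ⁅a, n⁆ * ⁅b, n⁆ := by
    intro a ha b hb n hn
    have h1 : ⁅a * b, n⁆ = a * ⁅b, n⁆ * a⁻¹ * ⁅a, n⁆ := by
      simp only [commutatorElement_def]; group
    rw [h1, mem_center_iff.1 (hc b hb n hn) a, mul_inv_cancel_right,
      mem_center_iff.1 (hc a ha n hn)]
  have cr : ∀ m ∈ N, ∀ a ∈ N, ∀ b ∈ N, ⁅m, a * b⁆ = ⁅m, a⁆ * ⁅m, b⁆ := by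
    intro m hm a ha b hb
    have h1 : ⁅m, a * b⁆ = ⁅m, a⁆ * (a * ⁅m, b⁆ * a⁻¹) := by
      simp only [commutatorElement_def]; group
    rw [h1, mem_center_iff.1 (hc m hm b hb) a, mul_inv_cancel_right]
  let ψ : N → N →* K := fun n =>
    { toFun := fun m => lam ⁅(m : G), (n : G)⁆
      map_one' := by simp [lam1]
      map_mul' := fun a b => by
        rw [coe_mul, cl _ a.2 _ b.2 _ n.2, lamm _ (hc _ a.2 _ n.2) _ (hc _ b.2 _ n.2)] }
  have hψ : ∀ n n' : N, ψ n = ψ n' ↔ S.π n = S.π n' := by
    intro n n'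
    rw [S.π_eq_iff n.2 n'.2]
    have hm := N.mul_mem n.2 (N.inv_mem n'.2)
    have h1 : ∀ m ∈ N, ⁅m, (n : G)⁆ = ⁅m, n * (n' : G)⁻¹⁆ * ⁅m, (n' : G)⁆ := fun m hm' => by
      rw [← cr m hm' _ hm _ n'.2, inv_mul_cancel_right]
    constructor
    · intro h
      refine hZ _ hm fun m hm' => ?_
      have h2 := lami _ (hc m hm' _ n.2) _ (hc m hm' _ n'.2) (DFunLike.congr_fun h ⟨m, hm'⟩)
      rw [h1 m hm', mul_eq_right] at h2
      exact commutatorElement_eq_one_iff_commute.1 h2
    · intro h
      ext m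
      change lam ⁅(m : G), (n : G)⁆ = lam ⁅(m : G), (n' : G)⁆
      rw [h1 m m.2, commutatorElement_eq_one_iff_mul_comm.2 (mem_center_iff.1 h m), one_mul]
  choose sec hsec hπ using S.π_surj
  let χ : S.V → N →* K := fun w => ψ ⟨sec w, hsec w⟩
  let τ' : G →* End K (End K V) :=
    { toFun := fun g => LinearMap.mulLeftRight K (σ g, σ g⁻¹)
      map_one' := by ext f; simp
      map_mul' := fun a b => by ext f; simp [mul_assoc] }
  have hτ : ∀ g f, τ' g f = σ g * f * σ g⁻¹ := fun g f => rfl
  let τ : N →* End K (End K V) := τ'.comp N.subtype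
  have hN' : (Fintype.card N : K) ≠ 0 := by rwa [← Nat.card_eq_fintype_card]
  let π : G →* Equiv.Perm S.V := (MulAction.toPermHom _ S.V).comp S.ρ.toHomUnits
  have hπ' : ∀ g w, π g w = S.ρ g w := fun g w => rfl
  obtain ⟨R, hR, hRc⟩ := exists_reps (p := p) (π x) (by rw [← map_pow, hx, map_one])
  have hb := weight_bound hN' τ χ
    (fun w w' h => by rw [← hπ w, ← hπ w']; exact (hψ _ _).1 h)
    (fun w w' => by
      have hk := N.mul_mem (hsec w') (N.inv_mem (hsec w))
      refine ⟨LinearMap.mulLeft K (σ (sec w' * (sec w)⁻¹)), fun a b hab => ?_, fun f hf' m => ?_⟩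
      · exact (σ.toHomUnits (sec w' * (sec w)⁻¹)).mul_right_inj.1 hab
      · have h1 : σ m * f * σ (m : G)⁻¹ = lam ⁅(m : G), sec w⁆ • f := hf' m
        change σ m * (σ (sec w' * (sec w)⁻¹) * f) * σ (m : G)⁻¹ =
          lam ⁅(m : G), sec w'⁆ • (σ (sec w' * (sec w)⁻¹) * f)
        have h2 : ⁅(m : G), sec w'⁆ = ⁅(m : G), sec w' * (sec w)⁻¹⁆ * ⁅(m : G), sec w⁆ := by
          rw [← cr m m.2 _ hk _ (hsec w), inv_mul_cancel_right]
        generalize sec w' * (sec w)⁻¹ = k at hk h2 ⊢
        have h3 : (m : G) * k = ⁅(m : G), k⁆ * k * m := by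
          simp only [commutatorElement_def]; group
        rw [← mul_assoc, ← map_mul, h3, map_mul, map_mul, mul_assoc _ (σ m), mul_assoc _ (σ m * f),
          h1, h2, lamm _ (hc _ m.2 _ hk) _ (hc _ m.2 _ (hsec w)), hlam _ (hc _ m.2 _ hk)]
        simp [smul_smul, mul_comm])
    (fun f hf' => by
      have h1 : ∀ n : N, wpr τ (ψ n) f = 0 := fun n => by
        have : ψ n = χ (S.π n) := (hψ _ _).2 (hπ _).symm
        rw [this, hf']
      have h2 : ∑ n : N, wpr τ (ψ n) f = 0 := Finset.sum_eq_zero fun n _ => h1 n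
      simp only [wpr_apply] at h2
      rw [Finset.sum_comm] at h2
      have h3 : ∀ m : N, ∑ n : N, ψ n m⁻¹ • τ m f =
          if (m : G) ∈ center G then (Fintype.card N : K) • f else 0 := by
        intro m
        rw [← Finset.sum_smul]
        split_ifs with hm
        · have h4 : τ m f = f := by
            change σ m * f * σ (m : G)⁻¹ = f
            have h5 : σ m * f = f * σ m := by rw [hlam _ hm]; simp
            rw [h5, mul_assoc, ← map_mul, mul_inv_cancel, map_one, mul_one]
          rw [h4, Finset.sum_congr rfl (g := fun _ => (1 : K))]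
          · simp
          · intro n _
            change lam ⁅(m : G)⁻¹, (n : G)⁆ = 1
            rw [commutatorElement_eq_one_iff_mul_comm.2
              (mem_center_iff.1 (inv_mem hm) n).symm, lam1]
        · let φ : N →* K :=
            { toFun := fun n => lam ⁅((m⁻¹ : N) : G), (n : G)⁆
              map_one' := by simp [lam1]
              map_mul' := fun a b => by
                rw [coe_mul, cr _ (m⁻¹).2 _ a.2 _ b.2,
                  lamm _ (hc _ (m⁻¹).2 _ a.2) _ (hc _ (m⁻¹).2 _ b.2)] }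
          have h4 : φ ≠ 1 := by
            intro h
            apply hm
            rw [← inv_mem_iff]
            refine hZ _ (m⁻¹).2 fun n hn => ?_
            have h5 := lami _ (hc _ (m⁻¹).2 _ hn) _ (one_mem _)
              ((DFunLike.congr_fun h ⟨n, hn⟩).trans lam1.symm)
            exact (commutatorElement_eq_one_iff_commute.1 h5).symm
          have h5 : ∑ n : N, ψ n m⁻¹ = 0 := sum_hom_units_eq_zero φ h4
          rw [h5, zero_smul]
      rw [Finset.sum_congr rfl fun m _ => h3 m, ← Finset.sum_filter, Finset.sum_const,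
        ← Nat.cast_smul_eq_nsmul K, smul_smul, smul_eq_zero, mul_eq_zero] at h2
      rcases h2 with (h2 | h2) | h2
      · exfalso
        have h4 : (Finset.univ.filter fun m : N => (m : G) ∈ center G).card =
            Nat.card ((center G).subgroupOf N) := by
          rw [Nat.card_eq_fintype_card, Fintype.card_subtype]
          congr 1
          ext m
          simp [mem_subgroupOf]
        obtain ⟨k, hk⟩ := card_subgroup_dvd_card ((center G).subgroupOf N)
        apply hN
        rw [hk, Nat.cast_mul, ← h4, h2, zero_mul]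
      · exact absurd h2 hN'
      · exact h2)
    (τ' x) (MulAut.conjNormal x) (π x)
    (fun n => by
      change τ' x * τ' n = τ' (x * n * x⁻¹) * τ' x
      rw [← map_mul, ← map_mul, inv_mul_cancel_right])
    (fun w n => by
      have h1 : χ (π x w) = ψ ⟨x * sec w * x⁻¹, hNn.conj_mem _ (hsec w) x⟩ :=
        (hψ _ _).2 (by
          change S.π (sec _) = S.π (x * sec w * x⁻¹)
          rw [hπ, hπ', ← S.ρ_π x (hsec w), hπ])
      rw [h1]
      change lam ⁅x * n * x⁻¹, x * sec w * x⁻¹⁆ = lam ⁅(n : G), sec w⁆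
      rw [← conjugate_commutatorElement, mem_center_iff.1 (hc _ n.2 _ (hsec w)) x,
        mul_inv_cancel_right]) R hR
  have h1 := sq_lt_centralizer hx1 (LinearMap.ker (τ' x - 1)) fun f h => by
    rw [LinearMap.mem_ker, LinearMap.sub_apply, hτ, h, mul_assoc, ← map_mul, mul_inv_cancel,
      map_one, mul_one]
    exact sub_self f
  have h2 : Nat.card S.V = q ^ finrank (ZMod q) S.V := by
    rw [Module.natCard_eq_pow_finrank (K := ZMod q), Nat.card_zmod]
  have h3 : Nat.card {w // π x w = w} = q ^ finrank (ZMod q) (LinearMap.ker (S.ρ x - 1)) := by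
    have h4 := Module.natCard_eq_pow_finrank (K := ZMod q) (V := LinearMap.ker (S.ρ x - 1))
    rw [Nat.card_zmod] at h4
    rw [← h4]
    refine Nat.card_congr (Equiv.subtypeEquivRight fun w => ?_)
    rw [LinearMap.mem_ker, LinearMap.sub_apply, sub_eq_zero, hπ']
    rfl
  rw [h2, h3] at hRc
  have h4 := arith hp.out hp3 hq.out hD he hRc
  rw [h2, Module.finrank_linearMap] at hb
  have h5 : 0 < q ^ finrank (ZMod q) S.V := pow_pos hq.out.pos _
  generalize q ^ finrank (ZMod q) S.V = s at hb h4 h5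
  generalize finrank K (LinearMap.ker (τ' x - 1)) = F at hb h1
  generalize finrank K (LinearMap.ker (σ x - 1)) = c at h1 ⊢
  generalize finrank K V = d at hb ⊢
  have h6 : 4 * F ≤ d * d := by
    refine Nat.le_of_mul_le_mul_left (c := s) ?_ h5
    calc s * (4 * F) = 4 * (s * F) := by ring
      _ ≤ 4 * (R.card * (d * d)) := Nat.mul_le_mul_left _ hb
      _ = 4 * R.card * (d * d) := by ring
      _ ≤ s * (d * d) := Nat.mul_le_mul_right _ h4
  by_contra h7
  push Not at h7
  nlinarith

end

/-- The statement proved by induction. -/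
def Half (p : ℕ) (G : Type u) [Group G] (K : Type v) [Field K] (V : Type w) [AddCommGroup V]
    [Module K V] : Prop :=
  ∀ (x : G) (σ : G →* End K V), x ^ p = 1 → normalClosure ({x} : Set G) = ⊤ → Irr σ → σ x ≠ 1 →
    2 * finrank K (LinearMap.ker (σ x - 1)) < finrank K V

/-- The induction hypothesis. -/
def IH (p n : ℕ) : Prop := ∀ (H : Type u) [Group H] [Finite H] [Group.IsSolvable H],
  Nat.card H < n → ∀ (q : ℕ) [Fact q.Prime] (W : Type u) [AddCommGroup W] [Module (ZMod q) W]
    [FiniteDimensional (ZMod q) W], Half p H (ZMod q) W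

variable {p : ℕ} [hp : Fact p.Prime] {G : Type u} [Group G] [Finite G] [Group.IsSolvable G]
  {K : Type v} [Field K] {V : Type w} [AddCommGroup V] [Module K V]

omit hp [Finite G] [Group.IsSolvable G] in
theorem irr_lift {σ : G →* End K V} (hσ : Irr σ) (N : Subgroup G) [N.Normal] (h : N ≤ σ.ker) :
    Irr (QuotientGroup.lift N σ h) := fun U hU => hσ U fun g w hw => hU (g : G ⧸ N) w hw

omit hp in
theorem half_of_faithful (h : ∀ (H : Type u) [Group H] [Finite H] [Group.IsSolvable H],
    Nat.card H ≤ Nat.card G → ∀ (x : H) (σ : H →* End K V), x ^ p = 1 →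
      normalClosure ({x} : Set H) = ⊤ → Irr σ → σ x ≠ 1 → Function.Injective σ →
      2 * finrank K (LinearMap.ker (σ x - 1)) < finrank K V) : Half p G K V := by
  intro x σ hx hgen hσ hx1
  refine h (G ⧸ σ.ker) (Nat.card_le_card_of_surjective _ (QuotientGroup.mk'_surjective _))
    (x : G ⧸ σ.ker) (QuotientGroup.lift σ.ker σ le_rfl)
    (by rw [← QuotientGroup.mk_pow, hx]; rfl)
    (normalClosure_map hgen (QuotientGroup.mk' _) (QuotientGroup.mk'_surjective _))
    (irr_lift hσ _ _) hx1 ?_
  rw [injective_iff_map_eq_one]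
  intro a ha
  obtain ⟨a, rfl⟩ := QuotientGroup.mk_surjective a
  exact (QuotientGroup.eq_one_iff a).2 ha

theorem faithful_closed (hp3 : 3 < p) (ih : IH.{u} p (Nat.card G)) (l : ℕ) [Fact l.Prime]
    [CharP K l] [IsAlgClosed K] [FiniteDimensional K V] (x : G) (σ : G →* End K V)
    (hx : x ^ p = 1) (hgen : normalClosure ({x} : Set G) = ⊤) (hσ : Irr σ) (hx1 : σ x ≠ 1)
    (hf : Function.Injective σ) : 2 * finrank K (LinearMap.ker (σ x - 1)) < finrank K V := by
  have : Nontrivial V := by
    by_contra h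
    rw [not_nontrivial_iff_subsingleton] at h
    exact hx1 (Subsingleton.elim _ _)
  by_cases hZ : center G = ⊤
  · obtain ⟨c, hc⟩ := hσ.exists_scalar (f := σ x) fun g => by
      rw [← map_mul, ← map_mul, mem_center_iff.1 (hZ.ge (mem_top x)) g]
    have h1 : LinearMap.ker (σ x - 1) = ⊥ := by
      rw [eq_bot_iff]
      intro v hv
      rw [LinearMap.mem_ker, hc, LinearMap.sub_apply, sub_eq_zero] at hv
      by_contra h0
      have h2 : c = 1 := smul_left_injective K h0 (hv.trans (one_smul K v).symm)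
      exact hx1 (by rw [hc, h2, one_smul])
    rw [h1, finrank_bot]
    exact finrank_pos
  have : Nontrivial (G ⧸ center G) := QuotientGroup.nontrivial_iff.2 hZ
  obtain ⟨q, M, hq, hM, hMc, hMq, -⟩ := exists_isMinNormal_elementary (G ⧸ center G)
  have := hM.normal
  have : Fact q.Prime := ⟨hq⟩
  let N := M.comap (QuotientGroup.mk' (center G))
  have hZN : center G ≤ N := fun z hz => by
    change ((z : G) : G ⧸ center G) ∈ M
    rw [(QuotientGroup.eq_one_iff z).2 hz]
    exact M.one_mem
  have hc : ∀ m ∈ N, ∀ n ∈ N, ⁅m, n⁆ ∈ center G := fun m hm n hn => by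
    rw [← QuotientGroup.eq_one_iff]
    change QuotientGroup.mk' (center G) ⁅m, n⁆ = 1
    rw [map_commutatorElement, commutatorElement_eq_one_iff_mul_comm]
    exact congrArg Subtype.val (mul_comm' (⟨_, hm⟩ : M) ⟨_, hn⟩)
  have hmin : ∀ L : Subgroup G, L.Normal → center G ≤ L → L ≤ N → L = center G ∨ L = N := by
    intro L hL h1 h2
    have h3 : (L.map (QuotientGroup.mk' (center G))).comap (QuotientGroup.mk' (center G)) = L := by
      rw [comap_map_eq, QuotientGroup.ker_mk', sup_eq_left.2 h1]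
    rcases hM.min (L.map (QuotientGroup.mk' (center G)))
      (hL.map _ (QuotientGroup.mk'_surjective _)) (map_le_iff_le_comap.2 h2) with h | h
    · left
      rw [← h3, h, MonoidHom.comap_bot, QuotientGroup.ker_mk']
    · right
      rw [← h3, h]
  have hNZ : ¬ N ≤ center G := fun h => hM.ne_bot (by
    rw [eq_bot_iff]
    intro m hm
    obtain ⟨m, rfl⟩ := QuotientGroup.mk_surjective m
    exact (QuotientGroup.eq_one_iff m).2 (h hm))
  have hnil : Group.IsNilpotent N := by
    refine ⟨⟨2, ?_⟩⟩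
    rw [eq_top_iff]
    intro a _
    rw [Subgroup.mem_upperCentralSeries_succ_iff]
    intro b
    rw [Subgroup.upperCentralSeries_one, mem_center_iff]
    intro g
    exact Subtype.ext (mem_center_iff.1 (hc _ a.2 _ b.2) g)
  have hN := card_ne_zero l hσ hf hnil
  by_cases hab : IsMulCommutative N
  · exact case_ab hσ hf hN hNZ hp3 hx hgen
  have hZ' : ∀ n ∈ N, (∀ m ∈ N, Commute m n) → n ∈ center G := by
    rcases hmin (N ⊓ centralizer (N : Set G)) inferInstance
      (le_inf hZN (center_le_centralizer _)) inf_le_left with h | h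
    · intro n hn h1
      rw [← h]
      exact ⟨hn, fun m hm => h1 m hm⟩
    · exact absurd ⟨⟨fun a b => Subtype.ext ((h.ge b.2).2 a a.2)⟩⟩ hab
  obtain ⟨S⟩ := nonempty_secRep q N (center G) (commutator_le.2 hc) fun n hn => by
    rw [← QuotientGroup.eq_one_iff, QuotientGroup.mk_pow]
    exact hMq _ hn
  have hnt : Nontrivial S.V := S.nontrivial_iff.2 hNZ
  have hirr : Irr S.ρ := by
    intro U hU
    let L : Subgroup G :=
      { carrier := {n | n ∈ N ∧ S.π n ∈ U}
        one_mem' := ⟨N.one_mem, by rw [S.π_one]; exact U.zero_mem⟩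
        mul_mem' := fun {a b} ha hb =>
          ⟨N.mul_mem ha.1 hb.1, by rw [S.π_mul ha.1 hb.1]; exact U.add_mem ha.2 hb.2⟩
        inv_mem' := fun {a} ha => ⟨N.inv_mem ha.1, by rw [S.π_inv ha.1]; exact U.neg_mem ha.2⟩ }
    have hL : L.Normal := ⟨fun n hn g => ⟨(inferInstance : N.Normal).conj_mem _ hn.1 g, by
      rw [← S.ρ_π g hn.1]; exact hU g _ hn.2⟩⟩
    rcases hmin L hL (fun z hz => ⟨hZN hz, by
      rw [(S.π_eq_zero (hZN hz)).2 hz]; exact U.zero_mem⟩) (fun _ h => h.1) with h | h
    · left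
      rw [eq_bot_iff]
      intro w hw
      obtain ⟨a, ha, rfl⟩ := S.π_surj w
      exact (S.π_eq_zero ha).2 (h.le (⟨ha, hw⟩ : a ∈ L))
    · right
      rw [eq_top_iff]
      intro w _
      obtain ⟨a, ha, rfl⟩ := S.π_surj w
      exact (h.ge ha).2
  have hD : 2 ≤ finrank (ZMod q) S.V := by
    by_contra h
    have h1 : finrank (ZMod q) S.V = 1 := by
      have := finrank_pos (R := ZMod q) (M := S.V)
      omega
    obtain ⟨v, -, hv⟩ := finrank_eq_one_iff'.1 h1
    obtain ⟨n, hn, rfl⟩ := S.π_surj v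
    have h2 : ∀ a ∈ N, ∃ k : ℕ, ∃ z ∈ center G, a = z * n ^ k := fun a ha => by
      obtain ⟨c, hc⟩ := hv (S.π a)
      refine ⟨c.val, a * (n ^ c.val)⁻¹, (S.π_eq_iff ha (N.pow_mem hn _)).1 ?_, by group⟩
      rw [S.π_pow hn, ← hc, ← Nat.cast_smul_eq_nsmul (ZMod q), ZMod.natCast_zmod_val]
    refine hab ⟨⟨fun a b => Subtype.ext ?_⟩⟩
    obtain ⟨i, z, hz, h3⟩ := h2 a a.2
    obtain ⟨j, y, hy, h4⟩ := h2 b b.2
    change (a : G) * b = b * a
    have h5 : Commute z (y * n ^ j) := (mem_center_iff.1 hz _).symm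
    have h6 : Commute (n ^ i) y := mem_center_iff.1 hy _
    rw [h3, h4]
    exact h5.mul_left (h6.mul_right ((Commute.refl n).pow_pow i j))
  have hx2 : S.ρ x ≠ 1 := by
    intro h
    have h1 : S.ρ.ker = ⊤ := eq_top_of_conj_mem hgen (g := 1) (by simpa using h)
    have h2 := hirr.finrank_eq_one_of_scalar fun g =>
      ⟨1, by rw [one_smul]; exact (h1.ge (mem_top g) : g ∈ S.ρ.ker)⟩
    omega
  have he := ih (G ⧸ N) (card_quotient_lt fun h => hNZ (h.le.trans bot_le)) q S.V
    (x : G ⧸ N) (S.lift N S.le_ker) (by rw [← QuotientGroup.mk_pow, hx]; rfl)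
    (normalClosure_map hgen (QuotientGroup.mk' _) (QuotientGroup.mk'_surjective _))
    (irr_lift hirr _ _) hx2
  exact case_nab hσ hf hN hc hZ' S hp3 hx hx1 hD he

omit hp [Finite G] [Group.IsSolvable G] in
theorem of_sum_eq_zero {M : Subgroup G} [Fintype M] (hM : (Fintype.card M : K) ≠ 0)
    (h : ∀ (W : Type w) [AddCommGroup W] [Module K W] [FiniteDimensional K W], Half p G K W)
    {x : G} (hx : x ^ p = 1) (hgen : normalClosure ({x} : Set G) = ⊤) (n : ℕ) :
    ∀ (V : Type w) [AddCommGroup V] [Module K V] [FiniteDimensional K V] [Nontrivial V]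
      (σ : G →* End K V), finrank K V = n → ∑ m : M, σ m = 0 →
      2 * finrank K (LinearMap.ker (σ x - 1)) < finrank K V := by
  induction n using Nat.strong_induction_on with
  | _ n ih =>
  intro V _ _ _ _ σ hn hs
  obtain ⟨U, hU, -, hU0, hUi⟩ := exists_irr_le σ (U := ⊤) (fun _ _ _ => trivial) top_ne_bot
  have hs' : ∀ v, ∑ m : M, σ m v = 0 := fun v => by
    rw [← LinearMap.sum_apply, hs, LinearMap.zero_apply]
  have h1 := h U x (res σ U hU) hx hgen hUi fun h0 => by
    have h2 : (res σ U hU).ker = ⊤ := eq_top_of_conj_mem hgen (g := 1) (by simpa using h0)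
    obtain ⟨u, hu, hu0⟩ := Submodule.exists_mem_ne_zero_of_ne_bot hU0
    have h3 : ∀ g, σ g u = u := fun g =>
      congrArg Subtype.val (LinearMap.congr_fun (h2.ge (mem_top g) : g ∈ (res σ U hU).ker) ⟨u, hu⟩)
    have h4 := hs' u
    simp only [h3, Finset.sum_const, Finset.card_univ] at h4
    rw [← Nat.cast_smul_eq_nsmul K, smul_eq_zero] at h4
    exact h4.elim hM hu0
  have hU' : ∀ v ∈ U, (σ x - 1) v ∈ U := fun v hv => U.sub_mem (hU x v hv) hv
  have h2 := finrank_ker_le (σ x - 1) U hU'
  have h3 : (σ x - 1).restrict hU' = res σ U hU x - 1 := by ext; rfl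
  let τ : G →* End K (V ⧸ U) := Representation.quotient σ U fun g => hU g
  have h4 : U.mapQ U (σ x - 1) hU' = τ x - 1 := by ext; rfl
  rw [h3, h4] at h2
  have h5 := U.finrank_quotient_add_finrank
  have h6 : 2 * finrank K (LinearMap.ker (τ x - 1)) ≤ finrank K (V ⧸ U) := by
    rcases subsingleton_or_nontrivial (V ⧸ U) with h7 | h7
    · rw [finrank_zero_of_subsingleton (M := LinearMap.ker (τ x - 1))]
      exact Nat.zero_le _
    · refine (ih _ (by omega) (V ⧸ U) τ rfl (LinearMap.ext fun v => ?_)).le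
      obtain ⟨v, rfl⟩ := U.mkQ_surjective v
      rw [LinearMap.sum_apply]
      change ∑ m : M, U.mkQ (σ m v) = 0
      rw [← map_sum, hs', map_zero]
  omega

theorem half_of_ih (hp3 : 3 < p) (ih : IH.{u} p (Nat.card G)) (l : ℕ) [Fact l.Prime]
    [CharP K l] [FiniteDimensional K V] : Half p G K V := by
  refine half_of_faithful fun H _ _ _ hH x σ hx hgen hσ hx1 hf => ?_
  have : Nontrivial V := by
    by_contra h
    rw [not_nontrivial_iff_subsingleton] at h
    exact hx1 (Subsingleton.elim _ _)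
  have : Nontrivial H := ⟨x, 1, fun h => hx1 (by rw [h, map_one])⟩
  obtain ⟨q, M, hq, hM, -, -, hMq⟩ := exists_isMinNormal_elementary H
  have : Fact q.Prime := ⟨hq⟩
  have := hM.normal
  have := Fintype.ofFinite M
  have hN := card_ne_zero l hσ hf (N := M) hMq.isNilpotent
  have hs : ∑ m : M, σ m = 0 := LinearMap.ext fun v => by
    have h1 : (∑ m : M, σ m) v ∈ fixsp σ M := fun m hm => by
      rw [LinearMap.sum_apply, map_sum]
      refine Fintype.sum_equiv (Equiv.mulLeft (⟨m, hm⟩ : M)) _ _ fun n => ?_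
      rw [← End.mul_apply, ← map_mul]
      rfl
    rwa [fixsp_eq_bot hσ hf hM.ne_bot, Submodule.mem_bot] at h1
  have hd : finrank (AlgebraicClosure K) (TensorProduct K (AlgebraicClosure K) V) = finrank K V :=
    Module.finrank_baseChange
  have : Nontrivial (TensorProduct K (AlgebraicClosure K) V) :=
    Module.nontrivial_of_finrank_pos (R := AlgebraicClosure K) (hd ▸ finrank_pos)
  have h1 := of_sum_eq_zero (K := AlgebraicClosure K) (M := M) (p := p)
    (by
      rw [← Nat.card_eq_fintype_card, ← map_natCast (algebraMap K (AlgebraicClosure K))]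
      exact (map_ne_zero _).2 hN)
    (fun W _ _ _ => half_of_faithful fun H' _ _ _ hH' => faithful_closed hp3
      (fun L _ _ _ hL => ih L (hL.trans_le (hH'.trans hH))) l)
    hx hgen _ _ (baseChangeRep σ) rfl (by
      simp only [baseChangeRep_apply]
      rw [← map_sum, hs, map_zero])
  have h2 := finrank_ker_le_baseChange (AlgebraicClosure K) (σ x - 1)
  rw [← baseChangeRep_sub_one, hd] at h1
  exact lt_of_le_of_lt (Nat.mul_le_mul_left _ h2) h1

theorem ih_all (hp3 : 3 < p) (n : ℕ) : IH.{u} p n := by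
  induction n with
  | zero => intro H _ _ _ h; exact absurd h (Nat.not_lt_zero _)
  | succ n ih =>
    intro H _ _ _ h q _ W _ _ _
    exact half_of_ih hp3 (fun L _ _ _ hL => ih L (by omega)) q

/-- An element of prime order `p > 3` whose conjugates generate the solvable group `G` fixes less
than half of an irreducible module on which it acts non-trivially. -/
theorem half (hp3 : 3 < p) (l : ℕ) [Fact l.Prime] [CharP K l] [FiniteDimensional K V] :
    Half p G K V := half_of_ih hp3 (ih_all hp3 _) l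

end Cfsg.Lib.Solv.HalfFix
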