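import Cfsg.Agent.Solv.HalfFixB
import Cfsg.Agent.Solv.Hall
import Cfsg.Agent.Solv.Frattini
import Cfsg.Agent.Solv.NilpotentHall
import Cfsg.Agent.Solv.Conj

/-!
# Generation of `A W` by two conjugates of an element of prime order `p > 3`
-/

set_option autoImplicit false

open Module Subgroup
open scoped commutatorElement Pointwise

namespace Cfsg.Lib.Solv.HalfFix

open HH

universe u

variable {G : Type u} [Group G]

theorem irr_secRep {q : ℕ} [Fact q.Prime] {W : Subgroup G} (hW : IsMinNormal W) (S : SecRep q W ⊥) :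
    Irr S.ρ := by
  intro U hU
  let L : Subgroup G :=
    { carrier := {n | n ∈ W ∧ S.π n ∈ U}
      one_mem' := ⟨W.one_mem, by rw [S.π_one]; exact U.zero_mem⟩
      mul_mem' := fun {a b} ha hb =>
        ⟨W.mul_mem ha.1 hb.1, by rw [S.π_mul ha.1 hb.1]; exact U.add_mem ha.2 hb.2⟩
      inv_mem' := fun {a} ha => ⟨W.inv_mem ha.1, by rw [S.π_inv ha.1]; exact U.neg_mem ha.2⟩ }
  have hL : L.Normal := ⟨fun n hn g => ⟨hW.normal.conj_mem _ hn.1 g, by
    rw [← S.ρ_π g hn.1]; exact hU g _ hn.2⟩⟩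
  rcases hW.min L hL (fun _ h => h.1) with h | h
  · left
    rw [eq_bot_iff]
    intro w hw
    obtain ⟨a, ha, rfl⟩ := S.π_surj w
    exact (S.π_eq_zero ha).2 (h.le (⟨ha, hw⟩ : a ∈ L))
  · right
    rw [eq_top_iff]
    intro w _
    obtain ⟨a, ha, rfl⟩ := S.π_surj w
    exact (h.ge ha).2

theorem exists_mul_of_sup {A W : Subgroup G} [W.Normal] (h : A ⊔ W = ⊤) (g : G) :
    ∃ a ∈ A, ∃ w ∈ W, g = a * w := by
  have : g ∈ ((A ⊔ W : Subgroup G) : Set G) := h.ge (mem_top g)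
  rw [mul_normal] at this
  obtain ⟨a, ha, w, hw, rfl⟩ := this
  exact ⟨a, ha, w, hw, rfl⟩

theorem gen_base [Finite G] [Group.IsSolvable G] {p : ℕ} [hp : Fact p.Prime] (hp3 : 3 < p)
    {A W F : Subgroup G} (hW : IsMinNormal W) (hs : A ⊔ W = ⊤) {x y : G} (hx : x ^ p = 1)
    (hxy : IsConj x y) (hA : A = zpowers x ⊔ zpowers y) (hFA : F ≤ A)
    (hAF : A ≤ normalizer (F : Set G)) (hF : Group.IsNilpotent F)
    (hn : ¬ F ≤ centralizer (W : Set G)) :
    ∃ w ∈ W, zpowers x ⊔ zpowers (w * y * w⁻¹) = ⊤ := by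
  have := hW.normal
  obtain ⟨q, hq, hc, hpow, hqW⟩ := hW.elementary
  have : Fact q.Prime := ⟨hq⟩
  have hcw : ∀ a ∈ W, ∀ b ∈ W, a * b = b * a := fun a ha b hb =>
    congrArg Subtype.val (mul_comm' (⟨a, ha⟩ : W) ⟨b, hb⟩)
  have hxA : x ∈ A := hA ▸ mem_sup_left (mem_zpowers x)
  have hyA : y ∈ A := hA ▸ mem_sup_right (mem_zpowers y)
  have hFW : (F ⊔ W).Normal := by
    rw [← normalizer_eq_top_iff, eq_top_iff, ← hs, sup_le_iff]
    exact ⟨le_normalizer_sup hAF (le_normalizer_of_normal), le_sup_right.trans le_normalizer⟩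
  have hcen : ∀ L : Subgroup G, L.Normal → Group.IsNilpotent L → L ≤ centralizer (W : Set G) :=
    fun L _ hL => le_centralizer_iff.1 (commutator_eq_bot_iff_le_centralizer.1
      (commutator_eq_bot_of_minimal_normal_of_isNilpotent hW.min hL))
  have hAW : W ⊓ A = ⊥ := by
    refine hW.eq_bot_of_lt (hM := inf_normal_of_sup_eq_top_of_isMulCommutative hs)
      (lt_of_le_of_ne inf_le_left fun h => hn ?_)
    have h1 : A = ⊤ := by rw [← hs, sup_eq_left.2 (h.ge.trans inf_le_right)]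
    refine hcen F ?_ hF
    rw [← normalizer_eq_top_iff, eq_top_iff, ← h1]
    exact hAF
  -- the `q'`-part of `F`
  let R := (pPrimeCore q F).map F.subtype
  have hRF : R ≤ F := map_subtype_le _
  have hR : ∀ a ∈ A, ∀ r ∈ R, a * r * a⁻¹ ∈ R := fun a ha r hr => by
    rw [mem_map_pPrimeCore_iff_of_isNilpotent hF] at hr ⊢
    refine ⟨(mem_normalizer_iff.1 (hAF ha) r).1 hr.1, ?_⟩
    have : orderOf (a * r * a⁻¹) = orderOf r := (MulAut.conj a).orderOf_eq r
    rw [this]
    exact hr.2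
  have hRn : ¬ R ≤ centralizer (W : Set G) := by
    intro h
    apply hn
    rw [← map_pCore_sup_map_pPrimeCore_of_isNilpotent hF q, sup_le_iff]
    refine ⟨le_sup_left.trans (hcen ((pCore q F).map F.subtype ⊔ W) ?_ ?_), h⟩
    · rw [← normalizer_eq_top_iff, eq_top_iff, ← hs, sup_le_iff]
      refine ⟨le_normalizer_sup ?_ (le_normalizer_of_normal), le_sup_right.trans le_normalizer⟩
      refine fun a ha => mem_normalizer_of_conj_mem fun r hr => ?_
      rw [mem_map_pCore_iff_of_isNilpotent hF] at hr ⊢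
      refine ⟨(mem_normalizer_iff.1 (hAF ha) r).1 hr.1, ?_⟩
      have : orderOf (a * r * a⁻¹) = orderOf r := (MulAut.conj a).orderOf_eq r
      rw [this]
      exact hr.2
    · exact (IsPGroup.to_sup_of_normal_right ((pCore_isPGroup q F).map _) hqW).isNilpotent
  have hCR : W ⊓ centralizer (R : Set G) = ⊥ := by
    have hN : (W ⊓ centralizer (R : Set G)).Normal := ⟨fun w hw g => by
      obtain ⟨a, ha, u, hu, rfl⟩ := exists_mul_of_sup hs g
      have h1 : a * u * w * (a * u)⁻¹ = a * w * a⁻¹ := by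
        rw [mul_assoc a, hcw u hu w hw.1]; group
      rw [h1]
      refine ⟨hW.normal.conj_mem _ hw.1 a, fun r hr => ?_⟩
      have h2 := hw.2 _ (hR a⁻¹ (A.inv_mem ha) r hr)
      calc r * (a * w * a⁻¹) = a * (a⁻¹ * r * a⁻¹⁻¹ * w) * a⁻¹ := by group
        _ = a * w * a⁻¹ * r := by rw [h2]; group⟩
    exact hW.eq_bot_of_lt (lt_of_le_of_ne inf_le_left fun h =>
      hRn (le_centralizer_iff.1 (h.ge.trans inf_le_right)))
  have hNR : ∀ g, (∀ r ∈ R, g * r * g⁻¹ ∈ R) → g ∈ A := fun g hg => by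
    obtain ⟨a, ha, u, hu, rfl⟩ := exists_mul_of_sup hs g
    have h1 : u ∈ W ⊓ centralizer (R : Set G) := ⟨hu, fun r hr => by
      have h2 := hR a⁻¹ (A.inv_mem ha) _ (hg r hr)
      have h3 : u * (r * u⁻¹ * r⁻¹) ∈ W ⊓ A := by
        refine ⟨W.mul_mem hu (hW.normal.conj_mem _ (W.inv_mem hu) r), ?_⟩
        have h4 := A.mul_mem (hFA (hRF h2)) (A.inv_mem (hFA (hRF hr)))
        have h5 : u * (r * u⁻¹ * r⁻¹) = a⁻¹ * (a * u * r * (a * u)⁻¹) * a⁻¹⁻¹ * r⁻¹ := by group
        rwa [h5]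
      rw [hAW, mem_bot] at h3
      calc r * u = u * (r * u⁻¹ * r⁻¹) * (r * u) := by rw [h3, one_mul]
        _ = u * r := by group⟩
    rw [hCR, mem_bot] at h1
    rw [h1, mul_one]
    exact ha
  have hcop : (Nat.card R).Coprime (Nat.card W) := by
    rw [card_map_of_injective F.subtype_injective]
    exact (coprime_card_of_isPGroup hqW (coprime_card_pPrimeCore_of_isNilpotent q)).symm
  have hfix : ∀ a ∈ A, ∀ u ∈ W, u⁻¹ * a * u ∈ A → u * a = a * u := fun a ha u hu h => by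
    have h1 : a⁻¹ * u⁻¹ * a⁻¹⁻¹ * u ∈ W ⊓ A := by
      refine ⟨W.mul_mem (hW.normal.conj_mem _ (W.inv_mem hu) _) hu, ?_⟩
      have h2 : a⁻¹ * u⁻¹ * a⁻¹⁻¹ * u = a⁻¹ * (u⁻¹ * a * u) := by group
      rw [h2]
      exact A.mul_mem (A.inv_mem ha) h
    rw [hAW, mem_bot] at h1
    calc u * a = u * a * (a⁻¹ * u⁻¹ * a⁻¹⁻¹ * u) := by rw [h1, mul_one]
      _ = a * u := by group
  by_contra hne
  push Not at hne
  have key : ∀ w ∈ W, ∃ n ∈ W, ∃ m ∈ W, n * x = x * n ∧ m * y = y * m ∧ w = n * m := by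
    intro w hw
    set B := zpowers x ⊔ zpowers (w * y * w⁻¹) with hB
    have hxB : x ∈ B := mem_sup_left (mem_zpowers x)
    have hyB : w * y * w⁻¹ ∈ B := mem_sup_right (mem_zpowers _)
    have hBW : B ⊔ W = ⊤ := by
      rw [eq_top_iff, ← hs, sup_le_iff, hA, sup_le_iff, zpowers_le, zpowers_le]
      refine ⟨⟨mem_sup_left hxB, ?_⟩, le_sup_right⟩
      have h1 : y = w⁻¹ * (w * y * w⁻¹) * w := by group
      rw [h1]
      exact mul_mem (mul_mem (mem_sup_right (W.inv_mem hw)) (mem_sup_left hyB)) (mem_sup_right hw)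
    have hWB : W ⊓ B = ⊥ :=
      hW.eq_bot_of_lt (hM := inf_normal_of_sup_eq_top_of_isMulCommutative hBW)
        (lt_of_le_of_ne inf_le_left fun h => hne w hw (by
          rw [← hBW, sup_eq_left.2 (h.ge.trans inf_le_right)]))
    obtain ⟨n, hn, h1⟩ := exists_conj_le_of_le_sup (N := W) (H := B) (K := R)
      le_normalizer_of_normal hWB (by rw [sup_comm, hBW]; exact le_top) hcop
      (Or.inl inferInstance)
    have h2 : ∀ r ∈ R, n * r * n⁻¹ ∈ B := fun r hr => h1 (smul_mem_pointwise_smul _ _ _ hr)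
    have h3 : ∀ b ∈ B, n⁻¹ * b * n ∈ A := fun b hb => hNR _ fun r hr => by
      obtain ⟨a, ha, u, hu, h4⟩ := exists_mul_of_sup hs (n⁻¹ * b * n)
      have h5 := hR a ha r hr
      have h6 : n * ((a * r * a⁻¹)⁻¹ * (a * u * r * (a * u)⁻¹)) * n⁻¹ ∈ W ⊓ B := by
        constructor
        · have h7 : (a * r * a⁻¹)⁻¹ * (a * u * r * (a * u)⁻¹) =
              a * (r⁻¹ * u * r⁻¹⁻¹ * u⁻¹) * a⁻¹ := by group
          rw [h7]
          exact hW.normal.conj_mem _ (hW.normal.conj_mem _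
            (W.mul_mem (hW.normal.conj_mem _ hu _) (W.inv_mem hu)) _) _
        · have h7 : n * ((a * r * a⁻¹)⁻¹ * (a * u * r * (a * u)⁻¹)) * n⁻¹ =
              (n * (a * r * a⁻¹) * n⁻¹)⁻¹ * (b * (n * r * n⁻¹) * b⁻¹) := by
            rw [← h4]; group
          rw [h7]
          exact B.mul_mem (B.inv_mem (h2 _ h5)) (B.mul_mem (B.mul_mem hb (h2 r hr)) (B.inv_mem hb))
      rw [hWB, mem_bot, mul_inv_eq_one, mul_eq_left, inv_mul_eq_one] at h6
      rwa [h4, ← h6]
    refine ⟨n, hn, n⁻¹ * w, W.mul_mem (W.inv_mem hn) hw, hfix x hxA n hn (h3 x hxB), ?_, by group⟩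
    have h4 := hfix y hyA _ (W.inv_mem (W.mul_mem (W.inv_mem hn) hw)) (by
      have := h3 _ hyB
      rwa [show n⁻¹ * (w * y * w⁻¹) * n = (n⁻¹ * w)⁻¹⁻¹ * y * (n⁻¹ * w)⁻¹ by group] at this)
    exact (Commute.inv_left_iff.1 h4).eq
  obtain ⟨S⟩ := nonempty_secRep q W ⊥
    (commutator_le.2 fun a ha b hb => commutatorElement_eq_one_iff_mul_comm.2 (hcw a ha b hb)) hpow
  have hirr := irr_secRep hW S
  have hgen : normalClosure ({x} : Set G) = ⊤ := by
    have h1 : A ≤ normalClosure ({x} : Set G) := by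
      obtain ⟨c, rfl⟩ := isConj_iff.1 hxy
      have h2 : x ∈ normalClosure ({x} : Set G) := subset_normalClosure (Set.mem_singleton x)
      rw [hA, sup_le_iff, zpowers_le, zpowers_le]
      exact ⟨h2, normalClosure_normal.conj_mem _ h2 c⟩
    rw [eq_top_iff, ← hs, sup_le_iff]
    refine ⟨h1, hW.le_of_inf_ne_bot fun h => hn (hFA.trans (h1.trans ?_))⟩
    rw [← commutator_eq_bot_iff_le_centralizer, eq_bot_iff, ← h, inf_comm]
    exact commutator_le_inf _ _
  have hhalf : ∀ z, IsConj x z →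
      2 * finrank (ZMod q) (LinearMap.ker (S.ρ z - 1)) < finrank (ZMod q) S.V := by
    intro z hz
    obtain ⟨c, rfl⟩ := isConj_iff.1 hz
    have h1 : normalClosure ({c * x * c⁻¹} : Set G) = ⊤ :=
      eq_top_of_conj_mem hgen (g := c⁻¹) (by
        rw [inv_inv]; exact subset_normalClosure (Set.mem_singleton _))
    refine half hp3 q _ S.ρ (by rw [conj_pow, hx]; simp) h1 hirr fun h => hn ?_
    have h2 : S.ρ.ker = ⊤ := eq_top_of_conj_mem h1 (g := 1) (by simpa using h)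
    rw [← commutator_eq_bot_iff_le_centralizer, eq_bot_iff, ← S.le_ker_iff, h2]
    exact le_top
  have h1 := hhalf x (IsConj.refl x)
  have h2 := hhalf y hxy
  have h3 : LinearMap.ker (S.ρ x - 1) ⊔ LinearMap.ker (S.ρ y - 1) = ⊤ := by
    rw [eq_top_iff]
    intro v _
    obtain ⟨w, hw, rfl⟩ := S.π_surj v
    obtain ⟨n, hn, m, hm, h4, h5, rfl⟩ := key w hw
    rw [S.π_mul hn hm]
    refine Submodule.add_mem_sup ?_ ?_
    · rw [LinearMap.mem_ker, S.sub_one_π x hn, commutatorElement_eq_one_iff_mul_comm.2 h4.symm,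
        S.π_one]
    · rw [LinearMap.mem_ker, S.sub_one_π y hm, commutatorElement_eq_one_iff_mul_comm.2 h5.symm,
        S.π_one]
  have h4 := Submodule.finrank_sup_add_finrank_inf_eq (LinearMap.ker (S.ρ x - 1))
    (LinearMap.ker (S.ρ y - 1))
  rw [h3, finrank_top] at h4
  omega

theorem gen_top {p : ℕ} [hp : Fact p.Prime] (hp3 : 3 < p) (G : Type u) [Group G] [Finite G] :
    Group.IsSolvable G → ∀ (A W F : Subgroup G) (x y : G), W.Normal → Group.IsNilpotent W →
      A ⊔ W = ⊤ → x ^ p = 1 → IsConj x y → A = zpowers x ⊔ zpowers y → F ≤ A →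
      A ≤ normalizer (F : Set G) → Group.IsNilpotent F → ¬ Group.IsNilpotent ↥(F ⊔ W) →
      (∀ W' : Subgroup G, W'.Normal → W' < W → Group.IsNilpotent ↥(F ⊔ W')) →
      ∃ b, zpowers x ⊔ zpowers (b * x * b⁻¹) = ⊤ := by
  refine card_induction (P := fun G _ _ =>
    Group.IsSolvable G → ∀ (A W F : Subgroup G) (x y : G), W.Normal → Group.IsNilpotent W →
      A ⊔ W = ⊤ → x ^ p = 1 → IsConj x y → A = zpowers x ⊔ zpowers y → F ≤ A →
      A ≤ normalizer (F : Set G) → Group.IsNilpotent F → ¬ Group.IsNilpotent ↥(F ⊔ W) →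
      (∀ W' : Subgroup G, W'.Normal → W' < W → Group.IsNilpotent ↥(F ⊔ W')) →
      ∃ b, zpowers x ⊔ zpowers (b * x * b⁻¹) = ⊤) ?_ G
  intro G _ _ ih _ A W F x y hWn hW hs hx hxy hA hFA hAF hF hn hmin
  have hW0 : W ≠ ⊥ := by
    rintro rfl
    rw [sup_bot_eq] at hn
    exact hn hF
  obtain ⟨N, hN, hNW⟩ := exists_isMinNormal_le W hW0
  have := hN.normal
  have := hN.isMulCommutative
  have hWN : W ≤ centralizer (N : Set G) := le_centralizer_iff.1
    (commutator_eq_bot_iff_le_centralizer.1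
      (commutator_eq_bot_of_minimal_normal_of_isNilpotent hN.min hW))
  rcases hNW.lt_or_eq with hlt | rfl
  swap
  · obtain ⟨w, -, h⟩ := gen_base hp3 hN hs hx hxy hA hFA hAF hF fun h => hn
      (isNilpotent_of_map_mk'_of_le_centralizer (sup_le h hWN) (by
        rw [Subgroup.map_sup, (Subgroup.map_eq_bot_iff N).2 (QuotientGroup.ker_mk' N).ge, sup_bot_eq]
        exact isNilpotent_map _ _ hF))
    obtain ⟨c, rfl⟩ := isConj_iff.1 hxy
    exact ⟨w * c, by rw [← h]; congr 2; group⟩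
  have hFW : (F ⊔ W).Normal := by
    rw [← normalizer_eq_top_iff, eq_top_iff, ← hs, sup_le_iff]
    exact ⟨le_normalizer_sup hAF (le_normalizer_of_normal), le_sup_right.trans le_normalizer⟩
  have hc : F ⊔ W ≤ centralizer (N : Set G) := by
    rw [← le_centralizer_iff, ← commutator_eq_bot_iff_le_centralizer]
    refine (hN.min _ inferInstance (commutator_le_left _ _)).resolve_right fun h => hN.ne_bot ?_
    refine eq_bot_of_le_commutator_of_isNilpotent (hmin N hN.normal hlt) le_sup_right ?_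
    refine h.ge.trans (commutator_le.2 fun n hn g hg => ?_)
    have h1 : g ∈ ((F ⊔ W : Subgroup G) : Set G) := hg
    rw [mul_normal] at h1
    obtain ⟨f, hf, w, hw, rfl⟩ := h1
    have h2 : ⁅n, f * w⁆ = ⁅n, f⁆ := by
      have h3 := hWN hw _ (N.inv_mem hn)
      calc ⁅n, f * w⁆ = n * f * (w * n⁻¹) * w⁻¹ * f⁻¹ := by
            simp only [commutatorElement_def]; group
        _ = ⁅n, f⁆ := by rw [← h3]; simp only [commutatorElement_def]; group
    change ⁅n, f * w⁆ ∈ _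
    rw [h2]
    exact commutator_mem_commutator hn (mem_sup_left hf)
  let φ := QuotientGroup.mk' N
  have hφ : Function.Surjective φ := QuotientGroup.mk'_surjective N
  have hcm : ∀ L : Subgroup G, (L.map φ).comap φ = L ⊔ N := fun L => by
    rw [comap_map_eq, QuotientGroup.ker_mk']
  obtain ⟨b, hb⟩ := ih (G ⧸ N) (card_quotient_lt hN.ne_bot) inferInstance (A.map φ) (W.map φ)
    (F.map φ) (φ x) (φ y) (hWn.map _ hφ) (isNilpotent_map _ _ hW)
    (by rw [← Subgroup.map_sup, hs, map_top_of_surjective _ hφ]) (by rw [← map_pow, hx, map_one])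
    (φ.map_isConj hxy) (by rw [hA, Subgroup.map_sup, MonoidHom.map_zpowers, MonoidHom.map_zpowers])
    (map_mono hFA) ((map_mono hAF).trans (le_normalizer_map φ)) (isNilpotent_map _ _ hF)
    (fun h => hn (isNilpotent_of_map_mk'_of_le_centralizer hc (by rwa [Subgroup.map_sup])))
    (fun W' hW' hlt' => by
      have h1 : W'.comap φ < W := by
        rw [← sup_eq_left.2 hNW, ← hcm]
        exact (comap_lt_comap_of_surjective hφ).2 hlt'
      have h2 := isNilpotent_map φ _ (hmin _ (hW'.comap φ) h1)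
      rwa [Subgroup.map_sup, map_comap_eq_self_of_surjective hφ] at h2)
  obtain ⟨b, rfl⟩ := hφ b
  refine ⟨b, ?_⟩
  set B := zpowers x ⊔ zpowers (b * x * b⁻¹) with hB
  have hBN : B ⊔ N = ⊤ := by
    rw [← hcm, hB, Subgroup.map_sup, MonoidHom.map_zpowers, MonoidHom.map_zpowers, map_mul, map_mul,
      map_inv, hb, comap_top]
  by_contra hne
  have hNB : ¬ N ≤ B := fun h => hne (by rw [← hBN, sup_eq_left.2 h])
  have h1 : (W ⊓ B).Normal := ⟨fun w hw g => by
    obtain ⟨c, hc', n, hn', rfl⟩ := exists_mul_of_sup hBN g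
    have h2 : c * n * w * (c * n)⁻¹ = c * w * c⁻¹ := by
      rw [mul_assoc c, hWN hw.1 n hn']; group
    rw [h2]
    exact ⟨hWn.conj_mem _ hw.1 c, B.mul_mem (B.mul_mem hc' hw.2) (B.inv_mem hc')⟩⟩
  have h2 := isNilpotent_map φ _ (hmin _ h1 (lt_of_le_of_ne inf_le_left fun h =>
    hNB (hNW.trans (h.ge.trans inf_le_right))))
  refine hn (isNilpotent_of_map_mk'_of_le_centralizer hc (isNilpotent_of_le ?_ h2))
  rw [map_le_iff_le_comap, hcm, sup_assoc]
  refine sup_le_sup_left (fun w hw => ?_) _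
  obtain ⟨c, hc', n, hn', rfl⟩ := exists_mul_of_sup hBN w
  refine mul_mem (mem_sup_left ⟨?_, hc'⟩) (mem_sup_right hn')
  simpa using W.mul_mem hw (W.inv_mem (hNW hn'))

end Cfsg.Lib.Solv.HalfFix
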