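import Cfsg.Agent.Solv.BHM2
import Cfsg.Agent.Solv.MinCover
import Cfsg.Agent.Solv.ThompsonWrap
import Cfsg.Agent.Solv.CoprimeGen
import Cfsg.Agent.Inst.S0108

/-!
Groups in which the centralizer of every non-central element `x` is maximal among the proper
subgroups invariant under the automorphisms fixing `x`.
-/

set_option autoImplicit false

namespace Cfsg.Lib.Solv.MaxCent

open Subgroup Cfsg.Lib.FT Cfsg.Lib.Solv.ClassSize
open scoped commutatorElement

universe u

variable {X : Type u} [Group X]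

/-- `K` is invariant under the automorphisms fixing `x`. -/
def AInv (x : X) (K : Subgroup X) : Prop :=
  ∀ α : X ≃* X, α x = x → K.map α.toMonoidHom = K

theorem AInv.of_mem [Finite X] {x : X} {K : Subgroup X}
    (h : ∀ α : X ≃* X, α x = x → ∀ k ∈ K, α k ∈ K) : AInv x K := fun α hα =>
  PG.eq_of_le_of_card_eq (by rintro _ ⟨k, hk, rfl⟩; exact h α hα k hk)
    (card_map_of_injective α.injective)

theorem AInv.char (x : X) (K : Subgroup X) [h : K.Characteristic] : AInv x K := fun α _ =>
  characteristic_iff_map_eq.1 h α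

theorem AInv.sup {x : X} {K L : Subgroup X} (hK : AInv x K) (hL : AInv x L) : AInv x (K ⊔ L) :=
  fun α hα => by rw [Subgroup.map_sup, hK α hα, hL α hα]

theorem AInv.normalizer {x : X} {K : Subgroup X} (hK : AInv x K) :
    AInv x (normalizer (K : Set X)) := fun α hα => by
  rw [map_equiv_normalizer_eq, hK α hα]

theorem AInv.cent [Finite X] {x y : X} (h : y ∈ zpowers x) : AInv x (centralizer {y}) :=
  AInv.of_mem fun α hα k hk => by
    obtain ⟨n, rfl⟩ := h
    have h1 := congrArg α (ClassSize.mem_cent.1 hk)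
    simp only [map_mul, map_zpow, hα] at h1
    exact ClassSize.mem_cent.2 h1

theorem mem_char (K : Subgroup X) [h : K.Characteristic] (α : X ≃* X) {k : X} (hk : k ∈ K) :
    α k ∈ K := characteristic_iff_map_le.1 h α ⟨k, hk, rfl⟩

/-- The hypothesis. -/
def Hyp (X : Type u) [Group X] : Prop :=
  ∀ x ∉ center X, ∀ K : Subgroup X, centralizer {x} ≤ K → AInv x K →
    K = centralizer {x} ∨ K = ⊤

theorem hyp_of_isCoatom {G : Type u} [Group G] (N : Subgroup G) [N.Normal]
    (h : ∀ x ∈ N, x ∉ centralizer (N : Set G) → IsCoatom (centralizer ({x} : Set G))) :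
    Hyp N := by
  intro x hx K hK hinv
  have hx' : (x : G) ∉ centralizer (N : Set G) := fun h' =>
    hx (mem_center_iff.2 fun g => Subtype.ext (mem_centralizer_iff.1 h' g g.2))
  have hn : centralizer ({(x : G)} : Set G) ≤ normalizer (K.map N.subtype : Set G) := by
    intro m hm
    have h1 := hinv (MulAut.conjNormal m) (Subtype.ext (mem_cent_iff_conj.1 hm))
    rw [mem_normalizer_iff_conj_smul_eq, conj_smul_eq_map]
    conv_rhs => rw [← h1]
    rw [map_map, map_map]
    rfl
  rcases (le_sup_right : _ ≤ K.map N.subtype ⊔ centralizer {(x : G)}).eq_or_lt with h1 | h1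
  · refine Or.inl (le_antisymm (fun k hk => ?_) hK)
    rw [cent_subtype]
    exact h1.ge (mem_sup_left ⟨k, hk, rfl⟩)
  · refine Or.inr (eq_top_iff.2 fun n _ => ?_)
    obtain ⟨_, ⟨k, hk, rfl⟩, m, hm, e⟩ := (mem_sup_of_le_normalizer hn).1
      (((h x x.2 hx').2 _ h1).ge (mem_top (n : G)))
    have h2 : k⁻¹ * n ∈ centralizer {x} := by
      rw [cent_subtype, mem_subgroupOf, Subgroup.coe_mul, ← e]
      simpa using hm
    exact (mul_mem_cancel_left (inv_mem hk)).1 (hK h2)

variable [Finite X]

theorem nilpotent_of_pow {p : ℕ} (hp : p.Prime) (h : ∀ g : X, ∃ k, g ^ p ^ k ∈ center X) :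
    Group.IsNilpotent X := by
  have := Fact.mk hp
  refine of_quotient_center_nilpotent (IsPGroup.isNilpotent (p := p) fun g => ?_)
  obtain ⟨g, rfl⟩ := QuotientGroup.mk_surjective g
  exact (h g).imp fun k hk => (QuotientGroup.eq_one_iff _).2 hk

omit [Finite X] in
theorem normal_cent {x : X} (h : ∀ g : X, ⁅g, x⁆ ∈ center X) :
    (centralizer ({x} : Set X)).Normal :=
  ⟨fun a ha g => by
    have h1 := mem_center_iff.1 (h g⁻¹) a
    rw [mem_cent_iff_conj] at ha ⊢
    calc g * a * g⁻¹ * x * (g * a * g⁻¹)⁻¹ = g * (a * ⁅g⁻¹, x⁆) * x * a⁻¹ * g⁻¹ := by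
          rw [commutatorElement_def]; group
      _ = g * ⁅g⁻¹, x⁆ * (a * x * a⁻¹) * g⁻¹ := by rw [h1]; group
      _ = x := by rw [ha, commutatorElement_def]; group⟩

theorem mem_of_pow_mem {C : Subgroup X} {x : X} {n : ℕ} (h : x ^ n ∈ C)
    (hc : (orderOf x).Coprime n) : x ∈ C :=
  zpowers_le.2 h (mem_zpowers_pow_iff.2 hc.symm)

variable (H : Hyp X)
include H

theorem cent_eq_of_mem_zpowers {x y : X} (h : y ∈ zpowers x) (hy : y ∉ center X) :
    centralizer ({y} : Set X) = centralizer {x} :=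
  (H x (fun hx => hy (zpowers_le.2 hx h)) _ (cent_le_cent_of_mem_zpowers h)
    (AInv.cent h)).resolve_right fun e => hy (cent_eq_top_iff.1 e)

theorem cent_eq_of_coprime {x y : X} (hx : x ∉ center X) (hy : y ∉ center X) (hc : Commute x y)
    (hcop : (orderOf x).Coprime (orderOf y)) : centralizer ({x} : Set X) = centralizer {y} :=
  (cent_eq_of_mem_zpowers H (left_mem_zpowers_mul_of_coprime hc hcop) hx).trans
    (cent_eq_of_mem_zpowers H (right_mem_zpowers_mul_of_coprime hc hcop) hy).symm

theorem isNilpotent_cent {x : X} (hx : x ∉ center X) :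
    Group.IsNilpotent (centralizer ({x} : Set X)) := by
  obtain ⟨r, hr, hx'⟩ : ∃ r : ℕ, r.Prime ∧ constt {r} x ∉ center X := by
    by_contra! h
    exact hx (mem_of_forall_constt_mem fun r hr _ => h r hr)
  rw [← cent_eq_of_mem_zpowers H (cycle_constt {r} x) hx']
  have hrx := p_elt_constt {r} x
  generalize constt {r} x = y at hx' hrx
  have key : ∀ (p k : ℕ) (a b : centralizer ({y} : Set X)), p.Prime → p ≠ r →
      orderOf a = p ^ k → Commute a b := by
    intro p k a b hp hpr ha
    refine Subtype.ext ?_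
    by_cases haZ : (a : X) ∈ center X
    · exact (mem_center_iff.1 haZ b).symm
    · have h1 := cent_eq_of_coprime H hx' haZ (mem_cent_iff_commute.1 a.2).symm
        (p_elt_coprime hrx (piElt_iff.2 (by
          rw [Subgroup.orderOf_coe, ha]; exact IsPiNum.prime_pow hp hpr k)))
      exact (ClassSize.mem_cent.1 (h1.le b.2)).symm
  refine isNilpotent_of_forall_commute_of_prime_pow fun p q hp hq hpq k l a b ha hb => ?_
  by_cases hpr : p = r
  · exact (key q l b a hq (fun h => hpq (hpr.trans h.symm)) hb).symm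
  · exact key p k a b hp hpr ha

theorem exists_pCore_not_le (hX : center X ≠ ⊤) :
    ∃ p : ℕ, p.Prime ∧ ¬ pCore p X ≤ center X := by
  by_contra! hO
  have hnil : ∀ N : Subgroup X, N.Normal → Group.IsNilpotent N → N ≤ center X := fun N hN h =>
    le_of_forall_prime_pow_mem fun p hp k x hx hk => by
      have := Fact.mk hp
      exact hO p hp (mem_pCore_of_mem_fitting (le_fitting hN h hx) hk)
  have hker : (QuotientGroup.mk' (center X)).ker ≤ center X := (QuotientGroup.ker_mk' _).le
  have hnil' : ∀ N : Subgroup (X ⧸ center X), N.Normal → Group.IsNilpotent N → N = ⊥ := by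
    intro N hN h
    rw [eq_bot_iff]
    intro a ha
    obtain ⟨a, rfl⟩ := QuotientGroup.mk'_surjective _ a
    exact mem_bot.2 ((QuotientGroup.eq_one_iff a).2 (hnil _ (hN.comap _)
      (isNilpotent_comap_of_ker_le_center _ hker h) ha))
  have hcent : ∀ x ∉ center X, ∀ K : Subgroup (X ⧸ center X),
      centralizer {(x : X ⧸ center X)} ≤ K →
      (∀ β : (X ⧸ center X) ≃* (X ⧸ center X), β x = x → ∀ k ∈ K, β k ∈ K) →
      K = ⊤ ∨ Group.IsNilpotent K := by
    intro x hx K hK hinv
    rcases H x hx (K.comap (QuotientGroup.mk' _)) ((cent_le_comap _ x).trans (comap_mono hK))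
      (AInv.of_mem fun α hα k hk => hinv (QuotientGroup.congr _ _ α
        (characteristic_iff_map_eq.1 inferInstance α))
        (congrArg (QuotientGroup.mk (s := center X)) hα) _ hk) with h | h
    · right
      rw [← map_comap_eq_self_of_surjective (QuotientGroup.mk'_surjective _) K, h]
      exact isNilpotent_map _ _ (isNilpotent_cent H hx)
    · left
      rw [← map_comap_eq_self_of_surjective (QuotientGroup.mk'_surjective _) K, h,
        map_top_of_surjective _ (QuotientGroup.mk'_surjective _)]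
  have hcomp : ∀ (p : ℕ) [Fact p.Prime], p ≠ 2 → HasNormalPComplement p (X ⧸ center X) := by
    intro p _ hp2
    obtain ⟨P⟩ : Nonempty (Sylow p (X ⧸ center X)) := inferInstance
    refine hasNormalPComplement_of_forall_invariant_top hp2 P fun W hWP hW hinv => ?_
    have hPn := P.isPGroup'.isNilpotent
    obtain ⟨x, ⟨hxP, hxc⟩, hx1⟩ := SetLike.not_le_iff_exists.1 fun h =>
      PG.inf_centralizer_ne_bot_of_isNilpotent hPn le_rfl le_normalizer
        (fun e => hW (le_bot_iff.1 (e ▸ hWP))) (le_bot_iff.1 h)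
    obtain ⟨x, rfl⟩ := QuotientGroup.mk_surjective x
    have hx : x ∉ center X := fun h => hx1 (mem_bot.2 ((QuotientGroup.eq_one_iff x).2 h))
    have hC : Group.IsNilpotent (centralizer ({(x : X ⧸ center X)} : Set (X ⧸ center X))) := by
      refine (hcent x hx _ le_rfl fun β hβ k hk => ?_).resolve_left fun h => hx1 ?_
      · exact (AInv.cent (mem_zpowers _) β hβ).le ⟨k, hk, rfl⟩
      · rw [← hnil' _ inferInstance (isNilpotent_of_isMulCommutative (center _))]
        exact cent_eq_top_iff.1 h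
    have hPC := le_cent_iff.2 hxc
    have hCP := le_normalizer_hall_of_isNilpotent hC hPC (Nat.Coprime.coprime_dvd_right
      (relIndex_dvd_index_of_le hPC) P.card_coprime_index)
    refine (hcent x hx _ (hCP.trans (normalizer_le_normalizer_of_invariant hinv))
      (fun β hβ k hk => ?_)).elim (fun h => absurd (hnil' W (normalizer_eq_top_iff.1 h)
        (P.isPGroup'.to_le hWP).isNilpotent) hW) fun h => hasNormalPComplement_of_isNilpotent p
    · have h1 : (P : Subgroup (X ⧸ center X)).map (β : X ⧸ center X →* X ⧸ center X) =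
          (P : Subgroup (X ⧸ center X)) := by
        refine PG.eq_of_le_of_card_eq ?_ (card_map_of_injective β.injective)
        rw [← inf_eq_left, ← (P.isPGroup'.map _).inf_normalizer_sylow, inf_eq_left]
        exact ((map_mono hPC).trans (AInv.cent (mem_zpowers _) β hβ).le).trans hCP
      rw [← hinv β h1]
      exact (map_equiv_normalizer_eq W β).le ⟨k, hk, rfl⟩
  have : Nontrivial (X ⧸ center X) := QuotientGroup.nontrivial_iff.2 hX
  obtain ⟨N, hN⟩ := exists_isMinNormal (X ⧸ center X)
  have := hN.normal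
  refine hN.ne_bot (hnil' N hN.normal ?_)
  by_cases h2 : IsPiNum {2} (Nat.card N)
  · exact (isPGroup_iff_isPiNum.2 h2).isNilpotent
  simp only [IsPiNum, not_forall] at h2
  obtain ⟨p, hp, hpN, hp2⟩ := h2
  have := Fact.mk hp
  obtain ⟨P, K, hK, hc⟩ := hcomp p hp2
  rcases hN.inf_eq_bot_or_le K with h | h
  · obtain ⟨k, hk⟩ := P.isPGroup'.exists_card_eq
    refine (IsPGroup.of_card_dvd_pow (p := p) (n := k) ?_).isNilpotent
    rw [← relIndex_bot_left, ← h, inf_relIndex_left, ← hk, ← hc.symm.index_eq_card]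
    exact relIndex_dvd_index_of_normal _ _
  · exact absurd (hc.index_eq_card ▸ hpN.trans (card_dvd_of_le h)) P.not_dvd_index

theorem elementary_of_isNilpotent [hX : Group.IsNilpotent X] :
    ∃ p : ℕ, p.Prime ∧ IsElementaryAbelian p (⊤ : Subgroup (X ⧸ center X)) := by
  have hT : Group.IsNilpotent (⊤ : Subgroup X) := inferInstance
  have hn : ∀ x ∉ center X, (centralizer ({x} : Set X)).Normal := fun x hx =>
    normalizer_eq_top_iff.1 ((H x hx _ le_normalizer (AInv.cent (mem_zpowers x)).normalizer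
      ).resolve_left (Group.normalizerCondition_of_isNilpotent _
        (lt_top_iff_ne_top.2 fun h => hx (cent_eq_top_iff.1 h))).ne')
  have hc : ∀ a b : X, ⁅a, b⁆ ∈ center X := fun a b => mem_center_iff.2 fun x => by
    by_cases hx : x ∈ center X
    · exact (mem_center_iff.1 hx _).symm
    have := hn x hx
    rcases H x hx _ le_sup_left ((AInv.cent (mem_zpowers x)).sup (AInv.char x (commutator X)))
      with h | h
    · exact (ClassSize.mem_cent.1 (h.le (mem_sup_right
        (commutator_mem_commutator (mem_top a) (mem_top b))))).symm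
    · exact absurd (cent_eq_top_iff.1 (top_le_iff.1 (PG.le_of_le_sup_commutator hT le_rfl
        (Fpf.le_normalizer_of_normal' _ _) h.ge))) hx
  have hcomm : ∀ a b : X ⧸ center X, Commute a b := fun a b => by
    obtain ⟨a, rfl⟩ := QuotientGroup.mk_surjective a
    obtain ⟨b, rfl⟩ := QuotientGroup.mk_surjective b
    exact commutator_mem_center_iff.1 (hc a b)
  have hp : ∀ a : X ⧸ center X, a ≠ 1 → (orderOf a).Prime := by
    intro a ha
    obtain ⟨b, hb, hq⟩ := exists_prime_order_pow ha
    obtain ⟨g, rfl⟩ := QuotientGroup.mk_surjective a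
    obtain ⟨n, rfl⟩ := hb
    simp only at hq
    generalize hq' : orderOf ((g : X ⧸ center X) ^ n) = q at hq
    have := Fact.mk hq
    have h1 : g ^ n ∉ center X := fun h => by
      rw [← QuotientGroup.mk_zpow, (QuotientGroup.eq_one_iff _).2 h, orderOf_one] at hq'
      exact hq.one_lt.ne hq'
    have h2 : (g ^ n) ^ q ∈ center X := by
      rw [← QuotientGroup.eq_one_iff, QuotientGroup.mk_pow, QuotientGroup.mk_zpow, ← hq',
        pow_orderOf_eq_one]
    have h3 : g ^ q ∈ center X := mem_center_iff.2 fun h => by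
      have h4 : h ^ q ∈ centralizer {g ^ n} := by
        rw [mem_cent_iff_commute, ← commutatorElement_eq_one_iff_commute,
          commutatorElement_pow_left_of_mem_center (hc _ _),
          ← commutatorElement_pow_right_of_mem_center (hc _ _),
          commutatorElement_eq_one_iff_mul_comm]
        exact mem_center_iff.1 h2 h
      rw [cent_eq_of_mem_zpowers H (zpow_mem (mem_zpowers g) n) h1, mem_cent_iff_commute,
        ← commutatorElement_eq_one_iff_commute, commutatorElement_pow_left_of_mem_center (hc _ _),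
        ← commutatorElement_pow_right_of_mem_center (hc _ _)] at h4
      exact commutatorElement_eq_one_iff_mul_comm.1 h4
    rwa [orderOf_eq_prime (p := q) ((QuotientGroup.eq_one_iff _).2 h3) ha]
  have hab : IsMulCommutative (⊤ : Subgroup (X ⧸ center X)) :=
    PG.isMulCommutative_of_forall fun a _ b _ => hcomm a b
  by_cases h : ∃ a : X ⧸ center X, a ≠ 1
  · obtain ⟨a, ha⟩ := h
    refine ⟨_, hp a ha, hab, fun b _ => ?_⟩
    by_contra hb
    have hb1 : b ≠ 1 := fun h => hb (by rw [h, one_pow])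
    have h1 := (hcomm a b).orderOf_mul_eq_mul_orderOf_of_coprime
      ((Nat.coprime_primes (hp a ha) (hp b hb1)).2 fun h => hb (h ▸ pow_orderOf_eq_one b))
    refine Nat.not_prime_mul (hp a ha).one_lt.ne' (hp b hb1).one_lt.ne' (h1 ▸ hp _ fun h => ?_)
    rw [h, orderOf_one] at h1
    exact (hp a ha).one_lt.ne' (Nat.eq_one_of_mul_eq_one_right h1.symm)
  · push Not at h
    exact ⟨2, Nat.prime_two, hab, fun b _ => by rw [h b, one_pow]⟩

theorem isMulCommutative_pCore (hX : ¬ Group.IsNilpotent X) {p : ℕ} [hp : Fact p.Prime]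
    (hU : ¬ pCore p X ≤ center X) : IsMulCommutative (pCore p X) := by
  have hUn := (pCore_isPGroup p X).isNilpotent
  have hsup : ∀ x ∉ center X, ¬ pCore p X ≤ centralizer {x} →
      pCore p X ⊔ centralizer {x} = ⊤ := fun x hx h =>
    (H x hx _ le_sup_right ((AInv.char x _).sup (AInv.cent (mem_zpowers x)))).resolve_left
      fun e => h (le_sup_left.trans e.le)
  obtain ⟨x₀, hx₀, hx₀Z, hc⟩ := PG.exists_not_mem_commutator_mem hUn le_rfl le_normalizer hU
  have h0 : pCore p X ≤ centralizer {x₀} := by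
    by_contra h
    have h1 := hsup x₀ hx₀Z h
    have h2 := normal_cent (x := x₀) fun g => by
      obtain ⟨u, hu, d, hd, rfl⟩ := mem_sup_of_normal_left.1 (h1.ge (mem_top g))
      have : ⁅u * d, x₀⁆ = ⁅x₀, u⁆⁻¹ := by
        rw [commutatorElement_inv, commutatorElement_def, commutatorElement_def, mul_assoc u d,
          ClassSize.mem_cent.1 hd]
        group
      exact this ▸ inv_mem (hc u hu).1
    have h3 := isNilpotent_sup_of_normal inferInstance h2 hUn (isNilpotent_cent H hx₀Z)
    rw [h1] at h3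
    exact hX (Group.nilpotent_of_mulEquiv topEquiv)
  refine PG.isMulCommutative_of_forall fun a ha x hx => ClassSize.mem_cent.1 ?_
  by_contra hax
  have hxZ : x ∉ center X := fun h => hax (ClassSize.mem_cent.2 (mem_center_iff.1 h a))
  have h1 := hsup x hxZ fun h => hax (h ha)
  have hpe : ∀ {u : X}, u ∈ pCore p X → PiElt {p} u := fun hu =>
    p_elt_singleton_iff.2 ((pCore_isPGroup p X).to_le (zpowers_le.2 hu))
  refine hX (nilpotent_of_pow hp.out fun g => ?_)
  obtain ⟨u, hu, d, hd, rfl⟩ := mem_sup_of_normal_left.1 (h1.ge (mem_top g))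
  have h2 : constt {p}ᶜ d ∈ center X := by
    by_contra h
    have h3 := groupX_constt {p}ᶜ hd
    have h4 := p_elt_coprime (hpe hx₀) (p_elt_constt {p}ᶜ d)
    have h5 := cent_eq_of_coprime H hx₀Z h (commute_of_mem_of_coprime_of_isNilpotent
      (isNilpotent_cent H hxZ) (mem_cent_comm.1 (h0 hx)) h3 h4) h4
    have h6 := cent_eq_of_coprime H hxZ h (mem_cent_iff_commute.1 h3).symm
      (p_elt_coprime (hpe hx) (p_elt_constt {p}ᶜ d))
    exact hax (h6.ge (h5.le (h0 ha)))
  have h3 : u * constt {p} d ∈ pCore p X ⊔ zpowers (constt {p} d) :=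
    mul_mem_sup hu (mem_zpowers _)
  obtain ⟨k, hk⟩ := ((pCore_isPGroup p X).to_sup_of_normal_left
    (p_elt_singleton_iff.1 (p_elt_constt {p} d))) ⟨_, h3⟩
  refine ⟨k, ?_⟩
  rw [← consttC {p} d, ← mul_assoc,
    (show Commute (u * constt {p} d) (constt {p}ᶜ d) from mem_center_iff.1 h2 _).mul_pow,
    show (u * constt {p} d) ^ p ^ k = 1 from congrArg Subtype.val hk, one_mul]
  exact pow_mem h2 _

theorem structure_of_not_isNilpotent (hX : ¬ Group.IsNilpotent X) :
    ∃ (p q : ℕ) (K : Subgroup (X ⧸ center X)), p.Prime ∧ q.Prime ∧ p ≠ q ∧ K.Normal ∧ K ≠ ⊤ ∧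
      IsElementaryAbelian p K ∧ ∀ y : X, (y : X ⧸ center X) ∉ K →
        Nat.card ((centralizer ({y} : Set X)).map (QuotientGroup.mk' (center X))) = q ∧
        IsFrobeniusComplement ((centralizer ({y} : Set X)).map (QuotientGroup.mk' (center X))) ∧
        frobeniusKernel ((centralizer ({y} : Set X)).map (QuotientGroup.mk' (center X))) = K := by
  obtain ⟨p, hp, hU⟩ := exists_pCore_not_le H fun h => hX (by
    have : IsMulCommutative X := ⟨⟨fun a b => mem_center_iff.1 (h.ge (mem_top b)) a⟩⟩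
    exact isNilpotent_of_isMulCommutative X)
  have := Fact.mk hp
  have hUc := isMulCommutative_pCore H hX hU
  obtain ⟨x, hx, hxZ⟩ := SetLike.not_le_iff_exists.1 hU
  have hUn := (pCore_isPGroup p X).isNilpotent
  have hpe : ∀ {u : X}, u ∈ pCore p X → PiElt {p} u := fun hu =>
    p_elt_singleton_iff.2 ((pCore_isPGroup p X).to_le (zpowers_le.2 hu))
  set U := pCore p X with hUdef
  set C := centralizer (U : Set X) with hC
  have hUC : U ≤ C := le_centralizer U
  have hZC : center X ≤ C := center_le_centralizer _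
  have hsup : ∀ y ∉ C, U ⊔ centralizer {y} = ⊤ := fun y hy =>
    (H y (fun h => hy (hZC h)) _ le_sup_right
      ((AInv.char y _).sup (AInv.cent (mem_zpowers y)))).resolve_left
      fun e => hy (le_cent_iff.1 (le_sup_left.trans e.le))
  have hcm : ∀ a b : X, ⁅a, b⁆ ∈ C := fun a b => by
    by_cases hb : b ∈ C
    · exact mul_mem ((inferInstance : C.Normal).conj_mem b hb a) (inv_mem hb)
    obtain ⟨u, hu, d, hd, rfl⟩ := mem_sup_of_normal_left.1 ((hsup b hb).ge (mem_top a))
    have : ⁅u * d, b⁆ = u * (b * u⁻¹ * b⁻¹) := by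
      rw [commutatorElement_def, mul_assoc u d, ClassSize.mem_cent.1 hd]
      group
    exact this ▸ hUC (mul_mem hu ((inferInstance : U.Normal).conj_mem _ (inv_mem hu) b))
  have hnorm : ∀ {D : Subgroup X}, C ≤ D → D.Normal := fun {D} h => ⟨fun d hd g => by
    have := mul_mem (h (hcm g d)) hd
    rwa [commutatorElement_def, inv_mul_cancel_right] at this⟩
  have hCu : ∀ u ∈ U, C ≤ centralizer {u} := fun u hu c hc =>
    ClassSize.mem_cent.2 (mem_centralizer_iff.1 hc u hu).symm
  have hDu : ∀ u ∈ U, u ∉ center X → centralizer {u} = C := fun u hu huZ => by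
    refine le_antisymm (le_of_forall_prime_pow_mem fun r hr k g hg hk => ?_) (hCu u hu)
    by_cases hrp : r = p
    · subst hrp
      exact hUC (mem_pCore_of_mem_fitting
        (le_fitting (hnorm (hCu u hu)) (isNilpotent_cent H huZ) hg) hk)
    · exact mem_centralizer_iff.2 fun v hv => commute_of_mem_of_coprime_of_isNilpotent
        (isNilpotent_cent H huZ) (hCu u hu (hUC hv)) hg
        (p_elt_coprime (hpe hv) (piElt_iff.2 (hk ▸ IsPiNum.prime_pow hr hrp k)))
  have hCx := hDu x hx hxZ
  have hCn : Group.IsNilpotent C := hCx ▸ isNilpotent_cent H hxZ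
  have hCp : ∀ c ∈ C, constt {p} c ∈ U := fun c hc => by
    obtain ⟨k, hk⟩ := exists_orderOf_eq_pow_of_mem (p_elt_singleton_iff.1 (p_elt_constt {p} c))
      (mem_zpowers _)
    exact mem_pCore_of_mem_fitting (le_fitting inferInstance hCn (groupX_constt _ hc)) hk
  have hDc : ∀ c ∈ C, c ∉ center X → centralizer {c} ≤ C := fun c hc hcZ => by
    by_cases h : constt {p}ᶜ c ∈ center X
    · exact (cent1_le_cent1_constt {p} c).trans
        (hDu _ (hCp c hc) (constt_not_mem_of_not_mem hcZ h)).le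
    · refine (cent1_le_cent1_constt {p}ᶜ c).trans (((cent_eq_of_coprime H hxZ h ?_
        (p_elt_coprime (hpe hx) (p_elt_constt _ _))).symm.trans hCx).le)
      exact (mem_cent_iff_commute.1 (hCu x hx (groupX_constt _ hc))).symm
  have hinf : ∀ y ∉ C, ∀ c ∈ C, c ∈ centralizer {y} → c ∈ center X := fun y hy c hc hcy =>
    by_contra fun h => hy (hDc c hc h (mem_cent_comm.1 hcy))
  have hCt : C ≠ ⊤ := fun h => hxZ (cent_eq_top_iff.1 (hCx.trans h))
  obtain ⟨y₀, -, hy₀⟩ := SetLike.exists_of_lt (lt_top_iff_ne_top.2 hCt)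
  have hCUZ : ∀ c ∈ C, ∃ u ∈ U, ∃ z ∈ center X, u * z = c := fun c hc => by
    obtain ⟨u, hu, d, hd, rfl⟩ := mem_sup_of_normal_left.1 ((hsup y₀ hy₀).ge (mem_top c))
    exact ⟨u, hu, d, hinf y₀ hy₀ d ((mul_mem_cancel_left (hUC hu)).1 hc) hd, rfl⟩
  have hCc : ∀ a ∈ C, ∀ b ∈ C, a * b = b * a := fun a ha b hb => by
    obtain ⟨u, hu, z, hz, rfl⟩ := hCUZ a ha
    exact (ClassSize.mem_cent.1 ((cent_mul_center hz).ge (hCu u hu hb))).symm
  have hUp : ∀ u ∈ U, u ^ p ∈ center X := by
    let V : Subgroup X :=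
      { carrier := {g | ∃ u ∈ U, u ^ p = g}
        one_mem' := ⟨1, one_mem _, one_pow _⟩
        mul_mem' := by
          rintro _ _ ⟨a, ha, rfl⟩ ⟨b, hb, rfl⟩
          exact ⟨a * b, mul_mem ha hb, Commute.mul_pow (PG.mul_comm_of_mem ha hb) p⟩
        inv_mem' := by
          rintro _ ⟨a, ha, rfl⟩
          exact ⟨a⁻¹, inv_mem ha, inv_pow _ _⟩ }
    have hV : V.Normal := ⟨by
      rintro _ ⟨a, ha, rfl⟩ g
      exact ⟨_, (inferInstance : U.Normal).conj_mem a ha g, conj_pow⟩⟩
    rcases H y₀ (fun h => hy₀ (hZC h)) (V ⊔ centralizer {y₀}) le_sup_right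
      ((AInv.of_mem (by
        rintro α - _ ⟨a, ha, rfl⟩
        exact ⟨α a, mem_char U α ha, (map_pow α a p).symm⟩)).sup
        (AInv.cent (mem_zpowers y₀))) with h | h
    · exact fun u hu => hinf y₀ hy₀ _ (hUC (pow_mem hu p)) (h.le (mem_sup_left ⟨u, hu, rfl⟩))
    · exfalso
      have h1 : ∀ k : ℕ, ∃ v ∈ U, ∃ z ∈ center X, v ^ p ^ k * z = x := by
        intro k
        induction k with
        | zero => exact ⟨x, hx, 1, one_mem _, by simp⟩
        | succ k ih =>
          obtain ⟨v, hv, z, hz, rfl⟩ := ih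
          obtain ⟨_, ⟨w, hw, rfl⟩, d, hd, rfl⟩ := mem_sup_of_normal_left.1 (h.ge (mem_top v))
          have hdZ := hinf y₀ hy₀ d (hUC ((mul_mem_cancel_left (pow_mem hw p)).1 hv)) hd
          refine ⟨w, hw, d ^ p ^ k * z, mul_mem (pow_mem hdZ _) hz, ?_⟩
          rw [(show Commute (w ^ p) d from mem_center_iff.1 hdZ _).mul_pow, ← pow_mul,
            ← pow_succ', mul_assoc]
      obtain ⟨k, hk⟩ := (pCore_isPGroup p X).exists_card_eq
      obtain ⟨v, hv, z, hz, rfl⟩ := h1 k
      rw [← hk, show v ^ Nat.card U = 1 from congrArg Subtype.val (pow_card_eq_one' (x := ⟨v, hv⟩)),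
        one_mul] at hxZ
      exact hxZ hz
  have hCp' : ∀ c ∈ C, c ^ p ∈ center X := fun c hc => by
    obtain ⟨u, hu, z, hz, rfl⟩ := hCUZ c hc
    rw [(show Commute u z from mem_center_iff.1 hz _).mul_pow]
    exact mul_mem (hUp u hu) (pow_mem hz p)
  obtain ⟨q, hq, hqC⟩ : ∃ q : ℕ, q.Prime ∧ ∀ g : X, g ^ q ∈ C := by
    obtain ⟨b, -, hq⟩ := exists_prime_order_pow (x := (y₀ : X ⧸ C))
      fun h => hy₀ ((QuotientGroup.eq_one_iff _).1 h)
    obtain ⟨b, rfl⟩ := QuotientGroup.mk_surjective b
    generalize hq' : orderOf (b : X ⧸ C) = q at hq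
    let L : Subgroup X :=
      { carrier := {g | g ^ q ∈ C}
        one_mem' := by simp
        mul_mem' := fun {a b} ha hb => by
          have hc : Commute (a : X ⧸ C) (b : X ⧸ C) :=
            mem_cent_iff_commute.1 ((mem_comap_cent_iff C).2 (hcm a b))
          simp only [Set.mem_ofPred_eq, ← QuotientGroup.eq_one_iff, QuotientGroup.mk_pow,
            QuotientGroup.mk_mul] at ha hb ⊢
          rw [hc.mul_pow, ha, hb, mul_one]
        inv_mem' := fun {a} ha => by
          rw [Set.mem_ofPred_eq, inv_pow]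
          exact inv_mem ha }
    rcases H x hxZ L (fun g hg => pow_mem (hCx.le hg) q)
      (AInv.of_mem fun α _ k hk => show α k ^ q ∈ C from map_pow α k q ▸ mem_char C α hk)
      with h | h
    · have h1 : b ^ q ∈ C := (QuotientGroup.eq_one_iff _).1
        (by rw [QuotientGroup.mk_pow, ← hq', pow_orderOf_eq_one])
      rw [(QuotientGroup.eq_one_iff b).2 (hCx.le (h.le h1)), orderOf_one] at hq'
      exact absurd hq' hq.one_lt.ne
    · exact ⟨q, hq, fun g => h.ge (mem_top g)⟩
  have hpq : p ≠ q := fun h => hX (nilpotent_of_pow hp fun g =>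
    ⟨2, by rw [pow_two, pow_mul]; exact hCp' _ (h ▸ hqC g)⟩)
  have hfpf := fpf_quotient_center (π := {p}) hZC (fun d hd hdp => mem_of_pow_mem (hCp' d hd)
      ((isPiNum_compl_singleton_iff hp).1 (piElt_iff.1 hdp)))
    (fun g hg => mem_of_pow_mem (hqC g) ((piElt_iff.1 hg).coprime
      ((isPiNum_compl_singleton_iff hp).2 ((Nat.coprime_primes hq hp).2 hpq.symm)))) hDc
  have hnot : ∀ {a : X}, a ∉ C → (a : X ⧸ center X) ∉ C.map (QuotientGroup.mk' (center X)) :=
    fun ha hm => ha (by
      rwa [← QuotientGroup.mk'_apply, ← mem_comap,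
        comap_map_eq_self (by rwa [QuotientGroup.ker_mk'])] at hm)
  have hK : (C.map (QuotientGroup.mk' (center X))).Normal :=
    (inferInstance : C.Normal).map _ (QuotientGroup.mk'_surjective _)
  have hKp : ∀ a ∈ C.map (QuotientGroup.mk' (center X)), a ^ p = 1 := by
    rintro _ ⟨a, ha, rfl⟩
    exact (QuotientGroup.eq_one_iff _).2 (hCp' a ha)
  have hKb : C.map (QuotientGroup.mk' (center X)) ≠ ⊥ := fun hb =>
    hxZ ((QuotientGroup.eq_one_iff x).1 (mem_bot.1 (hb ▸ mem_map_of_mem _ (hUC hx))))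
  refine ⟨p, q, C.map (QuotientGroup.mk' _), hp, hq, hpq, hK,
    fun h => hnot hy₀ (h.ge (mem_top _)), ⟨PG.isMulCommutative_of_forall ?_, hKp⟩,
    fun y hy => ?_⟩
  · rintro _ ⟨a, ha, rfl⟩ _ ⟨b, hb, rfl⟩
    rw [← map_mul, ← map_mul, hCc a ha b hb]
  have hyC : y ∉ C := fun h => hy (mem_map_of_mem _ h)
  have hDb : (centralizer ({y} : Set X)).map (QuotientGroup.mk' (center X)) ≠ ⊥ := fun hb =>
    hyC (hZC ((QuotientGroup.eq_one_iff y).1
      (mem_bot.1 (hb ▸ mem_map_of_mem _ (self_mem_cent y)))))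
  have hD : ∀ h ∈ (centralizer ({y} : Set X)).map (QuotientGroup.mk' (center X)), h ≠ 1 →
      C.map (QuotientGroup.mk' (center X)) ⊓ centralizer {h} = ⊥ := by
    rintro _ ⟨d, hd, rfl⟩ h1
    exact hfpf _ (hnot fun h => h1 ((QuotientGroup.eq_one_iff d).2 (hinf y hyC d h hd)))
  refine ⟨?_, Fpf.frobenius_of_fpf ?_ hKb hDb hD⟩
  · have hDq : ∀ a ∈ (centralizer ({y} : Set X)).map (QuotientGroup.mk' (center X)),
        a ^ q = 1 := by
      rintro _ ⟨d, hd, rfl⟩
      exact (QuotientGroup.eq_one_iff _).2 (hinf y hyC _ (hqC d) (pow_mem hd q))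
    have : IsMulCommutative ((centralizer ({y} : Set X)).map (QuotientGroup.mk' (center X))) := by
      refine PG.isMulCommutative_of_forall ?_
      rintro _ ⟨a, ha, rfl⟩ _ ⟨b, hb, rfl⟩
      exact commutator_mem_center_iff.1 (hinf y hyC _ (hcm a b)
        (mul_mem (mul_mem (mul_mem ha hb) (inv_mem ha)) (inv_mem hb)))
    have := Fact.mk hq
    have hcyc : IsCyclic ((centralizer ({y} : Set X)).map (QuotientGroup.mk' (center X))) := by
      by_contra h
      obtain ⟨a, ha, ha1, h1⟩ := Coprime.exists_inf_centralizer_singleton_ne_bot h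
        (Fpf.le_normalizer_of_normal' _ _) (IsPGroup.coprime_card_of_ne q p hpq.symm _ _
          (fun a => ⟨1, Subtype.ext (by simpa using hDq a a.2)⟩)
          fun a => ⟨1, Subtype.ext (by simpa using hKp a a.2)⟩) hKb
      exact h1 (hD a ha ha1)
    refine ((Nat.dvd_prime hq).1 ?_).resolve_left fun h => hDb (card_eq_one.1 h)
    rw [← IsCyclic.exponent_eq_card]
    exact Monoid.exponent_dvd_of_forall_pow_eq_one fun a => Subtype.ext (hDq a a.2)
  · rw [← Subgroup.map_sup, top_le_iff.1 ((hsup y hyC).ge.trans (sup_le_sup_right hUC _)),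
      map_top_of_surjective _ (QuotientGroup.mk'_surjective _)]

end Cfsg.Lib.Solv.MaxCent
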