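import Cfsg.Agent.Solv.Subnormal
import Cfsg.Agent.Solv.Fitting
import Cfsg.Agent.Solv.FittingOf
import Cfsg.Agent.Solv.Nilpotent

/-!
# Engel elements: Baer's characterisation of the Fitting subgroup
-/

set_option autoImplicit false

open scoped Pointwise commutatorElement

namespace Cfsg.Lib.Solv

variable {G : Type*} [Group G]

theorem foldl_replicate_commutator (g x : G) (n : ℕ) :
    (List.replicate n g).foldl (fun a b => a * b * a⁻¹ * b⁻¹) x =
      (fun a => a * g * a⁻¹ * g⁻¹)^[n] x := by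
  induction n generalizing x with
  | zero => rfl
  | succ n ih => rw [List.replicate_succ, List.foldl_cons, ih, Function.iterate_succ_apply]

theorem iterate_commutator_mem_lowerCentralSeries {H : Subgroup G} {g x : G} (hg : g ∈ H)
    (hx : x ∈ H) (n : ℕ) : (fun a => a * g * a⁻¹ * g⁻¹)^[n] x ∈ H.lowerCentralSeries n := by
  induction n with
  | zero => exact hx
  | succ n ih =>
    rw [Function.iterate_succ_apply', Subgroup.lowerCentralSeries_succ]
    exact Subgroup.commutator_mem_commutator ih hg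

theorem exists_iterate_commutator_eq_one {H : Subgroup G} (hH : Group.IsNilpotent H) {g x : G}
    (hg : g ∈ H) (hx : x ∈ H) : ∃ n : ℕ, (fun a => a * g * a⁻¹ * g⁻¹)^[n] x = 1 := by
  obtain ⟨n, hn⟩ := (Subgroup.isNilpotent_iff_lowerCentralSeries H).1 hH
  refine ⟨n, ?_⟩
  have := iterate_commutator_mem_lowerCentralSeries hg hx n
  rwa [hn, Subgroup.mem_bot] at this

/-- If the only elements of `H` conjugating `g` into `M ∋ g` lie in `M`, iterated commutators
`[x, g, …, g]` with `x ∈ H \ M` stay outside `M`. -/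
theorem iterate_commutator_not_mem {H M : Subgroup G} {g x : G} (hgH : g ∈ H) (hgM : g ∈ M)
    (h : ∀ y ∈ H, y * g * y⁻¹ ∈ M → y ∈ M) (hx : x ∈ H) (hxM : x ∉ M) (n : ℕ) :
    (fun a => a * g * a⁻¹ * g⁻¹)^[n] x ∈ H ∧ (fun a => a * g * a⁻¹ * g⁻¹)^[n] x ∉ M := by
  induction n with
  | zero => exact ⟨hx, hxM⟩
  | succ n ih =>
    rw [Function.iterate_succ_apply']
    refine ⟨H.mul_mem (H.mul_mem (H.mul_mem ih.1 hgH) (H.inv_mem ih.1)) (H.inv_mem hgH),
      fun hm => ih.2 (h _ ih.1 ?_)⟩
    have := M.mul_mem hm hgM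
    rwa [inv_mul_cancel_right] at this

/-- **Baer**: a left Engel element of a finite group generates a subnormal subgroup. -/
theorem subnormalIn_zpowers_of_engel [Finite G] {g : G} (H : Subgroup G) (hg : g ∈ H)
    (h : ∀ x ∈ H, ∃ n : ℕ, (fun a => a * g * a⁻¹ * g⁻¹)^[n] x = 1) :
    SubnormalIn (Subgroup.zpowers g) H := by
  induction H using WellFoundedLT.induction with
  | ind H ih =>
  by_contra hn
  have hall : ∀ V, Subgroup.zpowers g ≤ V → V < H → SubnormalIn (Subgroup.zpowers g) V :=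
    fun V hV hVH => ih V hVH (hV (Subgroup.mem_zpowers g)) fun x hx => h x (hVH.le hx)
  obtain ⟨M, hgM, hMH, hM⟩ := zipper_lemma (Subgroup.zpowers_le.2 hg) hall hn
  have hN : ∀ y ∈ H, y ∈ Subgroup.normalizer (M : Set G) → y ∈ M := by
    intro y hy hyN
    by_cases htop : H ⊓ Subgroup.normalizer (M : Set G) = H
    · exact absurd ((hall M hgM hMH).trans (SubnormalIn.of_le_normalizer hMH.le
        (inf_eq_left.1 htop))) hn
    · exact hM _ (hgM.trans (le_inf hMH.le Subgroup.le_normalizer))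
        (lt_of_le_of_ne inf_le_left htop) ⟨hy, hyN⟩
  obtain ⟨x, hxH, hxM⟩ := SetLike.exists_of_lt hMH
  obtain ⟨n, hn1⟩ := h x hxH
  refine (iterate_commutator_not_mem hg (hgM (Subgroup.mem_zpowers g)) ?_ hxH hxM n).2
    (hn1 ▸ M.one_mem)
  intro y hy hyg
  have h1 : MulAut.conj y⁻¹ • M ≤ M := by
    refine hM _ (Subgroup.zpowers_le.2 (by rw [mem_conj_smul, inv_inv]; exact hyg)) ?_
    refine lt_of_le_of_ne (conj_smul_le_of_mem (H.inv_mem hy) hMH.le) fun he => hMH.ne ?_
    rw [conj_smul_eq_iff, inv_inv] at he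
    rw [he]
    exact conj_smul_eq_of_mem_normalizer (Subgroup.le_normalizer hy)
  have h2 : y⁻¹ ∈ Subgroup.normalizer (M : Set G) :=
    mem_normalizer_of_conj_mem (conj_smul_le_iff.1 h1)
  exact hN y hy (by simpa using Subgroup.inv_mem _ h2)

theorem mem_fitting_iff_engel [Finite G] (g : G) :
    g ∈ fittingSubgroup G ↔ ∀ x : G, ∃ n : ℕ, (fun a => a * g * a⁻¹ * g⁻¹)^[n] x = 1 := by
  constructor
  · intro hg x
    have hx : x * g * x⁻¹ * g⁻¹ ∈ fittingSubgroup G :=
      Subgroup.mul_mem _ (Subgroup.Normal.conj_mem inferInstance g hg x) (Subgroup.inv_mem _ hg)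
    obtain ⟨n, hn⟩ := exists_iterate_commutator_eq_one (fitting_isNilpotent G) hg hx
    exact ⟨n + 1, by rw [Function.iterate_succ_apply]; exact hn⟩
  · intro h
    have := SubnormalIn.top_iff.1 (subnormalIn_zpowers_of_engel ⊤ trivial fun x _ => h x)
    exact le_fitting_of_isSubnormal this (isNilpotent_of_isMulCommutative _)
      (Subgroup.mem_zpowers g)

/-- If `⟨x, g⟩` is nilpotent for every `x`, then `g ∈ F(G)`. -/
theorem mem_fitting_of_forall_isNilpotent_closure [Finite G] {g : G}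
    (h : ∀ x : G, Group.IsNilpotent (Subgroup.closure ({x, g} : Set G))) :
    g ∈ fittingSubgroup G :=
  (mem_fitting_iff_engel g).2 fun x => exists_iterate_commutator_eq_one (h x)
    (Subgroup.subset_closure (by simp)) (Subgroup.subset_closure (by simp))

end Cfsg.Lib.Solv
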