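import Cfsg.Agent.Solv.Count
import Cfsg.Agent.Solv.Cores
import Cfsg.Agent.Solv.Nilpotent
import Cfsg.Agent.Solv.Subnormal
import Cfsg.Agent.Solv.PGroupNormal
import Cfsg.Agent.Fus.SylIn

/-!
# Casolo's theorem on the subnormalizer of a `p`-subgroup
-/

set_option autoImplicit false

namespace Cfsg.Lib.Solv.Subn

open Subgroup Finset Cfsg.Lib.Solv.Count Cfsg.Lib.Fus
open scoped Pointwise

variable {G : Type*} [Group G] [Finite G] {p : ℕ} [hp : Fact p.Prime]

/-- A `p`-subgroup `H` is subnormal in `⟨H, g⟩` iff `g` normalizes a `p`-subgroup over `H`. -/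
theorem isSubnormal_iff {H : Subgroup G} (hH : IsPGroup p H) (g : G) :
    (H.subgroupOf (H ⊔ zpowers g)).IsSubnormal ↔
      ∃ R : Subgroup G, IsPGroup p R ∧ H ≤ R ∧ g ∈ normalizer (R : Set G) := by
  constructor
  · intro h
    refine ⟨(pCore p (H ⊔ zpowers g : Subgroup G)).map (Subgroup.subtype _),
      isPGroup_map_pCore p _, fun x hx => ?_,
      le_normalizer_map_subtype _ (mem_sup_right (mem_zpowers g))⟩
    exact ⟨⟨x, mem_sup_left hx⟩, le_pCore_of_isSubnormal h hH.comap_subtype hx, rfl⟩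
  · rintro ⟨R, hR, hHR, hg⟩
    have h1 : H ⊔ zpowers g ≤ normalizer (R : Set G) :=
      sup_le (hHR.trans le_normalizer) (zpowers_le.mpr hg)
    have h2 : SubnormalIn H (R ⊓ (H ⊔ zpowers g)) := by
      have := (hR.to_inf_left (K := H ⊔ zpowers g)).isNilpotent
      exact ⟨le_inf hHR le_sup_left, isSubnormal_of_isNilpotent _⟩
    exact (h2.trans (SubnormalIn.of_le_normalizer inf_le_right
      (le_normalizer_inf h1 le_normalizer))).2

omit [Finite G] hp in
theorem mem_normalizer_sInf {S : Set (Subgroup G)} {g : G}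
    (h : ∀ R ∈ S, g ∈ normalizer (R : Set G)) : g ∈ normalizer ((sInf S : Subgroup G) : Set G) := by
  rw [mem_normalizer_iff]
  intro x
  simp only [Subgroup.mem_sInf]
  exact forall₂_congr fun R hR => mem_normalizer_iff.mp (h R hR) x

theorem sum_card_normalizer [Fintype (Subgroup G)] (K : Subgroup G)
    [DecidablePred fun Q => SylIn p Q K] :
    ∑ Q ∈ univ.filter (fun Q => SylIn p Q K),
      Nat.card (K ⊓ normalizer (Q : Set G) : Subgroup G) = Nat.card K := by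
  classical
  have := Fintype.ofFinite (Sylow p K)
  obtain ⟨P⟩ : Nonempty (Sylow p K) := inferInstance
  have h1 : ∀ R : Sylow p K, Nat.card (normalizer ((R : Subgroup K) : Set K)) =
      Nat.card (normalizer ((P : Subgroup K) : Set K)) := by
    intro R
    obtain ⟨g, rfl⟩ := MulAction.exists_smul_eq K P R
    rw [coe_sylow_smul, ← conj_smul_normalizer, card_conj_smul]
  rw [← Finset.sum_bij (s := (univ : Finset (Sylow p K)))
    (f := fun _ => Nat.card (normalizer ((P : Subgroup K) : Set K)))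
    (fun R _ => (R : Subgroup K).map K.subtype)]
  · rw [sum_const, card_univ, smul_eq_mul, ← Nat.card_eq_fintype_card,
      P.card_eq_index_normalizer]
    exact index_mul_card _
  · intro R _
    simpa using sylIn_map_subtype R
  · intro R _ R' _ h
    exact Sylow.ext (map_injective K.subtype_injective h)
  · intro Q hQ
    obtain ⟨R, hR⟩ := (mem_filter.mp hQ).2.exists_sylow
    exact ⟨R, mem_univ _, by
      rw [hR, subgroupOf_map_subtype, inf_eq_left.mpr (mem_filter.mp hQ).2.le]⟩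
  · intro R _
    rw [← h1 R, ← card_map_subtype, map_subtype_normalizer, inf_comm]

/-- Normal chains of `p`-subgroups over `H`: the top member and the set of the others. -/
structure Valid (p : ℕ) (H : Subgroup G) (σ : Subgroup G × Finset (Subgroup G)) : Prop where
  pg : IsPGroup p σ.1
  le : H ≤ σ.1
  mem : ∀ R ∈ σ.2, H ≤ R ∧ R < σ.1 ∧ σ.1 ≤ normalizer (R : Set G)
  chain : IsChain (· ≤ ·) (σ.2 : Set (Subgroup G))

/-- The normalizer of a chain. -/
def nrm (σ : Subgroup G × Finset (Subgroup G)) : Subgroup G :=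
  normalizer (σ.1 : Set G) ⊓ ⨅ R ∈ σ.2, normalizer (R : Set G)

omit [Finite G] in
theorem mem_nrm {σ : Subgroup G × Finset (Subgroup G)} {g : G} :
    g ∈ nrm σ ↔ g ∈ normalizer (σ.1 : Set G) ∧ ∀ R ∈ σ.2, g ∈ normalizer (R : Set G) := by
  simp [nrm, Subgroup.mem_iInf]

omit [Finite G] hp in
theorem Valid.le_nrm {H : Subgroup G} {σ : Subgroup G × Finset (Subgroup G)} (h : Valid p H σ) :
    σ.1 ≤ nrm σ := fun g hg => mem_nrm.mpr ⟨le_normalizer hg, fun R hR => (h.mem R hR).2.2 hg⟩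

open scoped Classical in
theorem sum_fixed [Fintype (Subgroup G)] (H : Subgroup G) (g : G) :
    ∑ σ ∈ univ.filter (fun σ => Valid p H σ ∧ g ∈ nrm σ), (-1 : ℤ) ^ σ.2.card =
      if ∃ R : Subgroup G, IsPGroup p R ∧ H ≤ R ∧ g ∈ normalizer (R : Set G) then 1 else 0 := by
  let T : Subgroup G → Subgroup G := fun Q =>
    sInf {R | H ≤ R ∧ Q ≤ normalizer (R : Set G) ∧ g ∈ normalizer (R : Set G)}
  have hT1 : ∀ Q, H ≤ T Q := fun Q => le_sInf fun R hR => hR.1
  have hT2 : ∀ Q, Q ≤ normalizer (T Q : Set G) := fun Q x hx =>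
    mem_normalizer_sInf fun R hR => hR.2.1 hx
  have hT3 : ∀ Q, g ∈ normalizer (T Q : Set G) := fun Q => mem_normalizer_sInf fun R hR => hR.2.2
  have hT4 : ∀ σ, Valid p H σ → g ∈ nrm σ → T σ.1 ≤ σ.1 := fun σ h hg =>
    sInf_le ⟨h.le, le_normalizer, (mem_nrm.mp hg).1⟩
  have hT5 : ∀ σ, Valid p H σ → g ∈ nrm σ → ∀ R ∈ σ.2, T σ.1 ≤ R := fun σ h hg R hR =>
    sInf_le ⟨(h.mem R hR).1, (h.mem R hR).2.2, (mem_nrm.mp hg).2 R hR⟩
  rw [← sum_filter_add_sum_filter_not _ (fun σ => T σ.1 = σ.1), filter_filter, filter_filter]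
  have h0 : ∑ σ ∈ univ.filter (fun σ => (Valid p H σ ∧ g ∈ nrm σ) ∧ ¬ T σ.1 = σ.1),
      (-1 : ℤ) ^ σ.2.card = 0 := by
    refine sum_involution
      (fun σ _ => (σ.1, if T σ.1 ∈ σ.2 then σ.2.erase (T σ.1) else insert (T σ.1) σ.2)) ?_ ?_ ?_ ?_
    · intro σ _
      split_ifs with h
      · rw [← card_erase_add_one h, pow_succ]
        simp
      · rw [card_insert_of_notMem h, pow_succ]
        simp
    · intro σ _ _ h
      have h1 := congrArg (fun τ => T σ.1 ∈ τ.2) h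
      by_cases h2 : T σ.1 ∈ σ.2 <;> simp [h2] at h1
    · intro σ hσ
      obtain ⟨⟨h1, h2⟩, h3⟩ := (mem_filter.mp hσ).2
      refine mem_filter.mpr ⟨mem_univ _, ⟨?_, ?_⟩, h3⟩
      · split_ifs with h
        · exact ⟨h1.pg, h1.le, fun R hR => h1.mem R (mem_of_mem_erase hR),
            h1.chain.mono (coe_subset.mpr (erase_subset _ _))⟩
        · refine ⟨h1.pg, h1.le, fun R hR => ?_, ?_⟩
          · rcases mem_insert.mp hR with rfl | hR
            · exact ⟨hT1 _, lt_of_le_of_ne (hT4 σ h1 h2) h3, hT2 _⟩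
            · exact h1.mem R hR
          · rw [coe_insert]
            exact h1.chain.insert fun R hR _ => Or.inl (hT5 σ h1 h2 R hR)
      · rw [mem_nrm] at h2 ⊢
        refine ⟨h2.1, fun R hR => ?_⟩
        split_ifs at hR with h
        · exact h2.2 R (mem_of_mem_erase hR)
        · rcases mem_insert.mp hR with rfl | hR
          · exact hT3 _
          · exact h2.2 R hR
    · intro σ _
      by_cases h : T σ.1 ∈ σ.2
      · simp [h, insert_erase h]
      · simp [h, erase_insert h]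
  rw [h0, add_zero]
  split_ifs with h
  · obtain ⟨R₀, hR₀, hHR₀, hg₀⟩ := h
    let U : Subgroup G := sInf {R | H ≤ R ∧ g ∈ normalizer (R : Set G)}
    have hU1 : H ≤ U := le_sInf fun R hR => hR.1
    have hU2 : g ∈ normalizer (U : Set G) := mem_normalizer_sInf fun R hR => hR.2
    have hU3 : IsPGroup p U := hR₀.to_le (sInf_le ⟨hHR₀, hg₀⟩)
    have hv : Valid p H (U, ∅) := ⟨hU3, hU1, by simp, by simp⟩
    have hn : g ∈ nrm (U, ∅) := mem_nrm.mpr ⟨hU2, by simp⟩
    rw [sum_eq_single_of_mem (U, ∅)]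
    · simp
    · refine mem_filter.mpr ⟨mem_univ _, ⟨hv, hn⟩, le_antisymm (hT4 _ hv hn) ?_⟩
      exact sInf_le ⟨hT1 _, hT3 _⟩
    · rintro ⟨Q, c⟩ hσ hne
      exfalso
      obtain ⟨⟨h1, h2⟩, h3⟩ := (mem_filter.mp hσ).2
      apply hne
      have hc : c = ∅ := eq_empty_of_forall_notMem fun R hR =>
        (h1.mem R hR).2.1.not_ge (h3 ▸ hT5 _ h1 h2 R hR)
      have hgQ : g ∈ normalizer (Q : Set G) := (mem_nrm.mp h2).1
      have hUQ : U ≤ Q := sInf_le ⟨h1.le, hgQ⟩
      rw [hc, Prod.mk.injEq, and_iff_left rfl]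
      by_contra hne
      obtain ⟨V, hUV, hV⟩ := Finite.exists_le_maximal
        (p := fun V : Subgroup G => V < Q ∧ g ∈ normalizer (V : Set G))
        ⟨lt_of_le_of_ne hUQ (Ne.symm hne), hU2⟩
      have h4 := PG.lt_inf_normalizer h1.pg hV.prop.1
      have h5 : Q ≤ normalizer (V : Set G) := by
        by_contra h5
        refine h4.not_ge (hV.le_of_ge ⟨lt_of_le_of_ne inf_le_left fun h => h5 (h ▸ inf_le_right),
          ?_⟩ h4.le)
        exact le_normalizer_inf (zpowers_le.mpr hgQ)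
          (le_normalizer_normalizer (zpowers_le.mpr hV.prop.2)) (mem_zpowers g)
      have h6 : T Q ≤ V := sInf_le ⟨hU1.trans hUV, h5, hV.prop.2⟩
      exact hV.prop.1.not_ge (h3.symm.le.trans h6)
  · refine sum_eq_zero fun σ hσ => absurd ?_ h
    obtain ⟨⟨h1, h2⟩, -⟩ := (mem_filter.mp hσ).2
    exact ⟨σ.1, h1.pg, h1.le, (mem_nrm.mp h2).1⟩

open scoped Classical in
theorem sum_nrm [Fintype (Subgroup G)] (H : Subgroup G) :
    ∑ σ ∈ univ.filter (Valid p H), (-1 : ℤ) ^ σ.2.card * (Nat.card (nrm σ) : ℤ) =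
      ∑ Q ∈ univ.filter (fun Q => SylIn p Q ⊤ ∧ H ≤ Q),
        (Nat.card (normalizer (Q : Set G)) : ℤ) := by
  rw [← sum_filter_add_sum_filter_not _ (fun σ => SylIn p σ.1 (nrm σ)), filter_filter,
    filter_filter, ← sum_filter_add_sum_filter_not _ (fun σ => σ.2 = ∅), filter_filter,
    filter_filter, add_assoc]
  have hnrm : ∀ (Q Q' : Subgroup G) (c : Finset (Subgroup G)),
      nrm (Q', insert Q c) = nrm (Q, c) ⊓ normalizer (Q' : Set G) := by
    intro Q Q' c
    ext x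
    simp only [mem_nrm, Subgroup.mem_inf, forall_mem_insert]
    tauto
  have h1 : ∑ σ ∈ univ.filter (fun σ => (Valid p H σ ∧ SylIn p σ.1 (nrm σ)) ∧ ¬ σ.2 = ∅),
      (-1 : ℤ) ^ σ.2.card * (Nat.card (nrm σ) : ℤ) =
      -∑ σ ∈ univ.filter (fun σ => Valid p H σ ∧ ¬ SylIn p σ.1 (nrm σ)),
        (-1 : ℤ) ^ σ.2.card * (Nat.card (nrm σ) : ℤ) := by
    rw [← sum_neg_distrib]
    simp_rw [← neg_mul]
    symm
    rw [sum_congr rfl (g := fun σ => ∑ Q ∈ univ.filter (fun Q => SylIn p Q (nrm σ)),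
      -(-1 : ℤ) ^ σ.2.card * (Nat.card (nrm σ ⊓ normalizer (Q : Set G) : Subgroup G) : ℤ))
      fun σ _ => by rw [← mul_sum, ← Nat.cast_sum, sum_card_normalizer], sum_sigma']
    have hlt : ∀ σ Q, Valid p H σ → ¬ SylIn p σ.1 (nrm σ) → SylIn p Q (nrm σ) → σ.1 < Q := by
      intro σ Q h1 h2 h3
      have h4 := h3.max (Q ⊔ σ.1) le_sup_left (sup_le h3.le h1.le_nrm)
        (IsPGroup.to_sup_of_normal_right' h3.pgroup h1.pg fun x hx => (mem_nrm.mp (h3.le hx)).1)
      exact lt_of_le_of_ne (h4 ▸ le_sup_right) fun h => h2 (h ▸ h3)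
    refine sum_bij (fun x _ => (x.2, insert x.1.1 x.1.2)) ?_ ?_ ?_ ?_
    · rintro ⟨⟨Q, c⟩, Q'⟩ hx
      simp only [mem_sigma, mem_filter, mem_univ, true_and] at hx ⊢
      obtain ⟨⟨h1, h2⟩, h3⟩ := hx
      have h4 := hlt _ _ h1 h2 h3
      refine ⟨⟨⟨h3.pgroup, h1.le.trans h4.le, fun R hR => ?_, ?_⟩, ?_⟩, insert_ne_empty _ _⟩
      · rcases mem_insert.mp hR with rfl | hR
        · exact ⟨h1.le, h4, fun x hx => (mem_nrm.mp (h3.le hx)).1⟩
        · exact ⟨(h1.mem R hR).1, (h1.mem R hR).2.1.trans h4,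
            fun x hx => (mem_nrm.mp (h3.le hx)).2 R hR⟩
      · rw [coe_insert]
        exact h1.chain.insert fun R hR _ => Or.inr (h1.mem R hR).2.1.le
      · rw [hnrm]
        exact ⟨le_inf h3.le le_normalizer, h3.pgroup,
          fun U hU hU' hUp => h3.max U hU (hU'.trans inf_le_left) hUp⟩
    · rintro ⟨⟨Q, c⟩, Q'⟩ hx ⟨⟨Q₁, c₁⟩, Q₁'⟩ hx₁ h
      simp only [mem_sigma, mem_filter, mem_univ, true_and] at hx hx₁
      obtain ⟨rfl, h⟩ := Prod.mk.inj h
      have hQ : Q ∉ c := fun h => (hx.1.1.mem Q h).2.1.ne rfl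
      have hQ₁ : Q₁ ∉ c₁ := fun h => (hx₁.1.1.mem Q₁ h).2.1.ne rfl
      have h2 : Q = Q₁ := by
        by_contra hne
        have h3 : Q ∈ c₁ := (mem_insert.mp (h ▸ mem_insert_self Q c)).resolve_left hne
        have h4 : Q₁ ∈ c := (mem_insert.mp (h ▸ mem_insert_self Q₁ c₁)).resolve_left (Ne.symm hne)
        exact (hx₁.1.1.mem Q h3).2.1.not_gt (hx.1.1.mem Q₁ h4).2.1
      subst h2
      have h3 : c = c₁ := by rw [← erase_insert hQ, h, erase_insert hQ₁]
      subst h3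
      rfl
    · rintro ⟨Q', c'⟩ hσ
      obtain ⟨⟨h1, h2⟩, h3⟩ := (mem_filter.mp hσ).2
      obtain ⟨Q, hQ⟩ := exists_maximal (nonempty_iff_ne_empty.mpr h3)
      have hmax : ∀ R ∈ c', R ≤ Q := fun R hR =>
        (h1.chain.total hR hQ.prop).elim id fun h => hQ.le_of_ge hR h
      have hQ' := h1.mem Q hQ.prop
      have hv : Valid p H (Q, c'.erase Q) := ⟨h1.pg.to_le hQ'.2.1.le, hQ'.1, fun R hR =>
        ⟨(h1.mem R (mem_of_mem_erase hR)).1,
          lt_of_le_of_ne (hmax R (mem_of_mem_erase hR)) (ne_of_mem_erase hR),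
          hQ'.2.1.le.trans (h1.mem R (mem_of_mem_erase hR)).2.2⟩,
        h1.chain.mono (coe_subset.mpr (erase_subset _ _))⟩
      have h4 := hnrm Q Q' (c'.erase Q)
      rw [insert_erase hQ.prop] at h4
      rw [h4] at h2
      have h5 : Q' ≤ nrm (Q, c'.erase Q) := h2.le.trans inf_le_left
      refine ⟨⟨(Q, c'.erase Q), Q'⟩, ?_, by simp [insert_erase hQ.prop]⟩
      simp only [mem_sigma, mem_filter, mem_univ, true_and]
      refine ⟨⟨hv, fun h => hQ'.2.1.ne' (h.max Q' hQ'.2.1.le h5 h1.pg)⟩, h5, h1.pg, ?_⟩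
      intro U hU hU' hUp
      by_contra hne
      have h6 := PG.lt_inf_normalizer hUp (lt_of_le_of_ne hU (Ne.symm hne))
      exact h6.ne' (h2.max _ h6.le (inf_le_inf_right _ hU') hUp.to_inf_left)
    · rintro ⟨⟨Q, c⟩, Q'⟩ hx
      simp only [mem_sigma, mem_filter, mem_univ, true_and] at hx
      have hQ : Q ∉ c := fun h => (hx.1.1.mem Q h).2.1.ne rfl
      simp only [hnrm, card_insert_of_notMem hQ, pow_succ]
      ring
  rw [h1, neg_add_cancel, add_zero]
  symm
  have hnrm0 : ∀ Q : Subgroup G, nrm (Q, ∅) = normalizer (Q : Set G) := fun Q => by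
    ext x
    simp [mem_nrm]
  refine sum_bij (fun Q _ => (Q, ∅)) ?_ ?_ ?_ ?_
  · intro Q hQ
    obtain ⟨h2, h3⟩ := (mem_filter.mp hQ).2
    refine mem_filter.mpr ⟨mem_univ _, ⟨⟨h2.pgroup, h3, by simp, by simp⟩, ?_⟩, rfl⟩
    rw [hnrm0]
    exact ⟨le_normalizer, h2.pgroup, fun U hU _ hUp => h2.max U hU le_top hUp⟩
  · intro Q _ Q' _ h
    exact (Prod.mk.inj h).1
  · rintro ⟨Q, c⟩ hσ
    obtain ⟨⟨h2, h3⟩, rfl⟩ := (mem_filter.mp hσ).2
    rw [hnrm0] at h3
    refine ⟨Q, mem_filter.mpr ⟨mem_univ _, ⟨le_top, h2.pg, ?_⟩, h2.le⟩, rfl⟩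
    intro U hU _ hUp
    by_contra hne
    have h6 := PG.lt_inf_normalizer hUp (lt_of_le_of_ne hU (Ne.symm hne))
    exact h6.ne' (h3.max _ h6.le inf_le_right hUp.to_inf_left)
  · intro Q _
    simp [hnrm0]

/-- **Casolo**: the size of the subnormalizer of a `p`-subgroup. -/
theorem cnt_subnormalizer (H : Subgroup G) (P : Sylow p G) :
    cnt (fun g : G => ∃ R : Subgroup G, IsPGroup p R ∧ H ≤ R ∧ g ∈ normalizer (R : Set G)) =
      cnt (fun Q : Sylow p G => H ≤ Q) * Nat.card (normalizer ((P : Subgroup G) : Set G)) := by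
  classical
  have := Fintype.ofFinite (Subgroup G)
  have := Fintype.ofFinite G
  have := Fintype.ofFinite (Sylow p G)
  have h1 := sum_congr rfl fun g (_ : g ∈ (univ : Finset G)) => sum_fixed (p := p) H g
  rw [sum_boole, ← cnt_eq_card_filter] at h1
  simp_rw [← filter_filter, sum_filter (p := fun σ => _ ∈ nrm σ)] at h1
  rw [sum_comm] at h1
  have h2 : ∀ σ : Subgroup G × Finset (Subgroup G),
      (∑ g : G, if g ∈ nrm σ then (-1 : ℤ) ^ σ.2.card else 0) =
        (-1 : ℤ) ^ σ.2.card * (Nat.card (nrm σ) : ℤ) := fun σ => by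
    rw [← sum_filter, sum_const, ← cnt_eq_card_filter, nsmul_eq_mul, mul_comm]
    rfl
  simp_rw [h2] at h1
  rw [sum_nrm, ← Nat.cast_sum, Nat.cast_inj] at h1
  rw [← h1, cnt_eq_card_filter, ← smul_eq_mul, ← sum_const]
  symm
  refine sum_bij (fun Q _ => (Q : Subgroup G)) ?_ ?_ ?_ ?_
  · intro Q hQ
    exact mem_filter.mpr ⟨mem_univ _, sylIn_top Q, (mem_filter.mp hQ).2⟩
  · intro Q _ Q' _ h
    exact Sylow.ext h
  · intro Q hQ
    obtain ⟨R, rfl⟩ := (mem_filter.mp hQ).2.1.exists_sylow_top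
    exact ⟨R, mem_filter.mpr ⟨mem_univ _, (mem_filter.mp hQ).2.2⟩, rfl⟩
  · intro R _
    obtain ⟨g, rfl⟩ := MulAction.exists_smul_eq G P R
    rw [coe_sylow_smul, ← conj_smul_normalizer, card_conj_smul]

omit hp in
theorem cnt_conj_smul_eq (H : Subgroup G) (g : G) :
    cnt (fun x : G => MulAut.conj x • H = MulAut.conj g • H) =
      Nat.card (normalizer (H : Set G)) := by
  refine cnt_congr_equiv (Q := fun x => x ∈ normalizer (H : Set G)) (Equiv.mulLeft g⁻¹) fun x => ?_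
  rw [mem_normalizer_iff_conj_smul_eq, Equiv.coe_mulLeft, conj_mul_smul, conj_smul_eq_iff (g := g⁻¹),
    inv_inv]

theorem cnt_sylow_mul (H : Subgroup G) (P : Sylow p G) :
    cnt (fun Q : Sylow p G => H ≤ Q) * Nat.card (normalizer ((P : Subgroup G) : Set G)) =
      cnt (fun x : G => H ≤ MulAut.conj x • (P : Subgroup G)) := by
  have := cnt_mul_eq_cnt_mul (fun Q : Sylow p G => H ≤ Q)
    (fun x : G => H ≤ MulAut.conj x • (P : Subgroup G)) (fun Q x => x • P = Q)
    (c := Nat.card (normalizer ((P : Subgroup G) : Set G))) (d := 1) ?_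
    (fun x hx => cnt_eq_one (a := x • P) ⟨hx, rfl⟩ fun Q hQ => hQ.2.symm)
  · rwa [mul_one] at this
  · intro Q hQ
    obtain ⟨g, rfl⟩ := MulAction.exists_smul_eq G P Q
    rw [← cnt_conj_smul_eq _ g]
    refine cnt_congr fun x => ⟨fun h => congrArg Sylow.toSubgroup h.2, fun h => ⟨?_, Sylow.ext h⟩⟩
    exact h ▸ hQ

omit hp in
theorem cnt_conj_mul (H P : Subgroup G) :
    cnt (fun K : Subgroup G => K ≤ P ∧ ∃ g : G, K = MulAut.conj g • H) *
      Nat.card (normalizer (H : Set G)) = cnt (fun x : G => H ≤ MulAut.conj x • P) := by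
  have := cnt_mul_eq_cnt_mul (fun K : Subgroup G => K ≤ P ∧ ∃ g : G, K = MulAut.conj g • H)
    (fun x : G => MulAut.conj x • H ≤ P) (fun K x => MulAut.conj x • H = K)
    (c := Nat.card (normalizer (H : Set G))) (d := 1) ?_
    (fun x hx => cnt_eq_one (a := MulAut.conj x • H) ⟨⟨hx, x, rfl⟩, rfl⟩ fun Q hQ => hQ.2.symm)
  · rw [this, mul_one]
    exact cnt_congr_equiv (Equiv.inv G) fun x => conj_smul_le_iff_le_conj_inv_smul
  · rintro K ⟨hK, g, rfl⟩
    rw [← cnt_conj_smul_eq _ g]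
    exact cnt_congr fun x => ⟨fun h => h.2, fun h => ⟨h ▸ hK, h⟩⟩

end Cfsg.Lib.Solv.Subn
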