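import Cfsg.Agent.Solv.SylowDirect

/-!
A finite group in which every element fixes a point, and every non-identity element fixes at most
one point, has a global fixed point.
-/

set_option autoImplicit false

namespace Cfsg.Lib.Solv

open MulAction

theorem sum_card_fixedBy_of_pretransitive (K X : Type*) [Group K] [Fintype K] [MulAction K X]
    [Finite X] [Nonempty X] [IsPretransitive K X] :
    ∑ g : K, Nat.card (fixedBy X g) = Nat.card K := by
  classical
  have := Fintype.ofFinite X
  have := Fintype.ofFinite (Quotient (orbitRel K X))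
  have h1 := sum_card_fixedBy_eq_card_orbits_mul_card_group K X
  have h2 : Fintype.card (Quotient (orbitRel K X)) = 1 := by
    rw [Fintype.card_eq_one_iff_nonempty_unique]
    have : Subsingleton (Quotient (orbitRel K X)) := ⟨fun a b => by
      induction a using Quotient.inductionOn'
      induction b using Quotient.inductionOn'
      exact Quotient.sound' (mem_orbit_iff.2 (exists_smul_eq K _ _))⟩
    exact ⟨uniqueOfSubsingleton (Quotient.mk _ (Classical.arbitrary X))⟩
  rw [h2, one_mul] at h1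
  simpa only [Nat.card_eq_fintype_card] using h1

theorem exists_fixed_of_unique_fixed {K X : Type*} [Group K] [Finite K] [Nontrivial K]
    [MulAction K X] (h1 : ∀ y : K, ∃ ω : X, y • ω = ω)
    (h2 : ∀ y : K, y ≠ 1 → ∀ ω ω' : X, y • ω = ω → y • ω' = ω' → ω = ω') :
    ∃ ω : X, ∀ y : K, y • ω = ω := by
  classical
  have := Fintype.ofFinite K
  obtain ⟨y₀, hy₀⟩ := exists_ne (1 : K)
  obtain ⟨ω₀, hω₀⟩ := h1 y₀
  by_cases h : ∀ y : K, ∃ k : K, k * y * k⁻¹ ∈ stabilizer K ω₀
  · have := eq_top_of_forall_exists_conj_mem h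
    exact ⟨ω₀, fun y => mem_stabilizer_iff.1 (this ▸ Subgroup.mem_top y)⟩
  exfalso
  push Not at h
  obtain ⟨y₁, hy₁⟩ := h
  obtain ⟨ω₁, hω₁⟩ := h1 y₁
  have hy₁1 : y₁ ≠ 1 := by
    rintro rfl
    exact hy₁ 1 (by simp)
  have hne : ω₁ ∉ orbit K ω₀ := by
    rintro ⟨k, rfl⟩
    apply hy₁ k⁻¹
    rw [mem_stabilizer_iff, inv_inv, mul_smul, mul_smul]
    simp only at hω₁
    rw [hω₁, inv_smul_smul]
  have hfin : ∀ ω : X, Finite (orbit K ω) := fun ω => (Set.finite_range _).to_subtype
  have hsum : ∀ ω : X, ∑ g : K, Nat.card (fixedBy (orbit K ω) g) = Nat.card K := fun ω =>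
    have := hfin ω
    have : Nonempty (orbit K ω) := ⟨⟨ω, mem_orbit_self ω⟩⟩
    sum_card_fixedBy_of_pretransitive K (orbit K ω)
  have hone : ∀ (ω : X) (y : K), y ≠ 1 → y • ω = ω →
      2 * Nat.card (fixedBy (orbit K ω) (1 : K)) ≤ Nat.card K := by
    intro ω y hy hω
    rw [fixedBy_one_eq_univ, Nat.card_univ, Nat.card_coe_set_eq, ← index_stabilizer,
      ← (stabilizer K ω).card_mul_index]
    refine Nat.mul_le_mul_right _ ?_
    exact (Subgroup.one_lt_card_iff_ne_bot _).2 fun h0 => hy (Subgroup.mem_bot.1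
      (h0 ▸ mem_stabilizer_iff.2 hω))
  have hle : ∀ g ∈ Finset.univ.erase (1 : K), Nat.card (fixedBy (orbit K ω₀) g) +
      Nat.card (fixedBy (orbit K ω₁) g) ≤ 1 := by
    intro g hg
    have hg1 := (Finset.mem_erase.1 hg).1
    have := hfin ω₀
    have := hfin ω₁
    rw [← Nat.card_sum, Finite.card_le_one_iff_subsingleton]
    have key : ∀ (ω : X) (a : fixedBy (orbit K ω) g), g • (a.1 : X) = a.1 := fun ω a =>
      congrArg Subtype.val (mem_fixedBy.1 a.2)
    have hdis : ∀ (a : fixedBy (orbit K ω₀) g) (b : fixedBy (orbit K ω₁) g), False := by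
      intro a b
      have h3 := h2 g hg1 _ _ (key _ a) (key _ b)
      apply hne
      have h4 := orbit_eq_iff.2 a.1.2
      have h5 := orbit_eq_iff.2 b.1.2
      rw [← h4, h3, h5]
      exact mem_orbit_self ω₁
    refine ⟨?_⟩
    rintro (a | a) (b | b)
    · exact congrArg _ (Subtype.ext (Subtype.ext (h2 g hg1 _ _ (key _ a) (key _ b))))
    · exact (hdis a b).elim
    · exact (hdis b a).elim
    · exact congrArg _ (Subtype.ext (Subtype.ext (h2 g hg1 _ _ (key _ a) (key _ b))))
  have h3 := Finset.sum_le_card_nsmul _ _ _ hle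
  rw [Finset.sum_add_distrib, Finset.card_erase_of_mem (Finset.mem_univ _), Finset.card_univ,
    ← Nat.card_eq_fintype_card, smul_eq_mul, mul_one] at h3
  have h4 := hsum ω₀
  have h5 := hsum ω₁
  rw [← Finset.add_sum_erase _ _ (Finset.mem_univ (1 : K))] at h4 h5
  have h6 := hone ω₀ y₀ hy₀ hω₀
  have h7 := hone ω₁ y₁ hy₁1 hω₁
  have h8 : 0 < Nat.card K := Nat.card_pos
  omega

end Cfsg.Lib.Solv
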