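import Cfsg.Agent.Solv.LinearPGroup
import Cfsg.Agent.Solv.ClassSize
import Cfsg.Agent.Solv.CyclicIndexP
import Cfsg.Agent.Solv.Nilpotent
import Cfsg.Agent.Solv.ElemLift
import Cfsg.Agent.Solv.FrattiniRep
import Cfsg.Agent.Local.InvCent
import Cfsg.Agent.Cor.OddSol
import Mathlib.NumberTheory.LegendreSymbol.QuadraticChar.Basic

/-!
A finite group acting faithfully and coprimely on a finite vector space with all orbits of
`p`-power length is solvable.
-/

set_option autoImplicit false

namespace Cfsg.Lib.Solv.PPO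

open Module Subgroup Cfsg.Lib.Solv.HH

section Alg

variable {K R : Type*} [Field K] [Ring R] [Algebra K R]

theorem isSquare_mul_of_not [Finite K] {a b : K} (ha : ¬ IsSquare a) (hb : ¬ IsSquare b) :
    IsSquare (a * b) := by
  classical
  have := Fintype.ofFinite K
  have ha0 : a ≠ 0 := fun h => ha (h ▸ IsSquare.zero)
  have hb0 : b ≠ 0 := fun h => hb (h ▸ IsSquare.zero)
  rw [← quadraticChar_one_iff_isSquare (mul_ne_zero ha0 hb0), map_mul,
    quadraticChar_neg_one_iff_not_isSquare.2 ha, quadraticChar_neg_one_iff_not_isSquare.2 hb]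
  norm_num

theorem eq_zero_of_smul_one [Nontrivial R] {c : K} (h : c • (1 : R) = 0) : c = 0 :=
  (smul_eq_zero.1 h).resolve_right one_ne_zero

theorem false_of_anticomm [Nontrivial R] (two : (2 : K) ≠ 0) {X δ : R} (hX : X * X = -1) {ε : K}
    (hε : ε ≠ 0) (hδ : δ = ε • 1) (h : X * δ = -(δ * X)) : False := by
  rw [hδ, mul_smul_comm, smul_mul_assoc, mul_one, one_mul] at h
  have h1 : (2 * ε) • (X * X) = 0 := by
    rw [← smul_mul_assoc, mul_smul, two_smul]
    nth_rewrite 1 [h]
    simp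
  rw [hX, smul_neg, neg_eq_zero] at h1
  exact mul_ne_zero two hε (eq_zero_of_smul_one h1)

theorem quat_step [Finite K] [Nontrivial R] (two : (2 : K) ≠ 0) (hns : ¬ IsSquare (-1 : K))
    {A X I D D' : R}
    (hsign : ∀ (δ : R) (ε : K), ε ≠ 0 → δ * δ = (ε * ε) • 1 → A * δ = δ * A →
      (X * δ = δ * X ∨ X * δ = -(δ * X)) → δ = ε • 1 ∨ δ = (-ε) • 1)
    (hX : X * X = -1) (hI : I * I = -1) (hXI : X * I = -(I * X)) (h1 : D * D' = 1)
    (h2 : D' * D = 1) (hA : A * D = D * A) (hA' : A * D' = D' * A) (hXD : X * D = D' * X)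
    (hXD' : X * D' = D * X) {α β : K} (hβ : β ≠ 0) (hD : D * D = α • 1 + β • I) :
    ∃ α' β' : K, β' ≠ 0 ∧ D = α' • 1 + β' • I := by
  have hD' : D' * D' = α • 1 - β • I := by
    have h3 : D' * D' * X = (α • 1 - β • I) * X := by
      rw [mul_assoc, ← hXD, ← mul_assoc, ← hXD, mul_assoc, hD]
      simp only [mul_add, sub_mul, mul_smul_comm, smul_mul_assoc, mul_one, one_mul, hXI]
      module
    have h4 := congrArg (· * X) h3
    simpa only [mul_assoc, hX, mul_neg, mul_one, neg_inj] using h4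
  have hαβ : α * α + β * β = 1 := by
    have h3 : (D * D) * (D' * D') = 1 := by rw [mul_assoc, ← mul_assoc D D', h1, one_mul, h1]
    rw [hD, hD'] at h3
    simp only [mul_sub, add_mul, mul_smul_comm, smul_mul_assoc, mul_one, one_mul, hI] at h3
    rw [← sub_eq_zero]
    refine eq_zero_of_smul_one (R := R) ?_
    linear_combination (norm := module) h3
  have hτ : (D + D') * (D + D') = (2 * α + 2) • 1 := by
    simp only [mul_add, add_mul, h1, h2, hD, hD']
    module
  have hδ : (D - D') * (D - D') = (2 * α - 2) • 1 := by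
    simp only [mul_sub, sub_mul, h1, h2, hD, hD']
    module
  have hτδ : (D + D') * (D - D') = (2 * β) • I := by
    simp only [mul_sub, add_mul, h1, h2, hD, hD']
    module
  have hprod : (2 * α + 2) * (2 * α - 2) = -1 * ((2 * β) * (2 * β)) := by
    linear_combination 4 * hαβ
  have h2β : 2 * β ≠ 0 := mul_ne_zero two hβ
  have hne : (2 * α + 2) * (2 * α - 2) ≠ 0 := by
    rw [hprod]
    exact mul_ne_zero (neg_ne_zero.2 one_ne_zero) (mul_ne_zero h2β h2β)
  have hm : ¬ IsSquare (2 * α - 2) := by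
    rintro ⟨ε, hε⟩
    have hε0 : ε ≠ 0 := fun h => right_ne_zero_of_mul hne (by rw [hε, h, mul_zero])
    have h3 : X * (D - D') = -((D - D') * X) := by
      rw [mul_sub, sub_mul, hXD, hXD', neg_sub]
    rcases hsign (D - D') ε hε0 (hε ▸ hδ) (by rw [mul_sub, sub_mul, hA, hA']) (Or.inr h3)
      with h | h
    · exact false_of_anticomm two hX hε0 h h3
    · exact false_of_anticomm two hX (neg_ne_zero.2 hε0) h h3
  have hp : IsSquare (2 * α + 2) := by
    by_contra h
    obtain ⟨c, hc⟩ := isSquare_mul_of_not h hm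
    refine hns ⟨c / (2 * β), ?_⟩
    rw [hprod] at hc
    field_simp
    linear_combination hc
  obtain ⟨ε, hε⟩ := hp
  have hε0 : ε ≠ 0 := fun h => left_ne_zero_of_mul hne (by rw [hε, h, mul_zero])
  obtain ⟨t, ht0, ht⟩ : ∃ t : K, t ≠ 0 ∧ D + D' = t • 1 := by
    rcases hsign (D + D') ε hε0 (hε ▸ hτ) (by rw [mul_add, add_mul, hA, hA'])
      (Or.inl (by rw [mul_add, add_mul, hXD, hXD', add_comm])) with h | h
    · exact ⟨_, hε0, h⟩
    · exact ⟨_, neg_ne_zero.2 hε0, h⟩
  refine ⟨t / 2, β / t, div_ne_zero hβ ht0, ?_⟩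
  rw [ht, smul_mul_assoc, one_mul] at hτδ
  have h3 : (2 * t) • D = (t * t) • 1 + (2 * β) • I := by
    linear_combination (norm := module) hτδ + t • ht
  have h4 : D = (2 * t)⁻¹ • ((t * t) • 1 + (2 * β) • I) := by
    rw [← h3, smul_smul, inv_mul_cancel₀ (mul_ne_zero two ht0), one_smul]
  rw [h4, smul_add, smul_smul, smul_smul]
  congr 2 <;> field_simp

end Alg

variable {K H W : Type*} [Field K] [Group H] [AddCommGroup W] [Module K W]

/-- The stabilizer of a vector. -/
def stab (σ : H →* End K W) (w : W) : Subgroup H where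
  carrier := {g | σ g w = w}
  one_mem' := by simp
  mul_mem' := fun {a b} ha hb => by
    simp only [Set.mem_ofPred_eq] at ha hb ⊢
    rw [map_mul, End.mul_apply, hb, ha]
  inv_mem' := fun {a} ha => by
    simp only [Set.mem_ofPred_eq] at ha ⊢
    conv_lhs => rw [← ha]
    exact inv_apply_apply σ a w

theorem mem_stab {σ : H →* End K W} {w : W} {g : H} : g ∈ stab σ w ↔ σ g w = w := Iff.rfl

theorem mem_normalizer_stab {σ : H →* End K W} {g : H} {w : W} {c : K} (hc : c ≠ 0)
    (h : σ g w = c • w) : g ∈ normalizer (stab σ w : Set H) := by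
  have h1 : σ g⁻¹ w = c⁻¹ • w := by
    rw [eq_inv_smul_iff₀ hc, ← map_smul, ← h, inv_apply_apply]
  refine mem_normalizer_iff.2 fun a => ?_
  rw [mem_stab, mem_stab, map_mul, map_mul, End.mul_apply, End.mul_apply, h1, map_smul, map_smul,
    inv_smul_eq_iff₀ hc, ← h, (rep_injective σ g).eq_iff]

theorem eq_smul_of_sign [Finite H] {σ : H →* End K W} (hirr : Irr σ)
    (h2 : ∀ M : Subgroup H, M.index ≠ 2) (two : (2 : K) ≠ 0) {P : Subgroup H}
    (hP : ∀ w g, ∃ a ∈ P, σ g w = σ a w) {δ : End K W} {ε : K} (hε : ε ≠ 0)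
    (hδ : δ * δ = (ε * ε) • 1) (hs : ∀ a ∈ P, σ a * δ = δ * σ a ∨ σ a * δ = -(δ * σ a)) :
    δ = ε • 1 ∨ δ = (-ε) • 1 := by
  have hδ' : ∀ w, δ (δ w) = (ε * ε) • w := fun w => congrArg (· w) hδ
  have hdec : ∀ w, ∃ u v, δ u = ε • u ∧ δ v = (-ε) • v ∧ u + v = w := fun w => by
    refine ⟨(2 * ε)⁻¹ • (ε • w + δ w), (2 * ε)⁻¹ • (ε • w - δ w), ?_, ?_, ?_⟩
    · simp only [map_smul, map_add, hδ']
      module
    · simp only [map_smul, map_sub, hδ']
      module
    · rw [← smul_add, inv_smul_eq_iff₀ (mul_ne_zero two hε)]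
      module
  have hone : ∀ g w, (δ w = ε • w ∨ δ w = (-ε) • w) →
      δ (σ g w) = ε • σ g w ∨ δ (σ g w) = (-ε) • σ g w := by
    intro g w hw
    obtain ⟨a, ha, h⟩ := hP w g
    rw [h]
    rcases hs a ha with h1 | h1
    · have h3 : δ (σ a w) = σ a (δ w) := (congrArg (· w) h1).symm
      rcases hw with hw | hw
      · exact Or.inl (by rw [h3, hw, map_smul])
      · exact Or.inr (by rw [h3, hw, map_smul])
    · have h3 : δ (σ a w) = -σ a (δ w) := by
        rw [show σ a (δ w) = -δ (σ a w) from congrArg (· w) h1, neg_neg]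
      rcases hw with hw | hw
      · exact Or.inr (by rw [h3, hw, map_smul, neg_smul])
      · exact Or.inl (by rw [h3, hw, map_smul, neg_smul, neg_neg])
  have hall : ∀ g (c : K), c = ε ∨ c = -ε → (∀ w, δ w = c • w → δ (σ g w) = ε • σ g w) ∨
      ∀ w, δ w = c • w → δ (σ g w) = (-ε) • σ g w := by
    intro g c hc
    have hc' : ∀ w, δ w = c • w → δ w = ε • w ∨ δ w = (-ε) • w := fun w hw =>
      hc.imp (fun h : c = ε => h ▸ hw) fun h : c = -ε => h ▸ hw
    by_contra! h
    obtain ⟨⟨u, hu, hu'⟩, v, hv, hv'⟩ := h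
    have h1 := (hone g u (hc' u hu)).resolve_left hu'
    have h3 := (hone g v (hc' v hv)).resolve_right hv'
    rcases hone g (u + v) (hc' _ (by rw [map_add, hu, hv, smul_add])) with h4 | h4
    · rw [map_add, map_add, h3, smul_add, add_left_inj] at h4
      exact hu' h4
    · rw [map_add, map_add, h1, smul_add, add_right_inj] at h4
      exact hv' h4
  by_contra! hne
  have hne1 : ¬ ∀ w, δ w = ε • w := fun h => hne.1 (LinearMap.ext h)
  have hne2 : ¬ ∀ w, δ w = (-ε) • w := fun h => hne.2 (LinearMap.ext h)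
  let S : Submonoid H :=
    { carrier := {g | ∀ w, δ w = ε • w → δ (σ g w) = ε • σ g w}
      one_mem' := fun w hw => by simpa using hw
      mul_mem' := fun {a b} ha hb w hw => by
        rw [map_mul, End.mul_apply]
        exact ha _ (hb w hw) }
  let M : Subgroup H :=
    { S with
      inv_mem' := fun {a} ha => by
        have : a⁻¹ = a ^ (orderOf a - 1) := by
          rw [inv_eq_iff_mul_eq_one, ← pow_succ', Nat.sub_add_cancel (orderOf_pos a),
            pow_orderOf_eq_one]
        rw [this]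
        exact S.pow_mem ha _ }
  have hM : ∀ g, g ∉ M → (∀ w, δ w = ε • w → δ (σ g w) = (-ε) • σ g w) ∧
      ∀ w, δ w = (-ε) • w → δ (σ g w) = ε • σ g w := by
    intro g hg
    have h1 := (hall g ε (Or.inl rfl)).resolve_left hg
    refine ⟨h1, (hall g (-ε) (Or.inr rfl)).resolve_right fun h3 => hne2 fun w => ?_⟩
    obtain ⟨u, v, hu, hv, huv⟩ := hdec (σ g⁻¹ w)
    rw [← apply_inv_apply σ g w, ← huv, map_add, map_add, h1 u hu, h3 v hv, smul_add]
  have htop : ∀ g, g ∈ M := by
    by_contra! h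
    obtain ⟨a, ha⟩ := h
    refine h2 M (index_eq_two_iff_exists_notMem_and.2 ⟨a, ha, fun b => ?_⟩)
    by_cases hb : b ∈ M
    · exact Or.inr hb
    · refine Or.inl fun w hw => ?_
      rw [map_mul, End.mul_apply]
      exact (hM b hb).2 _ ((hM a ha).1 w hw)
  rcases hirr (δ.eigenspace ε) (fun g w hw => End.mem_eigenspace_iff.2
    (htop g w (End.mem_eigenspace_iff.1 hw))) with h | h
  · refine hne2 fun w => ?_
    obtain ⟨u, v, hu, hv, rfl⟩ := hdec w
    rw [(Submodule.mem_bot K).1 (h.le (End.mem_eigenspace_iff.2 hu)), zero_add, hv]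
  · exact hne1 fun w => End.mem_eigenspace_iff.1 (h.ge Submodule.mem_top)

theorem neg_ne_self (two : (2 : K) ≠ 0) {w : W} (hw : w ≠ 0) : -w ≠ w := fun h => by
  have h1 : (2 : K) • w = 0 := by
    rw [two_smul]
    nth_rewrite 1 [← h]
    exact neg_add_cancel w
  exact hw ((smul_eq_zero.1 h1).resolve_left two)

theorem finrank_le_two [Finite K] [Nontrivial W] (two : (2 : K) ≠ 0)
    (hsq : ∃ c d : K, c ^ 2 + d ^ 2 = -1) {σ : H →* End K W} {a x : H} {m : ℕ}
    (hx : x * a * x⁻¹ = a⁻¹) (hX : σ x * σ x = -1) (hI : σ (a ^ 2 ^ (m + 1)) = -1)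
    (hsign : ∀ (δ : End K W) (ε : K), ε ≠ 0 → δ * δ = (ε * ε) • 1 → σ a * δ = δ * σ a →
      (σ x * δ = δ * σ x ∨ σ x * δ = -(δ * σ x)) → δ = ε • 1 ∨ δ = (-ε) • 1)
    (hirr : ∀ U : Submodule K W, (∀ u ∈ U, σ a u ∈ U) → (∀ u ∈ U, σ x u ∈ U) → U = ⊥ ∨ U = ⊤) :
    finrank K W ≤ 2 := by
  have hxa : ∀ k : ℕ, σ x * σ (a ^ k) = σ (a ^ k)⁻¹ * σ x := fun k => by
    rw [← map_mul, ← map_mul, ← inv_pow, ← hx, conj_pow, inv_mul_cancel_right]
  have hxa' : ∀ k : ℕ, σ x * σ (a ^ k)⁻¹ = σ (a ^ k) * σ x := fun k => by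
    have h : x * a⁻¹ * x⁻¹ = a := by rw [conj_inv.symm, hx, inv_inv]
    rw [← map_mul, ← map_mul, ← inv_pow]
    conv_rhs => rw [← h, conj_pow, inv_mul_cancel_right]
  have haa : ∀ k : ℕ, σ a * σ (a ^ k) = σ (a ^ k) * σ a := fun k => by
    rw [← map_mul, ← map_mul, (Commute.self_pow a k).eq]
  set I := σ (a ^ 2 ^ m) with hIdef
  have hII : I * I = -1 := by rw [← map_mul, ← pow_add, ← two_mul, ← pow_succ', hI]
  have hXI : σ x * I = -(I * σ x) := by
    have h : σ (a ^ 2 ^ m)⁻¹ = -I := by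
      rw [← neg_eq_iff_eq_neg, ← mul_neg_one, ← hII, ← mul_assoc, ← map_mul, inv_mul_cancel,
        map_one, one_mul]
    rw [hxa, h, neg_mul]
  have hns : ¬ IsSquare (-1 : K) := by
    rintro ⟨ε, hε⟩
    have hε0 : ε ≠ 0 := fun h => by simp [h] at hε
    rcases hsign I ε hε0 (by rw [hII, ← hε, neg_smul, one_smul]) (haa _) (Or.inr hXI) with h | h
    · exact false_of_anticomm two hX hε0 h hXI
    · exact false_of_anticomm two hX (neg_ne_zero.2 hε0) h hXI
  have hind : ∀ k ≤ m, ∃ α β : K, β ≠ 0 ∧ σ (a ^ 2 ^ (m - k)) = α • 1 + β • I := by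
    intro k
    induction k with
    | zero => exact fun _ => ⟨0, 1, one_ne_zero, by simp [hIdef]⟩
    | succ k ih =>
      intro hk
      obtain ⟨α, β, hβ, h⟩ := ih (by omega)
      refine quat_step two hns hsign hX hII hXI (D' := σ (a ^ 2 ^ (m - (k + 1)))⁻¹)
        (by rw [← map_mul, mul_inv_cancel, map_one]) (by rw [← map_mul, inv_mul_cancel, map_one])
        (haa _) (by rw [← map_mul, ← map_mul, (Commute.self_pow a _).inv_right.eq]) (hxa _)
        (hxa' _) hβ (α := α) ?_
      rw [← h, ← map_mul, ← pow_add, ← two_mul, ← pow_succ', show m - (k + 1) + 1 = m - k by omega]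
  obtain ⟨α, β, -, hA⟩ := hind m le_rfl
  rw [Nat.sub_self, pow_zero, pow_one] at hA
  obtain ⟨c, d, hcd⟩ := hsq
  have hcd' : (c • 1 - d • I) * (c • 1 + d • I) = -1 := by
    simp only [mul_add, sub_mul, mul_smul_comm, smul_mul_assoc, mul_one, one_mul, hII]
    linear_combination (norm := module) hcd • (1 : End K W)
  have hcd'' : (c • 1 + d • I) * (c • 1 - d • I) = -1 := by
    simp only [add_mul, mul_sub, mul_smul_comm, smul_mul_assoc, mul_one, one_mul, hII]
    linear_combination (norm := module) hcd • (1 : End K W)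
  have hθ : (c • 1 + d • I) * σ x * ((c • 1 + d • I) * σ x) = 1 := by
    have h : σ x * (c • 1 + d • I) = (c • 1 - d • I) * σ x := by
      simp only [mul_add, sub_mul, mul_smul_comm, smul_mul_assoc, mul_one, one_mul, hXI]
      module
    rw [mul_assoc, ← mul_assoc (σ x), h, mul_assoc, hX, ← mul_assoc, hcd'']
    simp
  obtain ⟨w, hw, s, hs⟩ : ∃ w : W, w ≠ 0 ∧ ∃ s : K, ((c • 1 + d • I) * σ x) w = s • w := by
    obtain ⟨v, hv⟩ := exists_ne (0 : W)
    by_cases h : v + ((c • 1 + d • I) * σ x) v = 0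
    · exact ⟨v, hv, -1, by rw [neg_smul, one_smul, eq_neg_of_add_eq_zero_right h]⟩
    · exact ⟨_, h, 1, by rw [map_add, ← End.mul_apply, hθ, one_smul, add_comm]; rfl⟩
  let U := Submodule.span K {w, I w}
  have hwU : w ∈ U := Submodule.subset_span (by simp)
  have hIw : I w ∈ U := Submodule.subset_span (by simp)
  have hU : ∀ T : End K W, T w ∈ U → T (I w) ∈ U → ∀ u ∈ U, T u ∈ U := by
    intro T h1 h2 u hu
    obtain ⟨r, t, rfl⟩ := Submodule.mem_span_pair.1 hu
    rw [map_add, map_smul, map_smul]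
    exact U.add_mem (U.smul_mem _ h1) (U.smul_mem _ h2)
  have hIU := hU I hIw (by rw [← End.mul_apply, hII]; exact U.neg_mem hwU)
  have hXw : σ x w ∈ U := by
    have h : σ x w = -(c • 1 - d • I) (s • w) := by
      rw [← hs, ← End.mul_apply, ← mul_assoc, hcd']
      simp
    rw [h]
    exact U.neg_mem (U.sub_mem (U.smul_mem _ (U.smul_mem _ hwU))
      (U.smul_mem _ (hIU _ (U.smul_mem _ hwU))))
  have hXU := hU (σ x) hXw (by
    rw [← End.mul_apply, hXI]
    exact U.neg_mem (hIU _ hXw))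
  rcases hirr U (fun u hu => by
    rw [hA]
    exact U.add_mem (U.smul_mem _ hu) (U.smul_mem _ (hIU u hu))) hXU with h | h
  · exact absurd ((Submodule.mem_bot K).1 (h.le hwU)) hw
  · classical
    rw [← finrank_top, ← h]
    exact (finrank_span_le_card _).trans (by
      rw [Set.toFinset_insert, Set.toFinset_singleton]; exact Finset.card_le_two)

theorem isSolvable_of_irr {q : ℕ} [hq' : Fact q.Prime] [Module (ZMod q) W] [Finite H] [Finite W]
    [Nontrivial W] {σ : H →* End (ZMod q) W} (hinj : Function.Injective σ)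
    (hq : ¬ q ∣ Nat.card H) (hirr : Irr σ) (h2 : ∀ M : Subgroup H, M.index ≠ 2) {p : ℕ}
    (hp : p.Prime) (horb : ∀ w, ∃ k, (stab σ w).index ∣ p ^ k) : Group.IsSolvable H := by
  by_contra hns
  have h2H := Cor.even_card_of_not_isSolvable hns
  have two : (2 : ZMod q) ≠ 0 := fun h =>
    hq (((ZMod.natCast_eq_zero_iff 2 q).1 (by exact_mod_cast h)).trans h2H)
  have hne : ∀ {t : H}, orderOf t = 2 → σ t ≠ 1 := fun {t} ht h => by
    rw [hinj (h.trans (map_one σ).symm), orderOf_one] at ht
    omega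
  have hsq : ∀ {t : H}, orderOf t = 2 → σ t * σ t = 1 := fun {t} ht => by
    rw [← map_mul, ← pow_two, ← ht, pow_orderOf_eq_one, map_one]
  obtain ⟨t, ht⟩ := exists_prime_orderOf_dvd_card' 2 h2H
  obtain rfl : p = 2 := by
    by_contra hp2
    obtain ⟨u, hu⟩ : ∃ u, σ t u ≠ u := not_forall.1 fun h => hne ht (LinearMap.ext h)
    have h1 : σ t (u - σ t u) = (-1 : ZMod q) • (u - σ t u) := by
      rw [map_sub, ← End.mul_apply, hsq ht]
      simp
    obtain ⟨k, hk⟩ := horb (u - σ t u)
    have h3 := mem_of_mem_normalizer_of_coprime_orderOf_index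
      (mem_normalizer_stab (neg_ne_zero.2 one_ne_zero) h1) (by
        rw [ht]
        exact Nat.Coprime.coprime_dvd_right hk
          (Nat.Coprime.pow_right _ ((Nat.coprime_primes Nat.prime_two hp).2 (Ne.symm hp2))))
    rw [mem_stab, h1, neg_smul, one_smul] at h3
    exact neg_ne_self two (sub_ne_zero.2 hu.symm) h3
  obtain ⟨P⟩ : Nonempty (Sylow 2 H) := inferInstance
  have hP : ∀ w g, ∃ a ∈ (P : Subgroup H), σ g w = σ a w := fun w g => by
    obtain ⟨k, hk⟩ := horb w
    obtain ⟨a, ha, c, hc, rfl⟩ := ClassSize.forall_mul_sylow_of_index_dvd P hk g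
    exact ⟨a, ha, by rw [map_mul, End.mul_apply, hc]⟩
  have hsign : ∀ {e : H}, orderOf e = 2 →
      (∀ a ∈ (P : Subgroup H), σ a * σ e = σ e * σ a ∨ σ a * σ e = -(σ e * σ a)) → σ e = -1 := by
    intro e he h
    rcases eq_smul_of_sign hirr h2 two hP one_ne_zero (by rw [hsq he]; simp) h with h | h
    · exact absurd (by simpa using h) (hne he)
    · simpa using h
  have hz : ∀ {z : H}, orderOf z = 2 → (∀ t ∈ (P : Subgroup H), t * z = z * t) → σ z = -1 :=
    fun hz h => hsign hz fun a ha => Or.inl (by rw [← map_mul, h a ha, map_mul])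
  rcases Local.two_subgroup_dichotomy P.isPGroup' with ⟨a, ha, hidx⟩ |
    ⟨z, -, e, -, hz2, he2, hez, hzc, he⟩
  swap
  · refine hez (hinj ((hsign he2 fun a ha => (he a ha).imp (fun h => ?_) fun h => ?_).trans
      (hz hz2 hzc).symm))
    · rw [← map_mul, mul_inv_eq_iff_eq_mul.1 h, map_mul]
    · rw [← map_mul, mul_inv_eq_iff_eq_mul.1 h, map_mul, map_mul, hz hz2 hzc]
      simp
  obtain ⟨z, hza, hz2, hzc, hconj⟩ := Local.one_class_of_cyclic_idx h2 P ha hidx ht
  have hσz := hz hz2 hzc
  have hinv : ∀ y : H, orderOf y = 2 → y = z := fun y hy => by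
    obtain ⟨c, hc⟩ := isConj_iff.1 (hconj y hy).symm
    apply hinj
    rw [← hc, map_mul, map_mul, hσz, mul_neg_one, neg_mul, ← map_mul, mul_inv_cancel, map_one]
  have hncyc : ∀ b ∈ (P : Subgroup H), ¬ (P : Subgroup H) ≤ zpowers b := fun b hb h =>
    hns (Cor.isSolvable_of_isCyclic_sylow_two P
      (by rw [le_antisymm h (zpowers_le.2 hb)]; infer_instance))
  obtain ⟨x, hx, hxa⟩ := SetLike.not_le_iff_exists.1 (hncyc a ha)
  have hdec : ∀ g ∈ (P : Subgroup H), ∃ k : ℕ, g = a ^ k ∨ g = x * a ^ k := fun g hg => by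
    by_cases h : g ∈ zpowers a
    · obtain ⟨k, hk⟩ := (mem_powers_iff_mem_zpowers.2 h)
      exact ⟨k, Or.inl hk.symm⟩
    · obtain ⟨k, hk⟩ := (mem_powers_iff_mem_zpowers.2
        (hidx _ (inv_mem hx) g hg (fun h => hxa (inv_mem_iff.1 h)) h))
      exact ⟨k, Or.inr (by rw [show a ^ k = x⁻¹ * g from hk, mul_inv_cancel_left])⟩
  obtain ⟨n, hn⟩ := exists_orderOf_eq_pow_of_mem P.isPGroup' ha
  rcases PG.mem_zpowers_or_exists_sq_eq_one_or_quaternion hn
    (mem_normalizer_fintype fun b hb => hidx.conj_mem hx (zpowers_le.2 ha hb) hb)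
    (hidx.pow_mem hx even_two) with h | ⟨j, h⟩ | ⟨hn2, hxa', hxx⟩
  · refine hncyc x hx fun g hg => ?_
    obtain ⟨k, rfl | rfl⟩ := hdec g hg
    · exact pow_mem h k
    · exact mul_mem (mem_zpowers x) (pow_mem h k)
  · refine hxa ((mul_mem_cancel_left (pow_mem (mem_zpowers a) j)).1 ?_)
    by_cases h1 : a ^ j * x = 1
    · exact h1 ▸ one_mem _
    · exact hinv _ (orderOf_eq_prime h h1) ▸ hza
  obtain ⟨m, rfl⟩ : ∃ m, n = m + 2 := ⟨n - 2, by omega⟩
  have hI : σ (a ^ 2 ^ (m + 1)) = -1 := by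
    rw [hinv _ (orderOf_eq_prime (by rw [← pow_mul, ← pow_succ, ← hn, pow_orderOf_eq_one])
      (pow_ne_one_of_lt_orderOf (by positivity)
        (by rw [hn]; exact Nat.pow_lt_pow_right one_lt_two (by omega)))), hσz]
  have hdim := finrank_le_two two (ZMod.sq_add_sq q (-1)) hxa'
    (by rw [← map_mul, hxx]; exact hI) hI (fun δ ε hε hδ hA hX => by
      refine eq_smul_of_sign hirr h2 two hP hε hδ fun g hg => ?_
      have h1 : ∀ k : ℕ, σ (a ^ k) * δ = δ * σ (a ^ k) := fun k => by
        rw [map_pow]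
        exact (Commute.pow_left hA k).eq
      obtain ⟨k, rfl | rfl⟩ := hdec g hg
      · exact Or.inl (h1 k)
      · rw [map_mul, mul_assoc, h1, ← mul_assoc, ← mul_assoc]
        exact hX.imp (fun h => by rw [h]) fun h => by rw [h, neg_mul])
    (fun U hA hX => hirr U fun g w hw => by
      obtain ⟨b, hb, h⟩ := hP w g
      have h1 : ∀ k : ℕ, σ (a ^ k) w ∈ U := fun k => by
        induction k with
        | zero => simpa using hw
        | succ k ih => rw [pow_succ', map_mul]; exact hA _ ih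
      rw [h]
      obtain ⟨k, rfl | rfl⟩ := hdec b hb
      · exact h1 k
      · rw [map_mul]
        exact hX _ (h1 k))
  obtain ⟨w, hw⟩ := exists_ne (0 : W)
  have hbot : stab σ w = ⊥ := by
    rw [eq_bot_iff]
    intro s hs
    have hodd : (orderOf s).Coprime 2 := by
      rw [Nat.coprime_comm, Nat.Prime.coprime_iff_not_dvd Nat.prime_two]
      intro h
      have h1 := pow_mem hs (orderOf s / 2)
      rw [hinv _ (orderOf_pow_orderOf_div (orderOf_pos s).ne' h), mem_stab, hσz] at h1
      exact neg_ne_self two hw h1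
    have h1 : finrank (ZMod q) (LinearMap.range (σ s - 1)) ≤ 1 := by
      have h3 := LinearMap.finrank_range_add_finrank_ker (σ s - 1)
      have h4 : finrank (ZMod q) (LinearMap.ker (σ s - 1)) ≠ 0 := fun h => hw
        ((Submodule.mem_bot _).1 ((Submodule.finrank_eq_zero.1 h).le
          (by simpa [sub_eq_zero] using mem_stab.1 hs)))
      omega
    obtain ⟨v, hv⟩ := finrank_le_one_iff.1 h1
    have h3 : σ s v = v := by
      obtain ⟨u, hu⟩ := v.2
      obtain ⟨c, hc⟩ := hv ⟨σ s v, σ s u, by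
        rw [← hu, ← End.mul_apply, ← End.mul_apply, sub_mul, mul_sub, mul_one, one_mul]⟩
      have hc' : σ s v = c • (v : W) := (congrArg Subtype.val hc).symm
      by_cases hc0 : c = 0
      · rw [hc0, zero_smul] at hc'
        rw [hc', rep_injective σ s (hc'.trans (map_zero _).symm)]
      obtain ⟨k, hk⟩ := horb v
      exact mem_of_mem_normalizer_of_coprime_orderOf_index (mem_normalizer_stab hc0 hc')
        (Nat.Coprime.coprime_dvd_right hk (Nat.Coprime.pow_right _ hodd))
    have h4 : (σ s - 1) * (σ s - 1) = 0 := LinearMap.ext fun u => by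
      obtain ⟨c, hc⟩ := hv ⟨_, u, rfl⟩
      rw [End.mul_apply, ← show c • (v : W) = (σ s - 1) u from congrArg Subtype.val hc]
      simp [h3]
    have h5 : ∀ k : ℕ, σ s ^ k = 1 + (k : ZMod q) • (σ s - 1) := fun k => by
      induction k with
      | zero => simp
      | succ k ih =>
        rw [pow_succ, ih]
        generalize σ s = T at h4
        simp only [sub_mul, mul_sub, add_mul, smul_mul_assoc, one_mul, mul_one] at h4 ⊢
        push_cast
        linear_combination (norm := module) (k : ZMod q) • h4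
    have h6 : s ^ q = 1 := hinj (by rw [map_pow, h5, ZMod.natCast_self, zero_smul, add_zero, map_one])
    exact mem_bot.2 (orderOf_eq_one_iff.1 (Nat.eq_one_of_dvd_coprimes
      ((Nat.Prime.coprime_iff_not_dvd hq'.out).2 hq) (orderOf_dvd_of_pow_eq_one h6)
      (orderOf_dvd_natCard s)))
  obtain ⟨k, hk⟩ := horb w
  rw [hbot, index_bot] at hk
  exact hns (Cor.isSolvable_of_isPGroup (p := 2) (IsPGroup.of_card_dvd_pow hk))

universe u

/-- A group acting faithfully and coprimely with orbits of `p`-power length is solvable. -/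
theorem isSolvable_of_orbits {q : ℕ} [hq' : Fact q.Prime] [Module (ZMod q) W] [Finite W] {p : ℕ}
    (hp : p.Prime) (H : Type u) [Group H] [Finite H] : ∀ σ : H →* End (ZMod q) W,
      Function.Injective σ → ¬ q ∣ Nat.card H → (∀ w, ∃ k, (stab σ w).index ∣ p ^ k) →
      Group.IsSolvable H := by
  refine card_induction (P := fun H _ _ => ∀ σ : H →* End (ZMod q) W,
      Function.Injective σ → ¬ q ∣ Nat.card H → (∀ w, ∃ k, (stab σ w).index ∣ p ^ k) →
      Group.IsSolvable H) (fun H _ _ ih σ hinj hq horb => ?_) H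
  by_cases hc : commutator H = ⊤
  · have : Subsingleton H := by
      refine subsingleton_of_forall_eq 1 fun g => hinj ?_
      rw [map_one]
      refine LinP.eq_one_of_forall_irr (fun h => hq ((ZMod.natCast_eq_zero_iff _ q).1 h)) σ g
        fun U hU hirr => ?_
      rcases subsingleton_or_nontrivial U with h | h
      · exact Subsingleton.elim _ _
      let N := (res σ U hU).ker
      have : Group.IsPerfect H := ⟨hc⟩
      have hsol : Group.IsSolvable (H ⧸ N) := by
        refine isSolvable_of_irr (σ := QuotientGroup.lift N (res σ U hU) le_rfl) ?_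
          (fun h => hq (h.trans (card_quotient_dvd_card N))) ?_ ?_ hp fun w => ?_
        · rw [injective_iff_map_eq_one]
          intro x hx
          obtain ⟨g, rfl⟩ := QuotientGroup.mk_surjective x
          exact (QuotientGroup.eq_one_iff g).2 hx
        · exact fun V hV => hirr V fun g => hV (g : H ⧸ N)
        · intro M hM
          have := M.normal_of_index_eq_two hM
          have h1 : IsCyclic ((H ⧸ N) ⧸ M) := isCyclic_of_prime_card (p := 2) hM
          have h2 : Subsingleton ((H ⧸ N) ⧸ M) := Group.IsPerfect.subsingleton_of_isMulCommutative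
          rw [index, Nat.card_of_subsingleton (1 : (H ⧸ N) ⧸ M)] at hM
          omega
        · obtain ⟨k, hk⟩ := horb w
          refine ⟨k, ?_⟩
          rw [← index_comap_of_surjective _ (QuotientGroup.mk'_surjective N)]
          convert hk using 2
          ext g
          exact Subtype.ext_iff
      have : Subsingleton (H ⧸ N) :=
        not_nontrivial_iff_subsingleton.1 fun _ => Group.IsPerfect.not_isSolvable _ hsol
      exact (QuotientGroup.eq_one_iff (N := N) g).1 (Subsingleton.elim _ _)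
    infer_instance
  · refine Cor.isSolvable_of_normal_quotient (commutator H)
      (ih _ (card_lt_of_ne_top hc) (σ.comp (commutator H).subtype)
        (hinj.comp Subtype.val_injective) (fun h => hq (h.trans (card_subgroup_dvd_card _)))
        fun w => (horb w).imp fun k hk =>
          (ClassSize.relIndex_dvd_index_of_normal_right (stab σ w) _).trans hk) ?_
    exact inferInstanceAs (Group.IsSolvable (Abelianization H))

/-- A group with a self-centralizing normal Sylow `q`-subgroup all of whose elements have classes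
of `p`-power size is solvable. -/
theorem isSolvable_of_index_pCore {G : Type u} [Group G] [Finite G] {q : ℕ} [Fact q.Prime]
    (hC : centralizer (pCore q G : Set G) ≤ pCore q G) (hq : ¬ q ∣ (pCore q G).index) {p : ℕ}
    (hp : p.Prime) (h : ∀ x ∈ pCore q G, ∃ k, (centralizer ({x} : Set G)).index ∣ p ^ k) :
    Group.IsSolvable G := by
  obtain ⟨S⟩ := nonempty_secRep_frattini q (pCore q G) (pCore_isPGroup q G)
  have hk := S.ker_eq_pCore hC
  refine Cor.isSolvable_of_normal_quotient (pCore q G)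
    (Cor.isSolvable_of_isPGroup (pCore_isPGroup q G))
    (isSolvable_of_orbits hp _ _ (S.lift_injective _ hk) hq fun w => ?_)
  obtain ⟨x, hx, rfl⟩ := S.π_surj w
  obtain ⟨k, hk⟩ := h x hx
  refine ⟨k, Dvd.dvd.trans ?_ hk⟩
  rw [← index_comap_of_surjective _ (QuotientGroup.mk'_surjective (pCore q G))]
  refine index_dvd_of_le fun g hg => ?_
  change S.ρ g (S.π x) = S.π x
  rw [S.ρ_π g hx, ClassSize.mem_cent_iff_conj.1 hg]

end Cfsg.Lib.Solv.PPO
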