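import Mathlib.RepresentationTheory.Invariants
import Mathlib.LinearAlgebra.FiniteDimensional.Basic
import Cfsg.Agent.S0007

/-!
Modules spanned by one orbit: fixed vectors of a subgroup of invertible order whose index is prime
to the orbit length.
-/

set_option autoImplicit false

namespace Cfsg.Lib.Solv

variable {k V H : Type*} [Field k] [AddCommGroup V] [Module k V] [Group H]

/-- The stabilizer of a vector. -/
def repStab (ρ : Representation k H V) (a : V) : Subgroup H where
  carrier := {h | ρ h a = a}
  one_mem' := by simp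
  mul_mem' {x y} hx hy := by
    simp only [Set.mem_setOf_eq] at *
    rw [map_mul, Module.End.mul_apply, hy, hx]
  inv_mem' {x} hx := by
    simp only [Set.mem_setOf_eq] at *
    conv_lhs => rw [← hx]
    rw [← Module.End.mul_apply, ← map_mul, inv_mul_cancel, map_one, Module.End.one_apply]

theorem mem_repStab {ρ : Representation k H V} {a : V} {h : H} : h ∈ repStab ρ a ↔ ρ h a = a :=
  Iff.rfl

theorem index_repStab (ρ : Representation k H V) (a : V) :
    (repStab ρ a).index = Nat.card {u : V | ∃ h : H, ρ h a = u} := by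
  letI : MulAction H V := MulAction.compHom V (ρ : H →* Module.End k V)
  exact (MulAction.index_stabilizer H a).trans (Nat.card_coe_set_eq _).symm

/-- If the orbit of `a` spans `V`, and `U` has invertible order and index prime to the orbit length
(also invertible), then the `U`-fixed vectors are multiples of one `H`-fixed vector. -/
theorem exists_fixed_of_span_orbit [Finite H] (ρ : Representation k H V) (a : V)
    (hspan : Submodule.span k {u : V | ∃ h : H, ρ h a = u} = ⊤) (U : Subgroup H)
    (hU : (Nat.card U : k) ≠ 0) (ha : ((repStab ρ a).index : k) ≠ 0)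
    (hcop : U.index.Coprime (repStab ρ a).index) :
    ∃ τ : V, (∀ h, ρ h τ = τ) ∧ ∀ v : V, (∀ u ∈ U, ρ u v = v) → ∃ c : k, c • τ = v := by
  classical
  have := Fintype.ofFinite U
  let O : Set V := {u : V | ∃ h : H, ρ h a = u}
  have hO : O.Finite := Set.finite_range (fun h => ρ h a)
  let π : V →ₗ[k] V := ∑ u : U, ρ u
  have hπ : ∀ v, (∀ u ∈ U, ρ u v = v) → π v = (Nat.card U : k) • v := by
    intro v hv
    simp [π, LinearMap.sum_apply, hv, Nat.card_eq_fintype_card, Nat.cast_smul_eq_nsmul]
  have hπO : ∀ x ∈ O, π x = π a := by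
    rintro _ ⟨h, rfl⟩
    obtain ⟨u, hu, y, hy, rfl⟩ := (Cfsg.Agent.S0007.result U _ hcop).2 h
    rw [map_mul, Module.End.mul_apply, mem_repStab.mp hy]
    simp only [π, LinearMap.sum_apply]
    exact Fintype.sum_equiv (Equiv.mulRight ⟨u, hu⟩) _ _ (fun w => by simp)
  have hτ : ∀ h, ρ h (∑ x ∈ hO.toFinset, x) = ∑ x ∈ hO.toFinset, x := by
    intro h
    rw [map_sum]
    refine Finset.sum_bij' (fun x _ => ρ h x) (fun x _ => ρ h⁻¹ x) ?_ ?_ ?_ ?_ (fun _ _ => rfl)
    · intro x hx
      obtain ⟨g, rfl⟩ := hO.mem_toFinset.mp hx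
      exact hO.mem_toFinset.mpr ⟨h * g, by simp⟩
    · intro x hx
      obtain ⟨g, rfl⟩ := hO.mem_toFinset.mp hx
      exact hO.mem_toFinset.mpr ⟨h⁻¹ * g, by simp⟩
    · intro x _; simp
    · intro x _; simp
  refine ⟨_, hτ, fun v hv => ?_⟩
  have h1 : (Nat.card U : k) • ∑ x ∈ hO.toFinset, x = ((repStab ρ a).index : k) • π a := by
    rw [← hπ _ fun u _ => hτ u, map_sum, Finset.sum_congr rfl
      (fun x hx => hπO x (hO.mem_toFinset.mp hx)), Finset.sum_const, index_repStab,
      Nat.cast_smul_eq_nsmul, Nat.card_coe_set_eq, Set.ncard_eq_toFinset_card _ hO]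
  have h2 : π v ∈ Submodule.span k {π a} := by
    have : v ∈ Submodule.span k O := hspan ▸ Submodule.mem_top
    have h3 : Submodule.span k O ≤ (Submodule.span k {π a}).comap π :=
      Submodule.span_le.mpr fun x hx => by
        change π x ∈ Submodule.span k {π a}
        rw [hπO x hx]; exact Submodule.mem_span_singleton_self _
    exact h3 this
  obtain ⟨c, hc⟩ := Submodule.mem_span_singleton.mp h2
  refine ⟨c * ((repStab ρ a).index : k)⁻¹, ?_⟩
  apply smul_right_injective V hU
  simp only
  rw [smul_comm, h1, smul_smul, inv_mul_cancel_right₀ ha, hc, hπ v hv]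

theorem finrank_invariants_le_one_of_exists (ρ : Representation k H V) {τ : V}
    (h : ∀ v : V, (∀ u, ρ u v = v) → ∃ c : k, c • τ = v) :
    Module.finrank k ρ.invariants ≤ 1 := by
  refine (Submodule.finrank_mono (t := Submodule.span k {τ}) fun v hv => ?_).trans
    (finrank_span_le_card ({τ} : Set V) |>.trans (by simp))
  exact Submodule.mem_span_singleton.mpr (h v hv)

end Cfsg.Lib.Solv
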