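import Cfsg.Agent.Solv.TwoLenComp
import Cfsg.Agent.Solv.HallHigmanA
import Cfsg.Agent.Solv.CommCalc
import Cfsg.Agent.FT.Final

/-!
# Bryukhanova's theorem: the `2`-length is at most `e` when the Sylow `2`-subgroups have exponent
`2 ^ e`
-/

set_option autoImplicit false

open Module
open scoped commutatorElement

namespace Cfsg.Lib.Solv.TwoLen

open HH

universe u

variable {G : Type u} [Group G]

theorem pLengthLE_quotient_inf [Finite G] {p k : ℕ} [Fact p.Prime] {M N : Subgroup G} [M.Normal]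
    [N.Normal] (hM : PLengthLE p k (G ⧸ M)) (hN : PLengthLE p k (G ⧸ N)) :
    PLengthLE p k (G ⧸ (M ⊓ N)) := by
  refine PLengthLE.of_quotient_inf (M := M.map (QuotientGroup.mk' (M ⊓ N)))
    (N := N.map (QuotientGroup.mk' (M ⊓ N))) ?_
    (hM.of_equiv (QuotientGroup.quotientQuotientEquivQuotient _ _ inf_le_left).symm)
    (hN.of_equiv (QuotientGroup.quotientQuotientEquivQuotient _ _ inf_le_right).symm)
  rw [eq_bot_iff]
  rintro _ ⟨⟨a, ha, rfl⟩, b, hb, h⟩
  have h1 := QuotientGroup.eq.1 h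
  exact (QuotientGroup.eq_one_iff a).2 ⟨ha, by simpa using N.mul_mem hb h1.2⟩

/-- The residual for `p`-length at most `k`. -/
theorem exists_residual [Finite G] (p k : ℕ) [Fact p.Prime] :
    ∃ (N : Subgroup G) (_ : N.Normal), PLengthLE p k (G ⧸ N) ∧
      ∀ (M : Subgroup G) [M.Normal], PLengthLE p k (G ⧸ M) → N ≤ M := by
  obtain ⟨N, ⟨hN, hN'⟩, hmin⟩ := (wellFounded_lt (α := Subgroup G)).has_min
    {N | ∃ _ : N.Normal, PLengthLE p k (G ⧸ N)}
    ⟨⊤, inferInstance, have := QuotientGroup.subsingleton_quotient_top (G := G)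
      PLengthLE.of_subsingleton⟩
  refine ⟨N, hN, hN', fun M _ hM => ?_⟩
  exact inf_eq_left.1 ((lt_or_eq_of_le inf_le_left).resolve_left
    (hmin _ ⟨inferInstance, pLengthLE_quotient_inf hN' hM⟩))

/-- A minimal normal `2`-subgroup that is not centralised by the elements of odd order of `N`. -/
structure Min (N A B : Subgroup G) : Prop where
  isP : IsPGroup 2 A
  lt : B < A
  max : ∀ C : Subgroup G, C.Normal → C < A → C ≤ B
  sq : ∀ a ∈ A, a ^ 2 ∈ B
  comm : ⁅A, A⁆ ≤ B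
  cen : B ≤ Subgroup.centralizer (A : Set G)
  four : ∀ a ∈ A, a ^ 4 = 1
  not_le : ¬ ⁅N, A⁆ ≤ B

theorem mul_pow_four {A B : Subgroup G} (sq : ∀ a ∈ A, a ^ 2 ∈ B) (comm : ⁅A, A⁆ ≤ B)
    (cen : B ≤ Subgroup.centralizer (A : Set G)) {a b : G} (ha : a ∈ A) (hb : b ∈ A) :
    (a * b) ^ 4 = a ^ 4 * b ^ 4 := by
  have hc := cen (comm (Subgroup.commutator_mem_commutator (A.inv_mem ha) hb))
  set c := ⁅a⁻¹, b⁆ with hcdef
  have h1 : b * a = a * c * b := by rw [hcdef, commutatorElement_def]; group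
  have hca : c * a = a * c := (hc a ha).symm
  have hcb : c * b = b * c := (hc b hb).symm
  have h2 : c * c = 1 := by
    have h3 : b * a ^ 2 = a ^ 2 * b := cen (sq a ha) b hb
    have h4 : b * a ^ 2 = a ^ 2 * (c * c) * b := by
      rw [pow_two, ← mul_assoc, h1, mul_assoc _ b a, h1, mul_assoc a c, ← mul_assoc c,
        ← mul_assoc c, hca]
      simp only [mul_assoc]
    rw [h3] at h4
    exact (mul_left_cancel ((mul_one _).trans (mul_right_cancel h4))).symm
  have h5 : (a * b) ^ 2 = a ^ 2 * (c * b ^ 2) := by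
    rw [pow_two, mul_assoc, ← mul_assoc b, h1]
    simp only [pow_two, mul_assoc]
  have c1 : Commute (a ^ 2) (c * b ^ 2) :=
    ((Commute.symm hca).pow_left 2).mul_right (cen (sq b hb) _ (A.pow_mem ha 2))
  rw [show 4 = 2 * 2 from rfl, pow_mul, h5, c1.mul_pow, (Commute.pow_right hcb 2).mul_pow,
    pow_two c, h2, one_mul, ← pow_mul, ← pow_mul]

theorem exists_min [Finite G] {T N : Subgroup G} [T.Normal] [hN : N.Normal] (hT : IsPGroup 2 T)
    {r : G} (hrN : r ∈ N) (hr : (orderOf r).Coprime 2)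
    (hrT : r ∉ Subgroup.centralizer (T : Set G)) :
    ∃ A B : Subgroup G, A ≤ T ∧ A.Normal ∧ B.Normal ∧ Min N A B := by
  let R := Subgroup.closure {a | a ∈ N ∧ (orderOf a).Coprime 2}
  have hRN : R ≤ N := (Subgroup.closure_le _).2 fun a ha => ha.1
  have hRn : R.Normal := by
    rw [← Subgroup.normalizer_eq_top_iff, eq_top_iff]
    refine Subgroup.le_normalizer_closure_iff.2 fun g _ a ha =>
      Subgroup.subset_closure ⟨hN.conj_mem a ha.1 g, ?_⟩
    have := (MulAut.conj g).orderOf_eq a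
    rw [MulAut.conj_apply] at this
    exact this ▸ ha.2
  obtain ⟨A, ⟨hAT, hAn, hAR⟩, hmin⟩ := (wellFounded_lt (α := Subgroup G)).has_min
    {A | A ≤ T ∧ A.Normal ∧ ¬ A ≤ Subgroup.centralizer (R : Set G)}
    ⟨T, le_rfl, inferInstance, fun h => hrT
      (Subgroup.le_centralizer_iff.1 h (Subgroup.subset_closure ⟨hrN, hr⟩))⟩
  have hA := hT.to_le hAT
  set B := A ⊓ Subgroup.centralizer (R : Set G) with hB
  have hmax : ∀ C : Subgroup G, C.Normal → C < A → C ≤ B := fun C hC h => by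
    by_contra hne
    exact hmin C ⟨h.le.trans hAT, hC, fun h' => hne (le_inf h.le h')⟩ h
  have hA0 : A ≠ ⊥ := by
    rintro rfl
    exact hAR bot_le
  have hAR' : ¬ ⁅A, R⁆ ≤ B := by
    intro h
    apply hAR
    rw [Subgroup.le_centralizer_iff, Subgroup.closure_le]
    intro a ha
    have haR : Subgroup.zpowers a ≤ R := Subgroup.zpowers_le.2 (Subgroup.subset_closure ha)
    have h1 : ⁅A, Subgroup.zpowers a⁆ = ⊥ := by
      refine Coprime.commutator_eq_bot_of_commutator_commutator_eq_bot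
        Subgroup.le_normalizer_of_normal ?_ ?_
      · obtain ⟨k, hk⟩ := IsPGroup.iff_card.1 hA
        rw [hk, Nat.card_zpowers]
        exact ha.2.pow_right k
      · rw [Subgroup.commutator_eq_bot_iff_le_centralizer]
        exact (((Subgroup.commutator_mono le_rfl haR).trans h).trans inf_le_right).trans
          (Subgroup.centralizer_le haR)
    rw [Subgroup.commutator_eq_bot_iff_le_centralizer, Subgroup.le_centralizer_iff] at h1
    exact h1 (Subgroup.mem_zpowers a)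
  have hAR2 : ⁅A, R⁆ = A := (lt_or_eq_of_le (Subgroup.commutator_le_left A R)).resolve_left
    fun h => hAR' (hmax _ inferInstance h)
  have hfr : (frattini A).map A.subtype ≤ B := by
    refine hmax _ inferInstance (lt_of_le_of_ne (Subgroup.map_subtype_le _) fun h => ?_)
    have : Nontrivial A := (Subgroup.nontrivial_iff_ne_bot A).2 hA0
    refine frattini_ne_top (G := A) (Subgroup.map_injective A.subtype_injective ?_)
    rw [h, ← MonoidHom.range_eq_map, A.range_subtype]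
  have hsq : ∀ a ∈ A, a ^ 2 ∈ B := fun a ha => hfr (pow_mem_map_frattini hA ha)
  have hcomm : ⁅A, A⁆ ≤ B := (commutator_le_map_frattini hA).trans hfr
  have hcen : B ≤ Subgroup.centralizer (A : Set G) := by
    rw [← Subgroup.commutator_eq_bot_iff_le_centralizer, Subgroup.commutator_comm]
    conv_lhs => rw [← hAR2]
    refine Subgroup.commutator_commutator_eq_bot_of_rotate ?_ ?_
    · rw [Subgroup.commutator_comm R B,
        Subgroup.commutator_eq_bot_iff_le_centralizer.2 (inf_le_right : B ≤ _),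
        Subgroup.commutator_bot_left]
    · exact Subgroup.commutator_eq_bot_iff_le_centralizer.2
        ((Subgroup.commutator_le_left B A).trans inf_le_right)
  refine ⟨A, B, hAT, hAn, inferInstance, hA, lt_of_le_of_ne inf_le_left
    (fun h => hAR (h ▸ inf_le_right)), hmax, hsq, hcomm, hcen, ?_, fun h => hAR' ?_⟩
  · let Ω : Subgroup G :=
      { carrier := {a | a ∈ A ∧ a ^ 4 = 1}
        one_mem' := ⟨A.one_mem, one_pow _⟩
        mul_mem' := fun ha hb => ⟨A.mul_mem ha.1 hb.1, by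
          rw [mul_pow_four hsq hcomm hcen ha.1 hb.1, ha.2, hb.2, mul_one]⟩
        inv_mem' := fun ha => ⟨A.inv_mem ha.1, by rw [inv_pow, ha.2, inv_one]⟩ }
    have : ⁅A, R⁆ ≤ Ω := by
      rw [Subgroup.commutator_le]
      intro a ha r hr
      have h1 := hAn.conj_mem _ (A.inv_mem ha) r
      have h2 : ⁅a, r⁆ = a * (r * a⁻¹ * r⁻¹) := by rw [commutatorElement_def]; group
      refine ⟨h2 ▸ A.mul_mem ha h1, ?_⟩
      have h3 : a ^ 4 ∈ B := by
        rw [show 4 = 2 * 2 from rfl, pow_mul]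
        exact B.pow_mem (hsq a ha) 2
      rw [h2, mul_pow_four hsq hcomm hcen ha h1, conj_pow, inv_pow,
        (Subgroup.inv_mem _ h3.2) r hr]
      group
    exact fun a ha => (this (hAR2.ge ha)).2
  · exact ((Subgroup.commutator_comm A R).le.trans (Subgroup.commutator_mono hRN le_rfl)).trans h

theorem Min.pCore_quotient [Finite G] {N A B : Subgroup G} [A.Normal] (h : Min N A B)
    [B.Normal] (S : SecRep 2 A B) : pCore 2 (G ⧸ S.ρ.ker) = ⊥ := by
  obtain ⟨T, hT⟩ := exists_isPGroup_map_eq (QuotientGroup.mk' S.ρ.ker)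
    (QuotientGroup.mk'_surjective _) (pCore_isPGroup 2 (G ⧸ S.ρ.ker))
  set P := (pCore 2 (G ⧸ S.ρ.ker)).comap (QuotientGroup.mk' S.ρ.ker) with hP
  have hPn : P.Normal := inferInstance
  obtain ⟨x, hxA, hxB, -, -, hx⟩ := PG.exists_step_elt T.isPGroup' h.isP
    Subgroup.le_normalizer_of_normal Subgroup.le_normalizer_of_normal h.lt
  let D : Subgroup G :=
    { carrier := {a | a ∈ A ∧ ∀ g ∈ P, S.ρ g (S.π a) = S.π a}
      one_mem' := ⟨A.one_mem, fun g _ => by rw [S.π_one, map_zero]⟩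
      mul_mem' := fun ha hb => ⟨A.mul_mem ha.1 hb.1, fun g hg => by
        rw [S.π_mul ha.1 hb.1, map_add, ha.2 g hg, hb.2 g hg]⟩
      inv_mem' := fun ha => ⟨A.inv_mem ha.1, fun g hg => by
        rw [S.π_inv ha.1, map_neg, ha.2 g hg]⟩ }
  have hDn : D.Normal := ⟨fun a ha k => ⟨Subgroup.Normal.conj_mem inferInstance a ha.1 k,
    fun g hg => by
      rw [← S.ρ_π k ha.1, ← End.mul_apply, ← map_mul, show g * k = k * (k⁻¹ * g * k⁻¹⁻¹) by group,
        map_mul, End.mul_apply, ha.2 _ (hPn.conj_mem g hg k⁻¹)]⟩⟩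
  have hxD : x ∈ D := ⟨hxA, fun g hg => by
    obtain ⟨s, hs, hsg⟩ := hT hg
    have h1 : S.ρ s⁻¹ * S.ρ g = 1 := by rw [← map_mul]; exact QuotientGroup.eq.1 hsg
    have h2 : S.ρ g = S.ρ s := by
      rw [← mul_one (S.ρ s), ← h1, ← mul_assoc, ← map_mul, mul_inv_cancel, map_one, one_mul]
    rw [h2, ← sub_eq_zero]
    change (S.ρ s - 1) (S.π x) = 0
    rw [S.sub_one_π s hxA, S.π_eq_zero (SecRep.commutator_mem s hxA), ← commutatorElement_inv]
    exact B.inv_mem (hx s (Subgroup.mem_sup_left hs))⟩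
  have hDA : D = A := (lt_or_eq_of_le (fun a ha => ha.1 : D ≤ A)).resolve_left
    fun hlt => hxB (h.max D hDn hlt hxD)
  rw [eq_bot_iff]
  intro y hy
  obtain ⟨g, rfl⟩ := QuotientGroup.mk_surjective y
  refine (QuotientGroup.eq_one_iff g).2 ?_
  rw [MonoidHom.mem_ker]
  ext w
  obtain ⟨a, ha, rfl⟩ := S.π_surj w
  exact (hDA.ge ha).2 g hy

theorem Min.norm_mem [Finite G] {N A B : Subgroup G} [hAn : A.Normal] (h : Min N A B) {n : ℕ}
    (hcomp : ∀ t ∈ A, t ≠ 1 → ∃ I K : Subgroup G, Comp n I K ∧ t ∉ K) {x : G} {m : ℕ}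
    (hx : x ^ 2 ^ m = 1) {v : G} (hv : v ∈ A) :
    (v * x) ^ 2 ^ (n + 1) * (x ^ 2 ^ (n + 1))⁻¹ ∈ B := by
  by_contra hne
  have hS : IsPGroup 2 (Subgroup.zpowers x ⊔ A : Subgroup G) :=
    (PG.isPGroup_zpowers hx).to_sup_of_normal_right h.isP
  have hxS : x ∈ Subgroup.zpowers x ⊔ A := Subgroup.mem_sup_left (Subgroup.mem_zpowers x)
  have hvS : v * x ∈ Subgroup.zpowers x ⊔ A := Subgroup.mul_mem _ (Subgroup.mem_sup_right hv) hxS
  obtain ⟨m', hm'⟩ := PG.exists_pow_prime_pow_eq_one hS hvS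
  obtain ⟨m'', hm''⟩ := PG.exists_pow_prime_pow_eq_one hS (Subgroup.inv_mem _ hvS)
  have hx' : x⁻¹ ^ 2 ^ m = 1 := by rw [inv_pow, hx, inv_one]
  set y := (v * x) ^ 2 ^ (n + 1) * (x ^ 2 ^ (n + 1))⁻¹ with hy
  set w := (v * x) ^ 2 ^ n * (x ^ 2 ^ n)⁻¹ with hw
  have hyA : y ∈ A := SecRep.mul_pow_mul_inv_mem x hv _
  have hwA : w ∈ A := SecRep.mul_pow_mul_inv_mem x hv _
  let L := Subgroup.closure {z : G | ∃ (g : G) (m : ℕ), g ^ 2 ^ m = 1 ∧ z = g ^ 2 ^ (n + 1)}
  have hLn : L.Normal := by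
    rw [← Subgroup.normalizer_eq_top_iff, eq_top_iff]
    refine Subgroup.le_normalizer_closure_iff.2 ?_
    rintro k - _ ⟨g, m, hg, rfl⟩
    exact Subgroup.subset_closure ⟨k * g * k⁻¹, m, by rw [conj_pow, hg]; group, conj_pow.symm⟩
  have hAL : A ≤ L := by
    refine inf_eq_left.1 ((lt_or_eq_of_le inf_le_left).resolve_left fun hlt => hne ?_)
    exact h.max _ inferInstance hlt ⟨hyA, L.mul_mem (Subgroup.subset_closure ⟨_, m', hm', rfl⟩)
      (L.inv_mem (Subgroup.subset_closure ⟨_, m, hx, rfl⟩))⟩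
  have key : ∀ {I K : Subgroup G}, Comp n I K → A ≤ I ∧ (y ∈ K ∨ y * (w ^ 2)⁻¹ ∈ K) := by
    intro I K hc
    have hAI : A ≤ I := hAL.trans ((Subgroup.closure_le _).2 (by
      rintro _ ⟨g, m, hg, rfl⟩
      exact hc.mem g m hg))
    have := hc.key _ hS (v * x)⁻¹ x⁻¹ m'' m hm'' hx'
      (Subgroup.pow_mem _ (Subgroup.inv_mem _ hvS) _) (Subgroup.pow_mem _ (Subgroup.inv_mem _ hxS) _)
    simp only [inv_pow, inv_inv] at this
    exact ⟨hAI, this (hAI hwA) (h.four w hwA)⟩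
  have hall : ∀ t ∈ A, (∀ {I K : Subgroup G}, Comp n I K → t ∈ K) → t = 1 := by
    intro t ht h1
    by_contra h2
    obtain ⟨I, K, h3, h4⟩ := hcomp t ht h2
    exact h4 (h1 h3)
  have hw2 := h.cen (h.sq w hwA)
  have h1 : y ∈ Subgroup.centralizer (A : Set G) := by
    intro a ha
    rw [← commutatorElement_eq_one_iff_mul_comm]
    refine hall _ (SecRep.commutator_mem a hyA) fun hc => ?_
    obtain ⟨hAI, h2 | h2⟩ := key hc
    · exact Subgroup.mul_mem _ (hc.conj a (hAI ha) y h2) (Subgroup.inv_mem _ h2)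
    · have := Subgroup.mul_mem _ (hc.conj a (hAI ha) _ h2) (Subgroup.inv_mem _ h2)
      rwa [mul_assoc a, mul_assoc y, ← (Subgroup.inv_mem _ hw2) _ (A.inv_mem ha),
        show a * (y * (a⁻¹ * (w ^ 2)⁻¹)) * (y * (w ^ 2)⁻¹)⁻¹ = ⁅a, y⁆ by
          rw [commutatorElement_def]; group] at this
  have h2 : y ^ 2 = 1 := by
    refine hall _ (A.pow_mem hyA 2) fun hc => ?_
    obtain ⟨-, h2 | h2⟩ := key hc
    · exact Subgroup.pow_mem _ h2 2
    · have := Subgroup.pow_mem _ h2 2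
      have hc : Commute y (w ^ 2)⁻¹ := (Subgroup.inv_mem _ hw2) y hyA
      rwa [hc.mul_pow, inv_pow, ← pow_mul, h.four w hwA, inv_one, mul_one] at this
  have hAc : A ≤ Subgroup.centralizer (A : Set G) :=
    inf_eq_left.1 ((lt_or_eq_of_le inf_le_left).resolve_left fun hlt =>
      hne (h.max _ inferInstance hlt ⟨hyA, h1⟩))
  let Ω : Subgroup G :=
    { carrier := {a | a ∈ A ∧ a ^ 2 = 1}
      one_mem' := ⟨A.one_mem, one_pow _⟩
      mul_mem' := fun {a b} ha hb => ⟨A.mul_mem ha.1 hb.1, by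
        rw [Commute.mul_pow (hAc hb.1 a ha.1), ha.2, hb.2, mul_one]⟩
      inv_mem' := fun ha => ⟨A.inv_mem ha.1, by rw [inv_pow, ha.2, inv_one]⟩ }
  have hΩ : Ω.Normal := ⟨fun a ha g => ⟨hAn.conj_mem a ha.1 g, by rw [conj_pow, ha.2]; group⟩⟩
  have hΩA : Ω = A := (lt_or_eq_of_le (fun a ha => ha.1 : Ω ≤ A)).resolve_left
    fun hlt => hne (h.max Ω hΩ hlt ⟨hyA, h2⟩)
  have h3 : y = 1 := by
    refine hall _ hyA fun hc => ?_
    obtain ⟨-, h2 | h2⟩ := key hc
    · exact h2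
    · rwa [(hΩA.ge hwA).2, inv_one, mul_one] at h2
  exact hne (h3 ▸ B.one_mem)

/-- All `2`-elements are exceptional of level `n + 1`: then the `2`-length is at most `n`. -/
def Stmt (n : ℕ) : Prop :=
  ∀ (X : Type u) [Group X] [Finite X], Group.IsSolvable X → pCore 2 X = ⊥ →
    ∀ (V : Type u) [AddCommGroup V] [Module (ZMod 2) V] [Module.Finite (ZMod 2) V]
      (ρ : X →* End (ZMod 2) V), Function.Injective ρ →
      (∀ (g : X) (m : ℕ), g ^ 2 ^ m = 1 → (ρ g - 1) ^ (2 ^ (n + 1) - 1) = 0) → PLengthLE 2 n X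

theorem exists_pow_orderOf_coprime [Finite G] (x : G) :
    ∃ m, (orderOf (x ^ 2 ^ m)).Coprime 2 := by
  obtain ⟨m, r, hr, h⟩ := Nat.exists_eq_two_pow_mul_odd (orderOf_pos x).ne'
  refine ⟨m, (Nat.coprime_two_right.2 hr).coprime_dvd_left (orderOf_dvd_of_pow_eq_one ?_)⟩
  rw [← pow_mul, ← h, pow_orderOf_eq_one]

theorem exists_lift_two {G' : Type*} [Group G'] [Finite G] (f : G →* G')
    (hf : Function.Surjective f) {y : G'} {m : ℕ} (hy : y ^ 2 ^ m = 1) :
    ∃ (x : G) (m' : ℕ), x ^ 2 ^ m' = 1 ∧ f x = y := by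
  obtain ⟨T, hT⟩ := exists_isPGroup_map_eq f hf (PG.isPGroup_zpowers hy)
  obtain ⟨x, hx, rfl⟩ := hT (Subgroup.mem_zpowers y)
  obtain ⟨k, hk⟩ := PG.exists_pow_prime_pow_eq_one T.isPGroup' hx
  exact ⟨x, k, hk, rfl⟩

theorem step [Finite G] [Group.IsSolvable G] {n : ℕ} (ih : Stmt.{u} n) {T : Subgroup G} [T.Normal]
    (hT : IsPGroup 2 T) (hcomp : ∀ t ∈ T, t ≠ 1 → ∃ I K : Subgroup G, Comp n I K ∧ t ∉ K) :
    ∃ (N : Subgroup G) (_ : N.Normal), PLengthLE 2 n (G ⧸ N) ∧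
      ∀ r ∈ N, (orderOf r).Coprime 2 → r ∈ Subgroup.centralizer (T : Set G) := by
  obtain ⟨N, hN, h1, h2⟩ := exists_residual (G := G) 2 n
  refine ⟨N, hN, h1, fun r hrN hr => ?_⟩
  by_contra hrT
  obtain ⟨A, B, hAT, hAn, hBn, h⟩ := exists_min hT hrN hr hrT
  obtain ⟨S⟩ := nonempty_secRep 2 A B h.comm h.sq
  refine h.not_le (S.le_ker_iff.1 (h2 _ (ih (G ⧸ S.ρ.ker) inferInstance (h.pCore_quotient S) S.V
    (S.lift _ le_rfl) (S.lift_injective _ rfl) fun g m hg => ?_)))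
  obtain ⟨x, m', hx, rfl⟩ := exists_lift_two _ (QuotientGroup.mk'_surjective _) hg
  ext w
  obtain ⟨v, hv, rfl⟩ := S.π_surj w
  change ((S.ρ x - 1) ^ (2 ^ (n + 1) - 1) : End (ZMod 2) S.V) _ = 0
  rw [← geom_sum_eq_sub_one_pow (ZMod 2) 2, ← S.π_mul_pow x hv,
    S.π_eq_zero (SecRep.mul_pow_mul_inv_mem x hv _)]
  exact h.norm_mem (fun t ht => hcomp t (hAT ht)) hx hv

theorem stmt (n : ℕ) : Stmt.{u} n := by
  induction n with
  | zero =>
    intro X _ _ _ _ V _ _ _ ρ hρ h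
    rw [pLengthLE_zero_iff, Nat.coprime_comm, Nat.prime_two.coprime_iff_not_dvd]
    intro hd
    obtain ⟨x, hx⟩ := exists_prime_orderOf_dvd_card' 2 hd
    have := h x 1 (by rw [pow_one, ← hx, pow_orderOf_eq_one])
    rw [show 2 ^ (0 + 1) - 1 = 1 from rfl, pow_one, sub_eq_zero, ← map_one ρ] at this
    rw [hρ this, orderOf_one] at hx
    omega
  | succ n ih =>
    intro X _ _ _ hO V _ _ _ ρ hρ h
    obtain ⟨P⟩ : Nonempty (Sylow 2 X) := inferInstance
    set T := (P : Subgroup X) ⊓ pPrimePCore 2 X with hTdef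
    have hT : IsPGroup 2 T := P.isPGroup'.to_inf_left
    set H := Subgroup.normalizer (T : Set X) with hH
    have hHO : H ⊔ pPrimeCore 2 X = ⊤ :=
      normalizer_sup_pPrimeCore_eq_top hT (pPrimeCore_sup_sylow_inf P)
    obtain ⟨N, hN, h1, h2⟩ := step (G := H) ih (T := T.subgroupOf H) hT.comap_subtype
      fun t ht ht1 => by
        obtain ⟨m, hm⟩ := PG.exists_pow_prime_pow_eq_one hT ht
        obtain ⟨I, K, h3, h4⟩ := exists_comp hO ρ hρ h (fun h => ht1 (Subtype.ext h)) hm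
        exact ⟨_, _, h3.comap H.subtype, h4⟩
    have hsurj : ∀ (M : Subgroup X) [M.Normal], pPrimeCore 2 X ≤ M →
        Function.Surjective ((QuotientGroup.mk' M).comp H.subtype) := by
      intro M _ hM y
      obtain ⟨g, rfl⟩ := QuotientGroup.mk_surjective y
      obtain ⟨a, ha, b, hb, rfl⟩ := Subgroup.mem_sup_of_normal_right.1
        (hHO.ge (Subgroup.mem_top g))
      exact ⟨⟨a, ha⟩, QuotientGroup.eq.2 (by simpa using hM hb)⟩
    have hNJ : N.map H.subtype ≤ pPrimePCore 2 X := by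
      rw [le_pPrimePCore_iff_map_le, Subgroup.map_map]
      refine le_pCore (hN.map _ (hsurj _ le_rfl)) (PG.isPGroup_of_forall_mem ?_)
      rintro _ ⟨x, hx, rfl⟩
      obtain ⟨m, hm⟩ := exists_pow_orderOf_coprime x
      refine ⟨m, ?_⟩
      have h3 := h2 _ (N.pow_mem hx _) hm
      have h4 : ((x ^ 2 ^ m : H) : X) ∈ pPrimePCore 2 X :=
        (isPConstrained_of_isSolvable 2 X).centralizer_le P le_rfl fun t ht =>
          congrArg Subtype.val (h3 ⟨t, Subgroup.le_normalizer ht⟩ ht)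
      obtain ⟨k, hk⟩ := PG.exists_pow_prime_pow_eq_one (pCore_isPGroup 2 _) h4
      rw [← map_pow]
      exact orderOf_eq_one_iff.1 (((hm.coprime_dvd_left (orderOf_map_dvd _ _)).pow_right
        k).eq_one_of_dvd (orderOf_dvd_of_pow_eq_one hk))
    rw [pLengthLE_succ_iff]
    refine h1.of_surjective (QuotientGroup.lift N ((QuotientGroup.mk' _).comp H.subtype)
      fun x hx => (QuotientGroup.eq_one_iff _).2 (hNJ ⟨x, hx, rfl⟩)) fun y => ?_
    obtain ⟨x, rfl⟩ := hsurj _ (pPrimeCore_le_pPrimePCore 2 X) y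
    exact ⟨x, rfl⟩

theorem isSolvable_of_isPSolvable_two [Finite G] (h : IsPSolvable 2 G) : Group.IsSolvable G := by
  refine IsPSolvable.induction (p := 2) (P := fun G _ _ => Group.IsSolvable G)
    (fun G _ _ _ => inferInstance) (fun G _ _ N _ _ _ hN hQ => ?_) G h
  have : Group.IsSolvable N := hN.elim isSolvable_of_isPGroup fun h =>
    FT.odd_order_solvable (Nat.coprime_two_right.1 h)
  exact Group.isSolvable_of_ker_le_range N.subtype (QuotientGroup.mk' N) (by simp)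

/-- **Bryukhanova**. -/
theorem pLengthLE_two_of_sylowExp [Finite G] (hG : IsPSolvable 2 G) {e : ℕ}
    (h : SylowExp 2 e G) : PLengthLE 2 e G := by
  cases e with
  | zero => exact pLengthLE_zero_iff.2 h.coprime
  | succ n =>
    have hG' := hG.quotient (pPrimeCore 2 G)
    have h' := h.of_surjective _ (QuotientGroup.mk'_surjective (pPrimeCore 2 G))
    have := isSolvable_of_isPSolvable_two hG'
    obtain ⟨S⟩ := nonempty_secRep_frattini 2 (pCore 2 (G ⧸ pPrimeCore 2 G)) (pCore_isPGroup 2 _)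
    have hker := S.ker_eq_pCore (hG'.centralizer_pCore_le (pPrimeCore_quotient_pPrimeCore 2 G))
    refine pLengthLE_succ_of_quotient (stmt n _ inferInstance (pCore_quotient_pCore 2 _) S.V
      (S.lift _ hker.ge) (S.lift_injective _ hker) fun g m hg => ?_)
    obtain ⟨x, m', hx, rfl⟩ := exists_lift_two _ (QuotientGroup.mk'_surjective _) hg
    obtain ⟨P, hP⟩ := (PG.isPGroup_zpowers hx).exists_le_sylow
    exact h'.sub_one_pow_eq_zero (pCore_isPGroup 2 _) S P (hP (Subgroup.mem_zpowers x))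

end Cfsg.Lib.Solv.TwoLen
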