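import Cfsg.Agent.Solv.TwoLenLoc
import Cfsg.Agent.Solv.TwoLenMain

/-!
# Berger–Gross, Bryukhanova: the `2`-length is at most the derived length of a Sylow `2`-subgroup
-/

set_option autoImplicit false

open Module
open scoped commutatorElement

namespace Cfsg.Lib.Solv.TwoLen

open HH

universe u

section Local

variable {K V : Type*} [Field K] [AddCommGroup V] [Module K V] {G : Type*} [Group G]

/-- The stabiliser `I` of a component `U` and the kernel `L` of its action on the symplectic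
space. -/
structure RO (ρ : G →* End K V) (U : Submodule K V) (I L : Subgroup G) : Prop where
  le : L ≤ I
  conj : ∀ g ∈ I, ∀ k ∈ L, g * k * g⁻¹ ∈ L
  r1 : ∀ x ∈ I, (∀ u ∈ U, (ρ x - 1) u = 0) → x ∈ L
  r2 : ∀ x ∈ I, ∀ y ∈ I, x ^ 2 = 1 → y ^ 2 = 1 → Commute x y →
    (∀ u ∈ U, (ρ x - 1) ((ρ y - 1) u) = 0) → x ∈ L ∨ y ∈ L ∨ x * y ∈ L
  r3 : ∀ x ∈ I, ∀ y ∈ I, ∀ z ∈ I, x ^ 2 = 1 → y ^ 2 = 1 → z ^ 2 = 1 → Commute x y → Commute x z →
    Commute y z → (∀ u ∈ U, (ρ x - 1) ((ρ y - 1) ((ρ z - 1) u)) = 0) → x ∉ L →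
    ∀ H : Subgroup G, L ≤ H → x ∈ H → y ∈ H ∨ z ∈ H ∨ y * z ∈ H
  desc : ∀ (d : ℕ) (S : Subgroup G), IsPGroup 2 S → Ann ρ d S ⊤ →
    ∃ (j e : ℕ) (N : Submodule K V), j + (e + 1) = d ∧ der j S ≤ I ∧ InvS ρ (der j S) N ∧
      U ≤ N ∧ Ann ρ (e + 1) (der j S) N

theorem exists_ro [IsAlgClosed K] [CharP K 2] [FiniteDimensional K V] [Finite G] {D : Type u}
    [Group D] [Finite D] {q : ℕ} [hq : Fact q.Prime] (hq2 : q ≠ 2) (hD : IsPGroup q D)
    (hcl : ∀ a b : D, ⁅a, b⁆ ∈ Subgroup.center D) (he : ∀ a : D, a ^ q = 1) {ρ : G →* End K V}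
    {τ : D →* End K V} {φ : G →* MulAut D} (hφ : ∀ g d, ρ g * τ d = τ (φ g d) * ρ g)
    {U : Submodule K V} {hU : Inv τ U} (hU0 : U ≠ ⊥) (hσ : Irr (res τ U hU)) :
    ∃ I L : Subgroup G, RO ρ U I L ∧ ∀ t ∈ L, ∀ m, t ^ 2 ^ m = 1 →
      ∀ d, res τ U hU (φ t d) = res τ U hU d := by
  obtain ⟨S⟩ := nonempty_sym (W := U) (q := q) hσ hcl he
  let I := (inertia (W := U) (res τ U hU)).comap φ
  let α : I →* inertia (W := U) (res τ U hU) := φ.subgroupComap _
  have hα : ∀ (g : I) d, ρ.comp I.subtype g * τ d = τ ((α g).1 d) * ρ.comp I.subtype g :=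
    fun g d => hφ g d
  have hh : ∀ d w, U.subtype (res τ U hU d w) = τ d (U.subtype w) := fun _ _ => rfl
  have hinj := U.injective_subtype
  have hL : ∀ g : I, S.ψ (α g) = 1 → (g : G) ∈ (S.ψ.comp α).ker.map I.subtype :=
    fun g h => ⟨g, h, rfl⟩
  refine ⟨I, (S.ψ.comp α).ker.map I.subtype, ⟨Subgroup.map_subtype_le _, ?_, fun x hx h => ?_,
    fun x hx y hy h1 h2 h3 h => ?_, fun x hx y hy z hz h1 h2 h3 h4 h5 h6 h h7 H h8 h9 => ?_,
    fun d T hT h => ?_⟩, ?_⟩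
  · rintro g hg _ ⟨k, hk, rfl⟩
    exact ⟨_, (MonoidHom.normal_ker _).conj_mem k hk ⟨g, hg⟩, rfl⟩
  · exact hL ⟨x, hx⟩ (S.ro₁ hα hh hinj fun w => h w w.2)
  · exact (S.ro₂ hq2 hσ hα hh hinj (x := ⟨x, hx⟩) (y := ⟨y, hy⟩) (Subtype.ext h1) (Subtype.ext h2)
      (Subtype.ext h3) fun w => h w w.2).imp (hL _) (Or.imp (hL _) (hL _))
  · exact S.ro₃ hq2 hσ hα hh hinj (x := ⟨x, hx⟩) (y := ⟨y, hy⟩) (z := ⟨z, hz⟩) (Subtype.ext h1)
      (Subtype.ext h2) (Subtype.ext h3) (Subtype.ext h4) (Subtype.ext h5) (Subtype.ext h6)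
      (fun w => h w w.2) (fun h => h7 (hL _ h)) (H := H.subgroupOf I) (fun g h => h8 (hL g h)) h9
  · refine Ann.descent (natCast_card_ne_zero K 2 ?_) hφ hU0 hσ hT (fun _ _ _ _ => Submodule.mem_top)
      le_top h
    obtain ⟨a, ha⟩ := IsPGroup.iff_card.1 hD
    rw [ha]
    exact Nat.Coprime.pow_left _ ((Nat.coprime_primes hq.out Nat.prime_two).2 hq2)
  · rintro _ ⟨t, h, rfl⟩ m ht d
    exact S.apply_eq_of_eq_one (α := α t) (m := m)
      (by rw [← map_pow, ← map_one α]; exact congrArg _ (Subtype.ext ht)) h d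

variable {ρ : G →* End K V} {U : Submodule K V} {I L : Subgroup G}

theorem der_anti {m n : ℕ} (h : m ≤ n) (S : Subgroup G) : der n S ≤ der m S := by
  obtain ⟨k, rfl⟩ := Nat.exists_eq_add_of_le h
  rw [der_add]
  exact der_le _ _

theorem Ann.quad {n : ℕ} {S : Subgroup G} (h : Ann ρ (n + 2) S ⊤) {x y : G}
    (hx : x ∈ der (n + 1) S) (hy : y ∈ der (n + 1) S) (v : V) : (ρ x - 1) ((ρ y - 1) v) = 0 := by
  have := Ann.shift (ρ := ρ) (S := S) (U := ⊤) (k := 1) (f := n) (fun _ _ _ _ => trivial)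
    (by rwa [add_comm 1])
  exact (Submodule.mem_bot K).1 ((show cm ρ _ _ = ⊥ from this).le (mem_cm hx (mem_cm hy trivial)))

theorem Ann.sq [CharP K 2] (hρ : Function.Injective ρ) {n : ℕ} {S : Subgroup G}
    (h : Ann ρ (n + 2) S ⊤) {x : G} (hx : x ∈ der (n + 1) S) : x ^ 2 = 1 := by
  apply hρ
  rw [map_pow, map_one, ← sub_eq_zero, ← pow_one 2, ← sub_one_pow_char_pow K 2, pow_one, pow_two]
  exact LinearMap.ext (h.quad hx hx)

theorem commute_of_sq {A : Subgroup G} (h : ∀ a ∈ A, a ^ 2 = 1) {a b : G} (ha : a ∈ A)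
    (hb : b ∈ A) : Commute a b := by
  have e : ∀ x ∈ A, x⁻¹ = x := fun x hx => inv_eq_of_mul_eq_one_right (by rw [← pow_two, h x hx])
  change _ = _
  rw [← e _ (A.mul_mem ha hb), mul_inv_rev, e a ha, e b hb]

namespace RO

theorem le_normalizer (h : RO ρ U I L) : I ≤ Subgroup.normalizer (L : Set G) := fun g hg k =>
  ⟨h.conj g hg k, fun hk => by simpa [mul_assoc] using h.conj _ (I.inv_mem hg) _ hk⟩

theorem mem (h : RO ρ U I L) {n : ℕ} {S : Subgroup G} (hS : IsPGroup 2 S)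
    (hA : Ann ρ (n + 2) S ⊤) : der (n + 1) S ≤ I := by
  obtain ⟨j, e, N, h1, h2, -⟩ := h.desc _ S hS hA
  exact (der_anti (by omega) S).trans h2

theorem comm [CharP K 2] (hρ : Function.Injective ρ) (h : RO ρ U I L) {n : ℕ} {S : Subgroup G}
    (hS : IsPGroup 2 S) (hA : Ann ρ (n + 2) S ⊤) {A : Subgroup G} (hI : A ≤ I) (hAS : A ≤ S) :
    ⁅A, der (n + 1) S⁆ ≤ L := by
  rw [Subgroup.commutator_le]
  intro a ha z hz
  have hz' : a * z * a⁻¹ ∈ der (n + 1) S := (le_normalizer_der _ S (hAS ha) z).1 hz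
  have hzi := Subgroup.inv_mem _ hz
  rcases h.r2 _ (h.mem hS hA hz') _ (h.mem hS hA hzi) (hA.sq hρ hz') (hA.sq hρ hzi)
    (commute_of_sq (fun _ => hA.sq hρ) hz' hzi) (fun u _ => hA.quad hz' hzi u) with h1 | h1 | h1
  · exact L.mul_mem h1 (L.inv_mem ((h.le_normalizer (hI ha) z).2 h1))
  · exact L.mul_mem (h.conj a (hI ha) z (inv_inv z ▸ L.inv_mem h1)) h1
  · exact h1

theorem key [CharP K 2] (hρ : Function.Injective ρ) (h : RO ρ U I L) {n : ℕ} {S : Subgroup G}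
    (hS : IsPGroup 2 S) (hAnn : Ann ρ (n + 2) S ⊤) {A : Subgroup G} (hAP : A ≤ der n S)
    (hI : A ≤ I) (hN : S ≤ Subgroup.normalizer (A : Set G)) (hA : ∀ a ∈ A, a ^ 2 = 1) :
    ⁅der n S, A⁆ ≤ L := by
  have hZ : ⁅der n S, A⁆ ≤ der (n + 1) S := der_succ' n S ▸ Subgroup.commutator_mono le_rfl hAP
  have hc : ∀ s ∈ S, ∀ a ∈ A, s * a * s⁻¹ ∈ A := fun s hs a ha => (hN hs a).1 ha
  have hCA : ⁅der n S, A⁆ ≤ A := Subgroup.commutator_le.2 fun s hs a ha =>
    A.mul_mem (hc s (der_le n S hs) a ha) (A.inv_mem ha)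
  obtain ⟨j, e, N, h1, h2, h3, h4, h5⟩ := h.desc _ S hS hAnn
  obtain _ | _ | e := e
  · obtain rfl : j = n + 1 := by omega
    exact fun c hc => h.r1 c (h2 (hZ hc)) fun u hu =>
      (Submodule.mem_bot K).1 ((show cm ρ _ _ = ⊥ from h5).le (mem_cm (hZ hc) (h4 hu)))
  · obtain rfl : j = n := by omega
    rw [Subgroup.commutator_le]
    intro p hp a ha
    have hm := Subgroup.commutator_mem_commutator hp ha
    rcases h.r2 _ (hI (hCA hm)) _ (hI ha) (hA _ (hCA hm)) (hA _ ha)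
      (commute_of_sq hA (hCA hm) ha) (fun u hu => (Submodule.mem_bot K).1
        ((show cm ρ _ _ = ⊥ from h5).le (mem_cm (Subgroup.commutator_mono le_rfl hAP hm)
          (mem_cm (hAP ha) (h4 hu))))) with h6 | h6 | h6
    · exact h6
    · exact L.mul_mem (h.conj p (h2 hp) a h6) (L.inv_mem h6)
    · rw [commutatorElement_def, inv_mul_cancel_right] at h6
      exact L.mul_mem h6 (L.inv_mem ((h.le_normalizer (h2 hp) a).2 h6))
  intro c hcm
  by_contra hcL
  have h6 := Ann.shift (k := 2) (f := e) h3 (by rwa [add_comm 2])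
  rw [← der_add, show j + (e + 1) = n by omega] at h6
  let H : Subgroup G :=
    { carrier := {x | x ∈ I ∧ ∀ g ∈ der j S, ⁅g, x⁆ ∈ L}
      one_mem' := ⟨I.one_mem, fun g _ => by simp⟩
      mul_mem' := fun {x y} hx hy => ⟨I.mul_mem hx.1 hy.1, fun g hg => by
        rw [show ⁅g, x * y⁆ = ⁅g, x⁆ * (x * ⁅g, y⁆ * x⁻¹) by
          simp only [commutatorElement_def]; group]
        exact L.mul_mem (hx.2 g hg) (h.conj x hx.1 _ (hy.2 g hg))⟩
      inv_mem' := fun {x} hx => ⟨I.inv_mem hx.1, fun g hg => by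
        rw [show ⁅g, x⁻¹⁆ = x⁻¹ * ⁅g, x⁆⁻¹ * x⁻¹⁻¹ by simp only [commutatorElement_def]; group]
        exact h.conj _ (I.inv_mem hx.1) _ (L.inv_mem (hx.2 g hg))⟩ }
  have hLH : L ≤ H := fun k hk =>
    ⟨h.le hk, fun g hg => L.mul_mem (h.conj g (h2 hg) k hk) (L.inv_mem hk)⟩
  have hcH : c ∈ H := ⟨hI (hCA hcm), fun g hg =>
    h.comm hρ hS hAnn h2 (der_le j S) (Subgroup.commutator_mem_commutator hg (hZ hcm))⟩
  have h7 : ⁅der j S, A⁆ ≤ H := by
    rw [Subgroup.commutator_le]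
    intro g hg a ha
    have ha' := hc g (der_le j S hg) a ha
    have hai := A.inv_mem ha
    rcases h.r3 c (hI (hCA hcm)) _ (hI ha') _ (hI hai) (hA _ (hCA hcm)) (hA _ ha') (hA _ hai)
      (commute_of_sq hA (hCA hcm) ha') (commute_of_sq hA (hCA hcm) hai) (commute_of_sq hA ha' hai)
      (fun u hu => (Submodule.mem_bot K).1 ((show cm ρ _ _ = ⊥ from h6).le
        (mem_cm (Subgroup.commutator_mono le_rfl hAP hcm) (mem_cm (hAP ha')
          (mem_cm (hAP hai) (h4 hu)))))) hcL H hLH hcH with h8 | h8 | h8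
    · have := hLH (h8.2 _ (Subgroup.inv_mem _ hg))
      rw [show ⁅g⁻¹, g * a * g⁻¹⁆ = ⁅g, a⁆⁻¹ by simp only [commutatorElement_def]; group] at this
      exact (Subgroup.inv_mem_iff _).1 this
    · exact hLH ((H.inv_mem_iff.1 h8).2 g hg)
    · exact h8
  have h8 : ⁅⁅der j S, A⁆, der j S⁆ ≤ L := by
    rw [Subgroup.commutator_comm, Subgroup.commutator_le]
    exact fun g hg x hx => (h7 hx).2 g hg
  have h9 := three_subgroups_le_of_le_normalizer (h2.trans h.le_normalizer)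
    (h2.trans h.le_normalizer) (hI.trans h.le_normalizer) h8
    (by rwa [Subgroup.commutator_comm A])
  rw [← der_succ'] at h9
  exact hcL (h9 (Subgroup.commutator_mono (der_anti (by omega) S) le_rfl hcm))

end RO

end Local

variable {G : Type u} [Group G]

/-- The group theoretic content of a component. -/
structure Cmp (n : ℕ) (I L : Subgroup G) : Prop where
  mem : ∀ S : Subgroup G, IsPGroup 2 S → der (n + 1) S ≤ I
  comm : ∀ S : Subgroup G, IsPGroup 2 S → ∀ A ≤ I, A ≤ S → ⁅A, der (n + 1) S⁆ ≤ L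
  key : ∀ S : Subgroup G, IsPGroup 2 S → ∀ A ≤ der n S, A ≤ I →
    S ≤ Subgroup.normalizer (A : Set G) → (∀ a ∈ A, a ^ 2 = 1) → ⁅der n S, A⁆ ≤ L

theorem exists_cmp [Finite G] [Group.IsSolvable G] (hO : pCore 2 G = ⊥) {K V : Type*}
    [Field K] [IsAlgClosed K] [CharP K 2] [AddCommGroup V] [Module K V] [FiniteDimensional K V]
    (ρ : G →* End K V) (hρ : Function.Injective ρ) {n : ℕ} (H : Subgroup G)
    (hA : ∀ S : Subgroup H, IsPGroup 2 S → Ann (ρ.comp H.subtype) (n + 2) S ⊤) {t : H}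
    (ht1 : t ≠ 1) {m : ℕ} (ht : t ^ 2 ^ m = 1) : ∃ I L : Subgroup H, Cmp n I L ∧ t ∉ L := by
  obtain ⟨q, D, hq, hq2, hDn, hD, hcl, he, htD⟩ := exists_not_centralizes hO (t := (t : G))
    (fun h => ht1 (Subtype.ext h)) (m := m) (congrArg Subtype.val ht)
  have := Fact.mk hq
  obtain ⟨d, hd⟩ : ∃ d : D, ρ.comp D.subtype (MulAut.conjNormal (t : G) d * d⁻¹) ≠ 1 := by
    by_contra! h
    refine htD fun d hd => ?_
    have := hρ ((h ⟨d, hd⟩).trans (map_one ρ).symm)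
    change t * d * (t : G)⁻¹ * d⁻¹ = 1 at this
    rw [mul_inv_eq_one, mul_inv_eq_iff_eq_mul] at this
    exact this.symm
  obtain ⟨U, hU, hU0, hσ, hσd⟩ := exists_irr_ne_one (natCast_card_ne_zero K 2 (by
    obtain ⟨a, ha⟩ := IsPGroup.iff_card.1 hD
    rw [ha]
    exact Nat.Coprime.pow_left _ ((Nat.coprime_primes hq Nat.prime_two).2 hq2))) _ hd
  obtain ⟨I, L, h1, h2⟩ := exists_ro hq2 hD (fun a b => Subgroup.mem_center_iff.2 fun c =>
    Subtype.ext (hcl (Subgroup.commutator_mem_commutator a.2 b.2) c c.2))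
    (fun a => Subtype.ext (he a a.2)) (ρ := ρ.comp H.subtype)
    (φ := (MulAut.conjNormal : G →* MulAut D).comp H.subtype) (fun g d => by
      change ρ g * ρ d = ρ (g * d * (g : G)⁻¹) * ρ g
      rw [← map_mul, ← map_mul, inv_mul_cancel_right]) hU0 hσ
  have hρ' : Function.Injective (ρ.comp H.subtype) := hρ.comp H.subtype_injective
  refine ⟨I, L, ⟨fun S hS => h1.mem hS (hA S hS), fun S hS A h3 h4 => h1.comm hρ' hS (hA S hS) h3 h4,
    fun S hS A h3 h4 h5 h6 => h1.key hρ' hS (hA S hS) h3 h4 h5 h6⟩, fun h => hσd ?_⟩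
  rw [map_mul, show res _ U hU (MulAut.conjNormal (t : G) d) = _ from h2 t h m ht d, ← map_mul,
    mul_inv_cancel, map_one]

theorem Min.ch_le [Finite G] {N A B : Subgroup G} [hAn : A.Normal] (h : Min N A B) {n : ℕ}
    (hsq : ∀ S : Subgroup G, IsPGroup 2 S → ∀ z ∈ der (n + 1) S, z ^ 2 = 1)
    (hcomp : ∀ t ∈ A, t ≠ 1 → ∃ I L : Subgroup G, Cmp n I L ∧ t ∉ L) {S : Subgroup G}
    (hS : IsPGroup 2 S) (hAS : A ≤ S) : ch (n + 1) S A ≤ B := by
  by_contra hne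
  have hCA := TwoLen.ch_le (n + 1) S A
  have hCZ := ch_le_der (n + 1) hAS
  have hmax : ∀ (C : Subgroup G), C.Normal → ch (n + 1) S A ≤ C → A ≤ C := fun C _ hC =>
    inf_eq_left.1 ((lt_or_eq_of_le inf_le_left).resolve_left fun hlt =>
      hne ((le_inf hCA hC).trans (h.max _ inferInstance hlt)))
  have hAI : ∀ {I L : Subgroup G}, Cmp n I L → A ≤ I := fun hc => by
    refine (hmax _ inferInstance Subgroup.le_normalClosure).trans
      ((Subgroup.closure_le _).2 fun x hx => ?_)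
    obtain ⟨a, ha, hx⟩ := Group.mem_conjugatesOfSet_iff.1 hx
    obtain ⟨g, rfl⟩ := isConj_iff.1 hx
    refine hc.mem _ (hS.map (MulAut.conj g).toMonoidHom) ?_
    rw [← der_map]
    exact ⟨a, hCZ ha, rfl⟩
  have hall : ∀ C ≤ A, (∀ {I L : Subgroup G}, Cmp n I L → C ≤ L) → C = ⊥ := by
    intro C hC h1
    rw [eq_bot_iff]
    intro t ht
    by_contra h2
    obtain ⟨I, K, h3, h4⟩ := hcomp t (hC ht) h2
    exact h4 (h1 h3 ht)
  have hAc : A ≤ Subgroup.centralizer (A : Set G) := by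
    refine hmax _ inferInstance (hCZ.trans ?_)
    rw [← Subgroup.le_centralizer_iff, ← Subgroup.commutator_eq_bot_iff_le_centralizer]
    exact hall _ (Subgroup.commutator_le_left _ _) fun hc => hc.comm S hS A (hAI hc) hAS
  let Ω : Subgroup G :=
    { carrier := {a | a ∈ A ∧ a ^ 2 = 1}
      one_mem' := ⟨A.one_mem, one_pow _⟩
      mul_mem' := fun {a b} ha hb => ⟨A.mul_mem ha.1 hb.1, by
        rw [Commute.mul_pow (hAc hb.1 a ha.1), ha.2, hb.2, mul_one]⟩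
      inv_mem' := fun ha => ⟨A.inv_mem ha.1, by rw [inv_pow, ha.2, inv_one]⟩ }
  have hΩ : A ≤ Ω := hmax Ω ⟨fun a ha g => ⟨hAn.conj_mem a ha.1 g, by rw [conj_pow, ha.2]; group⟩⟩
    fun a ha => ⟨hCA ha, hsq S hS a (hCZ ha)⟩
  refine hne ((hall _ hCA fun hc => ?_).le.trans bot_le)
  rw [ch_succ']
  exact hc.key S hS _ (ch_le_der n hAS) ((TwoLen.ch_le n S A).trans (hAI hc))
    (le_normalizer_ch n S A) fun a ha => (hΩ (TwoLen.ch_le n S A ha)).2

/-- The statement proved by induction. -/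
def Stmt' (n : ℕ) : Prop :=
  ∀ (X : Type u) [Group X] [Finite X], Group.IsSolvable X → pCore 2 X = ⊥ →
    ∀ (V : Type u) [AddCommGroup V] [Module (ZMod 2) V] [Module.Finite (ZMod 2) V]
      (ρ : X →* End (ZMod 2) V), Function.Injective ρ →
      (∀ S : Subgroup X, IsPGroup 2 S → Ann ρ (n + 1) S ⊤) → PLengthLE 2 n X

theorem SecRep.ann_lift [Finite G] {A B : Subgroup G} [A.Normal]
    (R : SecRep 2 A B) {d : ℕ} (h : ∀ P : Sylow 2 G, ch d P A ≤ B) (N : Subgroup G) [N.Normal]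
    (hN : N ≤ R.ρ.ker) (S : Subgroup (G ⧸ N)) (hS : IsPGroup 2 S) : Ann (R.lift N hN) d S ⊤ := by
  obtain ⟨P, hP⟩ := exists_isPGroup_map_eq _ (QuotientGroup.mk'_surjective N) hS
  exact ((ann_map _).2 (SecRep.ann_top R (h P))).mono hP le_rfl

theorem step' [Finite G] [Group.IsSolvable G] {n : ℕ} (ih : Stmt'.{u} n) {T : Subgroup G}
    [T.Normal] (hT : IsPGroup 2 T)
    (hsq : ∀ S : Subgroup G, IsPGroup 2 S → ∀ z ∈ der (n + 1) S, z ^ 2 = 1)
    (hcomp : ∀ t ∈ T, t ≠ 1 → ∃ I L : Subgroup G, Cmp n I L ∧ t ∉ L) :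
    ∃ (N : Subgroup G) (_ : N.Normal), PLengthLE 2 n (G ⧸ N) ∧
      ∀ r ∈ N, (orderOf r).Coprime 2 → r ∈ Subgroup.centralizer (T : Set G) := by
  obtain ⟨N, hN, h1, h2⟩ := exists_residual (G := G) 2 n
  refine ⟨N, hN, h1, fun r hrN hr => ?_⟩
  by_contra hrT
  obtain ⟨A, B, hAT, hAn, hBn, h⟩ := exists_min hT hrN hr hrT
  obtain ⟨S⟩ := nonempty_secRep 2 A B h.comm h.sq
  exact h.not_le (S.le_ker_iff.1 (h2 _ (ih (G ⧸ S.ρ.ker) inferInstance (h.pCore_quotient S) S.V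
    (S.lift _ le_rfl) (S.lift_injective _ rfl) (SecRep.ann_lift S (fun P =>
      h.ch_le hsq (fun t ht => hcomp t (hAT ht)) P.isPGroup' (h.isP.le_sylow_of_normal P)) _ _))))

theorem pLengthLE_succ_of_centralizes [Finite G] [Group.IsSolvable G] {n : ℕ} (P : Sylow 2 G)
    {T H : Subgroup G} (hTdef : T = (P : Subgroup G) ⊓ pPrimePCore 2 G)
    (hH : H = Subgroup.normalizer (T : Set G)) {N : Subgroup H} [hN : N.Normal]
    (h1 : PLengthLE 2 n (H ⧸ N)) (h2 : ∀ r ∈ N, (orderOf r).Coprime 2 →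
      r ∈ Subgroup.centralizer (T.subgroupOf H : Set H)) :
    PLengthLE 2 (n + 1) G := by
  have hT : IsPGroup 2 T := hTdef ▸ P.isPGroup'.to_inf_left
  have hHO : H ⊔ pPrimeCore 2 G = ⊤ :=
    hH ▸ normalizer_sup_pPrimeCore_eq_top hT (hTdef ▸ pPrimeCore_sup_sylow_inf P)
  have hsurj : ∀ (M : Subgroup G) [M.Normal], pPrimeCore 2 G ≤ M →
      Function.Surjective ((QuotientGroup.mk' M).comp H.subtype) := by
    intro M _ hM y
    obtain ⟨g, rfl⟩ := QuotientGroup.mk_surjective y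
    obtain ⟨a, ha, b, hb, rfl⟩ := Subgroup.mem_sup_of_normal_right.1
      (hHO.ge (Subgroup.mem_top g))
    exact ⟨⟨a, ha⟩, QuotientGroup.eq.2 (by simpa using hM hb)⟩
  have hNJ : N.map H.subtype ≤ pPrimePCore 2 G := by
    rw [le_pPrimePCore_iff_map_le, Subgroup.map_map]
    refine le_pCore (hN.map _ (hsurj _ le_rfl)) (PG.isPGroup_of_forall_mem ?_)
    rintro _ ⟨x, hx, rfl⟩
    obtain ⟨m, hm⟩ := exists_pow_orderOf_coprime x
    refine ⟨m, ?_⟩
    have h3 := h2 _ (N.pow_mem hx _) hm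
    have h4 : ((x ^ 2 ^ m : H) : G) ∈ pPrimePCore 2 G :=
      (isPConstrained_of_isSolvable 2 G).centralizer_le P le_rfl fun t ht =>
        congrArg Subtype.val (h3 ⟨t, hH.ge (Subgroup.le_normalizer (hTdef.ge ht))⟩ (hTdef.ge ht))
    obtain ⟨k, hk⟩ := PG.exists_pow_prime_pow_eq_one (pCore_isPGroup 2 _) h4
    rw [← map_pow]
    exact orderOf_eq_one_iff.1 (((hm.coprime_dvd_left (orderOf_map_dvd _ _)).pow_right
      k).eq_one_of_dvd (orderOf_dvd_of_pow_eq_one hk))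
  rw [pLengthLE_succ_iff]
  refine h1.of_surjective (QuotientGroup.lift N ((QuotientGroup.mk' _).comp H.subtype)
    fun x hx => (QuotientGroup.eq_one_iff _).2 (hNJ ⟨x, hx, rfl⟩)) fun y => ?_
  obtain ⟨x, rfl⟩ := hsurj _ (pPrimeCore_le_pPrimePCore 2 G) y
  exact ⟨x, rfl⟩

theorem exists_cmp' [Finite G] [Group.IsSolvable G] (hO : pCore 2 G = ⊥) {F V : Type*}
    [Field F] [CharP F 2] [AddCommGroup V] [Module F V] [FiniteDimensional F V]
    (ρ : G →* End F V) (hρ : Function.Injective ρ) {n : ℕ} (H : Subgroup G)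
    (hA : ∀ S : Subgroup G, IsPGroup 2 S → Ann ρ (n + 2) S ⊤) {t : H}
    (ht1 : t ≠ 1) {m : ℕ} (ht : t ^ 2 ^ m = 1) : ∃ I L : Subgroup H, Cmp n I L ∧ t ∉ L :=
  exists_cmp hO (baseChangeRep ρ)
    ((injective_iff_map_eq_one _).2 fun _ h =>
      hρ (((baseChangeRep_eq_one_iff ρ _).1 h).trans (map_one ρ).symm)) H
    (fun S hS => (ann_map _).1 (by
      simpa only [Submodule.baseChange_top] using (hA _ (hS.map H.subtype)).baseChange)) ht1 ht

theorem stmt' (n : ℕ) : Stmt'.{u} n := by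
  induction n with
  | zero =>
    intro X _ _ _ _ V _ _ _ ρ hρ h
    rw [pLengthLE_zero_iff, Nat.coprime_comm, Nat.prime_two.coprime_iff_not_dvd]
    intro hd
    obtain ⟨x, hx⟩ := exists_prime_orderOf_dvd_card' 2 hd
    have := h _ (PG.isPGroup_zpowers (x := x) (k := 1) (by rw [pow_one, ← hx, pow_orderOf_eq_one]))
    have h1 : ρ x = ρ 1 := by
      rw [map_one, ← sub_eq_zero]
      exact LinearMap.ext fun v => (Submodule.mem_bot _).1 ((show cm ρ _ _ = ⊥ from this).le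
        (mem_cm (Subgroup.mem_zpowers x) trivial))
    rw [hρ h1, orderOf_one] at hx
    omega
  | succ n ih =>
    intro X _ _ _ hO V _ _ _ ρ hρ h
    obtain ⟨P⟩ : Nonempty (Sylow 2 X) := inferInstance
    set T := (P : Subgroup X) ⊓ pPrimePCore 2 X with hTdef
    have hT : IsPGroup 2 T := P.isPGroup'.to_inf_left
    obtain ⟨N, hN, h1, h2⟩ := step' (G := Subgroup.normalizer (T : Set X)) ih
      (T := T.subgroupOf _) hT.comap_subtype
      (fun S hS z hz => Subtype.ext ((h _ (hS.map (Subgroup.subtype _))).sq hρ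
        ((der_map _ _ S).le (Subgroup.mem_map_of_mem _ hz))))
      fun t ht ht1 => by
        obtain ⟨m, hm⟩ := PG.exists_pow_prime_pow_eq_one hT ht
        exact exists_cmp' hO ρ hρ _ h ht1 (m := m) (Subtype.ext hm)
    exact pLengthLE_succ_of_centralizes P hTdef rfl h1 h2

/-- **Berger–Gross, Bryukhanova**. -/
theorem pLengthLE_two_of_derivedSeries [Finite G] (hG : IsPSolvable 2 G) {d : ℕ}
    (h : ∀ P : Sylow 2 G, derivedSeries (P : Subgroup G) d = ⊥) : PLengthLE 2 d G := by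
  have h0 : ∀ P : Sylow 2 G, der d (P : Subgroup G) = ⊥ := fun P => by
    rw [← map_derivedSeries_eq_der, h, Subgroup.map_bot]
  cases d with
  | zero =>
    obtain ⟨P⟩ : Nonempty (Sylow 2 G) := inferInstance
    rw [pLengthLE_zero_iff, Nat.coprime_comm, Nat.prime_two.coprime_iff_not_dvd]
    have := P.not_dvd_index
    rwa [show (P : Subgroup G) = ⊥ from h0 P, Subgroup.index_bot] at this
  | succ n =>
    have hG' := hG.quotient (pPrimeCore 2 G)
    have := isSolvable_of_isPSolvable_two hG'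
    obtain ⟨S⟩ := nonempty_secRep_frattini 2 (pCore 2 (G ⧸ pPrimeCore 2 G)) (pCore_isPGroup 2 _)
    have hker := S.ker_eq_pCore (hG'.centralizer_pCore_le (pPrimeCore_quotient_pPrimeCore 2 G))
    refine pLengthLE_succ_of_quotient (stmt' n _ inferInstance (pCore_quotient_pCore 2 _) S.V
      (S.lift _ hker.ge) (S.lift_injective _ hker)
      (SecRep.ann_lift S (fun P => ?_) _ _))
    obtain ⟨P, rfl⟩ := Sylow.mapSurjective_surjective (QuotientGroup.mk'_surjective _) 2 P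
    refine (ch_le_der _ ((pCore_isPGroup 2 _).le_sylow_of_normal _)).trans ?_
    rw [Sylow.coe_mapSurjective, ← der_map, h0, Subgroup.map_bot]
    exact bot_le

end Cfsg.Lib.Solv.TwoLen
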