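import Cfsg.Agent.Solv.Pronormal
import Cfsg.Agent.Trans.SylowIn

/-!
# Groups in which all overgroups of Sylow `p`-subgroups are pronormal
-/

set_option autoImplicit false

open scoped Pointwise

namespace Cfsg.Lib.Solv

open Cfsg.Lib.Trans

variable {G : Type*} [Group G]

/-- All overgroups (inside `H`) of Sylow `p`-subgroups of `H` are pronormal in `H`. -/
def SylPron (p : ℕ) (H : Subgroup G) : Prop :=
  ∀ K S : Subgroup G, IsSylowIn p S H → S ≤ K → K ≤ H → PronormalIn K H

variable [Finite G] {p : ℕ} [Fact p.Prime]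

theorem sylPron_iff {H : Subgroup G} :
    SylPron p H ↔ ∀ K : Subgroup H, (∃ P : Sylow p H, (P : Subgroup H) ≤ K) → IsPronormal K := by
  constructor
  · rintro h K ⟨P, hP⟩
    exact isPronormal_iff_pronormalIn_map_subtype.2
      (h _ _ (isSylowIn_map_subtype P) (Subgroup.map_mono hP) (Subgroup.map_subtype_le K))
  · intro h K S hS hSK hKH
    refine (isPronormal_subgroupOf_iff hKH).1 (h _ ⟨hS.toSylow, ?_⟩)
    rw [hS.coe_toSylow]
    exact Subgroup.comap_mono hSK

theorem sylPron_top_iff :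
    SylPron p (⊤ : Subgroup G) ↔
      ∀ K : Subgroup G, (∃ P : Sylow p G, (P : Subgroup G) ≤ K) → IsPronormal K := by
  constructor
  · rintro h K ⟨P, hP⟩
    exact pronormalIn_top_iff.1 (h _ _ (isSylowIn_top P) hP le_top)
  · intro h K S hS hSK _
    obtain ⟨P, rfl⟩ := hS.exists_sylow_eq
    exact pronormalIn_top_iff.2 (h K ⟨P, hSK⟩)

theorem sylPron_top_quotient_iff {N : Subgroup G} [N.Normal] (hN : IsPGroup p N) :
    SylPron p (⊤ : Subgroup (G ⧸ N)) ↔ SylPron p (⊤ : Subgroup G) := by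
  have hk : (QuotientGroup.mk' N).ker = N := QuotientGroup.ker_mk' N
  have hs := QuotientGroup.mk'_surjective N
  constructor
  · intro h K S hS hSK _
    have hNK : N ≤ K := (hS.le_of_normal hN le_top
      (by rw [Subgroup.normalizer_eq_top])).trans hSK
    refine PronormalIn.of_map (QuotientGroup.mk' N) (hk.symm ▸ hNK) ?_
    have h1 := hS.map (QuotientGroup.mk' N)
    rw [Subgroup.map_top_of_surjective _ hs] at h1 ⊢
    exact h _ _ h1 (Subgroup.map_mono hSK) le_top
  · intro h K S hS hSK _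
    have h1 := hS.comap (QuotientGroup.mk' N) (hk.symm ▸ hN)
      (by rw [MonoidHom.range_eq_top_of_surjective _ hs])
    rw [Subgroup.comap_top] at h1
    have h2 := (h _ _ h1 (Subgroup.comap_mono hSK) le_top).map (QuotientGroup.mk' N)
    rwa [Subgroup.map_comap_eq_self_of_surjective hs, Subgroup.map_top_of_surjective _ hs] at h2

theorem sylPron_top_subgroup_iff {H : Subgroup G} :
    SylPron p (⊤ : Subgroup H) ↔ SylPron p H := sylPron_top_iff.trans sylPron_iff.symm

theorem SylPron.mono_of_not_dvd {H L : Subgroup G} (h : SylPron p L) (hHL : H ≤ L)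
    (hd : ¬ p ∣ H.relIndex L) : SylPron p H := fun K S hS hSK hKH =>
  (h K S (hS.trans hHL hd) hSK (hKH.trans hHL)).mono hHL

theorem SylPron.conj_smul {H : Subgroup G} (h : SylPron p H) (g : G) :
    SylPron p (MulAut.conj g • H) := by
  intro K S hS hSK hKH
  have h1 : IsSylowIn p (MulAut.conj g⁻¹ • S) H := by
    have := hS.cj g⁻¹
    rw [← cj_def, ← cj_def, map_conj_eq_smul, map_conj_eq_smul, conj_inv_smul_conj_smul] at this
    exact this
  have h2 := (h _ _ h1 (conj_smul_mono g⁻¹ hSK)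
    (by rw [conj_smul_le_iff_le_conj_inv_smul, inv_inv]; exact hKH)).conj_smul g
  rwa [conj_smul_conj_inv_smul] at h2

/-- The normalizer of a Sylow subgroup of a normal subgroup has index prime to `p`. -/
theorem not_dvd_index_normalizer_of_isSylowIn_normal {A T : Subgroup G} [A.Normal]
    (hT : IsSylowIn p T A) : ¬ p ∣ (Subgroup.normalizer (T : Set G)).relIndex ⊤ := by
  obtain ⟨S, hS⟩ := hT.exists_sylow_inf
  refine (isSylowIn_top S).not_dvd_relIndex_of_le ?_
  rw [← hS]
  exact le_normalizer_inf Subgroup.le_normalizer (by rw [Subgroup.normalizer_eq_top]; exact le_top)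

theorem map_normalizer_eq_of_pronormal {A K : Subgroup G} [A.Normal] (h : IsPronormal K) :
    (Subgroup.normalizer (K : Set G)).map (QuotientGroup.mk' A) =
      Subgroup.normalizer ((K.map (QuotientGroup.mk' A) : Subgroup (G ⧸ A)) : Set (G ⧸ A)) := by
  refine le_antisymm (Subgroup.le_normalizer_map _) ?_
  intro y hy
  obtain ⟨g, rfl⟩ := QuotientGroup.mk'_surjective A y
  have hg : g ∈ Subgroup.normalizer ((K ⊔ A : Subgroup G) : Set G) := by
    rw [← normalizer_map_mk'_eq]; exact hy
  obtain ⟨b, hb, n, hn, rfl⟩ := (pronormalIn_top_iff.2 h).exists_mul le_sup_left trivial hg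
  obtain ⟨k, hk, a, ha, rfl⟩ := Subgroup.mem_sup_of_normal_right.1 hb
  refine ⟨k * n, Subgroup.mul_mem _ (Subgroup.le_normalizer hk) hn, ?_⟩
  have : QuotientGroup.mk' A a = 1 := (QuotientGroup.eq_one_iff a).2 ha
  simp only [map_mul, this, mul_one]

theorem sylPron_top_of_normal {A T : Subgroup G} [hAn : A.Normal] (hA : SylPron p A)
    (hQ : SylPron p (⊤ : Subgroup (G ⧸ A))) (hT : IsSylowIn p T A)
    (hN : SylPron p (Subgroup.normalizer (T : Set G)))
    (hmap : ∀ K : Subgroup G, (∃ P : Sylow p G, (P : Subgroup G) ≤ K) →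
      (Subgroup.normalizer (K : Set G)).map (QuotientGroup.mk' A) =
      Subgroup.normalizer ((K.map (QuotientGroup.mk' A) : Subgroup (G ⧸ A)) : Set (G ⧸ A))) :
    SylPron p (⊤ : Subgroup G) := by
  have hk : (QuotientGroup.mk' A).ker = A := QuotientGroup.ker_mk' A
  have hs := QuotientGroup.mk'_surjective A
  have hAtop : ∀ H : Subgroup G, H ≤ Subgroup.normalizer (A : Set G) := fun H => by
    rw [Subgroup.normalizer_eq_top]; exact le_top
  intro K S hS hSK _
  obtain ⟨P, rfl⟩ := hS.exists_sylow_eq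
  set T0 : Subgroup G := (P : Subgroup G) ⊓ A with hT0
  have hT0s : IsSylowIn p T0 A := isSylowIn_inf_of_normal P A
  have hN0 : SylPron p (Subgroup.normalizer (T0 : Set G)) := by
    obtain ⟨x, -, hx⟩ := hT0s.exists_cj_eq hT
    rw [← cj_def, map_conj_eq_smul] at hx
    rw [← hx, ← conj_smul_normalizer]
    exact hN.conj_smul x
  set D : Subgroup G := K ⊓ A with hD
  have hT0D : T0 ≤ D := inf_le_inf_right A hSK
  have hKD : K ≤ Subgroup.normalizer (D : Set G) :=
    le_normalizer_inf Subgroup.le_normalizer (hAtop K)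
  have hT0D' : IsSylowIn p T0 D := hT0s.mono hT0D inf_le_right
  set K0 : Subgroup G := K ⊓ Subgroup.normalizer (T0 : Set G) with hK0
  have hPN : (P : Subgroup G) ≤ Subgroup.normalizer (T0 : Set G) :=
    le_normalizer_inf Subgroup.le_normalizer (hAtop _)
  have hK0p : PronormalIn K0 (Subgroup.normalizer (T0 : Set G)) :=
    hN0 K0 P (isSylowIn_of_le P hPN) (le_inf hSK hPN) inf_le_right
  have hKeq : K = D ⊔ K0 := by
    refine le_antisymm ?_ (sup_le inf_le_left inf_le_left)
    intro k hk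
    obtain ⟨d, hd, n, hn, rfl⟩ := hT0D'.frattini (hKD hk)
    refine Subgroup.mul_mem _ (Subgroup.mem_sup_left hd) (Subgroup.mem_sup_right ⟨?_, hn⟩)
    have := K.mul_mem (K.inv_mem hd.1) hk
    rwa [inv_mul_cancel_left] at this
  -- step 4
  have h4 : ∀ a ∈ Subgroup.normalizer (T0 : Set G), a ∈ Subgroup.normalizer (D : Set G) →
      ∃ w ∈ K ⊔ MulAut.conj a • K, MulAut.conj a • K = MulAut.conj w • K := by
    intro a ha haD
    obtain ⟨w, hw, hwe⟩ := hK0p a ha
    have hwD : w ∈ Subgroup.normalizer (D : Set G) := by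
      refine (sup_le (inf_le_left.trans hKD) ?_ : K0 ⊔ MulAut.conj a • K0 ≤ _) hw
      have := conj_smul_mono a (inf_le_left.trans hKD : K0 ≤ _)
      rwa [conj_smul_normalizer, conj_smul_eq_of_mem_normalizer haD] at this
    refine ⟨w, sup_le_sup inf_le_left (conj_smul_mono a inf_le_left) hw, ?_⟩
    rw [hKeq, Subgroup.smul_sup, Subgroup.smul_sup, conj_smul_eq_of_mem_normalizer haD,
      conj_smul_eq_of_mem_normalizer hwD, hwe]
  -- step 3
  have h3 : ∀ a ∈ Subgroup.normalizer (D : Set G),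
      ∃ w ∈ K ⊔ MulAut.conj a • K, MulAut.conj a • K = MulAut.conj w • K := by
    intro a ha
    obtain ⟨d, hd, n, hn, rfl⟩ := hT0D'.frattini ha
    refine exists_conj_eq_of_reduce (x := d) (Subgroup.mem_sup_left hd.1) ?_
    rw [inv_mul_cancel_left]
    refine h4 n hn ?_
    have := Subgroup.mul_mem _ (Subgroup.inv_mem _ (Subgroup.le_normalizer hd)) ha
    rwa [inv_mul_cancel_left] at this
  -- step 2
  have h2 : ∀ a ∈ A, ∃ w ∈ K ⊔ MulAut.conj a • K, MulAut.conj a • K = MulAut.conj w • K := by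
    intro a ha
    obtain ⟨y, hy, hye⟩ := hA D T0 hT0s hT0D inf_le_right a ha
    exact exists_conj_eq_of_reduce (x := y)
      (sup_le_sup inf_le_left (conj_smul_mono a inf_le_left) hy)
      (h3 _ (conj_smul_eq_conj_smul_iff.1 hye))
  -- step 1
  have h1 : ∀ g ∈ Subgroup.normalizer ((K ⊔ A : Subgroup G) : Set G),
      ∃ w ∈ K ⊔ MulAut.conj g • K, MulAut.conj g • K = MulAut.conj w • K := by
    intro g hg
    rw [← normalizer_map_mk'_eq, ← hmap K ⟨P, hSK⟩, Subgroup.comap_map_eq, hk, sup_comm] at hg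
    obtain ⟨a, ha, n, hn, rfl⟩ := Subgroup.mem_sup_of_normal_left.1 hg
    rw [conj_mul_smul, conj_smul_eq_of_mem_normalizer hn]
    exact h2 a ha
  intro g _
  have hKq : PronormalIn (K.map (QuotientGroup.mk' A)) ((⊤ : Subgroup G).map (QuotientGroup.mk' A)) := by
    have h1 := (isSylowIn_top P).map (QuotientGroup.mk' A)
    rw [Subgroup.map_top_of_surjective _ hs] at h1 ⊢
    exact hQ _ _ h1 (Subgroup.map_mono hSK) le_top
  obtain ⟨x, hx, hxe⟩ := exists_conj_sup_ker_eq_of_pronormalIn_map _ hKq (Subgroup.mem_top g)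
  rw [← conj_smul_sup_ker, ← conj_smul_sup_ker, hk] at hxe
  exact exists_conj_eq_of_reduce hx (h1 _ (conj_smul_eq_conj_smul_iff.1 hxe))

/-- If the Sylow subgroup `P` is self-normalizing, its overgroups are pronormal and
self-normalizing. -/
theorem sylPron_top_of_self_normalizing
    (h : ∀ P : Sylow p G, Subgroup.normalizer ((P : Subgroup G) : Set G) = P) :
    SylPron p (⊤ : Subgroup G) := by
  intro K S hS hSK _
  obtain ⟨P, rfl⟩ := hS.exists_sylow_eq
  refine PronormalIn.of_normalizer hSK le_top (pronormalIn_top_iff.2 (isPronormal_sylow P)) ?_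
  intro g _ hg
  rw [h P] at hg
  exact ⟨g, Subgroup.mem_sup_left (hSK hg), rfl⟩

theorem normalizer_eq_of_self_normalizing_sylow {K : Subgroup G} (P : Sylow p G)
    (h : Subgroup.normalizer ((P : Subgroup G) : Set G) = P) (hK : (P : Subgroup G) ≤ K) :
    Subgroup.normalizer (K : Set G) = K := by
  refine le_antisymm ?_ Subgroup.le_normalizer
  intro g hg
  obtain ⟨k, hk, n, hn, rfl⟩ := (isSylowIn_of_le P hK).frattini hg
  exact K.mul_mem hk (hK (h ▸ hn))

end Cfsg.Lib.Solv
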