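import Cfsg.Agent.Solv.Symplectic
import Cfsg.Agent.Solv.SectionAut
import Cfsg.Agent.Solv.ActionTransport
import Cfsg.Agent.Solv.MinNormal
import Cfsg.Agent.Solv.CommCalc
import Cfsg.Agent.Trans.SmallClass

/-!
# Vectors not fixed by any conjugate of an element of a normal `p`-subgroup, `p` odd
-/

set_option autoImplicit false

open Subgroup
open scoped commutatorElement Pointwise

namespace Cfsg.Lib.Solv.RegOrb

open Act Coprime

universe u

variable {p : ℕ} [hp : Fact p.Prime]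

theorem eq_zpowers_of_card {G : Type*} [Group G] [Finite G] {Z : Subgroup G} (hZ : Nat.card Z = p)
    {z : G} (hz : z ∈ Z) (h1 : z ≠ 1) : Z = zpowers z := by
  refine le_antisymm (fun y hy => ?_) (zpowers_le.2 hz)
  obtain ⟨k, hk⟩ := mem_zpowers_of_prime_card hZ (g := ⟨z, hz⟩) (g' := ⟨y, hy⟩)
    fun h => h1 (congrArg Subtype.val h)
  exact ⟨k, congrArg Subtype.val hk⟩

/-- An extraspecial group of odd prime exponent has a regular orbit. -/
theorem regular {G V : Type*} [Group G] [Finite G] [CommGroup V] [Finite V] (φ : G →* MulAut V)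
    (hp2 : p ≠ 2) (hexp : ∀ g : G, g ^ p = 1) {Z : Subgroup G} (hZc : Z ≤ center G)
    (hZp : Nat.card Z = p) (hcomm : ∀ a b : G, ⁅a, b⁆ ∈ Z)
    (hfpf : ∀ u ∈ Z, u ≠ 1 → ∀ v, φ u v = v → v = 1) (hcop : (Nat.card V).Coprime p)
    (N : Subgroup G) : ∀ (K : Subgroup G) (W : Subgroup V), K ≤ N ⊓ centralizer (N : Set G) →
      W ≠ ⊥ → Z ≤ N → (∀ g ∈ N, ∀ w ∈ W, φ g w ∈ W) → (∀ k ∈ K, ∀ w ∈ W, φ k w = w) →
      N ⊓ centralizer (N : Set G) ≤ K ⊔ Z → ∃ v ∈ W, v ≠ 1 ∧ ∀ g ∈ N, φ g v = v → g ∈ K := by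
  induction N using WellFoundedLT.induction with | ind N ih => ?_
  intro K W hK hW hZN hinv htriv hcen
  have : Z.Normal := ⟨fun n hn g => by
    rw [mem_center_iff.1 (hZc hn) g, mul_inv_cancel_right]; exact hn⟩
  have happ : ∀ a b v, φ (a * b) v = φ a (φ b v) := fun a b v => by rw [map_mul]; rfl
  by_cases hab : N ≤ centralizer (N : Set G)
  · obtain ⟨v, hv, hv1⟩ := (bot_or_exists_ne_one W).resolve_left hW
    refine ⟨v, hv, hv1, fun g hg h => ?_⟩
    obtain ⟨k, hk, u, hu, rfl⟩ := (mem_sup_of_le_normalizer' le_normalizer_of_normal).1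
      (hcen ⟨hg, hab hg⟩)
    by_cases h1 : u = 1
    · rwa [h1, mul_one]
    · rw [mem_center_iff.1 (hZc hu), happ, htriv k hk v hv] at h
      exact absurd (hfpf u hu h1 v h) hv1
  let ψ : G → G →* G := fun d =>
    { toFun := fun g => ⁅d, g⁆
      map_one' := by simp
      map_mul' := fun a b => by
        have h1 : ⁅d, a * b⁆ = ⁅d, a⁆ * (a * ⁅d, b⁆ * a⁻¹) := by
          simp only [commutatorElement_def]; group
        rw [h1, mem_center_iff.1 (hZc (hcomm d b)) a, mul_inv_cancel_right] }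
  have hψ : ∀ d g, ψ d g = ⁅d, g⁆ := fun _ _ => rfl
  have h0 : ∃ b ∈ N, ∃ d ∈ N, ⁅d, b⁆ ≠ 1 ∧ W ⊓ fix φ (zpowers b) ≠ ⊥ := by
    obtain ⟨b₀, hb₀, h1⟩ := SetLike.not_le_iff_exists.1 hab
    obtain ⟨d, hd, h2⟩ : ∃ d ∈ N, ⁅d, b₀⁆ ≠ 1 := by
      by_contra h
      push Not at h
      exact h1 fun d hd => commutatorElement_eq_one_iff_mul_comm.1 (h d hd)
    have hB : Z ⊔ zpowers b₀ ≤ N := sup_le hZN (zpowers_le.2 hb₀)
    have hdec : ∀ u ∈ Z ⊔ zpowers b₀, ∃ z ∈ Z, ∃ i : ℤ, u = z * b₀ ^ i := fun u hu => by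
      obtain ⟨z, hz, _, ⟨i, rfl⟩, rfl⟩ := (mem_sup_of_le_normalizer le_normalizer_of_normal).1 hu
      exact ⟨z, hz, i, rfl⟩
    have : IsMulCommutative (Z ⊔ zpowers b₀ : Subgroup G) := ⟨⟨fun a b => Subtype.ext (by
      obtain ⟨z, hz, i, h3⟩ := hdec a a.2
      obtain ⟨z', hz', j, h4⟩ := hdec b b.2
      have h5 : ∀ g, Commute z g := fun g => (mem_center_iff.1 (hZc hz) g).symm
      have h6 : ∀ g, Commute z' g := fun g => (mem_center_iff.1 (hZc hz') g).symm
      rw [coe_mul, coe_mul, h3, h4]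
      exact ((h5 _).mul_left ((h6 _).symm.mul_right (Commute.zpow_zpow_self b₀ i j))).eq)⟩⟩
    have hG : IsPGroup p G := fun g => ⟨1, by rw [pow_one, hexp]⟩
    by_contra h
    push Not at h
    refine hW (eq_bot_iff.2 (Act.le_of_forall_fix_zpowers (φ := φ) (B := Z ⊔ zpowers b₀)
      (fun hc => ?_) (fun g hg w hw => hinv g (hB hg) w hw) (coprime_card_of_isPGroup
        (hG.to_subgroup _) (hcop.coprime_dvd_left (card_subgroup_dvd_card W))) fun u hu hu1 => ?_))
    · obtain ⟨g, hg⟩ := hc.exists_generator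
      have h3 : Nat.card (Z ⊔ zpowers b₀ : Subgroup G) ≤ p := by
        rw [← orderOf_eq_card_of_forall_mem_zpowers hg]
        exact Nat.le_of_dvd hp.out.pos (orderOf_dvd_of_pow_eq_one (Subtype.ext (hexp g)))
      have h4 := eq_of_le_of_card_ge (le_sup_left : Z ≤ Z ⊔ zpowers b₀) (by rwa [hZp])
      exact h2 (commutatorElement_eq_one_iff_mul_comm.2
        (mem_center_iff.1 (hZc (h4.ge (mem_sup_right (mem_zpowers b₀)))) d))
    · by_cases h3 : u ∈ Z
      · exact fun v hv => hfpf u h3 hu1 v (mem_fix_zpowers.1 hv.2)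
      refine (h u (hB hu) d hd fun h4 => ?_).le
      obtain ⟨z, hz, i, rfl⟩ := hdec u hu
      rw [← hψ, map_mul, map_zpow, hψ, hψ, commutatorElement_eq_one_iff_mul_comm.2
        (mem_center_iff.1 (hZc hz) d), one_mul, ← orderOf_dvd_iff_zpow_eq_one,
        orderOf_eq_prime (hexp _) h2] at h4
      obtain ⟨j, rfl⟩ := h4
      rw [zpow_mul, zpow_natCast, hexp, one_zpow, mul_one] at h3
      exact h3 hz
  obtain ⟨b, hb, d, hd, hz1, hW₀⟩ := h0
  have hZ := eq_zpowers_of_card hZp (hcomm d b) hz1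
  have hZ' := eq_zpowers_of_card hZp (hcomm b d) (by rwa [Ne, ← inv_eq_one, commutatorElement_inv])
  set C := N ⊓ centralizer {b} with hC
  have hmC : ∀ g ∈ N, ⁅b, g⁆ = 1 → g ∈ C := fun g hg h =>
    ⟨hg, mem_centralizer_singleton_iff.2 (commutatorElement_eq_one_iff_mul_comm.1 h).symm⟩
  have hCb : ∀ g ∈ C, g * b = b * g := fun g hg => mem_centralizer_singleton_iff.1 hg.2
  obtain ⟨v₀, hv₀, hv₀1, hreg⟩ := ih C (inf_lt_left.2 fun h => hz1
      (commutatorElement_eq_one_iff_mul_comm.2 (mem_centralizer_singleton_iff.1 (h hd))))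
    (K ⊔ zpowers b) (W ⊓ fix φ (zpowers b))
    (sup_le (fun k hk => ⟨⟨(hK hk).1, mem_centralizer_singleton_iff.2 ((hK hk).2 b hb).symm⟩,
      fun g hg => (hK hk).2 g hg.1⟩) (zpowers_le.2 ⟨hmC b hb (by simp), hCb⟩)) hW₀
    (le_inf hZN (hZc.trans (center_le_centralizer _)))
    (fun g hg w hw => ⟨hinv g hg.1 w hw.1, mem_fix_zpowers.2 (by
      rw [← happ, ← hCb g hg, happ, mem_fix_zpowers.1 hw.2])⟩)
    (fun k hk w hw => by
      have h1 : K ⊔ zpowers b ≤ (MulAction.stabilizer (MulAut V) w).comap φ :=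
        sup_le (fun k hk => htriv k hk w hw.1) (zpowers_le.2 (mem_fix_zpowers.1 hw.2))
      exact h1 hk)
    (fun g hg => by
      obtain ⟨j, hj⟩ := hZ.le (hcomm d g)
      have h1 : g * b ^ (-j) ∈ K ⊔ Z := hcen ⟨N.mul_mem hg.1.1 (N.zpow_mem hb _), fun n hn => by
        obtain ⟨i, hi⟩ := hZ'.le (hcomm b n)
        have h2 : d ^ (-i) * n ∈ C := hmC _ (N.mul_mem (N.zpow_mem hd _) hn) (by
          rw [← hψ, map_mul, map_zpow, hψ, hψ, ← hi, ← zpow_add, neg_add_cancel, zpow_zero])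
        have h3 : Commute d (g * b ^ (-j)) := by
          rw [← commutatorElement_eq_one_iff_commute, ← hψ, map_mul, map_zpow, hψ, hψ, ← hj,
            ← zpow_add, add_neg_cancel, zpow_zero]
        have h4 : Commute (d ^ (-i) * n) (g * b ^ (-j)) :=
          Commute.mul_right (hg.2 _ h2) (Commute.zpow_right (hCb _ h2) _)
        have h5 := (h3.zpow_left i).mul_left h4
        rwa [← mul_assoc, ← zpow_add, add_neg_cancel, zpow_zero, one_mul] at h5⟩
      have h2 : K ⊔ Z ≤ K ⊔ zpowers b ⊔ Z := sup_le_sup_right le_sup_left Z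
      have h3 := mul_mem (h2 h1) (mem_sup_left (mem_sup_right (zpow_mem_zpowers b j)))
      rwa [mul_assoc, ← zpow_add, neg_add_cancel, zpow_zero, mul_one] at h3)
  obtain ⟨z, hz⟩ : ∃ z, z = ⁅d, b⁆ := ⟨_, rfl⟩
  rw [← hz] at hz1 hZ
  have hzZ : z ∈ Z := hz ▸ hcomm d b
  have hf0 : φ b v₀ = v₀ := mem_fix_zpowers.1 hv₀.2
  have hf1 : φ (z * b) (φ d v₀) = φ d v₀ := by
    rw [← happ, show z * b * d = d * b by rw [hz, commutatorElement_def]; group, happ, hf0]
  obtain ⟨v₁, hv₁⟩ : ∃ v₁, v₁ = φ d v₀ := ⟨_, rfl⟩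
  rw [← hv₁] at hf1
  have hv₁1 : v₁ ≠ 1 := by rw [hv₁]; simpa using hv₀1
  have hind : ∀ w w', φ b w = w → φ (z * b) w' = w' → w * w' = 1 → w = 1 ∧ w' = 1 := by
    intro w w' h1 h2 h3
    obtain rfl := eq_inv_of_mul_eq_one_left h3
    rw [map_inv, inv_inj] at h1
    rw [happ, h1] at h2
    simp [hfpf z hzZ hz1 w' h2]
  refine ⟨v₀ * v₁, W.mul_mem hv₀.1 (hv₁ ▸ hinv d hd v₀ hv₀.1),
    fun h => hv₀1 (hind _ _ hf0 hf1 h).1, fun g hg h => ?_⟩
  have hcz : ∀ s ∈ Z, ∀ a w, φ a (φ s w) = φ s (φ a w) := fun s hs a w => by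
    rw [← happ, ← happ, mem_center_iff.1 (hZc hs) a]
  have hgC : g ∈ C := by
    refine hmC g hg ?_
    rw [← inv_eq_one, commutatorElement_inv]
    by_contra hu
    obtain ⟨u, hud⟩ : ∃ u, u = ⁅g, b⁆ := ⟨_, rfl⟩
    have huZ : u ∈ Z := hud ▸ hcomm g b
    rw [← hud] at hu
    have h1 : u * b * g = g * b := by rw [hud, commutatorElement_def]; group
    let D : G → V →* V := fun s => (φ s).toMonoidHom / MonoidHom.id V
    have hD : ∀ s w, D s w = φ s w / w := fun _ _ => rfl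
    have hD1 : ∀ s ∈ Z, ∀ w, D s w = 1 → s = 1 ∨ w = 1 := fun s hs w h => by
      rw [hD, div_eq_one] at h
      exact (em (s = 1)).imp_right fun h1 => hfpf s hs h1 w h
    have hDc : ∀ s ∈ Z, ∀ a w, φ a (D s w) = D s (φ a w) := fun s hs a w => by
      rw [hD, hD, map_div, hcz s hs]
    have h2 : φ (u * b) (φ g v₀) = φ g v₀ := by rw [← happ, h1, happ, hf0]
    have h3 : φ (u * z * b) (φ g v₁) = φ g v₁ := by
      rw [← happ, mem_center_iff.1 (hZc hzZ) u, mul_assoc z, mul_assoc z, h1, ← mul_assoc,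
        ← mem_center_iff.1 (hZc hzZ) g, mul_assoc, happ, hf1]
    have h4 : D (u * b) (D (u * z * b) (v₀ * v₁)) = 1 := by
      rw [← h, map_mul, map_mul, hD _ (φ g v₁), h3, div_self', mul_one, hD, hD, map_div, h2,
        mem_center_iff.1 (hZc hzZ) u, mul_assoc z, happ z, h2, hcz z hzZ (u * b), h2, div_self']
    have huz := Z.mul_mem huZ hzZ
    have huz' := Z.mul_mem huZ (Z.inv_mem hzZ)
    have h5 : ∀ s w, φ b w = w → D (s * b) w = D s w := fun s w h => by rw [hD, hD, happ, h]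
    have h6 : ∀ s w, φ (z * b) w = w → D (s * b) w = D (s * z⁻¹) w := fun s w h => by
      rw [hD, hD, show s * b = s * z⁻¹ * (z * b) by group, happ, h]
    have h7 : φ b (D (u * z) v₀) = D (u * z) v₀ := by rw [hDc _ huz, hf0]
    have h8 : φ (z * b) (D u v₁) = D u v₁ := by rw [hDc _ huZ, hf1]
    rw [map_mul, map_mul, h5 _ _ hf0, h6 _ _ hf1, mul_inv_cancel_right, h5 _ _ h7,
      h6 _ _ h8] at h4
    obtain ⟨h9, h10⟩ := hind _ _ (by rw [hDc _ huZ, h7]) (by rw [hDc _ huz', h8]) h4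
    have h11 := (hD1 _ huz _ ((hD1 _ huZ _ h9).resolve_left hu)).resolve_right hv₀1
    have h12 := (hD1 _ huz' _ h10).resolve_right fun h =>
      (hD1 _ huZ _ h).elim hu hv₁1
    rw [mul_inv_eq_one] at h12
    rw [h12, ← pow_two, ← orderOf_dvd_iff_pow_eq_one, orderOf_eq_prime (hexp z) hz1] at h11
    exact hp2 ((Nat.prime_dvd_prime_iff_eq hp.out Nat.prime_two).1 h11)
  obtain ⟨h1, h2⟩ := hind (φ g v₀ / v₀) (φ g v₁ / v₁)
    (by rw [map_div, ← happ, ← hCb g hgC, happ, hf0])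
    (by rw [map_div, ← happ, mul_assoc, ← hCb g hgC, ← mul_assoc,
      ← mem_center_iff.1 (hZc hzZ) g, mul_assoc, happ, hf1])
    (by rw [div_mul_div_comm, ← map_mul, h, div_self'])
  rw [div_eq_one] at h1 h2
  have h3 : ⁅d⁻¹, g⁆ = 1 := by
    by_contra h3
    refine hv₀1 (hfpf _ (hcomm _ _) h3 v₀ ?_)
    have h4 : φ g⁻¹ v₀ = v₀ := by rw [← h1, ← happ, inv_mul_cancel, map_one, h1]; rfl
    rw [commutatorElement_def, happ, h4, inv_inv, happ, ← hv₁, happ, h2, hv₁, ← happ,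
      inv_mul_cancel, map_one]
    rfl
  obtain ⟨k, hk, _, ⟨i, rfl⟩, rfl⟩ := (mem_sup_of_le_normalizer (zpowers_le.2
    (mem_normalizer_of_conj_mem fun k hk => by
      rw [(hK hk).2 b hb, mul_inv_cancel_right]; exact hk))).1 (hreg g hgC h1)
  rw [commutatorElement_eq_one_iff_commute, Commute.inv_left_iff,
    ← commutatorElement_eq_one_iff_commute, ← hψ, map_mul, map_zpow, hψ, hψ,
    commutatorElement_eq_one_iff_mul_comm.2 ((hK hk).2 d hd), one_mul, ← hz,
    ← orderOf_dvd_iff_zpow_eq_one, orderOf_eq_prime (hexp _) hz1] at h3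
  obtain ⟨j, rfl⟩ := h3
  change k * b ^ ((p : ℤ) * j) ∈ K
  rwa [zpow_mul, zpow_natCast, hexp, one_zpow, mul_one]

/-- The statement proved by induction. -/
def Avoid (p : ℕ) (H V : Type u) [Group H] [CommGroup V] : Prop :=
  ∀ (φ : H →* MulAut V) (N : Subgroup H) (a : H), N.Normal → IsPGroup p N → a ∈ N → a ^ p = 1 →
    (Nat.card V).Coprime p → φ a ≠ 1 → ∃ v, ∀ x, φ (x * a * x⁻¹) v ≠ v

theorem avoid_symplectic (hp2 : p ≠ 2) {H V : Type u} [Group H] [Finite H] [CommGroup V] [Finite V]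
    {φ : H →* MulAut V} (hφ : Function.Injective φ)
    (hirr : ∀ U : Subgroup V, (∀ h, ∀ u ∈ U, φ h u ∈ U) → U = ⊥ ∨ U = ⊤) {a : H}
    (hN : IsPGroup p (normalClosure {a})) (ha : a ^ p = 1) (hcop : (Nat.card V).Coprime p)
    (ha1 : φ a ≠ 1) (hch : ∀ A : Subgroup (normalClosure {a}), A.Characteristic →
      IsMulCommutative A → IsCyclic A) : ∃ v, ∀ x, φ (x * a * x⁻¹) v ≠ v := by
  set N := normalClosure ({a} : Set H) with hNd
  have haN : a ∈ N := subset_normalClosure (Set.mem_singleton a)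
  have ha1' : a ≠ 1 := fun h => ha1 (by rw [h, map_one])
  obtain ⟨E, R, h1, h2, h3, h4⟩ := PG.exists_central_product_of_symplectic hN hch
  have hR : R ≤ center N := by
    have := h4.resolve_right fun h => hp2 h.1
    refine fun r hr => mem_center_iff.2 fun g => ?_
    have h5 : ⊤ ≤ centralizer (R : Set N) := h2 ▸ sup_le h1 fun a ha b hb =>
      congrArg Subtype.val (mul_comm' (⟨b, hb⟩ : R) ⟨a, ha⟩)
    exact (h5 (mem_top g) r hr).symm
  have hE : ⁅E, E⁆ ≤ center N := by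
    rcases h3 with rfl | h3
    · simp
    · rw [← map_subtype_commutator, h3.1.2.2, map_subtype_center]
      refine fun e he => mem_center_iff.2 fun g => ?_
      have h5 : ⊤ ≤ centralizer {e} := h2 ▸ sup_le
        (fun b hb => mem_centralizer_singleton_iff.2 (he.2 b hb))
        (fun b hb => mem_centralizer_singleton_iff.2 (h1 he.1 b hb))
      exact mem_centralizer_singleton_iff.1 (h5 (mem_top g))
  have hRc : ∀ X : Subgroup N, ⁅R, X⁆ ≤ center N := fun X =>
    (commutator_le_left_of_le_normalizer fun g _ => mem_normalizer_of_conj_mem fun r hr => by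
      rw [mem_center_iff.1 (hR hr) g, mul_inv_cancel_right]; exact hr).trans hR
  have hc : commutator N ≤ center N := by
    rw [commutator_def, ← h2]
    exact commutator_sup_left_le (commutator_sup_right_le hE
      (by rw [Subgroup.commutator_comm]; exact hRc _)) (hRc _)
  have hexp : ∀ g : N, g ^ p = 1 := by
    let S : Subgroup N :=
      { carrier := {g | g ^ p = 1}
        one_mem' := one_pow p
        mul_mem' := fun h h' => Trans.mul_pow_eq_one_of_class_two hp.out hp2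
          (commutator_eq_bot_iff_le_centralizer.2 (hc.trans (center_le_centralizer _))) h h'
        inv_mem' := fun {g} (h : g ^ p = 1) => (by rw [inv_pow, h, inv_one] : g⁻¹ ^ p = 1) }
    have h5 : N ≤ S.map N.subtype := by
      refine (closure_le _).2 fun y hy => ?_
      obtain ⟨_, rfl, h6⟩ := Group.mem_conjugatesOfSet_iff.1 hy
      obtain ⟨c, rfl⟩ := isConj_iff.1 h6
      exact ⟨⟨_, normalClosure_normal.conj_mem _ haN c⟩,
        Subtype.ext (by simp [conj_pow, ha]), rfl⟩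
    intro g
    obtain ⟨s, hs, h6⟩ := h5 g.2
    rwa [← Subtype.ext h6]
  have : Nontrivial N := ⟨⟨⟨a, haN⟩, 1, fun h => ha1' (congrArg Subtype.val h)⟩⟩
  have hZp : Nat.card (center N) = p := by
    obtain ⟨g, hg⟩ := (hch (center N) inferInstance inferInstance).exists_generator
    have := hN.center_nontrivial
    rw [← orderOf_eq_card_of_forall_mem_zpowers hg]
    refine orderOf_eq_prime (Subtype.ext (hexp g)) fun h => ?_
    obtain ⟨y, hy⟩ := exists_ne (1 : center N)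
    obtain ⟨k, rfl⟩ := hg y
    exact hy (by simp [h])
  have hV : (⊤ : Subgroup V) ≠ ⊥ := fun h => ha1 (MulEquiv.ext fun v => by
    rw [show v = 1 from h.le (mem_top v), map_one, map_one])
  obtain ⟨v, -, -, hv⟩ := regular (φ.comp N.subtype) hp2 hexp le_rfl hZp
    (fun a b => hc (commutator_mem_commutator (mem_top a) (mem_top b)))
    (fun u hu hu1 v hv => by
      have h5 := eq_zpowers_of_card hZp hu hu1
      rcases hirr (fix φ (zpowers (u : H))) (fun h w hw => mem_fix_zpowers.2 (by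
        obtain ⟨k, hk⟩ := h5.le (characteristic_iff_map_le.1 (inferInstance :
          (center N).Characteristic) (MulAut.conjNormal h⁻¹) (mem_map_of_mem _ hu))
        have h6 : (u : H) ^ k = h⁻¹ * u * h⁻¹⁻¹ := congrArg Subtype.val hk
        have h7 := mem_fix.1 hw _ (zpow_mem_zpowers (u : H) k)
        rw [h6, inv_inv, map_mul, map_mul, map_inv] at h7
        exact (φ h).symm.injective (h7.trans ((φ h).symm_apply_apply w).symm))) with h | h
      · exact h.le (mem_fix_zpowers.2 hv)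
      · exact absurd (Subtype.ext (hφ ((MulEquiv.ext fun w => mem_fix_zpowers.1
          (h.ge (mem_top w))).trans (map_one φ).symm))) hu1)
    hcop ⊤ ⊥ ⊤ bot_le hV le_top (fun _ _ _ _ => trivial)
    (fun k hk w _ => by rw [mem_bot.1 hk, map_one]; rfl)
    (fun g hg => mem_sup_right (mem_center_iff.2 fun h => hg.2 h (mem_top h)))
  refine ⟨v, fun x h => ha1' ?_⟩
  have h5 := congrArg Subtype.val
    (mem_bot.1 (hv ⟨_, normalClosure_normal.conj_mem _ haN x⟩ (mem_top _) h))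
  simpa using h5

theorem avoid_imprimitive {H V : Type u} [Group H] [Finite H] [CommGroup V] [Finite V]
    (ih : ∀ (M : Subgroup H) (U : Subgroup V), M ≠ ⊤ → Avoid p M U)
    {φ : H →* MulAut V} (hφ : Function.Injective φ)
    (hirr : ∀ U : Subgroup V, (∀ h, ∀ u ∈ U, φ h u ∈ U) → U = ⊥ ∨ U = ⊤) {a : H}
    (hN : IsPGroup p (normalClosure {a})) (ha : a ^ p = 1) (hcop : (Nat.card V).Coprime p)
    (ha1 : φ a ≠ 1) {E : Subgroup H} [hEn : E.Normal] [IsMulCommutative E] (hE : IsPGroup p E)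
    (hEc : ¬ IsCyclic E) : ∃ v, ∀ x, φ (x * a * x⁻¹) v ≠ v := by
  classical
  set N := normalClosure ({a} : Set H) with hNd
  have haN : a ∈ N := subset_normalClosure (Set.mem_singleton a)
  have happ : ∀ a b v, φ (a * b) v = φ a (φ b v) := fun a b v => by rw [map_mul]; rfl
  have hV : (⊤ : Subgroup V) ≠ ⊥ := fun h => ha1 (MulEquiv.ext fun v => by
    rw [show v = 1 from h.le (mem_top v), map_one, map_one])
  obtain ⟨B, ⟨hBE, hB⟩, hmax⟩ := (wellFounded_gt (α := Subgroup H)).has_min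
    {B | B ≤ E ∧ fix φ B ≠ ⊥} ⟨⊥, bot_le, fun h => hV (eq_bot_iff.2 fun v _ =>
      h.le (mem_fix.2 fun b hb => by rw [mem_bot.1 hb, map_one]; rfl))⟩
  have hB0 : ∃ C ≤ E, fix φ C ≠ ⊥ ∧ C ≠ ⊥ := by
    by_contra h
    push Not at h
    refine hV (eq_bot_iff.2 (Act.le_of_forall_fix_zpowers (φ := φ) hEc (inv_top _)
      (coprime_card_of_isPGroup hE (by rwa [card_top])) fun u hu hu1 => ?_))
    by_contra h1
    exact hu1 (zpowers_eq_bot.1 (h _ (zpowers_le.2 hu) fun h2 => h1 (by rw [h2, inf_bot_eq])))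
  have hB1 : B ≠ ⊥ := by
    rintro rfl
    obtain ⟨C, h1, h2, h3⟩ := hB0
    exact hmax C ⟨h1, h2⟩ (bot_lt_iff_ne_bot.2 h3)
  have hmap : ∀ (h : H) (C : Subgroup H), ∀ w ∈ fix φ C, φ h w ∈ fix φ (MulAut.conj h • C) :=
    fun h C w hw => mem_fix.2 fun b hb => by
      rw [← happ, show b * h = h * (h⁻¹ * b * h) by group, happ,
        mem_fix.1 hw _ (Solv.mem_conj_smul.1 hb)]
  have hle : ∀ h : H, MulAut.conj h • B ≤ E := fun h b hb => by
    simpa [mul_assoc] using hEn.conj_mem _ (hBE (Solv.mem_conj_smul.1 hb)) h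
  have hdisj : ∀ g h : H, ∀ w ∈ fix φ (MulAut.conj g • B), w ∈ fix φ (MulAut.conj h • B) →
      w ≠ 1 → MulAut.conj g • B = MulAut.conj h • B := by
    intro g h w h1 h2 h3
    have h4 := hmap g⁻¹ _ _ h1
    have h5 := hmap g⁻¹ _ _ h2
    rw [conj_inv_smul_conj_smul] at h4
    rw [← conj_mul_smul] at h5
    have h6 : MulAut.conj (g⁻¹ * h) • B ≤ B := by
      by_contra h6
      refine hmax (B ⊔ MulAut.conj (g⁻¹ * h) • B) ⟨sup_le hBE (hle _), fun h7 => h3 ?_⟩
        (left_lt_sup.2 h6)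
      have h8 : B ⊔ MulAut.conj (g⁻¹ * h) • B ≤
          (MulAction.stabilizer (MulAut V) (φ g⁻¹ w)).comap φ :=
        sup_le (mem_fix.1 h4) (mem_fix.1 h5)
      simpa using h7.le (mem_fix.2 h8)
    rw [← eq_of_le_of_card_ge h6 (Solv.card_conj_smul _ _).ge, ← conj_mul_smul,
      mul_inv_cancel_left, eq_of_le_of_card_ge h6 (Solv.card_conj_smul _ _).ge]
  have hnB : normalizer (B : Set H) ≠ ⊤ := fun h => by
    rcases hirr (fix φ B) (fun g w hw => by
      have h1 := hmap g B w hw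
      rwa [conj_smul_eq_of_mem_normalizer (h.ge (mem_top g))] at h1) with h1 | h1
    · exact hB h1
    · exact hB1 (eq_bot_iff.2 fun b hb => hφ ((MulEquiv.ext fun w =>
        mem_fix.1 (h1.ge (mem_top w)) b hb).trans (map_one φ).symm))
  obtain ⟨M, hM, hBM⟩ := (eq_top_or_exists_le_coatom _).resolve_left hnB
  obtain ⟨v₀, hv₀, hv₀1⟩ := (bot_or_exists_ne_one _).resolve_left hB
  by_cases hNM : N ≤ M
  swap
  · refine ⟨v₀, fun x h => hNM ?_⟩
    have h1 : x * a * x⁻¹ ∈ M := hBM (mem_normalizer_iff_conj_smul_eq.2 (by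
      have h2 := hmap (x * a * x⁻¹) B v₀ hv₀
      rw [h] at h2
      rw [hdisj _ 1 v₀ h2 (by rwa [conj_one_smul]) hv₀1, conj_one_smul]))
    have h2 : (M ⊓ N).Normal := by
      obtain ⟨y, ⟨hy1, hy2⟩, hy3⟩ := SetLike.exists_of_lt (PG.lt_inf_normalizer_of_isNilpotent
        hN.isNilpotent (inf_lt_right.2 hNM : M ⊓ N < N))
      rw [← normalizer_eq_top_iff]
      exact hM.2 _ (lt_of_le_of_ne (le_normalizer_inf le_normalizer le_normalizer_of_normal)
        fun h3 => hy3 ⟨h3.ge hy2, hy1⟩)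
    refine le_trans (normalClosure_le_normal ?_) (inf_le_left : M ⊓ N ≤ M)
    rintro _ rfl
    simpa [mul_assoc] using h2.conj_mem _ ⟨h1, normalClosure_normal.conj_mem _ haN x⟩ x⁻¹
  let U : Subgroup V := ⨆ m : M, fix φ (MulAut.conj (m : H) • B)
  let U' : Subgroup V := ⨆ h : {h // h ∉ M}, fix φ (MulAut.conj (h : H) • B)
  have hU1 : ∀ g ∈ M, ∀ u ∈ U, φ g u ∈ U := fun g hg u hu =>
    (iSup_le fun m w hw => mem_iSup_of_mem (⟨g * m, M.mul_mem hg m.2⟩ : M) (by
      rw [conj_mul_smul]; exact hmap g _ w hw) : U ≤ U.comap (φ g).toMonoidHom) hu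
  have hU2 : ∀ g ∈ M, ∀ u ∈ U', φ g u ∈ U' := fun g hg u hu =>
    (iSup_le fun m w hw => mem_iSup_of_mem (⟨g * m, fun h => m.2 ((M.mul_mem_cancel_left hg).1 h)⟩ :
      {h // h ∉ M}) (by rw [conj_mul_smul]; exact hmap g _ w hw) :
      U' ≤ U'.comap (φ g).toMonoidHom) hu
  have hU3 : ∀ g ∉ M, ∀ u ∈ U, φ g u ∈ U' := fun g hg u hu =>
    (iSup_le fun m w hw => mem_iSup_of_mem (⟨g * m, fun h => hg ((M.mul_mem_cancel_right m.2).1 h)⟩ :
      {h // h ∉ M}) (by rw [conj_mul_smul]; exact hmap g _ w hw) :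
      U ≤ U'.comap (φ g).toMonoidHom) hu
  have hUU : ∀ u ∈ U, u ∈ U' → u = 1 := by
    choose ν _ hν2 hν3 hν4 using fun C : Subgroup H => exists_norm_hom (φ.comp C.subtype)
    have h1 : ∀ g h : H, ∀ w ∈ fix φ (MulAut.conj h • B), MulAut.conj g • B ≠ MulAut.conj h • B →
        ν (MulAut.conj g • B) w = 1 := fun g h w hw hne => by
      by_contra h2
      refine hne (hdisj g h _ (mem_fix.2 fun b hb => hν2 _ ⟨b, hb⟩ w) (hν4 _ _ (fun b v hv =>
        mem_fix.2 fun c hc => ?_) w hw) h2)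
      have h3 : c * b = b * c :=
        congrArg Subtype.val (mul_comm' (⟨c, hle h hc⟩ : E) ⟨b, hle g b.2⟩)
      change φ c (φ b v) = φ b v
      rw [← happ, h3, happ, mem_fix.1 hv c hc]
    have := Fintype.ofFinite M
    let P : V →* V := ∏ C ∈ Finset.univ.image fun m : M => MulAut.conj (m : H) • B, ν C
    have h2 : U ≤ P.eqLocus (powMonoidHom (Nat.card B)) := iSup_le fun m w hw => by
      change P w = w ^ Nat.card B
      rw [MonoidHom.finsetProd_apply, Finset.prod_eq_single (MulAut.conj (m : H) • B),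
        hν3 _ _ fun b => mem_fix.1 hw b b.2, Solv.card_conj_smul]
      · intro C hC hne
        obtain ⟨g, -, rfl⟩ := Finset.mem_image.1 hC
        exact h1 _ _ w hw hne
      · exact fun h => absurd (Finset.mem_image_of_mem _ (Finset.mem_univ m)) h
    have h3 : U' ≤ P.ker := iSup_le fun h w hw => by
      rw [MonoidHom.mem_ker, MonoidHom.finsetProd_apply]
      refine Finset.prod_eq_one fun C hC => ?_
      obtain ⟨g, -, rfl⟩ := Finset.mem_image.1 hC
      refine h1 _ _ w hw fun h4 => h.2 ((M.mul_mem_cancel_left (M.inv_mem g.2)).1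
        (hBM (mem_normalizer_iff_conj_smul_eq.2 ?_)))
      rw [conj_mul_smul, ← h4, conj_inv_smul_conj_smul]
    intro u hu hu'
    have h4 : u ^ Nat.card B = 1 := (h2 hu).symm.trans (h3 hu')
    exact orderOf_eq_one_iff.1 (Nat.eq_one_of_dvd_coprimes
      (coprime_card_of_isPGroup (hE.to_le hBE) hcop) (orderOf_dvd_of_pow_eq_one h4)
      (orderOf_dvd_natCard u))
  have h1 : ∃ c : H, ∃ u ∈ U, φ (c * a * c⁻¹) u ≠ u := by
    by_contra h
    push Not at h
    rcases hirr (⨅ c : H, fix φ (zpowers (c * a * c⁻¹))) (fun g w hw => mem_iInf.2 fun c =>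
      mem_fix_zpowers.2 (by
        rw [← happ, show c * a * c⁻¹ * g = g * (g⁻¹ * c * a * (g⁻¹ * c)⁻¹) by group, happ,
          mem_fix_zpowers.1 (mem_iInf.1 hw _)])) with h2 | h2
    · refine hv₀1 (h2.le (mem_iInf.2 fun c => mem_fix_zpowers.2 (h c v₀ ?_)))
      exact mem_iSup_of_mem (1 : M) (by rwa [coe_one, conj_one_smul])
    · refine ha1 (MulEquiv.ext fun w => ?_)
      simpa using mem_fix_zpowers.1 (mem_iInf.1 (h2.ge (mem_top w)) 1)
  obtain ⟨c, u, hu, hcu⟩ := h1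
  have hcN : c * a * c⁻¹ ∈ N := normalClosure_normal.conj_mem _ haN c
  obtain ⟨w, hw⟩ := ih M U hM.1 (restrictAut (φ.comp M.subtype) U fun m => hU1 m m.2)
    (N.subgroupOf M) ⟨_, hNM hcN⟩ inferInstance (hN.comap_subtype) hcN
    (Subtype.ext (by simp [conj_pow, ha])) (hcop.coprime_dvd_left (card_subgroup_dvd_card U))
    fun h => hcu (congrArg Subtype.val (DFunLike.congr_fun h (⟨u, hu⟩ : U)))
  have := Fintype.ofFinite (H ⧸ M)
  refine ⟨∏ q : H ⧸ M, φ q.out w, fun x hx => ?_⟩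
  obtain ⟨q, hq⟩ : ∃ q : H ⧸ M, q = (x * c⁻¹ : H) := ⟨_, rfl⟩
  have hm : q.out⁻¹ * (x * c⁻¹) ∈ M := QuotientGroup.eq.1 (by rw [QuotientGroup.out_eq', hq])
  refine hw ⟨_, hm⟩ (Subtype.ext ?_)
  change φ (q.out⁻¹ * (x * c⁻¹) * (c * a * c⁻¹) * (q.out⁻¹ * (x * c⁻¹))⁻¹) w = w
  obtain ⟨y, hy⟩ : ∃ y, y = q.out⁻¹ * (x * c⁻¹) * (c * a * c⁻¹) * (q.out⁻¹ * (x * c⁻¹))⁻¹ :=
    ⟨_, rfl⟩
  have hyM : y ∈ M := hy ▸ M.mul_mem (M.mul_mem hm (hNM hcN)) (M.inv_mem hm)
  rw [← hy]
  have h2 : φ y (φ q.out⁻¹ (∏ q : H ⧸ M, φ q.out w)) = φ q.out⁻¹ (∏ q : H ⧸ M, φ q.out w) := by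
    rw [← happ, show y * q.out⁻¹ = q.out⁻¹ * (x * a * x⁻¹) by rw [hy]; group, happ, hx]
  have h3 : ∏ r ∈ Finset.univ.erase q, φ q.out⁻¹ (φ r.out w) ∈ U' :=
    Subgroup.prod_mem _ fun r hr => by
      rw [← happ]
      refine hU3 _ (fun h => (Finset.mem_erase.1 hr).1 ?_) _ w.2
      rw [← QuotientGroup.out_eq' r, ← QuotientGroup.eq.2 h, QuotientGroup.out_eq']
  rw [map_prod, ← Finset.mul_prod_erase _ _ (Finset.mem_univ q), ← happ, inv_mul_cancel, map_one,
    MulAut.one_apply, map_mul] at h2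
  rw [← div_eq_one]
  refine hUU _ (U.div_mem (hU1 y hyM _ w.2) w.2) ?_
  rw [div_eq_div_iff_mul_eq_mul.2 (h2.trans (mul_comm _ _))]
  exact U'.div_mem h3 (hU2 y hyM _ h3)

theorem avoid (hp2 : p ≠ 2) (n : ℕ) : ∀ (H V : Type u) [Group H] [Finite H] [CommGroup V]
    [Finite V], Nat.card H + Nat.card V ≤ n → Avoid p H V := by
  induction n with
  | zero => intro H V _ _ _ _ h; have := Nat.card_pos (α := H); omega
  | succ n ih =>
  intro H V _ _ _ _ hn φ N a hNn hN haN ha hcop ha1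
  by_cases hφ : φ.ker = ⊥
  swap
  · have := card_quotient_lt hφ
    obtain ⟨v, hv⟩ := ih (H ⧸ φ.ker) V (by omega) (QuotientGroup.kerLift φ)
      (N.map (QuotientGroup.mk' _)) (a : H ⧸ φ.ker) (hNn.map _ (QuotientGroup.mk'_surjective _))
      (hN.map _) (mem_map_of_mem _ haN) (by rw [← QuotientGroup.mk_pow, ha]; rfl) hcop ha1
    exact ⟨v, fun x => hv (x : H ⧸ φ.ker)⟩
  by_cases hirr : ∀ U : Subgroup V, (∀ h, ∀ u ∈ U, φ h u ∈ U) → U = ⊥ ∨ U = ⊤
  swap
  · push Not at hirr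
    obtain ⟨U, hU, h1, h2⟩ := hirr
    have h3 := card_quotient_lt h1
    have h4 := card_lt_of_ne_top h2
    by_cases h5 : restrictAut φ U hU a = 1
    swap
    · obtain ⟨v, hv⟩ := ih H U (by omega) _ N a hNn hN haN ha
        (hcop.coprime_dvd_left (card_subgroup_dvd_card U)) h5
      exact ⟨v, fun x h => hv x (Subtype.ext h)⟩
    by_cases h6 : quotAut φ U hU a = 1
    swap
    · obtain ⟨v, hv⟩ := ih H (V ⧸ U) (by omega) _ N a hNn hN haN ha
        (hcop.coprime_dvd_left (card_quotient_dvd_card U)) h6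
      obtain ⟨v, rfl⟩ := QuotientGroup.mk_surjective v
      exact ⟨v, fun x h => hv x (by rw [quotAut_mk, h])⟩
    refine absurd (MulEquiv.ext fun v => ?_) ha1
    have h7 : v⁻¹ * φ a v ∈ U := QuotientGroup.eq.1 (DFunLike.congr_fun h6 (v : V ⧸ U)).symm
    have h8 : φ a (v⁻¹ * φ a v) = v⁻¹ * φ a v :=
      congrArg Subtype.val (DFunLike.congr_fun h5 (⟨_, h7⟩ : U))
    obtain ⟨u, hu⟩ : ∃ u, u = v⁻¹ * φ a v := ⟨_, rfl⟩
    rw [← hu] at h8
    have h9 : ∀ k : ℕ, φ (a ^ k) v = v * u ^ k := fun k => by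
      induction k with
      | zero => simp
      | succ k ihk =>
        rw [pow_succ', map_mul, MulAut.mul_apply, ihk, map_mul, map_pow, h8, pow_succ', ← mul_assoc,
          hu, mul_inv_cancel_left]
    have h10 := h9 p
    rw [ha, map_one, MulAut.one_apply, left_eq_mul] at h10
    have h11 := orderOf_eq_one_iff.1 (Nat.eq_one_of_dvd_coprimes hcop (orderOf_dvd_natCard u)
      (orderOf_dvd_of_pow_eq_one h10))
    rw [hu, inv_mul_eq_one] at h11
    exact h11.symm
  have hφ' := (MonoidHom.ker_eq_bot_iff φ).1 hφ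
  have hN' : IsPGroup p (normalClosure ({a} : Set H)) :=
    hN.to_le (normalClosure_le_normal (Set.singleton_subset_iff.2 haN))
  by_cases hch : ∀ A : Subgroup (normalClosure ({a} : Set H)), A.Characteristic →
      IsMulCommutative A → IsCyclic A
  · exact avoid_symplectic hp2 hφ' hirr hN' ha hcop ha1 hch
  push Not at hch
  obtain ⟨A, h1, h2, h3⟩ := hch
  have := normal_map_subtype_of_char A
  refine avoid_imprimitive (fun M U hM => ih M U ?_) hφ' hirr hN' ha hcop ha1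
    (E := A.map (normalClosure {a}).subtype) ((hN'.to_subgroup A).map _) fun h => h3
      (isCyclic_of_surjective _ (A.equivMapOfInjective _ (subtype_injective _)).symm.surjective)
  have := card_lt_of_ne_top hM
  have := card_le_card_group U
  omega

end Cfsg.Lib.Solv.RegOrb
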