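import Cfsg.Agent.Solv.TransOrderP
import Cfsg.Agent.Solv.PSolvable
import Cfsg.Agent.Solv.PGroupNormal
import Cfsg.Agent.Solv.FrobeniusGroup
import Cfsg.Agent.Trans.NormalComplement
import Cfsg.Agent.Trans.ChiefTools

/-! # `p`-solvable groups whose maximal subgroups are `p`-nilpotent or of prime index -/

set_option autoImplicit false

namespace Cfsg.Lib.Solv.MaxPNil

open Subgroup Cfsg.Lib.Solv Cfsg.Lib.Trans

variable {G : Type*} [Group G] [Finite G] {p : ℕ} [hp : Fact p.Prime]

theorem commutator_le_of_prime {O M : Subgroup G} [O.Normal] (hO : IsPGroup p O) (hOM : M ⊔ O = ⊤)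
    (hM : M.index.Prime) (P : Sylow p G) : ⁅normalClosure (P : Set G), O⁆ ≤ M := by
  have h1 : M.index = M.relIndex O := index_eq_relIndex_of_sup_eq_top hOM
  have h2 : M.index = p := by
    obtain ⟨k, hk⟩ := hO.exists_card_eq
    have : M.index ∣ p ^ k := h1 ▸ hk ▸ index_dvd_card _
    exact (Nat.prime_dvd_prime_iff_eq hM hp.1).1 (hM.dvd_of_dvd_pow this)
  have hn : (M ⊓ O).Normal := by
    rw [← normalizer_eq_top_iff, eq_top_iff, ← hOM]
    refine sup_le (le_normalizer_inf le_normalizer (Fpf.le_normalizer_of_normal' _ _)) ?_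
    have := PG.normal_of_index_eq_prime hO (M := M.subgroupOf O) (h1.symm.trans h2)
    rw [← inf_subgroupOf_right] at this
    exact (normal_subgroupOf_iff_le_normalizer inf_le_right).1 this
  refine le_trans (le_commLe_of_normal.1 (normalClosure_le_normal (N := commLe O (M ⊓ O)) ?_))
    inf_le_left
  have h3 : Nat.card (O.map (QuotientGroup.mk' (M ⊓ O))) = p := by
    rw [card_map_mk', inf_relIndex_right, ← h1, h2]
  have h4 := PG.inf_centralizer_ne_bot (P.isPGroup'.map (QuotientGroup.mk' (M ⊓ O)))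
    (hO.map (QuotientGroup.mk' (M ⊓ O))) ((map_mono (Fpf.le_normalizer_of_normal' O _)).trans
      (le_normalizer_map _)) (fun h => hp.1.one_lt.ne' (by rw [← h3, h, card_bot]))
  have h5 := eq_of_le_of_card_ge (inf_le_left : O.map (QuotientGroup.mk' (M ⊓ O)) ⊓
    centralizer ((P : Subgroup G).map (QuotientGroup.mk' (M ⊓ O)) : Set (G ⧸ M ⊓ O)) ≤ _) (by
      rw [h3, (hp.1.eq_one_or_self_of_dvd _ ((card_dvd_of_le inf_le_left).trans h3.dvd)).resolve_left
        (mt card_eq_one.1 h4)])
  intro x hx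
  refine mem_commLe_of_normal.2 fun c hc => (QuotientGroup.eq_one_iff _).1 ?_
  exact commutatorElement_eq_one_iff_mul_comm.2
    ((h5.ge (mem_map_of_mem _ hc)).2 _ (mem_map_of_mem _ hx))

theorem quotient_pCore (hG : IsPSolvable p G) (h0 : pPrimeCore p G = ⊥)
    (h : ∀ M : Subgroup G, IsCoatom M → HasNormalPComplement p M ∨ M.index.Prime) :
    HasNormalPComplement p (G ⧸ pCore p G) := by
  obtain ⟨Q, hQ, hQm, hQN⟩ := exists_complement_pCore_frattini G p
  by_contra hcon
  obtain ⟨P⟩ : Nonempty (Sylow p G) := inferInstance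
  set D := normalClosure (P : Set G)
  have hO := pCore_isPGroup p G
  have hQ0 : Q ⊓ D = ⊥ := by
    have hc := hQ.coprime_dvd_left (card_dvd_of_le (inf_le_left : Q ⊓ D ≤ Q))
    have hN : normalizer (Q : Set G) ≤ normalizer ((Q ⊓ D : Subgroup G) : Set G) :=
      le_normalizer_inf le_rfl (Fpf.le_normalizer_of_normal' _ _)
    rcases eq_top_or_exists_le_coatom (normalizer ((Q ⊓ D : Subgroup G) : Set G)) with
      h1 | ⟨M, hM, h1⟩
    · exact le_bot_iff.1 (h0 ▸ le_pPrimeCore (normalizer_eq_top_iff.1 h1) hc)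
    have hMO : M ⊔ pCore p G = ⊤ := top_le_iff.1 (hQN.ge.trans (sup_le_sup_right (hN.trans h1) _))
    rcases h M hM with h2 | h2
    · refine absurd (hasNormalPComplement_top_iff.1 ?_) hcon
      have := hasNormalPComplement_map (QuotientGroup.mk' (pCore p G)) h2
      rwa [← bot_sup_eq (M.map _), ← QuotientGroup.map_mk'_self, ← Subgroup.map_sup, sup_comm, hMO,
        map_top_of_surjective _ (QuotientGroup.mk'_surjective _)] at this
    · refine absurd (top_le_iff.1 (hMO.ge.trans (sup_le le_rfl ?_))) hM.1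
      rw [← Coprime.commutator_sup_centralizer (Fpf.le_normalizer_of_normal' (pCore p G) (Q ⊓ D))
        (coprime_card_of_isPGroup hO hc).symm (Or.inr (Coprime.isSolvable_of_isPGroup hO))]
      refine sup_le ?_ (inf_le_right.trans ((centralizer_le_normalizer _).trans h1))
      rw [commutator_comm]
      exact (commutator_mono inf_le_right le_rfl).trans (commutator_le_of_prime hO hMO h2 P)
  have hOD : pCore p G ≤ D := (pCore_le_sylow P).trans le_normalClosure
  have : (D.map (QuotientGroup.mk' (pCore p G))).Normal :=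
    Normal.map inferInstance _ (QuotientGroup.mk'_surjective _)
  have hD : D.map (QuotientGroup.mk' (pCore p G)) = ⊥ := by
    by_contra h1
    rcases IsPSolvable.core_inf_ne_bot (p := p) (IsPSolvable.subgroup (IsPSolvable.quotient hG _) _)
      h1 with h2 | h2
    · exact h2 (by rw [pCore_quotient_pCore, bot_inf_eq])
    · refine h2 ?_
      rw [← hQm, eq_bot_iff]
      rintro _ ⟨⟨x, hx, rfl⟩, hxD⟩
      replace hxD : x ∈ (D.map (QuotientGroup.mk' (pCore p G))).comap (QuotientGroup.mk' _) := hxD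
      rw [comap_map_eq, QuotientGroup.ker_mk', sup_eq_left.2 hOD] at hxD
      rw [mem_bot.1 (hQ0.le ⟨hx, hxD⟩), map_one]
      exact one_mem _
  rw [Subgroup.map_eq_bot_iff, QuotientGroup.ker_mk'] at hD
  exact hcon (hasNormalPComplement_of_coprime (coprime_iff_not_dvd'.2 fun h1 =>
    P.not_dvd_index (h1.trans (index_dvd_of_le (le_normalClosure.trans hD)))))

theorem exists_chain (hG : IsPSolvable p G)
    (h : ∀ M : Subgroup G, IsCoatom M →
      (∃ K : Subgroup M, K.Normal ∧ ¬ p ∣ Nat.card K ∧ ∃ k : ℕ, K.index = p ^ k) ∨ M.index.Prime) :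
    ∃ A B C : Subgroup G, A.Normal ∧ B.Normal ∧ C.Normal ∧ A ≤ B ∧ B ≤ C ∧ ¬ p ∣ Nat.card A ∧
      (∃ k : ℕ, A.relIndex B = p ^ k) ∧ ¬ p ∣ B.relIndex C ∧ ∃ k : ℕ, C.index = p ^ k := by
  have hs := QuotientGroup.mk'_surjective (pPrimeCore p G)
  have h1 := quotient_pCore (IsPSolvable.quotient hG (pPrimeCore p G))
    (pPrimeCore_quotient_pPrimeCore p G) fun M hM => by
      rcases h _ (isCoatom_comap_of_surjective hs hM) with ⟨K, hK, h1, k, h2⟩ | h1
      · left
        have := hasNormalPComplement_map (QuotientGroup.mk' (pPrimeCore p G))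
          (hasNormalPComplement_of_normal K (coprime_iff_not_dvd'.2 h1) (IsPGroup.of_card h2))
        rwa [map_comap_eq_self_of_surjective hs] at this
      · right; rwa [index_comap_of_surjective _ hs] at h1
  set O := pCore p (G ⧸ pPrimeCore p G)
  have hs' := QuotientGroup.mk'_surjective O
  refine ⟨pPrimeCore p G, O.comap (QuotientGroup.mk' _),
    ((pResidual p _).comap (QuotientGroup.mk' O)).comap (QuotientGroup.mk' _), inferInstance,
    inferInstance, inferInstance, QuotientGroup.le_comap_mk' _ _,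
    comap_mono (QuotientGroup.le_comap_mk' _ _), coprime_iff_not_dvd'.1 (coprime_card_pPrimeCore p G),
    ?_, ?_, ?_⟩
  · rw [relIndex_comap_mk']; exact (pCore_isPGroup p _).exists_card_eq
  · rw [relIndex_comap, map_comap_eq_self_of_surjective hs, relIndex_comap_mk']
    exact hasNormalPComplement_iff_not_dvd.1 h1
  · rw [index_comap_of_surjective _ hs, index_comap_of_surjective _ hs']
    exact exists_index_pResidual_eq

end Cfsg.Lib.Solv.MaxPNil
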