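import Mathlib.Data.Nat.Prime.Int
import Cfsg.Agent.Solv.SectionAut
import Cfsg.Agent.Solv.CoprimeAbelian

/-!
Maschke's theorem for elementary abelian sections, and homocyclic direct factors of abelian
`p`-groups.
-/

set_option autoImplicit false

namespace Cfsg.Lib.Solv.Coprime

open Subgroup
open scoped Pointwise commutatorElement

/-- Maschke's theorem for an elementary abelian section `B / N`, abstract form. -/
theorem exists_invariant_complement_section' {K A : Type*} [Group K] [Group A] [Finite A] {p : ℕ}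
    [Fact p.Prime] (hA : (Nat.card A).Coprime p) (φ : A →* MulAut K) {N U B : Subgroup K}
    (hNU : N ≤ U) (hUB : U ≤ B) (hN : ∀ a, ∀ x ∈ N, φ a x ∈ N) (hU : ∀ a, ∀ x ∈ U, φ a x ∈ U)
    (hB : ∀ a, ∀ x ∈ B, φ a x ∈ B) (hc : ⁅B, B⁆ ≤ N) (hp : ∀ x ∈ B, x ^ p ∈ N) :
    ∃ D : Subgroup K, (∀ a, ∀ x ∈ D, φ a x ∈ D) ∧ U ⊓ D = N ∧ U ⊔ D = B := by
  have hNB := hNU.trans hUB
  have : (N.subgroupOf B).Normal :=
    normal_subgroupOf_of_le_normalizer (le_normalizer_of_commutator_le hNB hc)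
  have := isMulCommutative_section hc
  have : ElemAb p (B ⧸ N.subgroupOf B) := ElemAb.of_isMulCommutative fun x => by
    obtain ⟨x, rfl⟩ := QuotientGroup.mk_surjective x
    rw [← QuotientGroup.mk_pow, QuotientGroup.eq_one_iff]
    exact hp x x.2
  let ψ := quotAut (restrictAut φ B hB) (N.subgroupOf B) (fun a x hx => hN a x hx)
  obtain ⟨W, hW, hWi⟩ := ElemAb.exists_invariant_isCompl p hA ψ
    ((U.subgroupOf B).map (QuotientGroup.mk' _)) (by
      rintro a _ ⟨x, hx, rfl⟩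
      exact ⟨restrictAut φ B hB a x, hU a x hx, rfl⟩)
  refine ⟨sectionPreimage B N W, ?_, le_antisymm ?_ (le_inf hNU (le_sectionPreimage hNB W)),
    le_antisymm (sup_le hUB (sectionPreimage_le W)) ?_⟩
  · rintro a _ ⟨x, hx, rfl⟩
    exact ⟨restrictAut φ B hB a x, hWi a _ hx, rfl⟩
  · rintro _ ⟨hx, x, hx', rfl⟩
    have h1 : (QuotientGroup.mk x : B ⧸ N.subgroupOf B) ∈
        (U.subgroupOf B).map (QuotientGroup.mk' _) ⊓ W := ⟨⟨x, hx, rfl⟩, hx'⟩
    rw [hW.inf_eq_bot, mem_bot, QuotientGroup.eq_one_iff] at h1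
    exact h1
  · intro x hx
    have h1 : (QuotientGroup.mk ⟨x, hx⟩ : B ⧸ N.subgroupOf B) ∈
        (U.subgroupOf B).map (QuotientGroup.mk' _) ⊔ W := hW.sup_eq_top ▸ mem_top _
    obtain ⟨_, ⟨u, hu, rfl⟩, w, hw, h2⟩ := mem_sup_of_normal_right.mp h1
    have h3 : ((u⁻¹ * ⟨x, hx⟩ : B) : K) ∈ sectionPreimage B N W := by
      rw [mem_sectionPreimage, QuotientGroup.mk_mul, ← h2, QuotientGroup.mk_inv,
        QuotientGroup.mk'_apply, inv_mul_cancel_left]
      exact hw
    have := mul_mem_sup (show (u : K) ∈ U from hu) h3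
    simpa using this

/-- Maschke's theorem for an elementary abelian section `B / N`, ambient form. -/
theorem exists_invariant_complement_section {G : Type*} [Group G] {p : ℕ} [Fact p.Prime]
    {A N U B : Subgroup G} [Finite A] (hA : (Nat.card A).Coprime p) (hNU : N ≤ U) (hUB : U ≤ B)
    (hN : A ≤ normalizer (N : Set G)) (hU : A ≤ normalizer (U : Set G))
    (hB : A ≤ normalizer (B : Set G)) (hc : ⁅B, B⁆ ≤ N) (hp : ∀ x ∈ B, x ^ p ∈ N) :
    ∃ D : Subgroup G, A ≤ normalizer (D : Set G) ∧ U ⊓ D = N ∧ U ⊔ D = B := by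
  obtain ⟨D, h1, h2⟩ := exists_invariant_complement_section' hA
    ((MulAut.conj : G →* MulAut G).comp A.subtype) hNU hUB
    (fun a => le_normalizer_iff.mp hN a a.2) (fun a => le_normalizer_iff.mp hU a a.2)
    (fun a => le_normalizer_iff.mp hB a a.2) hc hp
  exact ⟨D, le_normalizer_iff.mpr fun a ha => h1 ⟨a, ha⟩, h2⟩

/-- In an abelian group of exponent dividing `p ^ (e + 1)`, a subgroup `B` whose elements of order
dividing `p ^ e` are `p`-th powers in `B` (a homocyclic subgroup of maximal exponent) has a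
complement. -/
theorem exists_isCompl_of_homocyclic {V : Type*} [CommGroup V] [Finite V] {p e : ℕ}
    [hp : Fact p.Prime] (hV : ∀ x : V, x ^ p ^ (e + 1) = 1) {B : Subgroup V}
    (hB : ∀ b ∈ B, b ^ p ^ e = 1 → ∃ c ∈ B, c ^ p = b) : ∃ W : Subgroup V, IsCompl B W := by
  obtain ⟨W, -, hW⟩ := Finite.exists_le_maximal (p := fun W : Subgroup V => Disjoint B W) (a := ⊥)
    disjoint_bot_right
  refine ⟨W, hW.prop, codisjoint_iff.mpr (eq_top_iff.mpr ?_)⟩
  have key : ∀ a : V, a ^ p ∈ B ⊔ W → a ∈ B ⊔ W := by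
    intro a ha
    obtain ⟨b, hb, w, hw, h⟩ := mem_sup.mp ha
    have h1 : b ^ p ^ e = 1 := by
      have h2 : b ^ p ^ e * w ^ p ^ e = 1 := by rw [← mul_pow, h, ← pow_mul, ← pow_succ', hV]
      exact disjoint_def.mp hW.prop (pow_mem hb _)
        (by rw [eq_inv_of_mul_eq_one_left h2]; exact inv_mem (pow_mem hw _))
    obtain ⟨c, hc, rfl⟩ := hB b hb h1
    have h3 : (a * c⁻¹) ^ p ∈ W := by
      rw [mul_pow, ← h, inv_pow, mul_inv_cancel_comm]; exact hw
    suffices a * c⁻¹ ∈ B ⊔ W by simpa using mul_mem this (mem_sup_left hc)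
    by_contra hcon
    have h4 : Disjoint B (W ⊔ zpowers (a * c⁻¹)) := by
      rw [disjoint_def]
      intro x hx hx'
      obtain ⟨w', hw', _, ⟨j, rfl⟩, rfl⟩ := mem_sup.mp hx'
      by_cases hj : (p : ℤ) ∣ j
      · obtain ⟨j, rfl⟩ := hj
        refine disjoint_def.mp hW.prop hx (mul_mem hw' ?_)
        change (a * c⁻¹) ^ ((p : ℤ) * j) ∈ W
        rw [zpow_mul, zpow_natCast]
        exact zpow_mem h3 j
      · exfalso
        apply hcon
        obtain ⟨u, v, huv⟩ : IsCoprime (p : ℤ) j :=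
          (Nat.prime_iff_prime_int.mp hp.out).irreducible.coprime_iff_not_dvd.mpr hj
        have h5 : (a * c⁻¹) ^ j ∈ B ⊔ W := by
          simpa using mul_mem (mem_sup_right (S := B) (inv_mem hw')) (mem_sup_left hx)
        rw [← zpow_one (a * c⁻¹), ← huv, zpow_add, mul_comm u, mul_comm v, zpow_mul, zpow_mul,
          zpow_natCast]
        exact mul_mem (zpow_mem (mem_sup_right h3) u) (zpow_mem h5 v)
    exact hcon (mem_sup_right (hW.le_of_ge h4 le_sup_left (mem_sup_right (mem_zpowers _))))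
  have key2 : ∀ (n : ℕ) (a : V), a ^ p ^ n ∈ B ⊔ W → a ∈ B ⊔ W := by
    intro n
    induction n with
    | zero => simp
    | succ n ih => intro a ha; exact ih a (key _ (by rwa [← pow_mul, ← pow_succ]))
  intro a _
  exact key2 (e + 1) a (by rw [hV]; exact one_mem _)

end Cfsg.Lib.Solv.Coprime
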