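import Mathlib
import Cfsg.Agent.Solv.ElemAb

/-! Small representations over the field with two elements. -/

set_option autoImplicit false

namespace Cfsg.Lib.Solv.F2S

open Module

variable {G : Type*} [Group G] {V : Type*} [AddCommGroup V] [Module (ZMod 2) V]

/-- The elements fixing a subspace pointwise. -/
def fixer (ρ : Representation (ZMod 2) G V) (T : Submodule (ZMod 2) V) : Subgroup G where
  carrier := {g | ∀ w ∈ T, ρ g w = w}
  one_mem' w _ := by simp
  mul_mem' {a b} ha hb w hw := by rw [map_mul, End.mul_apply, hb w hw, ha w hw]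
  inv_mem' {a} ha w hw := by
    conv_lhs => rw [← ha w hw]
    rw [← End.mul_apply, ← map_mul, inv_mul_cancel, map_one, End.one_apply]

/-- The elements acting trivially on the quotient by a subspace. -/
def mover (ρ : Representation (ZMod 2) G V) (W : Submodule (ZMod 2) V) : Subgroup G where
  carrier := {g | ∀ v, ρ g v - v ∈ W}
  one_mem' v := by simp
  mul_mem' {a b} ha hb v := by
    have := add_mem (ha (ρ b v)) (hb v)
    rwa [sub_add_sub_cancel, ← End.mul_apply, ← map_mul] at this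
  inv_mem' {a} ha v := by
    have := neg_mem (ha (ρ a⁻¹ v))
    rwa [← End.mul_apply, ← map_mul, mul_inv_cancel, map_one, End.one_apply, neg_sub] at this

variable {ρ : Representation (ZMod 2) G V}

theorem mem_fixer {T : Submodule (ZMod 2) V} {g : G} : g ∈ fixer ρ T ↔ ∀ w ∈ T, ρ g w = w :=
  Iff.rfl

theorem mem_mover {W : Submodule (ZMod 2) V} {g : G} : g ∈ mover ρ W ↔ ∀ v, ρ g v - v ∈ W :=
  Iff.rfl

theorem mover_mono {W W' : Submodule (ZMod 2) V} (h : W ≤ W') : mover ρ W ≤ mover ρ W' :=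
  fun _ hg v => h (hg v)

theorem fixer_anti {W W' : Submodule (ZMod 2) V} (h : W ≤ W') : fixer ρ W' ≤ fixer ρ W :=
  fun _ hg v hv => hg v (h hv)

theorem apply_mem_of_mover {W : Submodule (ZMod 2) V} {g : G} (hg : g ∈ mover ρ W) {w : V}
    (hw : w ∈ W) : ρ g w ∈ W := by
  simpa using add_mem (hg w) hw

/-- The commutator space of an element. -/
def cm (ρ : Representation (ZMod 2) G V) (g : G) : Submodule (ZMod 2) V :=
  LinearMap.range (ρ g - 1)

theorem sub_mem_cm (g : G) (v : V) : ρ g v - v ∈ cm ρ g := ⟨v, rfl⟩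

theorem mem_cm {g : G} {w : V} : w ∈ cm ρ g ↔ ∃ v, ρ g v - v = w := Iff.rfl

theorem mem_mover_iff {W : Submodule (ZMod 2) V} {g : G} : g ∈ mover ρ W ↔ cm ρ g ≤ W :=
  ⟨fun h _ ⟨v, hv⟩ => hv ▸ h v, fun h v => h (sub_mem_cm g v)⟩

theorem mem_mover_cm (g : G) : g ∈ mover ρ (cm ρ g) := mem_mover_iff.2 le_rfl

theorem apply_inv_apply (g : G) (v : V) : ρ g (ρ g⁻¹ v) = v := by
  rw [← End.mul_apply, ← map_mul, mul_inv_cancel, map_one, End.one_apply]

theorem inv_apply_apply (g : G) (v : V) : ρ g⁻¹ (ρ g v) = v := by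
  rw [← End.mul_apply, ← map_mul, inv_mul_cancel, map_one, End.one_apply]

theorem mul_app (g h : G) (v : V) : ρ (g * h) v = ρ g (ρ h v) := by
  rw [map_mul, End.mul_apply]

theorem cm_conj (g x : G) : cm ρ (g * x * g⁻¹) = (cm ρ x).map (ρ g) := by
  ext w
  constructor
  · rintro ⟨v, rfl⟩
    refine ⟨_, sub_mem_cm x (ρ g⁻¹ v), ?_⟩
    simp only [map_sub, apply_inv_apply, LinearMap.sub_apply, mul_app, End.one_apply]
  · rintro ⟨_, ⟨v, rfl⟩, rfl⟩
    refine ⟨ρ g v, ?_⟩
    simp only [map_sub, inv_apply_apply, LinearMap.sub_apply, mul_app, End.one_apply]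

theorem apply_injective (g : G) : Function.Injective (ρ g) :=
  Function.LeftInverse.injective (inv_apply_apply g)

theorem finrank_map (g : G) (W : Submodule (ZMod 2) V) :
    finrank (ZMod 2) (W.map (ρ g)) = finrank (ZMod 2) W :=
  (Submodule.equivMapOfInjective _ (apply_injective g) W).finrank_eq.symm

theorem finrank_cm_conj (g x : G) :
    finrank (ZMod 2) (cm ρ (g * x * g⁻¹)) = finrank (ZMod 2) (cm ρ x) := by
  rw [cm_conj, finrank_map]

theorem add_self_eq (v : V) : v + v = 0 := by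
  rw [← two_smul (ZMod 2) v]
  exact (congrArg (· • v) (by decide : (2 : ZMod 2) = 0)).trans (zero_smul _ v)

theorem neg_eq_self (v : V) : -v = v := neg_eq_of_add_eq_zero_left (add_self_eq v)

theorem sub_eq_add (v w : V) : v - w = v + w := by rw [sub_eq_add_neg, neg_eq_self]

/-- The restriction of the action to an invariant subspace. -/
def resHom (H : Subgroup G) (T : Submodule (ZMod 2) V) (hT : ∀ h ∈ H, ∀ w ∈ T, ρ h w ∈ T) :
    H →* End (ZMod 2) T where
  toFun h := (ρ h).restrict (hT h h.2)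
  map_one' := by ext w; simp
  map_mul' a b := by ext w; simp

theorem relIndex_fixer_dvd {H : Subgroup G} {T : Submodule (ZMod 2) V}
    (hT : ∀ h ∈ H, ∀ w ∈ T, ρ h w ∈ T) :
    (fixer ρ T).relIndex H ∣ Nat.card (T ≃ₗ[ZMod 2] T) := by
  have hk : (resHom H T hT).toHomUnits.ker = (fixer ρ T).subgroupOf H := by
    ext h
    rw [MonoidHom.mem_ker, Units.ext_iff, Subgroup.mem_subgroupOf, mem_fixer]
    constructor
    · intro h1 w hw
      exact congrArg (fun f : End (ZMod 2) T => ((f ⟨w, hw⟩ : T) : V)) h1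
    · intro h1
      ext w
      exact h1 w w.2
  rw [Subgroup.relIndex, ← hk, Subgroup.index_ker,
    ← Nat.card_congr (LinearMap.GeneralLinearGroup.generalLinearEquiv (ZMod 2) T).toEquiv]
  exact Subgroup.card_subgroup_dvd_card _

theorem card_linEquiv {T : Type*} [AddCommGroup T] [Module (ZMod 2) T] [Finite T] {n : ℕ}
    (h : finrank (ZMod 2) T = n) :
    Nat.card (T ≃ₗ[ZMod 2] T) = ∏ i : Fin n, (2 ^ n - 2 ^ (i : ℕ)) := by
  have b := Module.finBasisOfFinrankEq (ZMod 2) T h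
  rw [← Nat.card_congr (LinearMap.GeneralLinearGroup.generalLinearEquiv (ZMod 2) T).toEquiv,
    ← Nat.card_congr (Matrix.GeneralLinearGroup.toLin' b).toEquiv, Matrix.card_GL_field]
  simp

theorem card_linEquiv_dvd {T : Type*} [AddCommGroup T] [Module (ZMod 2) T] [Finite T] :
    (finrank (ZMod 2) T ≤ 2 → Nat.card (T ≃ₗ[ZMod 2] T) ∣ 6) ∧
    (finrank (ZMod 2) T ≤ 3 → Nat.card (T ≃ₗ[ZMod 2] T) ∣ 168) ∧
    (finrank (ZMod 2) T ≤ 4 → Nat.card (T ≃ₗ[ZMod 2] T) ∣ 20160) := by
  rw [card_linEquiv rfl]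
  generalize finrank (ZMod 2) T = n
  refine ⟨fun h => ?_, fun h => ?_, fun h => ?_⟩ <;> interval_cases n <;> decide

theorem eq_one_of_mover_fixer (hρ : Function.Injective ρ) {W : Submodule (ZMod 2) V} {g : G}
    (h1 : g ∈ mover ρ W) (h2 : g ∈ fixer ρ W) (ho : Odd (orderOf g)) : g = 1 := by
  have h3 : g ^ 2 = 1 := by
    apply hρ
    ext v
    have := h2 _ (h1 v)
    rw [map_sub, sub_eq_add, sub_eq_add, ← mul_app] at this
    rw [pow_two, map_one, End.one_apply]
    exact add_right_cancel (this.trans (add_comm _ _))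
  have := orderOf_dvd_of_pow_eq_one h3
  rcases (Nat.dvd_prime Nat.prime_two).1 this with h | h
  · exact orderOf_eq_one_iff.1 h
  · rw [h] at ho; exact absurd ho (by decide)

theorem card_dvd_of_le_mover (hρ : Function.Injective ρ) {W : Submodule (ZMod 2) V}
    {H : Subgroup G} (h : H ≤ mover ρ W) (ho : Odd (Nat.card H)) :
    Nat.card H ∣ Nat.card (W ≃ₗ[ZMod 2] W) := by
  have h1 := relIndex_fixer_dvd (ρ := ρ) (H := H) (T := W)
    (fun g hg w hw => apply_mem_of_mover (h hg) hw)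
  have h2 : (fixer ρ W).subgroupOf H = ⊥ := by
    rw [eq_bot_iff]
    intro g hg
    have : (g : G) = 1 := eq_one_of_mover_fixer hρ (h g.2) hg
      (Odd.of_dvd_nat ho (by rw [Subgroup.orderOf_coe]; exact orderOf_dvd_natCard g))
    exact Subtype.ext this
  rwa [Subgroup.relIndex, h2, Subgroup.index_bot] at h1

section Three

variable {x : G}

theorem sum_three (hx : x ^ 3 = 1) {w : V} (hw : w ∈ cm ρ x) : ρ x (ρ x w) + ρ x w + w = 0 := by
  obtain ⟨v, rfl⟩ := mem_cm.1 hw
  have : ρ x (ρ x (ρ x v)) = v := by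
    rw [← mul_app, ← mul_app, ← pow_two, ← pow_succ, hx, map_one, End.one_apply]
  simp only [map_sub, this]
  abel

theorem eq_zero_of_fixed (hx : x ^ 3 = 1) {w : V} (hw : w ∈ cm ρ x) (h : ρ x w = w) : w = 0 := by
  have := sum_three hx hw
  rwa [h, h, add_self_eq, zero_add] at this

/-- The commutator space of an element of order three is irreducible when it is a plane. -/
theorem cm_le_of_mem [Finite V] (hx : x ^ 3 = 1) (h2 : finrank (ZMod 2) (cm ρ x) = 2)
    {U : Submodule (ZMod 2) V} {w : V} (hw : w ∈ cm ρ x) (h0 : w ≠ 0) (hU : w ∈ U)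
    (hU' : ρ x w ∈ U) : cm ρ x ≤ U := by
  have hli : LinearIndependent (ZMod 2) ![w, ρ x w] := by
    rw [LinearIndependent.pair_iff]
    intro s t hst
    have hs : ∀ s : ZMod 2, s = 0 ∨ s = 1 := by decide
    rcases hs s with rfl | rfl <;> rcases hs t with rfl | rfl
    · exact ⟨rfl, rfl⟩
    · rw [zero_smul, one_smul, zero_add] at hst
      exact absurd (apply_injective x (hst.trans (map_zero _).symm)) h0
    · rw [zero_smul, one_smul, add_zero] at hst
      exact absurd hst h0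
    · rw [one_smul, one_smul] at hst
      exact absurd (eq_zero_of_fixed hx hw
        ((eq_neg_of_add_eq_zero_right hst).trans (neg_eq_self w))) h0
  have hle : Submodule.span (ZMod 2) (Set.range ![w, ρ x w]) ≤ cm ρ x ⊓ U := by
    rw [Submodule.span_le]
    rintro _ ⟨i, rfl⟩
    fin_cases i
    · exact ⟨hw, hU⟩
    · exact ⟨apply_mem_of_mover (mem_mover_cm x) hw, hU'⟩
  have := Submodule.eq_of_le_of_finrank_eq (hle.trans inf_le_left)
    (by rw [finrank_span_eq_card hli, h2]; simp)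
  exact this.ge.trans (hle.trans inf_le_right)

theorem cm_pow_le (g : G) (n : ℕ) : cm ρ (g ^ n) ≤ cm ρ g :=
  mem_mover_iff.1 (pow_mem (mem_mover_cm g) n)

theorem finrank_sup_le [Finite V] (A B : Submodule (ZMod 2) V) :
    finrank (ZMod 2) ↥(A ⊔ B) ≤ finrank (ZMod 2) A + finrank (ZMod 2) B :=
  Submodule.finrank_add_le_finrank_add_finrank A B

theorem le_of_pow_dvd {p k n : ℕ} (hp : p.Prime) (h : p ^ k ∣ n) (h2 : ¬ p ^ 2 ∣ n) :
    p ^ k ≤ p := by
  rcases Nat.lt_or_ge k 2 with hk | hk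
  · calc p ^ k ≤ p ^ 1 := Nat.pow_le_pow_right hp.pos (by omega)
      _ = p := pow_one p
  · exact absurd ((pow_dvd_pow p hk).trans h) h2

theorem not_sq_dvd {p : ℕ} (hp : p.Prime) (h5 : 5 ≤ p) : ¬ p ^ 2 ∣ 20160 := by
  intro h
  have h1 : p ∣ 2 ^ 6 * 3 ^ 2 * 5 * 7 := (dvd_pow_self p two_ne_zero).trans h
  rcases (Nat.Prime.dvd_mul hp).1 h1 with h1 | h1
  · rcases (Nat.Prime.dvd_mul hp).1 h1 with h1 | h1
    · rcases (Nat.Prime.dvd_mul hp).1 h1 with h1 | h1
      · have := Nat.le_of_dvd (by norm_num) (hp.dvd_of_dvd_pow h1); omega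
      · have := Nat.le_of_dvd (by norm_num) (hp.dvd_of_dvd_pow h1); omega
    · obtain rfl := (Nat.prime_dvd_prime_iff_eq hp (by norm_num)).1 h1
      exact absurd h (by norm_num)
  · obtain rfl := (Nat.prime_dvd_prime_iff_eq hp (by norm_num)).1 h1
    exact absurd h (by norm_num)

/-- A `p`-group moving only a space of dimension at most four has order at most `p`. -/
theorem card_le_of_le_mover [Finite G] [Finite V] (hρ : Function.Injective ρ) {p : ℕ}
    [hp : Fact p.Prime] (h5 : 5 ≤ p) {W : Submodule (ZMod 2) V} (hW : finrank (ZMod 2) W ≤ 4)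
    {H : Subgroup G} (hH : IsPGroup p H) (h : H ≤ mover ρ W) : Nat.card H ≤ p := by
  obtain ⟨k, hk⟩ := hH.exists_card_eq
  have ho : Odd (Nat.card H) := hk ▸ (hp.out.odd_of_ne_two (by omega)).pow
  have := (card_dvd_of_le_mover hρ h ho).trans (card_linEquiv_dvd.2.2 hW)
  rw [hk] at this ⊢
  exact le_of_pow_dvd hp.out this (not_sq_dvd hp.out h5)

theorem le_zpowers_of_card_le [Finite G] {p : ℕ} [hp : Fact p.Prime] {H : Subgroup G}
    (hH : IsPGroup p H) (h : Nat.card H ≤ p) {y : G} (hy : y ∈ H) (h1 : y ≠ 1) :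
    H = Subgroup.zpowers y ∧ orderOf y = p := by
  obtain ⟨k, hk⟩ := IsPGroup.iff_orderOf.1 hH ⟨y, hy⟩
  rw [← Subgroup.orderOf_coe] at hk
  have hk0 : k ≠ 0 := by
    rintro rfl
    exact h1 (orderOf_eq_one_iff.1 hk)
  have h2 : p ≤ orderOf y := hk ▸ Nat.le_self_pow hk0 p
  have h3 : Subgroup.zpowers y ≤ H := by rwa [Subgroup.zpowers_le]
  have h4 := Subgroup.card_le_of_le h3
  rw [Nat.card_zpowers] at h4
  refine ⟨(Subgroup.eq_of_le_of_card_ge h3 ?_).symm, by omega⟩
  rw [Nat.card_zpowers]; omega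

theorem eq_zero_of_fixed_odd {y : G} {n : ℕ} (hn : Odd n) (hy : y ^ n = 1) {w : V}
    (hw : w ∈ cm ρ y) (h : ρ y w = w) : w = 0 := by
  obtain ⟨v, rfl⟩ := mem_cm.1 hw
  have h1 : ∀ i : ℕ, ρ (y ^ i) v = v + i • (ρ y v - v) := by
    intro i
    induction i with
    | zero => simp
    | succ i ih =>
      rw [pow_succ', mul_app, ih, map_add, map_nsmul, h, succ_nsmul]
      abel
  have h2 := h1 n
  obtain ⟨m, rfl⟩ := hn
  rw [hy, map_one, End.one_apply, succ_nsmul, mul_nsmul, two_nsmul, add_self_eq, nsmul_zero,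
    zero_add] at h2
  exact (left_eq_add.1 h2)

theorem card_cm_modEq [Finite V] {y : G} {p : ℕ} [hp : Fact p.Prime] (hp2 : p ≠ 2)
    (hy : orderOf y = p) : Nat.card (cm ρ y) ≡ 1 [MOD p] := by
  classical
  have := Fintype.ofFinite (cm ρ y)
  let f : Function.End (cm ρ y) := fun w => ⟨ρ y w, apply_mem_of_mover (mem_mover_cm y) w.2⟩
  have hf : ∀ (i : ℕ) (w : cm ρ y), (((f ^ i) w : cm ρ y) : V) = ρ (y ^ i) w := by
    intro i
    induction i with
    | zero => intro w; simp; rfl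
    | succ i ih => intro w; rw [pow_succ, pow_succ, mul_app]; exact ih (f w)
  have hyp : y ^ p = 1 := hy ▸ pow_orderOf_eq_one y
  have h1 : f ^ p ^ 1 = 1 := by
    funext w
    apply Subtype.ext
    rw [hf, pow_one, hyp, map_one]; rfl
  have h2 := Equiv.Perm.card_fixedPoints_modEq h1
  have h3 : Fintype.card f.fixedPoints = 1 := by
    rw [Fintype.card_eq_one_iff]
    refine ⟨⟨0, Subtype.ext (map_zero _)⟩, fun w => Subtype.ext (Subtype.ext ?_)⟩
    exact eq_zero_of_fixed_odd (hp.out.odd_of_ne_two hp2) hyp w.1.2 (congrArg Subtype.val w.2)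
  rwa [h3, ← Nat.card_eq_fintype_card] at h2

/-- Two conjugate planes under a normalized `p`-group span at most a three-space. -/
theorem finrank_sup_le_three [Finite G] [Finite V] (hρ : Function.Injective ρ) (hx : x ^ 3 = 1)
    (h2 : finrank (ZMod 2) (cm ρ x) = 2) {p : ℕ} [hp : Fact p.Prime] (h5 : 5 ≤ p) {P : Subgroup G}
    (hP : IsPGroup p P) (hxP : x ∈ Subgroup.normalizer (P : Set G)) {u : G} (hu : u ∈ P) :
    finrank (ZMod 2) ↥(cm ρ x ⊔ cm ρ (u * x * u⁻¹)) ≤ 3 := by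
  have h55 : ∀ c : ZMod 5, c + c ^ 2 + 1 ≠ 0 := by decide
  set b := u * x * u⁻¹ with hb
  set T := cm ρ x ⊔ cm ρ b with hT
  have hT4 : finrank (ZMod 2) T ≤ 4 := by
    have := finrank_sup_le (cm ρ x) (cm ρ b)
    rw [hb, finrank_cm_conj, h2] at this
    exact this
  set y := x⁻¹ * b with hy
  have hyP : y ∈ P := by
    have : y = (x⁻¹ * u * x) * u⁻¹ := by rw [hy, hb]; group
    rw [this]
    refine mul_mem ?_ (inv_mem hu)
    have := (Subgroup.mem_normalizer_iff.1 (inv_mem hxP) u).1 hu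
    rwa [inv_inv] at this
  have hxT : x ∈ mover ρ T := mover_mono le_sup_left (mem_mover_cm x)
  have hyT : y ∈ mover ρ T := mul_mem (inv_mem hxT) (mover_mono le_sup_right (mem_mover_cm b))
  by_cases hy1 : y = 1
  · have : b = x := by rw [← mul_inv_cancel_left x b, ← hy, hy1, mul_one]
    rw [hT, this, sup_idem, h2]; omega
  have hH : IsPGroup p ↥(P ⊓ mover ρ T) := hP.to_le inf_le_left
  obtain ⟨hz, ho⟩ := le_zpowers_of_card_le hH (card_le_of_le_mover hρ h5 hT4 hH inf_le_right)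
    ⟨hyP, hyT⟩ hy1
  have hc : x * y * x⁻¹ ∈ Subgroup.zpowers y := by
    rw [← hz]
    exact Subgroup.mem_inf.2 ⟨(Subgroup.mem_normalizer_iff.1 hxP y).1 hyP,
      mul_mem (mul_mem hxT hyT) (inv_mem hxT)⟩
  obtain ⟨k, hk⟩ := (mem_powers_iff_mem_zpowers.2 hc)
  simp only at hk
  -- the relation `1 + k + k ^ 2 = 0`
  have hb3 : (x * y) ^ 3 = 1 := by
    have : x * y = u * x * u⁻¹ := by rw [hy, hb]; group
    rw [this, conj_pow, hx]; group
  have hrel : y ^ (k + k ^ 2 + 1) = 1 := by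
    have h1 : x * (x * y * x⁻¹) * x⁻¹ = y ^ k ^ 2 := by
      rw [← hk, ← conj_pow, ← hk, ← pow_mul, pow_two]
    have h3 : (x * y) ^ 3 = (x * y * x⁻¹) * (x * (x * y * x⁻¹) * x⁻¹) * x ^ 3 * y := by
      simp only [pow_succ, pow_zero]; group
    rw [hb3, hx, h1, ← hk, mul_one, ← pow_add, ← pow_succ] at h3
    exact h3.symm
  have hdv : p ∣ k + k ^ 2 + 1 := ho ▸ orderOf_dvd_of_pow_eq_one hrel
  -- `U = [V, y]`
  set U := cm ρ y with hU
  have hUT : U ≤ T := mem_mover_iff.1 hyT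
  have hUx : ∀ w ∈ U, ρ x w ∈ U := fun w hw => by
    have : ρ x w ∈ cm ρ (x * y * x⁻¹) := by rw [cm_conj]; exact ⟨w, hw, rfl⟩
    rw [← hk] at this
    exact cm_pow_le y k this
  have hodd : Odd (orderOf y) := ho ▸ hp.out.odd_of_ne_two (by omega)
  have hWU : cm ρ x ≤ U := by
    by_cases hf : ∀ w ∈ U, ρ x w = w
    · exfalso
      have h1 : x⁻¹ * y⁻¹ * x * y ∈ fixer ρ U := fun w hw => by
        have h1 : ρ y w ∈ U := apply_mem_of_mover (mem_mover_cm y) hw
        rw [mul_app, mul_app, mul_app, hf _ h1, inv_apply_apply]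
        exact (inv_mem (show x ∈ fixer ρ U from hf) : x⁻¹ ∈ fixer ρ U) w hw
      have h3 : x * (x⁻¹ * y⁻¹ * x * y) * x⁻¹ ∈ fixer ρ U :=
        mul_mem (mul_mem (show x ∈ fixer ρ U from hf) h1)
          (inv_mem (show x ∈ fixer ρ U from hf))
      have h4 : x * (x⁻¹ * y⁻¹ * x * y) * x⁻¹ = y⁻¹ * y ^ k := by rw [hk]; group
      rw [h4] at h3
      have h5' : y⁻¹ * y ^ k ∈ Subgroup.zpowers y :=
        mul_mem (inv_mem (Subgroup.mem_zpowers y)) (pow_mem (Subgroup.mem_zpowers y) k)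
      have h6 : y⁻¹ * y ^ k = 1 := eq_one_of_mover_fixer hρ
        (Subgroup.zpowers_le.2 (mem_mover_cm y) h5') h3
        (Odd.of_dvd_nat hodd (orderOf_dvd_of_mem_zpowers h5'))
      have h7 : y ^ k = y := by rw [← mul_inv_cancel_left y (y ^ k), h6, mul_one]
      have h8 : y ^ (k + k ^ 2 + 1) = y ^ 3 := by
        rw [pow_succ, pow_add, pow_two k, pow_mul, h7, h7]
        simp only [pow_succ, pow_zero, one_mul]
      have h9 : p ∣ 3 := ho ▸ orderOf_dvd_of_pow_eq_one (h8.symm.trans hrel)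
      have := Nat.le_of_dvd (by norm_num) h9
      omega
    · push Not at hf
      obtain ⟨w, hw, hne⟩ := hf
      have h1 : ρ x w - w ∈ U := sub_mem (hUx w hw) hw
      exact cm_le_of_mem hx h2 (sub_mem_cm x w) (sub_ne_zero.2 hne) h1 (hUx _ h1)
  have hTU : T ≤ U := by
    refine sup_le hWU (mem_mover_iff.1 ?_)
    have : b = x * y := by rw [hy]; group
    rw [this]
    exact mul_mem (mem_mover_iff.2 hWU) (mem_mover_cm y)
  -- `y` acts without fixed points on `U`
  by_contra hlt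
  have hU4 : finrank (ZMod 2) U = 4 := by
    have := Submodule.finrank_mono hTU
    have := Submodule.finrank_mono hUT
    omega
  have hp7 : p = 7 := by
    have h1 := (card_dvd_of_le_mover hρ (Subgroup.zpowers_le.2 hyT)
      (by rwa [Nat.card_zpowers])).trans (card_linEquiv_dvd.2.2 hT4)
    rw [Nat.card_zpowers, ho] at h1
    have h3 : p ∣ 2 ^ 6 * 3 ^ 2 * 5 * 7 := h1
    rcases (Nat.Prime.dvd_mul hp.out).1 h3 with h3 | h3
    · rcases (Nat.Prime.dvd_mul hp.out).1 h3 with h3 | h3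
      · rcases (Nat.Prime.dvd_mul hp.out).1 h3 with h3 | h3
        · have := Nat.le_of_dvd (by norm_num) (hp.out.dvd_of_dvd_pow h3); omega
        · have := Nat.le_of_dvd (by norm_num) (hp.out.dvd_of_dvd_pow h3); omega
      · obtain rfl := (Nat.prime_dvd_prime_iff_eq hp.out (by norm_num)).1 h3
        exfalso
        have h4 : ((k + k ^ 2 + 1 : ℕ) : ZMod 5) = 0 := (ZMod.natCast_eq_zero_iff _ _).2 hdv
        push_cast at h4
        exact h55 _ h4
    · exact (Nat.prime_dvd_prime_iff_eq hp.out (by norm_num)).1 h3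
  subst hp7
  have := card_cm_modEq (ρ := ρ) (by norm_num) ho
  rw [Module.natCard_eq_pow_finrank (K := ZMod 2), hU4, Nat.card_zmod] at this
  exact absurd this (by decide)

/-- A `p`-group (`p ≥ 5`) normalized by an element of order three with a commutator plane. -/
theorem relIndex_fixer_le [Finite G] [Finite V] (hρ : Function.Injective ρ) (hx : x ^ 3 = 1)
    (h2 : finrank (ZMod 2) (cm ρ x) = 2) {p : ℕ} [hp : Fact p.Prime] (h5 : 5 ≤ p) {P : Subgroup G}
    (hP : IsPGroup p P) (hxP : x ∈ Subgroup.normalizer (P : Set G)) :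
    (fixer ρ (cm ρ x)).relIndex P ≤ p := by
  have hmem : ∀ u ∈ P, x⁻¹ * (u * x * u⁻¹) ∈ P := fun u hu => by
    have : x⁻¹ * (u * x * u⁻¹) = (x⁻¹ * u * x) * u⁻¹ := by group
    rw [this]
    refine mul_mem ?_ (inv_mem hu)
    have := (Subgroup.mem_normalizer_iff.1 (inv_mem hxP) u).1 hu
    rwa [inv_inv] at this
  obtain ⟨T, hT4, hT⟩ : ∃ T : Submodule (ZMod 2) V, finrank (ZMod 2) T ≤ 4 ∧
      T = ⨆ u : P, cm ρ (u * x * (u : G)⁻¹) := by
    refine ⟨_, ?_, rfl⟩
    by_cases h : ∀ u ∈ P, x⁻¹ * (u * x * u⁻¹) = 1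
    · have : (⨆ u : P, cm ρ (u * x * (u : G)⁻¹)) ≤ cm ρ x := iSup_le fun u => by
        rw [← mul_inv_cancel_left x (u * x * (u : G)⁻¹), h u u.2, mul_one]
      exact (Submodule.finrank_mono this).trans (by omega)
    push Not at h
    obtain ⟨u, hu, hne⟩ := h
    have h3 := finrank_sup_le_three hρ hx h2 h5 hP hxP hu
    have : (⨆ v : P, cm ρ (v * x * (v : G)⁻¹)) ≤ cm ρ x ⊔ cm ρ (u * x * u⁻¹) := by
      refine iSup_le fun v => ?_
      have h4 := finrank_sup_le_three hρ hx h2 h5 hP hxP v.2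
      set A := cm ρ x ⊔ cm ρ (u * x * u⁻¹)
      set B := cm ρ x ⊔ cm ρ (v * x * (v : G)⁻¹)
      have h6 : finrank (ZMod 2) ↥(A ⊔ B) ≤ 4 := by
        have h7 := Submodule.finrank_sup_add_finrank_inf_eq A B
        have h8 := Submodule.finrank_mono
          (show cm ρ x ≤ A ⊓ B from le_inf le_sup_left le_sup_left)
        omega
      have hH : IsPGroup p ↥(P ⊓ mover ρ (A ⊔ B)) := hP.to_le inf_le_left
      have hxA : x ∈ mover ρ A := mover_mono le_sup_left (mem_mover_cm x)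
      have huA : x⁻¹ * (u * x * u⁻¹) ∈ mover ρ A :=
        mul_mem (inv_mem hxA) (mover_mono le_sup_right (mem_mover_cm _))
      have hvB : x⁻¹ * (v * x * (v : G)⁻¹) ∈ mover ρ B :=
        mul_mem (inv_mem (mover_mono le_sup_left (mem_mover_cm x)))
          (mover_mono le_sup_right (mem_mover_cm _))
      obtain ⟨hz, -⟩ := le_zpowers_of_card_le hH (card_le_of_le_mover hρ h5 h6 hH inf_le_right)
        ⟨hmem u hu, mover_mono le_sup_left huA⟩ hne
      have h9 : x⁻¹ * (v * x * (v : G)⁻¹) ∈ mover ρ A := by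
        refine Subgroup.zpowers_le.2 huA ?_
        rw [← hz]
        exact ⟨hmem v v.2, mover_mono le_sup_right hvB⟩
      rw [← mem_mover_iff, ← mul_inv_cancel_left x (v * x * (v : G)⁻¹)]
      exact mul_mem hxA h9
    exact (Submodule.finrank_mono this).trans (by omega)
  have hinv : ∀ g ∈ P, ∀ w ∈ T, ρ g w ∈ T := fun g hg w hw => by
    have : T.map (ρ g) ≤ T := by
      rw [hT, Submodule.map_iSup]
      refine iSup_le fun v => ?_
      rw [← cm_conj]
      refine le_iSup_of_le (⟨g, hg⟩ * v) (le_of_eq ?_)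
      congr 1
      simp only [Subgroup.coe_mul, mul_inv_rev]
      group
    exact this ⟨w, hw, rfl⟩
  have hle : cm ρ x ≤ T := by
    rw [hT]
    exact le_iSup_of_le 1 (by simp)
  have h1 := (relIndex_fixer_dvd hinv).trans (card_linEquiv_dvd.2.2 hT4)
  obtain ⟨k, hk⟩ := hP.index ((fixer ρ T).subgroupOf P)
  have h3 : (fixer ρ T).relIndex P ≤ p := by
    rw [Subgroup.relIndex, hk] at h1 ⊢
    exact le_of_pow_dvd hp.out h1 (not_sq_dvd hp.out h5)
  exact (Subgroup.relIndex_le_of_le_left (fixer_anti hle) Subgroup.index_ne_zero_of_finite).trans h3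

/-- An abelian subgroup of a `3`-group normalized by an element with a commutator plane. -/
theorem relIndex_fixer_le_three [Finite G] [Finite V] (hρ : Function.Injective ρ) (hx : x ^ 3 = 1)
    (h2 : finrank (ZMod 2) (cm ρ x) = 2) {H E : Subgroup G} (hH : IsPGroup 3 H) (hxH : x ∈ H)
    (hE : E ≤ H) (hc : ∀ a ∈ E, ∀ b ∈ E, a * b = b * a)
    (hxE : x ∈ Subgroup.normalizer (E : Set G)) : (fixer ρ (cm ρ x)).relIndex E ≤ 3 := by
  have : Fact (Nat.Prime 3) := ⟨Nat.prime_three⟩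
  have key : ∀ e ∈ E, cm ρ (e * x * e⁻¹) ≤ cm ρ x := by
    intro e he
    by_contra hne
    set b := e * x * e⁻¹ with hb
    have hb3 : b ^ 3 = 1 := by rw [hb, conj_pow, hx]; group
    have hb2 : finrank (ZMod 2) (cm ρ b) = 2 := by rw [hb, finrank_cm_conj, h2]
    set T := cm ρ x ⊔ cm ρ b
    have hT4 : finrank (ZMod 2) T ≤ 4 := (finrank_sup_le _ _).trans (by omega)
    have hD : IsPGroup 3 ↥(H ⊓ mover ρ T) := hH.to_le inf_le_left
    obtain ⟨k, hk⟩ := hD.exists_card_eq
    have h1 := (card_dvd_of_le_mover hρ (inf_le_right : H ⊓ mover ρ T ≤ _)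
      (hk ▸ (by decide : Odd 3).pow)).trans (card_linEquiv_dvd.2.2 hT4)
    have hk2 : k ≤ 2 := by
      by_contra h
      exact absurd ((pow_dvd_pow 3 (show 3 ≤ k by omega)).trans (hk ▸ h1)) (by norm_num)
    have hxD : x ∈ H ⊓ mover ρ T := ⟨hxH, mover_mono le_sup_left (mem_mover_cm x)⟩
    have hbD : b ∈ H ⊓ mover ρ T := Subgroup.mem_inf.2
      ⟨mul_mem (mul_mem (hE he) hxH) (inv_mem (hE he)), mover_mono le_sup_right (mem_mover_cm b)⟩
    have hxb : x * b = b * x := by
      have hcomm : IsMulCommutative ↥(H ⊓ mover ρ T) := by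
        rcases (by omega : k ≤ 1 ∨ k = 2) with h | rfl
        · have : IsCyclic ↥(H ⊓ mover ρ T) :=
            isCyclic_of_card_dvd_prime (p := 3) (by rw [hk]; simpa using pow_dvd_pow 3 h)
          infer_instance
        · exact IsPGroup.isMulCommutative_of_card_eq_prime_sq hk
      exact congrArg Subtype.val (hcomm.is_comm.comm ⟨x, hxD⟩ ⟨b, hbD⟩)
    have hinf : ∀ w ∈ cm ρ x, w ∈ cm ρ b → w = 0 := by
      intro w h1 h3
      by_contra h0
      exact hne (cm_le_of_mem hb3 hb2 h3 h0 h1 (by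
        have : ρ b w ∈ cm ρ (b * x * b⁻¹) := by rw [cm_conj]; exact ⟨w, h1, rfl⟩
        rwa [← hxb, mul_inv_cancel_right] at this))
    have hxf : x ∈ fixer ρ (cm ρ b) := fun w hw => by
      refine sub_eq_zero.1 (hinf _ (sub_mem_cm x w) (sub_mem ?_ hw))
      have : ρ x w ∈ cm ρ (x * b * x⁻¹) := by rw [cm_conj]; exact ⟨w, hw, rfl⟩
      rwa [hxb, mul_inv_cancel_right] at this
    have hbf : b ∈ fixer ρ (cm ρ x) := fun w hw => by
      refine sub_eq_zero.1 (hinf _ (sub_mem ?_ hw) (sub_mem_cm b w))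
      have : ρ b w ∈ cm ρ (b * x * b⁻¹) := by rw [cm_conj]; exact ⟨w, hw, rfl⟩
      rwa [← hxb, mul_inv_cancel_right] at this
    have hcE : e * b * e⁻¹ = b * x⁻¹ * b := by
      have h1 : x⁻¹ * e * x ∈ E := by
        have := (Subgroup.mem_normalizer_iff.1 (inv_mem hxE) e).1 he
        rwa [inv_inv] at this
      have h3 := hc _ (mul_mem h1 (inv_mem he)) _ he
      calc e * b * e⁻¹ = b * (e * (x⁻¹ * e * x * e⁻¹)) * e⁻¹ := by rw [hb]; group
        _ = b * x⁻¹ * b := by rw [← h3, hb]; group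
    have hc2 : finrank (ZMod 2) (cm ρ (b * x⁻¹ * b)) = 2 := by rw [← hcE, finrank_cm_conj, hb2]
    have hx' : cm ρ x ≤ cm ρ (b * x⁻¹ * b) := fun w hw => by
      have h1 : ρ x⁻¹ w ∈ cm ρ x := apply_mem_of_mover (inv_mem (mem_mover_cm x)) hw
      have h3 : ρ x⁻¹ (ρ x⁻¹ w) ∈ cm ρ x := apply_mem_of_mover (inv_mem (mem_mover_cm x)) h1
      refine mem_cm.2 ⟨ρ x⁻¹ w, ?_⟩
      have h4 := sum_three hx h3
      rw [apply_inv_apply, apply_inv_apply] at h4
      rw [mul_app, mul_app, hbf _ h1, hbf _ h3, sub_eq_add]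
      conv_rhs => rw [← neg_eq_self w]
      linear_combination (norm := module) h4
    have hb' : cm ρ b ≤ cm ρ (b * x⁻¹ * b) := fun w hw => by
      have h1 : ρ b⁻¹ w ∈ cm ρ b := apply_mem_of_mover (inv_mem (mem_mover_cm b)) hw
      refine mem_cm.2 ⟨ρ b⁻¹ w, ?_⟩
      have h4 := sum_three hb3 h1
      rw [apply_inv_apply] at h4
      rw [mul_app, mul_app, apply_inv_apply, inv_mem hxf _ hw, sub_eq_add]
      conv_rhs => rw [← neg_eq_self w]
      linear_combination (norm := module) h4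
    exact hne ((Submodule.eq_of_le_of_finrank_eq hb' (hb2.trans hc2.symm)).le.trans
      (Submodule.eq_of_le_of_finrank_eq hx' (h2.trans hc2.symm)).ge)
  have h1 := (relIndex_fixer_dvd (ρ := ρ) (H := E) (T := cm ρ x) fun e he w hw =>
    key e he (by rw [cm_conj]; exact ⟨w, hw, rfl⟩)).trans (card_linEquiv_dvd.1 h2.le)
  obtain ⟨k, hk⟩ := (hH.to_le hE).index ((fixer ρ (cm ρ x)).subgroupOf E)
  rw [Subgroup.relIndex, hk] at h1 ⊢
  exact le_of_pow_dvd Nat.prime_three h1 (by norm_num)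

end Three

end Cfsg.Lib.Solv.F2S
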