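import Cfsg.Agent.Solv.F2Small
import Cfsg.Agent.Solv.SectionAut
import Cfsg.Agent.Perm.PermModule
import Cfsg.Agent.Trans.Conj

/-! Fixed points of `2`-groups on modules over the field with two elements that decompose under a
normal elementary abelian subgroup of odd order. -/

set_option autoImplicit false

namespace Cfsg.Lib.Solv.F2S

open Module Polynomial Cfsg.Lib.Trans
open scoped commutatorElement

variable {G : Type*} [Group G] {V : Type*} [AddCommGroup V] [Module (ZMod 2) V]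

/-- The fixed space of a subgroup. -/
def fix (ρ : Representation (ZMod 2) G V) (B : Subgroup G) : Submodule (ZMod 2) V where
  carrier := {v | ∀ b ∈ B, ρ b v = v}
  zero_mem' b _ := map_zero _
  add_mem' {v w} hv hw b hb := by rw [map_add, hv b hb, hw b hb]
  smul_mem' c v hv b hb := by rw [map_smul, hv b hb]

variable {ρ : Representation (ZMod 2) G V}

theorem mem_fix {B : Subgroup G} {v : V} : v ∈ fix ρ B ↔ ∀ b ∈ B, ρ b v = v := Iff.rfl

theorem le_fix_iff {B : Subgroup G} {W : Submodule (ZMod 2) V} : W ≤ fix ρ B ↔ B ≤ fixer ρ W :=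
  ⟨fun h _ hb _ hw => h hw _ hb, fun h _ hw _ hb => h hb _ hw⟩

theorem mem_fix_sup {A B : Subgroup G} {v : V} (hA : v ∈ fix ρ A) (hB : v ∈ fix ρ B) :
    v ∈ fix ρ (A ⊔ B) := by
  have h : ∀ X : Subgroup G, v ∈ fix ρ X ↔ X ≤ fixer ρ (Submodule.span (ZMod 2) {v}) := fun X => by
    rw [← le_fix_iff, Submodule.span_singleton_le_iff_mem]
  rw [h] at hA hB ⊢
  exact sup_le hA hB

theorem mem_fix_zpowers {g : G} {v : V} (h : ρ g v = v) : v ∈ fix ρ (Subgroup.zpowers g) := by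
  rw [← Submodule.span_singleton_le_iff_mem, le_fix_iff, Subgroup.zpowers_le]
  intro w hw
  obtain ⟨c, rfl⟩ := Submodule.mem_span_singleton.1 hw
  rw [map_smul, h]

theorem apply_mem_fix_cj (g : G) {B : Subgroup G} {v : V} (hv : v ∈ fix ρ B) :
    ρ g v ∈ fix ρ (cj g B) := fun b hb => by
  have := hv _ (mem_cj.1 hb)
  conv_rhs => rw [← this, ← mul_app]
  rw [← mul_app]
  congr 2
  group

theorem apply_mem_fix {g : G} {B : Subgroup G} (hg : g ∈ Subgroup.normalizer (B : Set G)) {v : V}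
    (hv : v ∈ fix ρ B) : ρ g v ∈ fix ρ B :=
  cj_eq_of_mem_normalizer hg ▸ apply_mem_fix_cj g hv

theorem exists_mem_fix [Finite G] {T : Subgroup G} (hT : IsPGroup 2 T) {W : Submodule (ZMod 2) V}
    (hW : W ≠ ⊥) (h : ∀ t ∈ T, ∀ w ∈ W, ρ t w ∈ W) : ∃ w ∈ W ⊓ fix ρ T, w ≠ 0 := by
  obtain ⟨v, h1, h2, h3⟩ := Perm.exists_fixed_vector_of_isPGroup hT (ρ.comp T.subtype) W
    (fun t => h t t.2) hW
  exact ⟨v, ⟨h1, fun t ht => h3 ⟨t, ht⟩⟩, h2⟩

theorem finrank_le_mul_finrank_inf_ker [Finite V] (f : End (ZMod 2) V) (n : ℕ) :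
    ∀ W : Submodule (ZMod 2) V, (∀ w ∈ W, f w ∈ W) → (∀ w ∈ W, (f ^ n) w = 0) →
      finrank (ZMod 2) W ≤ n * finrank (ZMod 2) ↥(W ⊓ LinearMap.ker f) := by
  induction n with
  | zero =>
    intro W _ h
    have : W = ⊥ := eq_bot_iff.2 fun w hw => h w hw
    simp [this]
  | succ n ih =>
    intro W hW h
    have hle : W.map f ≤ W := by rintro _ ⟨w, hw, rfl⟩; exact hW w hw
    have h1 := ih (W.map f) (fun w hw => ⟨w, hle hw, rfl⟩) (by
      rintro _ ⟨w, hw, rfl⟩
      rw [← End.mul_apply, ← pow_succ]; exact h w hw)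
    have h2 := LinearMap.finrank_range_add_finrank_ker (f.domRestrict W)
    rw [LinearMap.range_domRestrict, LinearMap.ker_domRestrict,
      ← Submodule.finrank_map_subtype_eq W, Submodule.map_comap_subtype] at h2
    have h3 := Nat.mul_le_mul_left n
      (Submodule.finrank_mono (inf_le_inf_right (LinearMap.ker f) hle))
    rw [add_mul]
    omega

theorem sub_one_pow (f : End (ZMod 2) V) (m : ℕ) : (f - 1) ^ 2 ^ m = f ^ 2 ^ m - 1 := by
  induction m with
  | zero => simp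
  | succ m ih =>
    rw [pow_succ, pow_mul, pow_mul, ih]
    generalize f ^ 2 ^ m = g
    have : g + g = 1 + 1 := by simp only [add_self_eq]
    rw [pow_two, pow_two]
    linear_combination (norm := noncomm_ring) -this

theorem semiconjBy_aeval {R A : Type*} [CommRing R] [Ring A] [Algebra R A] {c a b : A}
    (h : SemiconjBy c a b) (f : R[X]) : SemiconjBy c (aeval a f) (aeval b f) := by
  induction f using Polynomial.induction_on' with
  | add f g hf hg => rw [map_add, map_add]; exact hf.add_right hg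
  | monomial n r =>
    rw [aeval_monomial, aeval_monomial]
    exact SemiconjBy.mul_right (Algebra.commutes r c).symm (h.pow_right n)

/-- An element of prime order without fixed vectors that is conjugate to many of its powers needs
many dimensions. -/
theorem card_le_finrank [Finite V] {p : ℕ} [hp : Fact p.Prime] {W : Submodule (ZMod 2) V}
    (hW : W ≠ ⊥) {a : G} (ha : a ^ p = 1) (haW : ∀ w ∈ W, ρ a w ∈ W)
    (hfix : ∀ w ∈ W, ρ a w = w → w = 0) {ι : Type*} [Finite ι] (k : ι → ℕ)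
    (hinj : ∀ i j, k i ≡ k j [MOD p] → i = j)
    (h : ∀ i, ∃ g : G, (∀ w ∈ W, ρ g w ∈ W) ∧ ∀ w ∈ W, ρ g (ρ a w) = ρ (a ^ k i) (ρ g w)) :
    Nat.card ι ≤ finrank (ZMod 2) W := by
  classical
  have : Nontrivial W := Submodule.nontrivial_iff_ne_bot.2 hW
  let α : End (ZMod 2) W := (ρ a).restrict haW
  have hα : ∀ (n : ℕ) (w : W), ((α ^ n) w : V) = ρ (a ^ n) w := by
    intro n
    induction n with
    | zero => intro w; simp
    | succ n ih => intro w; rw [pow_succ, pow_succ, mul_app, End.mul_apply, ih]; rfl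
  have hint : IsIntegral (ZMod 2) α := Algebra.IsIntegral.isIntegral α
  set μ := minpoly (ZMod 2) α
  have h1 : ∀ i, μ ∣ μ.comp (X ^ k i) := fun i => by
    obtain ⟨g, hg, h2⟩ := h i
    let γ : End (ZMod 2) W := (ρ g).restrict hg
    have h3 : SemiconjBy γ α (α ^ k i) := by
      ext w
      rw [End.mul_apply, End.mul_apply, hα]
      exact h2 w w.2
    have h4 := (semiconjBy_aeval h3 μ).eq
    rw [minpoly.aeval, mul_zero] at h4
    have h5 : Function.Surjective γ := LinearMap.surjective_of_injective fun v w hvw =>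
      Subtype.ext (apply_injective g (congrArg Subtype.val hvw))
    apply minpoly.dvd
    rw [aeval_comp, map_pow, aeval_X]
    refine LinearMap.ext fun w => ?_
    obtain ⟨w, rfl⟩ := h5 w
    rw [← End.mul_apply, ← h4]; rfl
  let F := AlgebraicClosure (ZMod 2)
  obtain ⟨ζ, hζ⟩ := IsAlgClosed.exists_aeval_eq_zero F μ (minpoly.degree_pos hint).ne'
  have h2 : ζ ^ p = 1 := by
    have h3 : μ ∣ X ^ p - 1 := by
      apply minpoly.dvd
      rw [map_sub, map_pow, aeval_X, map_one, sub_eq_zero]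
      ext w
      rw [hα, ha, map_one]; rfl
    have := aeval_eq_zero_of_dvd_aeval_eq_zero h3 hζ
    rwa [map_sub, map_pow, aeval_X, map_one, sub_eq_zero] at this
  have h3 : ζ ≠ 1 := by
    rintro rfl
    have h4 : μ.IsRoot 1 := by
      apply (algebraMap (ZMod 2) F).injective
      rw [map_zero, ← hζ, ← aeval_algebraMap_apply_eq_algebraMap_eval, map_one]
    obtain ⟨w, hw⟩ := (End.hasEigenvalue_of_isRoot h4).exists_hasEigenvector
    have h5 := hw.apply_eq_smul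
    rw [one_smul] at h5
    exact hw.2 (Subtype.ext (hfix w w.2 (congrArg Subtype.val h5)))
  have h4 : orderOf ζ = p := orderOf_eq_prime h2 h3
  have h5 : μ ≠ 0 := minpoly.ne_zero hint
  let r : ι → μ.rootSet F := fun i => ⟨ζ ^ k i, mem_rootSet.2 ⟨h5, by
    have := aeval_eq_zero_of_dvd_aeval_eq_zero (h1 i) hζ
    rwa [aeval_comp, map_pow, aeval_X] at this⟩⟩
  have h6 : Function.Injective r := fun i j hij => hinj i j (by
    rw [← h4, ← (isOfFinOrder_iff_pow_eq_one.2 ⟨p, hp.out.pos, h2⟩).pow_eq_pow_iff_modEq]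
    exact congrArg Subtype.val hij)
  refine (Nat.card_le_card_of_injective r h6).trans ?_
  rw [Nat.card_coe_set_eq]
  refine (ncard_rootSet_le μ F).trans ?_
  rw [← LinearMap.charpoly_natDegree α]
  exact natDegree_le_of_dvd (LinearMap.minpoly_dvd_charpoly α) (LinearMap.charpoly_monic α).ne_zero

section Hyper

variable [Finite G] {p : ℕ} {A B B' : Subgroup G}

/-- The sum over a subgroup. -/
noncomputable def proj (ρ : Representation (ZMod 2) G V) (B : Subgroup G) : End (ZMod 2) V :=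
  ∑ᶠ b : B, ρ b

omit [Finite G] in
theorem proj_apply (B : Subgroup G) [Fintype B] (v : V) : proj ρ B v = ∑ b : B, ρ b v := by
  rw [proj, finsum_eq_sum_of_fintype, LinearMap.sum_apply]

theorem proj_of_mem (ho : Odd (Nat.card B)) {v : V} (hv : v ∈ fix ρ B) : proj ρ B v = v := by
  have := Fintype.ofFinite B
  rw [proj_apply, Finset.sum_congr rfl fun (b : B) _ => hv b b.2, Finset.sum_const, Finset.card_univ,
    ← Nat.card_eq_fintype_card]
  obtain ⟨m, hm⟩ := ho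
  rw [hm, succ_nsmul, mul_nsmul, two_nsmul, add_self_eq, nsmul_zero, zero_add]

theorem proj_mem (B : Subgroup G) (v : V) : proj ρ B v ∈ fix ρ B := fun b hb => by
  have := Fintype.ofFinite B
  rw [proj_apply, map_sum]
  exact Fintype.sum_equiv (Equiv.mulLeft ⟨b, hb⟩) _ _ fun c => (mul_app _ _ _).symm

theorem apply_proj (g : G) (B : Subgroup G) (v : V) :
    ρ g (proj ρ B v) = proj ρ (cj g B) (ρ g v) := by
  have := Fintype.ofFinite B
  have := Fintype.ofFinite (cj g B)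
  rw [proj_apply, proj_apply, map_sum]
  refine Fintype.sum_equiv (cjEquiv g B).toEquiv _ _ fun c => ?_
  rw [← mul_app, ← mul_app]
  change _ = ρ (g * c * g⁻¹ * g) v
  rw [inv_mul_cancel_right]

/-- `B` has index `p` in `A`. -/
def Hp (p : ℕ) (A B : Subgroup G) : Prop := B ≤ A ∧ B.relIndex A = p

omit [Finite G] in
theorem Hp.cj [A.Normal] (h : Hp p A B) (g : G) : Hp p A (cj g B) :=
  ⟨cj_eq_of_normal g A ▸ cj_mono g h.1, by
    have := relIndex_cj g B A
    rw [cj_eq_of_normal g A] at this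
    rw [this, h.2]⟩

omit [Finite G] in
theorem Hp.sup_eq (hp : p.Prime) (h : Hp p A B) {C : Subgroup G} (hC : C ≤ A) (hn : ¬ C ≤ B) :
    B ⊔ C = A := by
  have h1 := Subgroup.relIndex_mul_relIndex B (B ⊔ C) A le_sup_left (sup_le h.1 hC)
  rw [h.2] at h1
  rcases (Nat.dvd_prime hp).1 (Dvd.intro _ h1) with h2 | h2
  · exact absurd (le_sup_right.trans (Subgroup.relIndex_eq_one.1 h2)) hn
  · rw [h2, Nat.mul_eq_left hp.ne_zero, Subgroup.relIndex_eq_one] at h1
    exact le_antisymm (sup_le h.1 hC) h1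

omit [Finite G] in
theorem Hp.sup_eq_of_ne (hp : p.Prime) (h : Hp p A B) (h' : Hp p A B') (hne : B ≠ B') :
    B ⊔ B' = A := by
  refine h.sup_eq hp h'.1 fun hle => hne (le_antisymm ?_ hle)
  have h1 := Subgroup.relIndex_mul_relIndex B' B A hle h.1
  rwa [h.2, h'.2, Nat.mul_eq_right hp.ne_zero, Subgroup.relIndex_eq_one] at h1

omit [Finite G] in
theorem le_normalizer_of_comm (hc : ∀ a ∈ A, ∀ b ∈ A, a * b = b * a) (h : B ≤ A) :
    A ≤ Subgroup.normalizer (B : Set G) := fun a ha =>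
  Subgroup.centralizer_le_normalizer _ fun b hb => hc b (h hb) a ha

theorem proj_eq_zero (hp : p.Prime) (hc : ∀ a ∈ A, ∀ b ∈ A, a * b = b * a) (h0 : fix ρ A = ⊥)
    (h : Hp p A B) (h' : Hp p A B') (hne : B ≠ B') {v : V} (hv : v ∈ fix ρ B') :
    proj ρ B v = 0 := by
  have := Fintype.ofFinite B
  have h1 : proj ρ B v ∈ fix ρ B' := by
    rw [proj_apply]
    exact Submodule.sum_mem _ fun b _ => apply_mem_fix (le_normalizer_of_comm hc h'.1 (h.1 b.2)) hv
  have h2 := mem_fix_sup (proj_mem B v) h1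
  rwa [h.sup_eq_of_ne hp h' hne, h0, Submodule.mem_bot] at h2

/-- The relative trace from `T` to `P`. -/
noncomputable def relTr (ρ : Representation (ZMod 2) G V) (P T : Subgroup G) : End (ZMod 2) V :=
  ∑ᶠ c : P ⧸ T.subgroupOf P, ρ (c.out : P)

omit [Finite G] in
theorem relTr_apply (P T : Subgroup G) [Fintype (P ⧸ T.subgroupOf P)] (v : V) :
    relTr ρ P T v = ∑ c : P ⧸ T.subgroupOf P, ρ (c.out : P) v := by
  rw [relTr, finsum_eq_sum_of_fintype, LinearMap.sum_apply]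

theorem relTr_mem {P T : Subgroup G} {v : V} (hv : v ∈ fix ρ T) : relTr ρ P T v ∈ fix ρ P := by
  intro s hs
  have := Fintype.ofFinite (P ⧸ T.subgroupOf P)
  rw [relTr_apply, map_sum]
  refine Fintype.sum_equiv (MulAction.toPerm (⟨s, hs⟩ : P)) _ _ fun c => ?_
  obtain ⟨t, ht⟩ := QuotientGroup.mk_out_eq_mul (T.subgroupOf P) (⟨s, hs⟩ * c.out)
  rw [MulAction.toPerm_apply, ← MulAction.Quotient.mk_smul_out, smul_eq_mul, ht, Subgroup.coe_mul,
    mul_app, hv ((t : P) : G) t.2, Subgroup.coe_mul, mul_app]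

theorem proj_relTr [A.Normal] (hp : p.Prime) (hc : ∀ a ∈ A, ∀ b ∈ A, a * b = b * a)
    (h0 : fix ρ A = ⊥) (ho : Odd (Nat.card A)) (h : Hp p A B) (P : Subgroup G) {v : V}
    (hv : v ∈ fix ρ B) (hT : v ∈ fix ρ (P ⊓ Subgroup.normalizer (B : Set G))) :
    proj ρ B (relTr ρ P (P ⊓ Subgroup.normalizer (B : Set G)) v) = v := by
  set T := P ⊓ Subgroup.normalizer (B : Set G)
  have := Fintype.ofFinite (P ⧸ T.subgroupOf P)
  rw [relTr_apply, map_sum, Finset.sum_eq_single (QuotientGroup.mk 1)]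
  · obtain ⟨t, ht⟩ := QuotientGroup.mk_out_eq_mul (T.subgroupOf P) 1
    rw [ht, one_mul, hT ((t : P) : G) t.2]
    exact proj_of_mem (ho.of_dvd_nat (Subgroup.card_dvd_of_le h.1)) hv
  · intro c _ hc1
    refine proj_eq_zero hp hc h0 h (h.cj _) (fun h1 => hc1 ?_) (apply_mem_fix_cj _ hv)
    rw [← c.out_eq', eq_comm, QuotientGroup.eq, inv_one, one_mul]
    exact ⟨c.out.2, cj_eq_self_iff.1 h1.symm⟩
  · exact fun h => absurd (Finset.mem_univ _) h

theorem proj_relTr_eq_zero [A.Normal] (hp : p.Prime) (hc : ∀ a ∈ A, ∀ b ∈ A, a * b = b * a)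
    (h0 : fix ρ A = ⊥) (h : Hp p A B) (h' : Hp p A B') (P T : Subgroup G) {v : V}
    (hv : v ∈ fix ρ B) (hne : ∀ s ∈ P, B' ≠ cj s B) : proj ρ B' (relTr ρ P T v) = 0 := by
  have := Fintype.ofFinite (P ⧸ T.subgroupOf P)
  rw [relTr_apply, map_sum]
  exact Finset.sum_eq_zero fun c _ =>
    proj_eq_zero hp hc h0 h' (h.cj _) (hne _ c.out.2) (apply_mem_fix_cj _ hv)

theorem finrank_le_finrank_fix [Finite V] [A.Normal] (hp : p.Prime)
    (hc : ∀ a ∈ A, ∀ b ∈ A, a * b = b * a) (h0 : fix ρ A = ⊥) (ho : Odd (Nat.card A))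
    (h : Hp p A B) (P : Subgroup G) :
    finrank (ZMod 2) ↥(fix ρ B ⊓ fix ρ (P ⊓ Subgroup.normalizer (B : Set G))) ≤
      finrank (ZMod 2) (fix ρ P) := by
  refine LinearMap.finrank_le_finrank_of_injective
    (f := (relTr ρ P (P ⊓ Subgroup.normalizer (B : Set G))).restrict
      fun v hv => relTr_mem hv.2) fun v w hvw => Subtype.ext ?_
  rw [← proj_relTr hp hc h0 ho h P v.2.1 v.2.2, ← proj_relTr hp hc h0 ho h P w.2.1 w.2.2]
  exact congrArg _ (congrArg Subtype.val hvw)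

/-- The case where the element of odd prime order normalizes a hyperplane with fixed vectors. -/
theorem le_finrank_fix_inf [Finite V] [A.Normal] [hp : Fact p.Prime]
    (hc : ∀ a ∈ A, ∀ b ∈ A, a * b = b * a) (he : ∀ a ∈ A, a ^ p = 1) (h0 : fix ρ A = ⊥)
    (h : Hp p A B) (hB : fix ρ B ≠ ⊥) {T : Subgroup G} (hT : IsPGroup 2 T)
    (hTB : T ≤ Subgroup.normalizer (B : Set G)) {x : G} (hx : x ∈ Subgroup.normalizer (B : Set G))
    {q : ℕ} (hq : q.Prime) (hq2 : q ≠ 2) (hxq : orderOf x = q)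
    (hn : ¬ ⁅A, Subgroup.zpowers x⁆ ≤ B)
    (hdec : ∀ t ∈ T, ∃ s ∈ T, ∃ i : ℕ, x * t * x⁻¹ = s * x ^ i) :
    q ≤ finrank (ZMod 2) ↥(fix ρ B ⊓ fix ρ T) := by
  set N := Subgroup.normalizer (B : Set G)
  have hAN : A ≤ N := le_normalizer_of_comm hc h.1
  have : (B.subgroupOf A).Normal := Subgroup.normal_subgroupOf_of_le_normalizer hAN
  have hNA : N ≤ Subgroup.normalizer (A : Set G) := by rw [Subgroup.normalizer_eq_top]; exact le_top
  let χ : N →* MulAut (A ⧸ B.subgroupOf A) := Coprime.sectionAut (M := B) hNA le_rfl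
  have hcard : Nat.card (A ⧸ B.subgroupOf A) = p := h.2
  have : IsCyclic (A ⧸ B.subgroupOf A) := isCyclic_of_prime_card hcard
  have : IsCyclic (MulAut (A ⧸ B.subgroupOf A)) := by
    have : Fact (Nat.card (A ⧸ B.subgroupOf A)).Prime := ⟨hcard ▸ hp.out⟩
    exact isCyclic_of_injective (IsCyclic.mulAutMulEquiv _).toMonoidHom
      (IsCyclic.mulAutMulEquiv _).injective
  let x' : N := ⟨x, hx⟩
  have hxq' : x' ^ q = 1 := Subtype.ext (hxq ▸ pow_orderOf_eq_one x)
  have : Fact q.Prime := ⟨hq⟩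
  have hχx : orderOf (χ x') = q := by
    refine orderOf_eq_prime (by rw [← map_pow, hxq', map_one]) fun h1 => hn ?_
    have h2 : Subgroup.zpowers x ≤ χ.ker.map N.subtype :=
      Subgroup.zpowers_le.2 (Subgroup.mem_map.2 ⟨x', h1, rfl⟩)
    have h3 : ⁅A, χ.ker.map N.subtype⁆ ≤ B := Coprime.commutator_map_ker_sectionAut_le hNA le_rfl
    exact (Subgroup.commutator_mono le_rfl h2).trans h3
  set T₀ := T ⊓ χ.ker.map N.subtype
  have hmem : ∀ {t : G} (ht : t ∈ T), t ∈ T₀ ↔ χ ⟨t, hTB ht⟩ = 1 := fun {t} ht =>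
    ⟨fun ⟨_, ⟨u, hu, hut⟩⟩ => by obtain rfl : ⟨t, hTB ht⟩ = u := Subtype.ext hut.symm; exact hu,
      fun h1 => ⟨ht, ⟨t, hTB ht⟩, h1, rfl⟩⟩
  have hNk : N ≤ Subgroup.normalizer ((χ.ker.map N.subtype : Subgroup G) : Set G) := fun g hg =>
    Subgroup.le_normalizer_map N.subtype
      ⟨⟨g, hg⟩, by rw [Subgroup.normalizer_eq_top]; trivial, rfl⟩
  have hTT : T ≤ Subgroup.normalizer (T₀ : Set G) :=
    (le_inf Subgroup.le_normalizer (hTB.trans hNk)).trans Subgroup.inf_normalizer_le_normalizer_inf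
  have hxT : x ∈ Subgroup.normalizer (T₀ : Set G) := by
    refine mem_normalizer_of_cj_le (cj_le_iff.2 fun t ht => ⟨?_, mem_normalizer_conj (hNk hx) ht.2⟩)
    obtain ⟨s, hs, i, hi⟩ := hdec t ht.1
    have h1 : χ ⟨s, hTB hs⟩ * χ x' ^ i = 1 := by
      have h2 : (⟨s, hTB hs⟩ : N) * x' ^ i = x' * ⟨t, hTB ht.1⟩ * x'⁻¹ := Subtype.ext hi.symm
      rw [← map_pow, ← map_mul, h2, map_mul, map_mul, (hmem ht.1).1 ht, mul_one, map_inv,
        mul_inv_cancel]
    obtain ⟨m, hm⟩ := hT ⟨s, hs⟩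
    have h2 : χ ⟨s, hTB hs⟩ ^ 2 ^ m = 1 := by
      rw [← map_pow, ← map_one χ]
      exact congrArg χ (Subtype.ext (congrArg (Subtype.val : T → G) hm))
    have h3 : χ x' ^ (i * 2 ^ m) = 1 := by
      rw [pow_mul, ← inv_eq_of_mul_eq_one_right h1, inv_pow, h2, inv_one]
    have h4 : q ∣ i := ((Nat.coprime_primes hq Nat.prime_two).2 hq2).pow_right m
      |>.dvd_of_dvd_mul_right (hχx ▸ orderOf_dvd_of_pow_eq_one h3)
    rw [hi, orderOf_dvd_iff_pow_eq_one.1 (hxq ▸ h4), mul_one]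
    exact hs
  set W := fix ρ B ⊓ fix ρ T₀
  have hW : W ≠ ⊥ := by
    obtain ⟨w, hw, hw0⟩ := exists_mem_fix (hT.to_le (inf_le_left : T₀ ≤ T)) hB
      fun t ht w hw => apply_mem_fix (hTB ht.1) hw
    exact (Submodule.ne_bot_iff _).2 ⟨w, hw, hw0⟩
  set L := N ⊓ Subgroup.normalizer (T₀ : Set G)
  have hL : ∀ g ∈ L, ∀ w ∈ W, ρ g w ∈ W := fun g hg w hw =>
    ⟨apply_mem_fix hg.1 hw.1, apply_mem_fix hg.2 hw.2⟩
  obtain ⟨a, ha, haB⟩ : ∃ a ∈ A, a ∉ B := SetLike.not_le_iff_exists.1 fun h1 =>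
    hp.out.ne_one (h.2.symm.trans (Subgroup.relIndex_eq_one.2 h1))
  have haW : ∀ w ∈ W, ρ a w ∈ W := fun w hw => by
    have h1 := apply_mem_fix (hAN ha) hw.1
    refine ⟨h1, fun t ht => ?_⟩
    have h2 := (Coprime.mem_ker_sectionAut hNA le_rfl ⟨t, hTB ht.1⟩).1 ((hmem ht.1).1 ht) a ha
    have h3 : t * a = ⁅t, a⁆ * a * t := by group
    rw [← mul_app, h3, mul_app, mul_app, hw.2 t ht]
    exact h1 _ h2
  have hfix : ∀ w ∈ W, ρ a w = w → w = 0 := fun w hw h1 => by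
    have h2 := mem_fix_sup hw.1 (mem_fix_zpowers h1)
    rwa [h.sup_eq hp.out (Subgroup.zpowers_le.2 ha) (by rwa [Subgroup.zpowers_le]), h0,
      Submodule.mem_bot] at h2
  set a' : A ⧸ B.subgroupOf A := QuotientGroup.mk ⟨a, ha⟩
  have ha1 : a' ≠ 1 := fun h1 => haB ((QuotientGroup.eq_one_iff (⟨a, ha⟩ : A)).1 h1)
  have hgen : ∀ y, y ∈ Submonoid.powers a' := fun y =>
    mem_powers_iff_mem_zpowers.2 (mem_zpowers_of_prime_card hcard ha1)
  choose k hk using fun σ : (L.subgroupOf N).map χ => hgen (σ.1 a')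
  have h1 := card_le_finrank hW (he a ha) haW hfix k (fun i j hij => by
    refine Subtype.ext (MulEquiv.ext fun y => ?_)
    obtain ⟨n, rfl⟩ := hgen y
    have h2 : orderOf a' = p := orderOf_eq_card_of_forall_mem_powers hgen |>.trans hcard
    have h3 : a' ^ k i = a' ^ k j := pow_eq_pow_iff_modEq.2 (h2 ▸ hij)
    have h4 : i.1 a' = j.1 a' := (hk i).symm.trans (h3.trans (hk j))
    simp only [map_pow, h4]) (by
    rintro ⟨_, g, hg, rfl⟩
    refine ⟨g, hL g hg, fun w hw => ?_⟩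
    have h2 := hk ⟨_, g, hg, rfl⟩
    generalize k ⟨_, g, hg, rfl⟩ = n at h2 ⊢
    have h3 : (a ^ n)⁻¹ * (g * a * (g : G)⁻¹) ∈ B :=
      (QuotientGroup.eq (s := B.subgroupOf A) (a := ⟨a, ha⟩ ^ n)
        (b := conjAutOf A N hNA g ⟨a, ha⟩)).1 h2
    have h4 : (g : G) * a = a ^ n * ((a ^ n)⁻¹ * (g * a * (g : G)⁻¹)) * g := by group
    rw [← mul_app, h4, mul_app, mul_app, (hL g hg w hw).1 _ h3])
  let φ := χ.comp (Subgroup.inclusion hTB)
  obtain ⟨t, ht⟩ := Coprime.exists_ker_sup_zpowers_eq_top φ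
  obtain ⟨m, hm⟩ := (hT.of_surjective _ φ.rangeRestrict_surjective).exists_card_eq
  have h2 : 2 ^ m * q ∣ Nat.card ((L.subgroupOf N).map χ) := by
    refine (((Nat.coprime_primes Nat.prime_two hq).2 hq2.symm).pow_left m).mul_dvd_of_dvd_of_dvd
      (hm ▸ Subgroup.card_dvd_of_le ?_) ?_
    · rintro _ ⟨s, rfl⟩
      exact ⟨_, ⟨hTB s.2, hTT s.2⟩, rfl⟩
    · rw [← hχx]
      exact Subgroup.orderOf_dvd_natCard _ ⟨x', ⟨hx, hxT⟩, rfl⟩
  have h3 : (t : G) ^ 2 ^ m ∈ T₀ := (hmem (pow_mem t.2 _)).2 (by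
    have h4 : φ.rangeRestrict t ^ 2 ^ m = 1 := hm ▸ pow_card_eq_one'
    rw [← map_pow] at h4
    exact congrArg Subtype.val h4)
  have h4 := finrank_le_mul_finrank_inf_ker (ρ t - 1) (2 ^ m) W
    (fun w hw => sub_mem (hL _ ⟨hTB t.2, hTT t.2⟩ w hw) hw) fun w hw => by
      rw [sub_one_pow, ← map_pow, LinearMap.sub_apply, hw.2 _ h3, End.one_apply, sub_self]
  have h5 : W ⊓ LinearMap.ker (ρ t - 1) ≤ fix ρ B ⊓ fix ρ T := fun w hw => by
    refine ⟨hw.1.1, ?_⟩
    have h6 := mem_fix_sup hw.1.2 (mem_fix_zpowers (sub_eq_zero.1 hw.2))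
    intro s hs
    refine h6 s ?_
    have h7 : (φ.ker ⊔ Subgroup.zpowers t).map T.subtype ≤ T₀ ⊔ Subgroup.zpowers (t : G) := by
      rw [Subgroup.map_sup, MonoidHom.map_zpowers]
      refine sup_le_sup_right ?_ _
      rintro _ ⟨u, hu, rfl⟩
      exact (hmem u.2).2 hu
    exact h7 ⟨⟨s, hs⟩, ht ▸ Subgroup.mem_top _, rfl⟩
  have h6 := (Nat.le_of_dvd Nat.card_pos h2).trans (h1.trans (h4.trans
    (Nat.mul_le_mul_left _ (Submodule.finrank_mono h5))))
  exact Nat.le_of_mul_le_mul_left h6 (by positivity)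

omit [Finite G] in
theorem exists_hp [Nontrivial V] [hp : Fact p.Prime] (hp2 : p ≠ 2)
    (hc : ∀ a ∈ A, ∀ b ∈ A, a * b = b * a) (he : ∀ a ∈ A, a ^ p = 1)
    (hA : Nat.card A = p ∨ Nat.card A = p ^ 2) : ∃ B, Hp p A B ∧ fix ρ B ≠ ⊥ := by
  rcases hA with hA | hA
  · obtain ⟨v, hv⟩ := exists_ne (0 : V)
    exact ⟨⊥, ⟨bot_le, by rw [Subgroup.relIndex_bot_left, hA]⟩, (Submodule.ne_bot_iff _).2
      ⟨v, fun b hb => by rw [Subgroup.mem_bot.1 hb, map_one, End.one_apply], hv⟩⟩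
  have hz : ∀ a ∈ A, a ≠ 1 → Hp p A (Subgroup.zpowers a) := fun a ha h1 => by
    have h2 := Subgroup.zpowers_le.2 ha
    refine ⟨h2, ?_⟩
    have h3 := ((Subgroup.zpowers a).subgroupOf A).card_mul_index
    rw [Nat.card_congr (Subgroup.subgroupOfEquivOfLe h2).toEquiv, Nat.card_zpowers,
      orderOf_eq_prime (he a ha) h1, hA, pow_two] at h3
    exact Nat.eq_of_mul_eq_mul_left hp.out.pos h3
  by_contra hn
  push Not at hn
  have hN : ∀ a ∈ A, a ≠ 1 → ∀ v, ∑ i ∈ Finset.range p, ρ (a ^ i) v = 0 := fun a ha h1 v => by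
    rw [← Submodule.mem_bot (ZMod 2), ← hn _ (hz a ha h1)]
    apply mem_fix_zpowers
    have := Finset.sum_range_succ (fun i => ρ (a ^ i) v) p
    rw [Finset.sum_range_succ', he a ha, pow_zero, add_left_inj] at this
    rw [map_sum, ← this]
    exact Finset.sum_congr rfl fun i _ => by rw [pow_succ', mul_app]
  obtain ⟨b, hb, hb1⟩ : ∃ b ∈ A, b ≠ 1 := by
    by_contra h
    push Not at h
    have : A = ⊥ := eq_bot_iff.2 h
    rw [this, Subgroup.card_bot] at hA
    exact absurd hA (Nat.one_lt_pow two_ne_zero hp.out.one_lt).ne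
  obtain ⟨a, ha, hab⟩ : ∃ a ∈ A, a ∉ Subgroup.zpowers b := SetLike.not_le_iff_exists.1 fun h1 =>
    hp.out.ne_one ((hz b hb hb1).2.symm.trans (Subgroup.relIndex_eq_one.2 h1))
  obtain ⟨v, hv⟩ := exists_ne (0 : V)
  have h1 : ∑ j ∈ Finset.range p, ∑ i ∈ Finset.range p, ρ ((a * b ^ j) ^ i) v = 0 :=
    Finset.sum_eq_zero fun j _ => hN _ (mul_mem ha (pow_mem hb j)) (fun h => hab (by
      rw [eq_inv_of_mul_eq_one_left h]
      exact inv_mem (pow_mem (Subgroup.mem_zpowers b) j))) v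
  rw [Finset.sum_comm, Finset.sum_eq_single 0] at h1
  · obtain ⟨m, hm⟩ := hp.out.odd_of_ne_two hp2
    simp only [pow_zero, map_one, End.one_apply, Finset.sum_const, Finset.card_range] at h1
    rw [hm, succ_nsmul, mul_nsmul, two_nsmul, add_self_eq, nsmul_zero, zero_add] at h1
    exact hv h1
  · intro i hi hi0
    have h2 := congrArg (ρ (a ^ i)) (hN (b ^ i) (pow_mem hb i) (fun h => by
      have := Nat.le_of_dvd (Nat.pos_of_ne_zero hi0)
        (orderOf_eq_prime (he b hb) hb1 ▸ orderOf_dvd_of_pow_eq_one h)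
      have := Finset.mem_range.1 hi
      omega) v)
    rw [map_zero, map_sum] at h2
    rw [← h2]
    refine Finset.sum_congr rfl fun j _ => ?_
    rw [← mul_app, Commute.mul_pow (hc a ha _ (pow_mem hb j)), ← pow_mul, ← pow_mul, mul_comm j]
  · exact fun h => absurd (Finset.mem_range.2 hp.out.pos) h

open scoped Pointwise in
theorem exists_normalized_of_stable {P : Subgroup G} (hP : IsPGroup 2 P) {y : G} {q : ℕ}
    (hq : q.Prime) (hq2 : q ≠ 2) (hy : y ^ q = 1) (B : Subgroup G)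
    (h : ∀ s ∈ P, ∃ s' ∈ P, cj y (cj s B) = cj s' B) :
    ∃ s ∈ P, y ∈ Subgroup.normalizer ((cj s B : Subgroup G) : Set G) := by
  classical
  have : Fact q.Prime := ⟨hq⟩
  set O := MulAction.orbit (P.map (MulAut.conj : G →* MulAut G)) B
  have hO : ∀ X, X ∈ O ↔ ∃ s ∈ P, X = cj s B := fun X =>
    ⟨fun ⟨⟨_, s, hs, rfl⟩, h⟩ => ⟨s, hs, h.symm.trans (conj_smul_eq_cj s B)⟩,
      fun ⟨s, hs, h⟩ => ⟨⟨_, s, hs, rfl⟩, (conj_smul_eq_cj s B).trans h.symm⟩⟩
  obtain ⟨n, hn⟩ := (hP.map (MulAut.conj : G →* MulAut G)).card_orbit B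
  have := Fintype.ofFinite O
  let f : Function.End O := fun X => ⟨cj y X, by
    obtain ⟨s, hs, h1⟩ := (hO _).1 X.2
    rw [h1]
    exact (hO _).2 (h s hs)⟩
  have hf : ∀ (i : ℕ) (X : O), ((f ^ i) X : O).1 = cj (y ^ i) X := by
    intro i
    induction i with
    | zero => intro X; rw [pow_zero, pow_zero, cj_one]; rfl
    | succ i ih => intro X; rw [pow_succ, pow_succ, cj_mul]; exact ih (f X)
  have h1 : f ^ q ^ 1 = 1 := by
    funext X
    apply Subtype.ext
    rw [hf, pow_one, hy, cj_one]; rfl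
  have h2 := Equiv.Perm.card_fixedPoints_modEq h1
  rw [← Nat.card_eq_fintype_card, hn] at h2
  obtain ⟨X, hX⟩ : Nonempty f.fixedPoints := by
    by_contra h3
    rw [not_nonempty_iff] at h3
    rw [Fintype.card_eq_zero, Nat.modEq_zero_iff_dvd] at h2
    exact hq2 ((Nat.prime_dvd_prime_iff_eq hq Nat.prime_two).1 (hq.dvd_of_dvd_pow h2))
  obtain ⟨s, hs, h3⟩ := (hO _).1 X.2
  exact ⟨s, hs, h3 ▸ cj_eq_self_iff.1 (congrArg Subtype.val hX)⟩

/-- Fixed points of a `2`-group permuting with an element of odd prime order that acts without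
fixed points on a normal elementary abelian subgroup of rank at most two. -/
theorem finrank_fix_ge [Finite V] [Nontrivial V] [A.Normal] [hp : Fact p.Prime] (hp2 : p ≠ 2)
    (hc : ∀ a ∈ A, ∀ b ∈ A, a * b = b * a) (he : ∀ a ∈ A, a ^ p = 1)
    (hA : Nat.card A = p ∨ Nat.card A = p ^ 2) (h0 : fix ρ A = ⊥) {P : Subgroup G}
    (hP : IsPGroup 2 P) {x : G} {q : ℕ} (hq : q.Prime) (hq2 : q ≠ 2) (hxq : orderOf x = q)
    (hn : A ≤ ⁅A, Subgroup.zpowers x⁆)
    (hdec : ∀ t ∈ P, ∃ s ∈ P, ∃ i : ℕ, x * t * x⁻¹ = s * x ^ i) :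
    2 ≤ finrank (ZMod 2) (fix ρ P) ∧
      ((∀ y ∈ Subgroup.zpowers x, ∀ v ∈ fix ρ P, ρ y v ∈ fix ρ P) →
        3 ≤ finrank (ZMod 2) (fix ρ P)) := by
  have ho : Odd (Nat.card A) := by
    rcases hA with h | h <;> rw [h]
    · exact hp.out.odd_of_ne_two hp2
    · exact (hp.out.odd_of_ne_two hp2).pow
  have hq3 : 3 ≤ q := by have := hq.two_le; omega
  by_cases h1 : ∃ B, Hp p A B ∧ fix ρ B ≠ ⊥ ∧ x ∈ Subgroup.normalizer (B : Set G)
  · obtain ⟨B, hB, hB0, hx⟩ := h1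
    have := (le_finrank_fix_inf hc he h0 hB hB0 (hP.to_le inf_le_left) inf_le_right hx hq hq2 hxq
      (fun h => hp.out.ne_one (hB.2.symm.trans (Subgroup.relIndex_eq_one.2 (hn.trans h))))
      fun t ht => by
        obtain ⟨s, hs, i, hi⟩ := hdec t ht.1
        refine ⟨s, Subgroup.mem_inf.2 ⟨hs, ?_⟩, i, hi⟩
        rw [← mul_inv_eq_iff_eq_mul] at hi
        rw [← hi]
        exact mul_mem (mul_mem (mul_mem hx ht.2) (inv_mem hx)) (inv_mem (pow_mem hx i))).trans
      (finrank_le_finrank_fix hp.out hc h0 ho hB P)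
    exact ⟨by omega, fun _ => by omega⟩
  push Not at h1
  have hcj : ∀ B (g : G), fix ρ B ≠ ⊥ → fix ρ (cj g B) ≠ ⊥ := fun B g h => by
    obtain ⟨v, hv, hv0⟩ := (Submodule.ne_bot_iff _).1 h
    exact (Submodule.ne_bot_iff _).2 ⟨_, apply_mem_fix_cj g hv,
      fun h => hv0 (apply_injective g (h.trans (map_zero _).symm))⟩
  have hvec : ∀ B, Hp p A B → fix ρ B ≠ ⊥ → ∃ v ∈ fix ρ P, proj ρ B v ≠ 0 ∧
      ∀ B', Hp p A B' → (∀ s ∈ P, B' ≠ cj s B) → proj ρ B' v = 0 := fun B hB hB0 => by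
    obtain ⟨w, hw, hw0⟩ := exists_mem_fix
      (hP.to_le (inf_le_left : P ⊓ Subgroup.normalizer (B : Set G) ≤ P)) hB0
      fun t ht w hw => apply_mem_fix ht.2 hw
    exact ⟨_, relTr_mem hw.2, by rwa [proj_relTr hp.out hc h0 ho hB P hw.1 hw.2],
      fun B' hB' h => proj_relTr_eq_zero hp.out hc h0 hB hB' P _ hw.1 h⟩
  obtain ⟨B, hB, hB0⟩ := exists_hp (ρ := ρ) hp2 hc he hA
  have hst : ∀ y ∈ Subgroup.zpowers x, y ≠ 1 → ∃ s ∈ P, ∀ s' ∈ P, cj y (cj s B) ≠ cj s' B := by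
    intro y hy hy1
    by_contra h
    push Not at h
    have : Fact q.Prime := ⟨hq⟩
    have h2 : Nat.card (Subgroup.zpowers x) = q := by rw [Nat.card_zpowers, hxq]
    obtain ⟨s, hs, h3⟩ := exists_normalized_of_stable hP hq hq2
      (orderOf_dvd_iff_pow_eq_one.1 (hxq ▸ orderOf_dvd_of_mem_zpowers hy)) B h
    refine h1 _ (hB.cj s) (hcj B s hB0) (Subgroup.zpowers_le.2 h3 ?_)
    rw [(le_zpowers_of_card_le (IsPGroup.of_card (n := 1) (by rw [h2, pow_one])) h2.le hy hy1).1.symm]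
    exact Subgroup.mem_zpowers x
  obtain ⟨v, hv, hv1, hv2⟩ := hvec B hB hB0
  constructor
  · obtain ⟨s, -, hs⟩ := hst x (Subgroup.mem_zpowers x) fun h => by
      rw [h, orderOf_one] at hxq; omega
    have h2 := (hB.cj s).cj x
    obtain ⟨w, hw, hw1, -⟩ := hvec _ h2 (hcj _ x (hcj B s hB0))
    have h3 := hv2 _ h2 hs
    have h4 : LinearIndependent (ZMod 2) ![(⟨v, hv⟩ : fix ρ P), ⟨w, hw⟩] := by
      rw [LinearIndependent.pair_iff]
      intro a b hab
      have h5 : a • v + b • w = 0 := congrArg Subtype.val hab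
      have h6 := congrArg (proj ρ (cj x (cj s B))) h5
      rw [map_add, map_smul, map_smul, h3, smul_zero, zero_add, map_zero, smul_eq_zero] at h6
      have h7 := h6.resolve_right hw1
      rw [h7, zero_smul, add_zero, smul_eq_zero] at h5
      exact ⟨h5.resolve_right fun h => hv1 (by rw [h, map_zero]), h7⟩
    simpa using h4.fintype_card_le_finrank
  · intro hinv
    have h2 : ∀ y ∈ Subgroup.zpowers x, y ≠ 1 → proj ρ B (ρ y v) = 0 := fun y hy hy1 => by
      obtain ⟨s, hs, h3⟩ := hst y⁻¹ (inv_mem hy) (inv_ne_one.2 hy1)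
      have h4 := congrArg (ρ y) (hv2 _ ((hB.cj s).cj y⁻¹) h3)
      rw [apply_proj, cj_cj_inv, map_zero, ← hinv y hy v hv s hs, ← apply_proj] at h4
      exact apply_injective s (h4.trans (map_zero _).symm)
    have hx : ∀ i : ℕ, x ^ i ∈ Subgroup.zpowers x := fun i => pow_mem (Subgroup.mem_zpowers x) i
    have h3 : LinearIndependent (ZMod 2)
        fun i : Fin 3 => (⟨ρ (x ^ (i : ℕ)) v, hinv _ (hx i) v hv⟩ : fix ρ P) := by
      refine LinearIndependent.of_comp (fix ρ P).subtype (Fintype.linearIndependent_iff.2 ?_)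
      intro g hg j
      have h4 := congrArg (fun w => proj ρ B (ρ (x ^ (j : ℕ))⁻¹ w)) hg
      simp only [map_sum, map_smul, map_zero, Function.comp_apply, Submodule.subtype_apply] at h4
      rw [Finset.sum_eq_single j, inv_apply_apply, smul_eq_zero] at h4
      · exact h4.resolve_right hv1
      · intro i _ hij
        rw [← mul_app, h2 _ (mul_mem (inv_mem (hx j)) (hx i)), smul_zero]
        rw [Ne, inv_mul_eq_one]
        intro h
        exact hij (Fin.ext (pow_injOn_Iio_orderOf (by simp only [Set.mem_Iio]; omega)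
          (by simp only [Set.mem_Iio]; omega) h.symm))
      · exact fun h => absurd (Finset.mem_univ _) h
    simpa using h3.fintype_card_le_finrank

end Hyper

end Cfsg.Lib.Solv.F2S
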