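/-
Carter subgroups of finite solvable groups: existence, conjugacy, abnormality, images in quotients.
-/
import Mathlib.GroupTheory.Nilpotent
import Mathlib.GroupTheory.Solvable
import Mathlib.GroupTheory.Sylow
import Cfsg.Prelude.Def_SolvableStructure

set_option autoImplicit false

namespace Cfsg.Lib.Solv.Carter

open Subgroup
open scoped Pointwise

universe u

variable {G : Type u} [Group G]

/-- A nontrivial finite solvable group has an abelian minimal normal subgroup of prime power order. -/
theorem exists_min_normal [Finite G] [Group.IsSolvable G] [Nontrivial G] :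
    ∃ (N : Subgroup G) (p : ℕ), p.Prime ∧ N.Normal ∧ N ≠ ⊥ ∧ IsPGroup p N ∧
      (∀ a ∈ N, ∀ b ∈ N, a * b = b * a) ∧ ∀ M : Subgroup G, M.Normal → M ≤ N → M = ⊥ ∨ M = N := by
  obtain ⟨N, ⟨hN, hNb⟩, hmin⟩ := WellFounded.has_min (wellFounded_lt (α := Subgroup G))
    {N : Subgroup G | N.Normal ∧ N ≠ ⊥} ⟨⊤, inferInstance, top_ne_bot⟩
  have hmin' : ∀ M : Subgroup G, M.Normal → M ≤ N → M = ⊥ ∨ M = N := by
    intro M hM hMN
    by_contra hcon
    push Not at hcon
    exact hmin M ⟨hM, hcon.1⟩ (lt_of_le_of_ne hMN hcon.2)
  have hcomm : ⁅N, N⁆ = ⊥ := by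
    rcases hmin' ⁅N, N⁆ inferInstance (commutator_le_left N N) with h | h
    · exact h
    · exact absurd h (Group.IsSolvable.commutator_lt_of_ne_bot hNb).ne
  have hcomm' : ∀ a ∈ N, ∀ b ∈ N, a * b = b * a := by
    intro a ha b hb
    have := commutator_mem_commutator ha hb
    rw [hcomm, mem_bot, commutatorElement_eq_one_iff_mul_comm] at this
    exact this
  have hcard : Nat.card N ≠ 1 := by
    intro h
    exact hNb (card_eq_one.mp h)
  obtain ⟨p, hp, hpd⟩ := Nat.exists_prime_and_dvd hcard
  have : Fact p.Prime := ⟨hp⟩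
  obtain ⟨P⟩ : Nonempty (Sylow p N) := inferInstance
  have hPn : (P : Subgroup N).Normal := ⟨fun n hn g => by
    have : g * n * g⁻¹ = n := by
      have := hcomm' g g.2 n n.2
      apply Subtype.ext
      simp [this]
    rwa [this]⟩
  have : (P : Subgroup N).Characteristic := P.characteristic_of_normal hPn
  have h1 : ((P : Subgroup N).map N.subtype).Normal := inferInstance
  refine ⟨N, p, hp, hN, hNb, ?_, hcomm', hmin'⟩
  rcases hmin' _ h1 (map_subtype_le _) with h | h
  · exfalso
    rw [map_eq_bot_iff_of_injective _ N.subtype_injective] at h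
    exact P.ne_bot_of_dvd_card hpd h
  · rw [← h]
    exact P.isPGroup'.map _

theorem conj_smul_eq_iff_mem_normalizer {H : Subgroup G} {g : G} :
    MulAut.conj g • H = H ↔ g ∈ normalizer (H : Set G) :=
  mem_normalizer_iff_map_conj_eq.symm

theorem map_conj_smul {G' : Type*} [Group G'] (f : G →* G') (g : G) (H : Subgroup G) :
    (MulAut.conj g • H).map f = MulAut.conj (f g) • H.map f := by
  change (H.map (MulAut.conj g).toMonoidHom).map f = (H.map f).map (MulAut.conj (f g)).toMonoidHom
  rw [Subgroup.map_map, Subgroup.map_map]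
  congr 1
  ext x
  simp

theorem index_dvd_card_of_sup_eq_top [Finite G] {E N : Subgroup G} [N.Normal] (h : E ⊔ N = ⊤) :
    E.index ∣ Nat.card N := by
  have h1 : N.index = N.relIndex E := by rw [← relIndex_top_right, ← h, relIndex_sup_right]
  obtain ⟨c, hc⟩ : N.relIndex E ∣ Nat.card E := relIndex_dvd_card _ _
  have h3 := E.index_mul_card
  have h4 := N.index_mul_card
  have hr : N.index ≠ 0 := index_ne_zero_of_finite
  refine ⟨c, Nat.eq_of_mul_eq_mul_left (Nat.pos_of_ne_zero hr) ?_⟩
  rw [h4, ← h3, hc, h1]
  ring

theorem IsCarter.subgroupOf {C K : Subgroup G} (hC : IsCarterSubgroup C) (hCK : C ≤ K) :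
    IsCarterSubgroup (C.subgroupOf K) := by
  refine ⟨?_, ?_⟩
  · have := hC.1
    exact Group.nilpotent_of_mulEquiv (subgroupOfEquivOfLe hCK).symm
  · rw [← subgroupOf_normalizer_eq hCK, hC.2]

theorem IsCarter.map_equiv {G' : Type*} [Group G'] {C : Subgroup G} (hC : IsCarterSubgroup C)
    (e : G ≃* G') : IsCarterSubgroup (C.map (e : G →* G')) := by
  refine ⟨?_, ?_⟩
  · have := hC.1
    exact Group.nilpotent_of_mulEquiv (e.subgroupMap C)
  · rw [← map_normalizer_eq_of_bijective C (f := (e : G →* G')) e.bijective, hC.2]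

theorem IsCarter.conj {C : Subgroup G} (hC : IsCarterSubgroup C) (g : G) :
    IsCarterSubgroup (MulAut.conj g • C) :=
  IsCarter.map_equiv hC (MulAut.conj g)

/-- In a nilpotent group the only Carter subgroup is the whole group. -/
theorem IsCarter.eq_top [Group.IsNilpotent G] {C : Subgroup G} (hC : IsCarterSubgroup C) : C = ⊤ :=
  (normalizerCondition_iff_only_full_group_self_normalizing.mp
    Group.normalizerCondition_of_isNilpotent) C hC.2

theorem isCarter_top [h : Group.IsNilpotent G] : IsCarterSubgroup (⊤ : Subgroup G) :=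
  ⟨Group.isNilpotent_top.mpr h, normalizer_eq_top_iff.mpr inferInstance⟩

/-- The conjugacy property for Carter subgroups. -/
def CarterConj (G : Type u) [Group G] : Prop :=
  ∀ C D : Subgroup G, IsCarterSubgroup C → IsCarterSubgroup D → ∃ g : G, MulAut.conj g • C = D

theorem conj_of_carterConj {C D K : Subgroup G} (hK : CarterConj K) (hC : IsCarterSubgroup C)
    (hD : IsCarterSubgroup D) (hCK : C ≤ K) (hDK : D ≤ K) : ∃ k ∈ K, MulAut.conj k • C = D := by
  obtain ⟨k, hk⟩ := hK _ _ (IsCarter.subgroupOf hC hCK) (IsCarter.subgroupOf hD hDK)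
  refine ⟨k, k.2, ?_⟩
  rw [conj_smul_subgroupOf hCK] at hk
  have h1 := conj_smul_le_of_le hCK k
  have := congrArg (Subgroup.map K.subtype) hk
  rwa [map_subgroupOf_eq_of_le h1, map_subgroupOf_eq_of_le hDK] at this

theorem normalizer_eq_of_carterConj {C K : Subgroup G} (hK : K = ⊤ ∨ CarterConj K)
    (hC : IsCarterSubgroup C) (hCK : C ≤ K) : normalizer (K : Set G) = K := by
  rcases hK with rfl | hK
  · exact normalizer_eq_top_iff.mpr inferInstance
  apply le_antisymm _ le_normalizer
  intro x hx
  have h1 : MulAut.conj x • C ≤ K := by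
    rw [← conj_smul_eq_iff_mem_normalizer.mpr hx]
    exact pointwise_smul_le_pointwise_smul_iff.mpr hCK
  obtain ⟨k, hk, hkx⟩ := conj_of_carterConj hK hC (IsCarter.conj hC x) hCK h1
  have h2 : MulAut.conj (k⁻¹ * x) • C = C := by
    rw [map_mul, mul_smul, ← hkx, ← mul_smul, ← map_mul, inv_mul_cancel, map_one, one_smul]
  have h3 : k⁻¹ * x ∈ K := hCK (hC.2 ▸ conj_smul_eq_iff_mem_normalizer.mp h2)
  simpa using K.mul_mem hk h3

theorem map_of_carterConj {G' : Type*} [Group G'] {f : G →* G'} (hf : Function.Surjective f)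
    {C : Subgroup G} (hK : C ⊔ f.ker = ⊤ ∨ CarterConj ↥(C ⊔ f.ker))
    (hC : IsCarterSubgroup C) : IsCarterSubgroup (C.map f) := by
  refine ⟨?_, ?_⟩
  · have := hC.1
    exact Group.nilpotent_of_surjective (f.subgroupMap C) (f.subgroupMap_surjective C)
  · apply comap_injective hf
    rw [comap_normalizer_eq_of_surjective _ hf, comap_map_eq]
    exact normalizer_eq_of_carterConj hK hC le_sup_left

/-- Dedekind-type step: a proper subgroup containing a supplement `C` of an abelian minimal normal
subgroup is `C`. -/
theorem eq_of_sup_min_normal {N C L : Subgroup G} [N.Normal]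
    (hcomm : ∀ a ∈ N, ∀ b ∈ N, a * b = b * a)
    (hmin : ∀ M : Subgroup G, M.Normal → M ≤ N → M = ⊥ ∨ M = N)
    (hC : C ⊔ N = ⊤) (hCL : C ≤ L) (hL : L ≠ ⊤) : L ⊓ N = ⊥ ∧ L = C := by
  have hdec : ∀ g : G, ∃ c ∈ C, ∃ n ∈ N, c * n = g := by
    intro g
    have : g ∈ C ⊔ N := hC ▸ mem_top g
    exact mem_sup_of_normal_right.mp this
  have hn : (L ⊓ N).Normal := by
    refine ⟨fun x hx g => ?_⟩
    obtain ⟨c, hc, n, hn, rfl⟩ := hdec g
    have h1 : c * n * x * (c * n)⁻¹ = c * x * c⁻¹ := by
      rw [mul_assoc c n x, hcomm n hn x hx.2]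
      group
    rw [h1]
    exact ⟨L.mul_mem (L.mul_mem (hCL hc) hx.1) (L.inv_mem (hCL hc)),
      Normal.conj_mem inferInstance x hx.2 c⟩
  have hbot : L ⊓ N = ⊥ := by
    rcases hmin _ hn inf_le_right with h | h
    · exact h
    · exfalso
      apply hL
      rw [eq_top_iff, ← hC]
      exact sup_le hCL (inf_eq_right.mp h)
  refine ⟨hbot, le_antisymm ?_ hCL⟩
  intro l hl
  obtain ⟨c, hc, n, hn, rfl⟩ := hdec l
  have : n ∈ L ⊓ N := ⟨by simpa using L.mul_mem (L.inv_mem (hCL hc)) hl, hn⟩
  rw [hbot, mem_bot] at this
  simpa [this] using hc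

theorem main (n : ℕ) : ∀ (G : Type u) [Group G] [Finite G] [Group.IsSolvable G], Nat.card G = n →
    (∃ C : Subgroup G, IsCarterSubgroup C) ∧ CarterConj G := by
  induction n using Nat.strong_induction_on with
  | _ n ih =>
  intro G _ _ _ hn
  by_cases hnil : Group.IsNilpotent G
  · refine ⟨⟨⊤, isCarter_top⟩, fun C D hC hD => ⟨1, ?_⟩⟩
    rw [IsCarter.eq_top hC, IsCarter.eq_top hD, map_one, one_smul]
  have hnt : Nontrivial G := by
    by_contra h
    rw [not_nontrivial_iff_subsingleton] at h
    exact hnil inferInstance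
  obtain ⟨N, p, hp, hN, hNb, hNp, hcomm, hmin⟩ := exists_min_normal (G := G)
  have : Fact p.Prime := ⟨hp⟩
  have ihsub : ∀ K : Subgroup G, K ≠ ⊤ → (∃ C : Subgroup K, IsCarterSubgroup C) ∧ CarterConj K := by
    intro K hK
    refine ih _ ?_ K rfl
    rw [← hn]
    exact lt_of_le_of_ne (card_le_card_group K) (fun h => hK (eq_top_of_card_eq K h))
  have ihsub' : ∀ K : Subgroup G, K = ⊤ ∨ CarterConj K := by
    intro K
    by_cases hK : K = ⊤
    · exact Or.inl hK
    · exact Or.inr (ihsub K hK).2
  have ihq : (∃ C : Subgroup (G ⧸ N), IsCarterSubgroup C) ∧ CarterConj (G ⧸ N) := by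
    refine ih _ ?_ (G ⧸ N) rfl
    rw [← hn, card_eq_card_quotient_mul_card_subgroup N]
    exact lt_mul_of_one_lt_right Nat.card_pos ((one_lt_card_iff_ne_bot N).mpr hNb)
  have hsurj : Function.Surjective (QuotientGroup.mk' N) := QuotientGroup.mk'_surjective N
  have hker : (QuotientGroup.mk' N).ker = N := QuotientGroup.ker_mk' N
  constructor
  · obtain ⟨Kb, hKb⟩ := ihq.1
    set K := Kb.comap (QuotientGroup.mk' N) with hKdef
    have hKn : normalizer (K : Set G) = K := by
      rw [hKdef, ← comap_normalizer_eq_of_surjective _ hsurj, hKb.2]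
    by_cases hK : K = ⊤
    · have hKb' : Kb = ⊤ := by
        apply comap_injective hsurj
        rw [← hKdef, hK, comap_top]
      have hq : Group.IsNilpotent (G ⧸ N) := by
        have := hKb.1
        rw [hKb'] at this
        exact Group.isNilpotent_top.mp this
      have h3 : ¬ ∀ H : Subgroup G, IsCoatom H → H.Normal := fun h =>
        hnil ((Group.isNilpotent_of_finite_tfae.out 0 2 rfl rfl).mpr h)
      push Not at h3
      obtain ⟨M, hM, hMn⟩ := h3
      have hNM : ¬ N ≤ M := by
        intro hle
        apply hMn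
        have h4 : normalizer (M : Set G) ≠ M := by
          intro h5
          have : IsCarterSubgroup (M.map (QuotientGroup.mk' N)) := by
            refine ⟨inferInstance, ?_⟩
            apply comap_injective hsurj
            rw [comap_normalizer_eq_of_surjective _ hsurj, comap_map_eq, hker, sup_eq_left.mpr hle, h5]
          have h6 := congrArg (comap (QuotientGroup.mk' N)) (IsCarter.eq_top this)
          rw [comap_map_eq, hker, sup_eq_left.mpr hle, comap_top] at h6
          exact hM.1 h6
        exact normalizer_eq_top_iff.mp (hM.2 _ (lt_of_le_of_ne le_normalizer h4.symm))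
      have hMN : M ⊔ N = ⊤ := hM.2 _ (left_lt_sup.mpr hNM)
      have hbot := (eq_of_sup_min_normal hcomm hmin hMN le_rfl hM.1).1
      refine ⟨M, ?_, ?_⟩
      · have hinj : Function.Injective ((QuotientGroup.mk' N).comp M.subtype) := by
          rw [← MonoidHom.ker_eq_bot_iff, eq_bot_iff]
          intro x hx
          have h7 : (x : G) ∈ M ⊓ N := ⟨x.2, by simpa using hx⟩
          rw [hbot, mem_bot] at h7
          exact Subtype.ext h7
        exact Group.nilpotent_of_mulEquiv (MonoidHom.ofInjective hinj).symm
      · by_contra h4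
        exact hMn (normalizer_eq_top_iff.mp (hM.2 _ (lt_of_le_of_ne le_normalizer (Ne.symm h4))))
    · obtain ⟨C, hC⟩ := (ihsub K hK).1
      -- the image of `C` in the nilpotent group `K / N` is everything
      let f : K →* Kb := ((QuotientGroup.mk' N).comp K.subtype).codRestrict Kb (fun x => x.2)
      have hf : Function.Surjective f := by
        rintro ⟨y, hy⟩
        obtain ⟨x, rfl⟩ := hsurj y
        exact ⟨⟨x, hy⟩, rfl⟩
      have hCf : IsCarterSubgroup (C.map f) := by
        refine map_of_carterConj hf ?_ hC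
        by_cases h : C ⊔ f.ker = ⊤
        · exact Or.inl h
        · refine Or.inr (ih _ ?_ _ rfl).2
          rw [← hn]
          exact lt_of_le_of_lt (card_le_card_group _)
            (lt_of_le_of_ne (card_le_card_group K) (fun h => hK (eq_top_of_card_eq K h)))
      have := hKb.1
      have hCtop := IsCarter.eq_top hCf
      have hCN : C.map K.subtype ⊔ N = K := by
        apply le_antisymm
        · refine sup_le (map_subtype_le _) ?_
          intro x hx
          have : QuotientGroup.mk' N x = 1 := by simpa using hx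
          rw [hKdef, mem_comap, this]
          exact Kb.one_mem
        · intro x hx
          have : f ⟨x, hx⟩ ∈ C.map f := hCtop ▸ mem_top _
          obtain ⟨c, hc, hcx⟩ := this
          have h8 : QuotientGroup.mk' N (c : G) = QuotientGroup.mk' N x := congrArg Subtype.val hcx
          have h9 : (c : G)⁻¹ * x ∈ N := QuotientGroup.eq.mp h8
          have := mul_mem_sup (S := C.map K.subtype) (mem_map_of_mem K.subtype hc) h9
          simpa using this
      refine ⟨C.map K.subtype, ?_, ?_⟩
      · have := hC.1
        exact Group.nilpotent_of_mulEquiv (C.equivMapOfInjective K.subtype K.subtype_injective)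
      · apply le_antisymm _ le_normalizer
        intro x hx
        have hxK : x ∈ K := by
          rw [← hKn, ← conj_smul_eq_iff_mem_normalizer, ← hCN, smul_sup,
            conj_smul_eq_iff_mem_normalizer.mpr hx, Normal.conj_smul_eq_self]
        have h10 : (⟨x, hxK⟩ : K) ∈ normalizer (C : Set K) := by
          have h11 : (C.map K.subtype).subgroupOf K = C :=
            comap_map_eq_self_of_injective K.subtype_injective C
          rw [← h11, ← subgroupOf_normalizer_eq (map_subtype_le C)]
          exact hx
        rw [hC.2] at h10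
        exact mem_map_of_mem K.subtype h10
  · intro C D hC hD
    have hCq : IsCarterSubgroup (C.map (QuotientGroup.mk' N)) :=
      map_of_carterConj hsurj (ihsub' _) hC
    have hDq : IsCarterSubgroup (D.map (QuotientGroup.mk' N)) :=
      map_of_carterConj hsurj (ihsub' _) hD
    obtain ⟨gb, hgb⟩ := ihq.2 _ _ hCq hDq
    obtain ⟨g, rfl⟩ := hsurj gb
    have hg : (MulAut.conj g • C) ⊔ N = D ⊔ N := by
      have h1 : (MulAut.conj g • C).map (QuotientGroup.mk' N) = D.map (QuotientGroup.mk' N) := by
        rw [← hgb, map_conj_smul]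
      have := congrArg (comap (QuotientGroup.mk' N)) h1
      rwa [comap_map_eq, comap_map_eq, hker] at this
    suffices h : ∃ k : G, MulAut.conj k • (MulAut.conj g • C) = D by
      obtain ⟨k, hk⟩ := h
      exact ⟨k * g, by rw [map_mul, mul_smul, hk]⟩
    have hC' := IsCarter.conj hC g
    generalize MulAut.conj g • C = C' at hg hC'
    rcases ihsub' (D ⊔ N) with hK | hK
    · -- both are complements of `N`
      have hq : Group.IsNilpotent (G ⧸ N) := by
        have h1 : D.map (QuotientGroup.mk' N) = ⊤ := by
          apply comap_injective hsurj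
          rw [comap_map_eq, hker, hK, comap_top]
        have := hDq.1
        rw [h1] at this
        exact Group.isNilpotent_top.mp this
      have h3 : ¬ ∀ (q : ℕ) (_ : Fact q.Prime) (Q : Sylow q G), (Q : Subgroup G).Normal := fun h =>
        hnil ((Group.isNilpotent_of_finite_tfae.out 0 3 rfl rfl).mpr h)
      push Not at h3
      obtain ⟨q, hq', Q, hQ⟩ := h3
      have hqp : q ≠ p := by
        rintro rfl
        apply hQ
        have h4 : N ≤ Q := hNp.le_sylow_of_normal Q
        have h5 : ((Q.mapSurjective hsurj : Subgroup (G ⧸ N))).Normal := inferInstance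
        have h6 := h5.comap (QuotientGroup.mk' N)
        rwa [Sylow.coe_mapSurjective, comap_map_eq, hker, sup_eq_left.mpr h4] at h6
      have key : ∀ E : Subgroup G, IsCarterSubgroup E → E ⊔ N = ⊤ →
          ∃ R : Sylow q G, normalizer ((R : Subgroup G) : Set G) = E := by
        intro E hE hEN
        have := hE.1
        obtain ⟨R⟩ : Nonempty (Sylow q E) := inferInstance
        have hidx : ¬ q ∣ E.index := by
          obtain ⟨k, hk⟩ := IsPGroup.iff_card.mp hNp
          intro h8
          have h7 := h8.trans (index_dvd_card_of_sup_eq_top hEN)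
          rw [hk] at h7
          exact hqp ((Nat.prime_dvd_prime_iff_eq hq'.out hp).mp (hq'.out.dvd_of_dvd_pow h7))
        have hR : ¬ q ∣ ((R : Subgroup E).map E.subtype).index := by
          rw [index_map_subtype]
          intro h8
          rcases (Nat.Prime.dvd_mul hq'.out).mp h8 with h | h
          · exact R.not_dvd_index h
          · exact hidx h
        let R' : Sylow q G := (R.isPGroup'.map E.subtype).toSylow hR
        have hR'n : ¬ (R' : Subgroup G).Normal := by
          intro h
          apply hQ
          have := Sylow.unique_of_normal R' h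
          rw [Subsingleton.elim Q R']
          exact h
        refine ⟨R', (eq_of_sup_min_normal hcomm hmin hEN ?_ ?_).2⟩
        · have h9 : (R : Subgroup E).Normal := inferInstance
          have h10 : ((R : Subgroup E).map E.subtype).subgroupOf E = R :=
            comap_map_eq_self_of_injective E.subtype_injective _
          exact (normal_subgroupOf_iff_le_normalizer (map_subtype_le _)).mp (h10.symm ▸ h9)
        · intro h
          exact hR'n (normalizer_eq_top_iff.mp h)
      obtain ⟨R₁, hR₁⟩ := key C' hC' (hg.trans hK)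
      obtain ⟨R₂, hR₂⟩ := key D hD hK
      obtain ⟨k, hk⟩ := MulAction.exists_smul_eq G R₁ R₂
      refine ⟨k, ?_⟩
      rw [← hR₁, ← hR₂, ← hk, Sylow.coe_subgroup_smul]
      exact map_normalizer_eq_of_bijective _ (MulAut.conj k).bijective
    · obtain ⟨k, _, hk⟩ := conj_of_carterConj hK hC' hD (hg ▸ le_sup_left) le_sup_left
      exact ⟨k, hk⟩

/-- Carter: existence. -/
theorem exists_carter (G : Type u) [Group G] [Finite G] [Group.IsSolvable G] :
    ∃ C : Subgroup G, IsCarterSubgroup C := (main _ G rfl).1

/-- Carter: conjugacy. -/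
theorem carter_conj [Finite G] [Group.IsSolvable G] {C D : Subgroup G} (hC : IsCarterSubgroup C)
    (hD : IsCarterSubgroup D) : ∃ g : G, MulAut.conj g • C = D := (main _ G rfl).2 C D hC hD

/-- Every subgroup containing a Carter subgroup of a finite solvable group is self-normalizing. -/
theorem normalizer_eq_of_carter_le [Finite G] [Group.IsSolvable G] {C K : Subgroup G}
    (hC : IsCarterSubgroup C) (hCK : C ≤ K) : normalizer (K : Set G) = K :=
  normalizer_eq_of_carterConj (Or.inr (main _ K rfl).2) hC hCK

/-- The image of a Carter subgroup under a surjection is a Carter subgroup. -/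
theorem carter_map_of_surjective [Finite G] [Group.IsSolvable G] {G' : Type*} [Group G']
    {f : G →* G'} (hf : Function.Surjective f) {C : Subgroup G} (hC : IsCarterSubgroup C) :
    IsCarterSubgroup (C.map f) :=
  map_of_carterConj hf (Or.inr (main _ _ rfl).2) hC

end Cfsg.Lib.Solv.Carter
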