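import Cfsg.Agent.Solv.CoprimeSylow
import Cfsg.Agent.Solv.CoprimeAbelian
import Cfsg.Agent.Solv.CommCalc
import Cfsg.Agent.Solv.Fitting
import Cfsg.Agent.Solv.MinNormal
import Cfsg.Agent.Solv.PGroupNormal
import Cfsg.Agent.Trans.CentralTransfer

/-!
# Fixed points of an automorphism of odd prime order: the case of a nontrivial centre
-/

set_option autoImplicit false

open Subgroup
open scoped commutatorElement Pointwise

namespace Cfsg.Lib.Solv.FlavFix

universe u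

variable {G : Type u} [Group G]

/-- The centraliser of `⟨x⟩`. -/
abbrev CX (x : G) : Subgroup G := centralizer (zpowers x : Set G)

/-- The subgroup generated by `x` and a conjugate. -/
abbrev BX (x g : G) : Subgroup G := zpowers x ⊔ zpowers (g * x * g⁻¹)

theorem mem_CX {x c : G} : c ∈ CX x ↔ x * c = c * x := by
  refine ⟨fun h => h x (mem_zpowers x), fun h => ?_⟩
  rintro _ ⟨k, rfl⟩
  exact (Commute.zpow_left h k).eq

/-- The data of a minimal counterexample. -/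
structure Ctx (p : ℕ) (H : Subgroup G) (x : G) (E : Subgroup G) : Prop where
  prime : p.Prime
  odd : p ≠ 2
  pow : x ^ p = 1
  normal : H.Normal
  solv : Group.IsSolvable H
  cop : (Nat.card H).Coprime p
  sup : H ⊔ zpowers x = ⊤
  comm : ⁅H, zpowers x⁆ = H
  le : E ≤ CX x
  conj : ∀ c ∈ CX x, ∀ e ∈ E, c * e * c⁻¹ ∈ E
  two : ∀ g, BX x g ⊓ CX x ≤ E
  sub : ∀ M < H, zpowers x ≤ normalizer (M : Set G) → ⁅M, zpowers x⁆ ⊓ CX x ≤ E
  dec : ∀ N : Subgroup G, N.Normal → N ≤ H → N ≠ ⊥ → ∀ c ∈ H ⊓ CX x, ∃ e ∈ E, ∃ n ∈ N, c = e * n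
  ne : ¬ H ⊓ CX x ≤ E

theorem commutator_zpowers_le [Finite G] {H S : Subgroup G} [hH : H.Normal] {x : G}
    (h : ∀ a ∈ H, ⁅a, x⁆ ∈ S) : ⁅H, zpowers x⁆ ≤ S := by
  have key : ∀ n : ℕ, ∀ a ∈ H, ⁅a, x ^ n⁆ ∈ S := by
    intro n
    induction n with
    | zero => intro a _; simp
    | succ n ih =>
      intro a ha
      have h1 : ⁅a, x ^ (n + 1)⁆ = ⁅a, x ^ n⁆ * ⁅x ^ n * a * (x ^ n)⁻¹, x⁆ := by
        simp only [commutatorElement_def, pow_succ]; group
      rw [h1]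
      exact S.mul_mem (ih a ha) (h _ (hH.conj_mem a ha _))
  refine commutator_le.2 fun a ha b hb => ?_
  obtain ⟨n, rfl⟩ := (mem_powers_iff_mem_zpowers.2 hb : b ∈ Submonoid.powers x)
  exact key n a ha

namespace Ctx

variable [Finite G] {p : ℕ} {H E : Subgroup G} {x : G}

omit [Finite G] in
theorem cop' (c : Ctx p H x E) {K : Subgroup G} (hK : K ≤ H) :
    (Nat.card (zpowers x)).Coprime (Nat.card K) := by
  rw [Nat.card_zpowers]
  exact ((c.cop.coprime_dvd_left (card_dvd_of_le hK)).symm).coprime_dvd_left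
    (orderOf_dvd_of_pow_eq_one c.pow)

omit [Finite G] in
theorem eq_top (c : Ctx p H x E) {N : Subgroup G} [N.Normal] (h : x ∈ N) : N = ⊤ := by
  have h1 : zpowers x ≤ N := zpowers_le.2 h
  rw [eq_top_iff, ← c.sup, sup_le_iff, ← c.comm]
  exact ⟨(commutator_mono le_rfl h1).trans (commutator_le_right _ _), h1⟩

omit [Finite G] in
theorem normal_of (c : Ctx p H x E) {N : Subgroup G} (h1 : H ≤ normalizer (N : Set G))
    (h2 : zpowers x ≤ normalizer (N : Set G)) : N.Normal := by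
  rw [← normalizer_eq_top_iff, eq_top_iff, ← c.sup]
  exact sup_le h1 h2

omit [Finite G] in
theorem le_center (c : Ctx p H x E) {N : Subgroup G} [N.Normal] (h : N ≤ CX x) :
    N ≤ center G := fun n hn => mem_center_iff.2 fun g => by
  have h1 : centralizer (N : Set G) = ⊤ := c.eq_top fun m hm => (mem_CX.1 (h hm)).symm
  exact (h1.ge (mem_top g) n hn).symm

omit [Finite G] in
theorem quo (c : Ctx p H x E) {N : Subgroup G} (hN : N.Normal) (hNH : N ≤ H)
    (h : N ⊓ CX x ≤ E) : N = ⊥ := by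
  by_contra h0
  refine c.ne fun a ha => ?_
  obtain ⟨e, he, n, hn, rfl⟩ := c.dec N hN hNH h0 a ha
  refine E.mul_mem he (h ⟨hn, ?_⟩)
  simpa using (CX x).mul_mem ((CX x).inv_mem (c.le he)) ha.2

theorem exists_T (c : Ctx p H x E) {h : G} (hh : h ∈ H) : ∃ T ≤ H,
    zpowers x ≤ normalizer (T : Set G) ∧ ⁅T, zpowers x⁆ = T ∧ T ≤ BX x h ∧ ⁅h, x⁆ ∈ T := by
  have := c.normal
  have h1 : zpowers x ≤ normalizer ((H ⊓ BX x h : Subgroup G) : Set G) :=
    le_normalizer_inf le_normalizer_of_normal (le_sup_left.trans le_normalizer)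
  have h2 := commutator_le_left_of_le_normalizer h1
  refine ⟨⁅H ⊓ BX x h, zpowers x⁆, h2.trans inf_le_left, right_le_normalizer_commutator _ _,
    Coprime.commutator_commutator h1 (c.cop' inf_le_left), h2.trans inf_le_right, ?_⟩
  obtain ⟨k, hk, h3⟩ := Coprime.exists_mul_mem_centralizer' h1 (c.cop' inf_le_left)
    (Or.inl (Coprime.isSolvable_zpowers x)) (g := h) (fun a ha => by
      refine ⟨H.mul_mem (c.normal.conj_mem h hh a) (H.inv_mem hh), ?_⟩
      obtain ⟨n, rfl⟩ := ha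
      have h4 : x ^ n * h * (x ^ n)⁻¹ * h⁻¹ = x ^ n * (h * x * h⁻¹) ^ (-n) := by
        rw [conj_zpow]; group
      change x ^ n * h * (x ^ n)⁻¹ * h⁻¹ ∈ _
      rw [h4]
      exact mul_mem_sup (zpow_mem_zpowers _ _) (zpow_mem_zpowers _ _))
  have h4 : ⁅h, x⁆ = ⁅k⁻¹, x⁆ := by
    have h5 := mem_CX.1 h3
    calc ⁅h, x⁆ = k⁻¹ * (k * h * x) * h⁻¹ * x⁻¹ := by simp only [commutatorElement_def]; group
      _ = ⁅k⁻¹, x⁆ := by rw [← h5]; simp only [commutatorElement_def]; group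
  rw [h4]
  exact commutator_mem_commutator (inv_mem hk) (mem_zpowers x)

theorem Z_le (c : Ctx p H x E) : H ⊓ centralizer (H : Set G) ≤ center G := by
  have := c.normal
  set Z := H ⊓ centralizer (H : Set G) with hZ
  have : IsMulCommutative Z := ⟨⟨fun a b => Subtype.ext (b.2.2 a a.2.1)⟩⟩
  have h1 : zpowers x ≤ normalizer (Z : Set G) := le_normalizer_of_normal
  have h2 := commutator_le_left_of_le_normalizer h1
  have h3 := Coprime.centralizer_inf_commutator_eq_bot h1 (c.cop' inf_le_left)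
  have h4 : ⁅Z, zpowers x⁆ = ⊥ := c.quo (c.normal_of
      (fun h hh => mem_normalizer_of_conj_mem fun a ha => by
        rw [(h2 ha).2 h hh, mul_inv_cancel_right]; exact ha)
      (right_le_normalizer_commutator _ _)) (h2.trans inf_le_left) fun a ha => by
    have : a = 1 := h3.le (mem_inf.2 ⟨mem_inf.2 ⟨h2 ha.1, ha.2⟩, ha.1⟩)
    rw [this]; exact E.one_mem
  exact c.le_center (commutator_eq_bot_iff_le_centralizer.1 h4)

omit [Finite G] in
theorem eq_one (c : Ctx p H x E) {a : G} (h1 : a ∈ H) (h2 : a ∈ center G) (h3 : a ∈ E) : a = 1 := by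
  have h4 : H ⊓ center G ⊓ E = ⊥ := c.quo ⟨fun n hn g => by
    rw [mem_center_iff.1 hn.1.2 g, mul_inv_cancel_right]; exact hn⟩
    (inf_le_left.trans inf_le_left) (inf_le_left.trans inf_le_right)
  exact h4.le (mem_inf.2 ⟨mem_inf.2 ⟨h1, h2⟩, h3⟩)

omit [Finite G] in
theorem center_le : center G ≤ CX x := fun _ h => mem_CX.2 (mem_center_iff.1 h x)

theorem isNilpotent (c : Ctx p H x E) (h0 : H ⊓ centralizer (H : Set G) ≠ ⊥) :
    Group.IsNilpotent H := by
  have := c.normal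
  obtain ⟨z, hz, hq⟩ := Coprime.exists_prime_orderOf_of_ne_bot h0
  have hzc := c.Z_le hz
  set q := orderOf z with hqz
  have : Fact q.Prime := ⟨hq⟩
  have hV : (zpowers z).Normal := ⟨fun n hn g => by
    rw [mem_center_iff.1 (zpowers_le.2 hzc hn) g, mul_inv_cancel_right]; exact hn⟩
  have hVH : zpowers z ≤ H := zpowers_le.2 hz.1
  have hz1 : z ≠ 1 := fun h => hq.ne_one (by rw [hqz, h, orderOf_one])
  obtain ⟨Q, hVQ, hQH, hQ, hi, hXQ⟩ := Coprime.exists_le_invariant_sylow' (p := q) (K := H)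
    le_normalizer_of_normal (c.cop' le_rfl) (Or.inr c.solv) hVH
    (IsPGroup.of_card (n := 1) (by rw [Nat.card_zpowers, pow_one])) le_normalizer_of_normal
  rcases hQH.lt_or_eq with hlt | rfl
  swap
  · exact hQ.isNilpotent
  exfalso
  have hi' : ¬ q ∣ Q.index := by
    rw [← relIndex_mul_index hQH, hq.dvd_mul]
    refine not_or.2 ⟨hi, fun h => ?_⟩
    have h1 : H.index ∣ Nat.card (zpowers x) := by
      rw [← relIndex_top_right, ← c.sup, Coprime.relIndex_sup_of_le_normalizer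
        le_normalizer_of_normal]
      exact relIndex_dvd_card _ _
    have h2 : q ∣ Nat.card H := orderOf_dvd_natCard H hz.1
    exact hq.ne_one (Nat.eq_one_of_dvd_coprimes (c.cop' le_rfl) (h.trans h1) h2)
  have h1 := Trans.center_inf_commutator_inf_sylow_le (hQ.toSylow hi')
    (mem_inf.2 ⟨mem_inf.2 ⟨hzc, commutator_mono le_top le_top (c.comm.ge hz.1)⟩,
      hVQ (mem_zpowers z)⟩)
  change z ∈ ⁅Q, Q⁆ at h1
  have hn : E ⊓ Q ≤ normalizer ((⁅Q, zpowers x⁆ : Subgroup G) : Set G) :=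
    inf_le_right.trans (left_le_normalizer_commutator _ _)
  have h2 : ∀ y ∈ Q, ∃ a ∈ ⁅Q, zpowers x⁆ ⊔ E ⊓ Q, ∃ v ∈ center G, y = a * v := by
    intro y hy
    obtain ⟨k, hk, d, hd, rfl⟩ := Coprime.exists_commutator_mul_centralizer hXQ (c.cop' hQH)
      (Or.inl (Coprime.isSolvable_zpowers x)) hy
    obtain ⟨e, he, v, hv, rfl⟩ := c.dec _ hV hVH (by simpa using hz1) d ⟨hQH hd.1, hd.2⟩
    refine ⟨k * e, mul_mem_sup hk ⟨he, ?_⟩, v, zpowers_le.2 hzc hv, by group⟩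
    simpa using Q.mul_mem hd.1 (Q.inv_mem (hVQ hv))
  have h3 : ⁅Q, Q⁆ ≤ ⁅Q, zpowers x⁆ ⊔ E ⊓ Q := commutator_le.2 fun y hy y' hy' => by
    obtain ⟨a, ha, v, hv, rfl⟩ := h2 y hy
    obtain ⟨b, hb, w, hw, rfl⟩ := h2 y' hy'
    have h4 : ⁅a * v, b * w⁆ = a * b * a⁻¹ * b⁻¹ := by
      calc ⁅a * v, b * w⁆ = a * (v * b) * (w * (v⁻¹ * a⁻¹)) * w⁻¹ * b⁻¹ := by
            simp only [commutatorElement_def]; group
        _ = a * b * (v * v⁻¹) * a⁻¹ * b⁻¹ := by
            rw [← mem_center_iff.1 hv b, ← mem_center_iff.1 hw]; group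
        _ = _ := by group
    rw [h4]
    exact mul_mem (mul_mem (mul_mem ha hb) (inv_mem ha)) (inv_mem hb)
  obtain ⟨k, hk, e, he, h4⟩ := (mem_sup_of_le_normalizer hn).1 (h3 h1)
  refine hz1 (c.eq_one hz.1 hzc ?_)
  rw [← h4]
  refine E.mul_mem (c.sub Q hlt hXQ ⟨hk, ?_⟩) he.1
  have h5 : k = z * e⁻¹ := by rw [← h4]; group
  rw [h5]
  exact (CX x).mul_mem (center_le hzc) ((CX x).inv_mem (c.le he.1))

omit [Finite G] in
theorem T_inf (c : Ctx p H x E) {T : Subgroup G} {h : G} (h1 : T ≤ H) (h2 : T ≤ BX x h) {a : G}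
    (ha : a ∈ T) (hc : a ∈ center G) : a = 1 :=
  c.eq_one (h1 ha) hc (c.two h ⟨h2 ha, center_le hc⟩)

theorem class_two (c : Ctx p H x E) (hc : ⁅H, H⁆ ≤ center G) : H = ⊥ := by
  have := c.normal
  have hc' : ∀ a ∈ H, ∀ b ∈ H, ⁅a, b⁆ ∈ center G := fun a ha b hb =>
    hc (commutator_mem_commutator ha hb)
  have cl : ∀ a ∈ H, ∀ b ∈ H, ∀ n ∈ H, ⁅a * b, n⁆ = ⁅a, n⁆ * ⁅b, n⁆ := by
    intro a ha b hb n hn
    have h1 : ⁅a * b, n⁆ = a * ⁅b, n⁆ * a⁻¹ * ⁅a, n⁆ := by
      simp only [commutatorElement_def]; group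
    rw [h1, mem_center_iff.1 (hc' b hb n hn) a, mul_inv_cancel_right,
      mem_center_iff.1 (hc' a ha n hn)]
  have cr : ∀ m ∈ H, ∀ a ∈ H, ∀ b ∈ H, ⁅m, a * b⁆ = ⁅m, a⁆ * ⁅m, b⁆ := by
    intro m hm a ha b hb
    have h1 : ⁅m, a * b⁆ = ⁅m, a⁆ * (a * ⁅m, b⁆ * a⁻¹) := by
      simp only [commutatorElement_def]; group
    rw [h1, mem_center_iff.1 (hc' m hm b hb) a, mul_inv_cancel_right]
  have hσ : ∀ a ∈ H, x * a * x⁻¹ ∈ H := fun a ha => c.normal.conj_mem a ha x
  let φ := QuotientGroup.mk' (center G)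
  have hφ : ∀ a ∈ H, ∀ b ∈ H, φ a * φ b = φ b * φ a := fun a ha b hb => by
    rw [← commutatorElement_eq_one_iff_mul_comm, ← map_commutatorElement]
    exact (QuotientGroup.eq_one_iff _).2 (hc' a ha b hb)
  have hδ : ∀ a ∈ H, ⁅a, x⁆ ∈ H := fun a ha =>
    c.comm.le (commutator_mem_commutator ha (mem_zpowers x))
  let S : Subgroup G :=
    { carrier := {a | ∃ h ∈ H, φ a = φ ⁅h, x⁆}
      one_mem' := ⟨1, H.one_mem, by simp⟩
      mul_mem' := by
        rintro a b ⟨h, hh, ha⟩ ⟨k, hk, hb⟩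
        refine ⟨h * k, H.mul_mem hh hk, ?_⟩
        have h1 : ⁅h * k, x⁆ = h * ⁅k, x⁆ * h⁻¹ * ⁅h, x⁆ := by
          simp only [commutatorElement_def]; group
        rw [h1, map_mul, map_mul, map_mul, map_mul, hφ h hh _ (hδ k hk), ha, hb, map_inv,
          mul_inv_cancel_right, hφ _ (hδ h hh) _ (hδ k hk)]
      inv_mem' := by
        rintro a ⟨h, hh, ha⟩
        refine ⟨h⁻¹, H.inv_mem hh, ?_⟩
        have h1 : ⁅h⁻¹, x⁆ = h⁻¹ * ⁅h, x⁆⁻¹ * h := by
          simp only [commutatorElement_def]; group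
        rw [h1, map_mul, map_mul, hφ _ (H.inv_mem hh) _ (H.inv_mem (hδ h hh)), map_inv φ h,
          inv_mul_cancel_right, map_inv, map_inv, ha] }
  have hS : H ≤ S := c.comm.ge.trans (commutator_zpowers_le fun a ha => ⟨a, ha, rfl⟩)
  have h1 : ∀ a ∈ H, ⁅a, x * a * x⁻¹⁆ = 1 := fun a ha => by
    obtain ⟨h, hh, h2⟩ := hS ha
    obtain ⟨T, hT1, hT2, -, hT3, hT4⟩ := c.exists_T hh
    obtain ⟨z, hz, h3⟩ := (QuotientGroup.mk'_eq_mk' _).1 h2.symm
    generalize ⁅h, x⁆ = d at hT4 h3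
    have h4 := conj_mem_of_mem_normalizer (hT2 (mem_zpowers x)) hT4
    have h5 : ⁅d, x * d * x⁻¹⁆ = 1 := c.T_inf hT1 hT3
      (commutator_le_self T (commutator_mem_commutator hT4 h4)) (hc' _ (hT1 hT4) _ (hT1 h4))
    rw [commutatorElement_eq_one_iff_commute] at h5 ⊢
    have h6 : ∀ g, Commute z g := fun g => (mem_center_iff.1 hz g).symm
    rw [← h3, show x * (d * z) * x⁻¹ = x * d * x⁻¹ * (x * z * x⁻¹) by group, ← (h6 x).eq,
      mul_inv_cancel_right]
    exact (h5.mul_right (h6 d).symm).mul_left (h6 _)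
  have h2 : ∀ a ∈ H, ∀ b ∈ H, ⁅a, x * b * x⁻¹⁆ = ⁅x * a * x⁻¹, b⁆ := fun a ha b hb => by
    have h3 := h1 _ (H.mul_mem ha hb)
    rw [show x * (a * b) * x⁻¹ = x * a * x⁻¹ * (x * b * x⁻¹) by group,
      cl a ha b hb _ (H.mul_mem (hσ a ha) (hσ b hb)), cr a ha _ (hσ a ha) _ (hσ b hb),
      cr b hb _ (hσ a ha) _ (hσ b hb), h1 a ha, h1 b hb, one_mul, mul_one,
      mul_eq_one_iff_eq_inv, commutatorElement_inv] at h3
    exact h3
  have h3 : ∀ a ∈ H, ⁅a, x ^ 2⁆ ∈ H ⊓ centralizer (H : Set G) := fun a ha => by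
    have h4 := hσ _ (hσ _ (H.inv_mem ha))
    have h5 : ⁅a, x ^ 2⁆ = a * (x * (x * a⁻¹ * x⁻¹) * x⁻¹) := by
      simp only [commutatorElement_def, pow_two]; group
    rw [h5]
    refine ⟨H.mul_mem ha h4, fun b hb => ?_⟩
    have hb' : x⁻¹ * b * x ∈ H := by simpa using c.normal.conj_mem b hb x⁻¹
    obtain ⟨b, rfl⟩ : ∃ b', b = x * b' * x⁻¹ := ⟨x⁻¹ * b * x, by group⟩
    have hb'' : b ∈ H := by simpa [mul_assoc] using hb'
    rw [eq_comm, ← commutatorElement_eq_one_iff_mul_comm, cl _ ha _ h4 _ hb,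
      ← conjugate_commutatorElement, mem_center_iff.1 (hc' _ (hσ _ (H.inv_mem ha)) _ hb'') x,
      mul_inv_cancel_right, ← h2 _ (H.inv_mem ha) _ hb'', ← cl _ ha _ (H.inv_mem ha) _ hb]
    simp
  have h4 : zpowers (x ^ 2) = zpowers x := by
    refine le_antisymm (zpowers_le.2 (pow_mem (mem_zpowers x) 2)) (zpowers_le.2 ?_)
    obtain ⟨k, hk⟩ := c.prime.odd_of_ne_two c.odd
    refine mem_zpowers_iff.2 ⟨(k + 1 : ℕ), ?_⟩
    rw [zpow_natCast, ← pow_mul, show 2 * (k + 1) = p + 1 by omega, pow_succ, c.pow, one_mul]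
  have h5 := (commutator_zpowers_le h3).trans c.Z_le
  rw [h4, c.comm] at h5
  rw [← c.comm, commutator_eq_bot_iff_le_centralizer]
  exact h5.trans center_le

theorem center_eq_bot (c : Ctx p H x E) : H ⊓ centralizer (H : Set G) = ⊥ := by
  have := c.normal
  by_contra h0
  have hnil := c.isNilpotent h0
  have hc : ¬ ⁅H, H⁆ ≤ center G := fun h => h0 (by rw [c.class_two h, bot_inf_eq])
  obtain ⟨Y, ⟨hY1, hY2, hY3⟩, hmin⟩ := (wellFounded_lt (α := Subgroup G)).has_min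
    {Y | Y.Normal ∧ Y ≤ H ∧ ¬ Y ≤ center G}
    ⟨H, c.normal, le_rfl, fun h => hc ((commutator_le_self H).trans h)⟩
  have hYH : ⁅Y, H⁆ ≤ center G := by
    by_contra h
    refine hmin _ ⟨inferInstance, commutator_le_right _ _, h⟩
      (lt_of_le_of_ne (commutator_le_left _ _) fun h1 => hY3 ?_)
    rw [eq_bot_of_le_commutator_of_isNilpotent hnil hY2 h1.ge]
    exact bot_le
  have hXY : zpowers x ≤ normalizer (Y : Set G) := le_normalizer_of_normal
  have hW := commutator_le_left_of_le_normalizer hXY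
  have h1 : ∃ h ∈ H, ⁅h, x⁆ ∉ centralizer ((⁅Y, zpowers x⁆ : Subgroup G) : Set G) := by
    by_contra h
    push Not at h
    have h2 := commutator_zpowers_le h
    rw [c.comm, le_centralizer_iff] at h2
    have h3 := ((le_inf (hW.trans hY2) h2).trans c.Z_le).trans (center_le (x := x))
    exact hY3 (c.le_center (commutator_eq_bot_iff_le_centralizer.1
      (Coprime.commutator_eq_bot_of_commutator_commutator_eq_bot hXY (c.cop' hY2)
        (commutator_eq_bot_iff_le_centralizer.2 h3))))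
  obtain ⟨h, hh, h1⟩ := h1
  obtain ⟨T, hT1, hT2, hT5, hT3, hT4⟩ := c.exists_T hh
  have hL : T ⊔ Y = H := by
    by_contra h2
    refine h1 fun w hw => ?_
    have h3 := hYH (commutator_mem_commutator (hW hw) (hT1 hT4))
    rw [← commutatorElement_eq_one_iff_mul_comm]
    refine c.eq_one (commutator_le_self H (commutator_mem_commutator (hY2 (hW hw)) (hT1 hT4))) h3
      (c.sub _ (lt_of_le_of_ne (sup_le hT1 hY2) h2) (le_normalizer_sup hT2 hXY)
        ⟨commutator_le_self _ (commutator_mem_commutator ?_ ?_), center_le h3⟩)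
    · exact commutator_mono le_sup_right le_rfl hw
    · exact commutator_mono le_sup_left le_rfl (hT5.ge hT4)
  have hYT : ⁅Y, T⁆ ≤ center G := (commutator_mono le_rfl hT1).trans hYH
  have hb : ⁅⁅Y, T⁆, T⁆ = ⊥ := commutator_eq_bot_iff_le_centralizer.2
    (hYT.trans (center_le_centralizer _))
  have hTT : (⁅T, T⁆).Normal := c.normal_of (by
    rw [← hL]
    refine sup_le (left_le_normalizer_commutator _ _) (le_trans ?_ (centralizer_le_normalizer _))
    rw [← commutator_eq_bot_iff_le_centralizer']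
    exact commutator_commutator_eq_bot_of_rotate (by rwa [Subgroup.commutator_comm T Y]) hb)
    (le_normalizer_commutator hT2 hT2)
  have hT0 : ⁅T, T⁆ = ⊥ := by
    by_contra h2
    obtain ⟨V, hV, hVT⟩ := exists_isMinNormal_le _ h2
    have := hV.normal
    have h3 := hVT.trans (commutator_le_self T)
    have h4 := commutator_eq_bot_iff_le_centralizer.1
      (commutator_eq_bot_of_minimal_normal_of_isNilpotent hV.min hnil)
    exact hV.ne_bot (eq_bot_iff.2 fun v hv =>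
      c.T_inf hT1 hT3 (h3 hv) (c.Z_le ⟨hT1 (h3 hv), h4 hv⟩))
  refine hc ?_
  nth_rewrite 1 [← hL]
  refine commutator_sup_left_le ?_ hYH
  rw [← hL]
  exact commutator_sup_right_le (hT0.le.trans bot_le) (by rwa [Subgroup.commutator_comm])

end Ctx

end Cfsg.Lib.Solv.FlavFix
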