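import Cfsg.Agent.Solv.FrobRed
import Cfsg.Agent.Fus.PcKit

/-!
# Counting the solutions of `x ^ n = 1` by enumeration
-/

set_option autoImplicit false

namespace Cfsg.Lib.Solv.Frob

open Subgroup Cfsg.Lib.Solv.Count Cfsg.Lib.Fus.Grp

variable {G : Type*} [Group G] {R : ℕ → G → Prop} {mu : ℕ → ℕ → ℕ} {o : ℕ}

/-- Value of a word. -/
def evW (mu : ℕ → ℕ → ℕ) (o : ℕ) (cs w : List ℕ) : ℕ :=
  List.rec o (fun j _ ih => frc ih (mu (cs.getD j o))) w

theorem exists_evW (K : Codes R mu o) {cs : List ℕ} (h : ∀ c ∈ cs, ∃ g, R c g) (w : List ℕ) :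
    ∃ g, R (evW mu o cs w) g := by
  induction w with
  | nil => exact ⟨1, K.one⟩
  | cons j w ih =>
    obtain ⟨g, hg⟩ := ih
    by_cases hj : j < cs.length
    · obtain ⟨a, ha⟩ := h _ (List.getElem_mem hj)
      exact ⟨_, K.mul (List.getD_eq_getElem _ _ hj ▸ ha) hg⟩
    · exact ⟨_, K.mul ((List.getD_eq_default _ o (not_lt.1 hj)).symm ▸ K.one) hg⟩

/-- All products of `x` with one member of each list. -/
def prods (mu : ℕ → ℕ → ℕ) : List (List ℕ) → ℕ → List ℕ
  | [], x => [x]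
  | L :: Ls, x => L.flatMap fun t => prods mu Ls (mu x t)

/-- A fold over all products. -/
def foldP (mu st : ℕ → ℕ → ℕ) (Ls : List (List ℕ)) : ℕ → ℕ → ℕ :=
  List.rec (fun x s => st s x) (fun L _ ih x => List.rec (fun s => s)
    (fun t _ ih2 s => frc (mu x t) fun y => frc (ih y s) ih2) L) Ls

theorem foldP_eq (st : ℕ → ℕ → ℕ) (Ls : List (List ℕ)) (x s : ℕ) :
    foldP mu st Ls x s = (prods mu Ls x).foldl st s := by
  induction Ls generalizing x s with
  | nil => rfl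
  | cons L Ls ih =>
    induction L generalizing s with
    | nil => rfl
    | cons t L ih2 =>
      rw [prods, List.flatMap_cons, List.foldl_append, ← ih]
      exact ih2 _

theorem exists_of_mem_prods (K : Codes R mu o) {Ls : List (List ℕ)}
    (h : ∀ L ∈ Ls, ∀ c ∈ L, ∃ g, R c g) {x : ℕ} {a : G} (hx : R x a) :
    ∀ c ∈ prods mu Ls x, ∃ g, R c g := by
  induction Ls generalizing x a with
  | nil => intro c hc; exact ⟨a, List.mem_singleton.1 hc ▸ hx⟩
  | cons L Ls ih =>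
    intro c hc
    obtain ⟨t, ht, hc⟩ := List.mem_flatMap.1 hc
    obtain ⟨g, hg⟩ := h L List.mem_cons_self t ht
    exact ih (fun L hL => h L (List.mem_cons_of_mem _ hL)) (K.mul hx hg) c hc

theorem length_prods (Ls : List (List ℕ)) (x : ℕ) :
    (prods mu Ls x).length = (Ls.map List.length).prod := by
  induction Ls generalizing x with
  | nil => rfl
  | cons L Ls ih => simp [prods, List.length_flatMap, ih]

/-- Clears a bit, or fails. -/
def clr (key : ℕ → ℕ) (s c : ℕ) : ℕ := frc (key c) fun k =>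
  cond (Nat.beq (Nat.land (Nat.shiftRight s k) 1) 1) (Nat.xor s (Nat.pow 2 k)) 0

theorem clr_eq (key : ℕ → ℕ) (s c : ℕ) :
    clr key s c = if s.testBit (key c) then s ^^^ 2 ^ key c else 0 := by
  have : Nat.beq (Nat.land (Nat.shiftRight s (key c)) 1) 1 = s.testBit (key c) := by
    rw [Bool.eq_iff_iff, Nat.beq_eq, Nat.testBit_eq_decide_div_mod_eq, decide_eq_true_iff,
      ← Nat.shiftRight_eq_div_pow, ← Nat.and_one_is_mod]
    rfl
  rw [clr, frc_eq, this]
  cases s.testBit (key c) <;> rfl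

theorem nodup_of_clr (key : ℕ → ℕ) (L : List ℕ) (s : ℕ) (h : L.foldl (clr key) s ≠ 0) :
    L.Nodup ∧ ∀ c ∈ L, s.testBit (key c) = true := by
  induction L generalizing s with
  | nil => simp
  | cons c L ih =>
    obtain ⟨h1, h2⟩ := ih _ h
    have h0 : ∀ L : List ℕ, L.foldl (clr key) 0 = 0 := fun L => by
      induction L with
      | nil => rfl
      | cons a L ih => rw [List.foldl_cons, clr_eq, Nat.zero_testBit]; exact ih
    by_cases hb : s.testBit (key c) = true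
    · rw [clr_eq, if_pos hb] at h2
      refine ⟨List.nodup_cons.2 ⟨fun hc => by simpa [hb] using h2 c hc, h1⟩, fun d hd => ?_⟩
      rcases List.mem_cons.1 hd with rfl | hd
      · exact hb
      · have := h2 d hd
        rw [Nat.testBit_xor, Nat.testBit_two_pow] at this
        by_cases e : key c = key d
        · exact e ▸ hb
        · simpa [e] using this
    · rw [List.foldl_cons, clr_eq, if_neg hb] at h
      exact (h (h0 L)).elim

/-- Search for the order. -/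
def ordF (mu : ℕ → ℕ → ℕ) (o c f : ℕ) : ℕ → ℕ → ℕ :=
  Nat.rec (fun _ _ => 0) (fun _ ih y k => cond (Nat.beq y o) k
    (frc (mu y c) fun y' => ih y' (Nat.succ k))) f

theorem ordF_lt (c f y k : ℕ) (hk : 0 < k) : ordF mu o c f y k < k + f := by
  induction f generalizing y k with
  | zero => exact hk
  | succ f ih =>
    change cond (Nat.beq y o) k (ordF mu o c f (mu y c) (k + 1)) < _
    have := ih (mu y c) (k + 1) (by omega)
    cases Nat.beq y o <;> simp only [cond_true, cond_false] <;> omega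

theorem pow_ordF (K : Codes R mu o) {c : ℕ} {g : G} (hc : R c g) (f : ℕ) {y k : ℕ}
    (hy : R y (g ^ k)) : g ^ ordF mu o c f y k = 1 := by
  induction f generalizing y k with
  | zero => exact pow_zero g
  | succ f ih =>
    change g ^ cond (Nat.beq y o) k (ordF mu o c f (mu y c) (k + 1)) = 1
    cases e : Nat.beq y o
    · exact ih (pow_succ g k ▸ K.mul hy hc)
    · exact K.beq hy K.one e

/-- The histogram of the orders. -/
def hst (mu : ℕ → ℕ → ℕ) (o s c : ℕ) : ℕ := Nat.add s (Nat.pow 65536 (ordF mu o c 15 c 1))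

theorem sum_map_eq (φ : ℕ → ℕ) (hφ : ∀ c, φ c < 16) (w : ℕ → ℕ) (L : List ℕ) :
    (L.map fun c => w (φ c)).sum = ∑ i ∈ Finset.range 16, (L.countP fun c => φ c = i) * w i := by
  induction L with
  | nil => simp
  | cons c L ih =>
    simp only [List.map_cons, List.sum_cons, ih, List.countP_cons, add_mul, Finset.sum_add_distrib,
      decide_eq_true_eq, ite_mul, one_mul, zero_mul, Finset.sum_ite_eq, Finset.mem_range, hφ c,
      if_true, add_comm]

theorem digit_sum {B : ℕ} (k : ℕ) : ∀ (f : ℕ → ℕ) (_ : ∀ i, f i < B) (N : ℕ) (_ : k < N),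
    (∑ i ∈ Finset.range N, f i * B ^ i) / B ^ k % B = f k := by
  induction k with
  | zero =>
    intro f hf N hN
    obtain ⟨N, rfl⟩ := Nat.exists_eq_add_of_le' hN
    simp only [Finset.sum_range_succ', pow_succ, ← mul_assoc, ← Finset.sum_mul, pow_zero, mul_one,
      Nat.div_one, Nat.mul_add_mod_self_right, Nat.mod_eq_of_lt (hf 0)]
  | succ k ih =>
    intro f hf N hN
    obtain ⟨N, rfl⟩ := Nat.exists_eq_add_of_le' (Nat.zero_lt_of_lt hN)
    have hB : 0 < B := Nat.zero_lt_of_lt (hf 0)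
    rw [pow_succ', ← Nat.div_div_eq_div_mul, Finset.sum_range_succ']
    simp only [pow_succ, ← mul_assoc, ← Finset.sum_mul, pow_zero, mul_one]
    rw [add_comm, Nat.add_mul_div_right _ _ hB, Nat.div_eq_of_lt (hf 0), zero_add]
    exact ih _ (fun i => hf _) N (by omega)

/-- The final check. -/
def finB (N s : ℕ) : Prop := ∀ n ∈ N.divisors, n = 1 ∨ n = N ∨
  n < ∑ i ∈ Finset.range 16, s / 65536 ^ i % 65536 * (if i ≠ 0 ∧ i ∣ n then 1 else 0)

instance decFinB (N s : ℕ) : Decidable (finB N s) := by unfold finB; infer_instance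

theorem fc_of_enum [Finite G] (K : Codes R mu o) {cs : List ℕ} (hcs : ∀ c ∈ cs, ∃ g, R c g)
    {Ws : List (List (List ℕ))} {Ls : List (List ℕ)} (hW : Ws.map (List.map (evW mu o cs)) = Ls)
    (key : ℕ → ℕ) (M : ℕ) {N s : ℕ} (hN : Nat.card G = N) (hl : (Ls.map List.length).prod < 65536)
    (h1 : foldP mu (clr key) Ls o (2 ^ M - 1) ≠ 0) (h2 : foldP mu (hst mu o) Ls o 0 = s)
    (h3 : finB N s) : FC G := by
  classical
  intro n hn hc
  rcases h3 n (Nat.mem_divisors.2 ⟨hN ▸ hn, hN ▸ Nat.card_pos.ne'⟩) with rfl | rfl | h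
  · exact ⟨⊥, card_bot⟩
  · exact ⟨⊤, card_top.trans hN⟩
  refine absurd hc (h.trans_le ?_).ne'
  have e1 := exists_of_mem_prods K (Ls := Ls) (fun L hL c hc => by
    obtain ⟨W, -, rfl⟩ := List.mem_map.1 (hW ▸ hL)
    obtain ⟨w, -, rfl⟩ := List.mem_map.1 hc
    exact exists_evW K hcs w) K.one
  rw [foldP_eq] at h1 h2
  rw [← length_prods (mu := mu) Ls o] at hl
  have e2 := (nodup_of_clr key _ _ h1).1
  generalize prods mu Ls o = L at e1 e2 h2 hl
  have e3 : ∀ c, ordF mu o c 15 c 1 < 16 := fun c => ordF_lt c 15 c 1 one_pos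
  have e4 : ∀ (L : List ℕ) (a : ℕ), L.foldl (hst mu o) a =
      a + (L.map fun c => 65536 ^ ordF mu o c 15 c 1).sum := fun L => by
    induction L with
    | nil => simp
    | cons c L ih => intro a; rw [List.foldl_cons, ih, List.map_cons, List.sum_cons, ← add_assoc]; rfl
  rw [e4, zero_add, sum_map_eq _ e3 (65536 ^ ·)] at h2
  rw [Finset.sum_congr rfl fun i hi => by
    rw [← h2, digit_sum i _ (fun _ => List.countP_le_length.trans_lt hl) 16 (Finset.mem_range.1 hi)],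
    ← sum_map_eq _ e3 fun i => if i ≠ 0 ∧ i ∣ n then 1 else 0]
  choose! φ hφ using e1
  have e5 : ∀ L : List ℕ, (L.map fun c => if ordF mu o c 15 c 1 ≠ 0 ∧ ordF mu o c 15 c 1 ∣ n
      then 1 else 0).sum = (L.filter fun c => ordF mu o c 15 c 1 ≠ 0 ∧ ordF mu o c 15 c 1 ∣ n).length :=
    fun L => by
    induction L with
    | nil => rfl
    | cons c L ih =>
      rw [List.map_cons, List.sum_cons, ih, List.filter_cons]
      split_ifs with a b b <;> simp_all [add_comm]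
  rw [e5, ← List.toFinset_card_of_nodup (e2.filter _), ← Nat.card_eq_finsetCard]
  refine Nat.card_le_card_of_injective (fun c => ⟨φ c.1, ?_⟩) fun c d e => Subtype.ext ?_
  · obtain ⟨a, b⟩ := List.mem_filter.1 (List.mem_toFinset.1 c.2)
    exact orderOf_dvd_iff_pow_eq_one.1 ((orderOf_dvd_of_pow_eq_one
      (pow_ordF K (hφ _ a) 15 (by simpa using hφ _ a))).trans (of_decide_eq_true b).2)
  · exact (K.eq_iff (hφ _ (List.mem_filter.1 (List.mem_toFinset.1 c.2)).1)
      (hφ _ (List.mem_filter.1 (List.mem_toFinset.1 d.2)).1)).1 (congrArg Subtype.val e)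

/-! ### Matrices of degree three -/

/-- A digit. -/
def dg (c k : ℕ) : ℕ := Nat.land (Nat.shiftRight c k) 15

/-- Nine digits. -/
def pk9 (a b c d e f g h i : ℕ) : ℕ :=
  Nat.add a (Nat.mul 16 (Nat.add b (Nat.mul 16 (Nat.add c (Nat.mul 16 (Nat.add d (Nat.mul 16
    (Nat.add e (Nat.mul 16 (Nat.add f (Nat.mul 16 (Nat.add g (Nat.mul 16 (Nat.add h
      (Nat.mul 16 i)))))))))))))))

/-- An inner product. -/
def ip3 (ad ml : ℕ → ℕ → ℕ) (a b c x y z : ℕ) : ℕ := ad (ad (ml a x) (ml b y)) (ml c z)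

/-- The product of packed matrices. -/
def mm3 (ad ml : ℕ → ℕ → ℕ) (a b : ℕ) : ℕ :=
  frc (dg a 0) fun a0 => frc (dg a 4) fun a1 => frc (dg a 8) fun a2 =>
  frc (dg a 12) fun a3 => frc (dg a 16) fun a4 => frc (dg a 20) fun a5 =>
  frc (dg a 24) fun a6 => frc (dg a 28) fun a7 => frc (dg a 32) fun a8 =>
  frc (dg b 0) fun b0 => frc (dg b 4) fun b1 => frc (dg b 8) fun b2 =>
  frc (dg b 12) fun b3 => frc (dg b 16) fun b4 => frc (dg b 20) fun b5 =>
  frc (dg b 24) fun b6 => frc (dg b 28) fun b7 => frc (dg b 32) fun b8 =>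
  pk9 (ip3 ad ml a0 a1 a2 b0 b3 b6) (ip3 ad ml a0 a1 a2 b1 b4 b7) (ip3 ad ml a0 a1 a2 b2 b5 b8)
    (ip3 ad ml a3 a4 a5 b0 b3 b6) (ip3 ad ml a3 a4 a5 b1 b4 b7) (ip3 ad ml a3 a4 a5 b2 b5 b8)
    (ip3 ad ml a6 a7 a8 b0 b3 b6) (ip3 ad ml a6 a7 a8 b1 b4 b7) (ip3 ad ml a6 a7 a8 b2 b5 b8)

/-- The code of a matrix. -/
def cd3 {F : Type*} (v : F → ℕ) (M : Matrix (Fin 3) (Fin 3) F) : ℕ :=
  pk9 (v (M 0 0)) (v (M 0 1)) (v (M 0 2)) (v (M 1 0)) (v (M 1 1)) (v (M 1 2)) (v (M 2 0))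
    (v (M 2 1)) (v (M 2 2))

theorem dg_cd3 {F : Type*} {v : F → ℕ} (hv : ∀ x, v x < 16) (M : Matrix (Fin 3) (Fin 3) F) :
    dg (cd3 v M) 0 = v (M 0 0) ∧ dg (cd3 v M) 4 = v (M 0 1) ∧ dg (cd3 v M) 8 = v (M 0 2) ∧
    dg (cd3 v M) 12 = v (M 1 0) ∧ dg (cd3 v M) 16 = v (M 1 1) ∧ dg (cd3 v M) 20 = v (M 1 2) ∧
    dg (cd3 v M) 24 = v (M 2 0) ∧ dg (cd3 v M) 28 = v (M 2 1) ∧ dg (cd3 v M) 32 = v (M 2 2) := by
  have e : ∀ c k, dg c k = c / 2 ^ k % 16 := fun c k => by
    rw [← Nat.shiftRight_eq_div_pow]; exact Nat.and_two_pow_sub_one_eq_mod _ 4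
  have := hv (M 0 0); have := hv (M 0 1); have := hv (M 0 2)
  have := hv (M 1 0); have := hv (M 1 1); have := hv (M 1 2)
  have := hv (M 2 0); have := hv (M 2 1); have := hv (M 2 2)
  simp only [e, cd3, pk9, Nat.add_eq, Nat.mul_eq]
  refine ⟨?_, ?_, ?_, ?_, ?_, ?_, ?_, ?_, ?_⟩ <;> omega

theorem codes3 {F : Type*} [CommRing F] {v : F → ℕ} (hv : ∀ x, v x < 16)
    (hi : Function.Injective v) {ad ml : ℕ → ℕ → ℕ} (ha : ∀ x y, ad (v x) (v y) = v (x + y))
    (hm : ∀ x y, ml (v x) (v y) = v (x * y)) (ρ : G →* Matrix (Fin 3) (Fin 3) F)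
    (hρ : Function.Injective ρ) {o : ℕ} (ho : cd3 v 1 = o) :
    Codes (fun c g => cd3 v (ρ g) = c) (mm3 ad ml) o where
  mul := by
    rintro _ _ g h rfl rfl
    obtain ⟨a0, a1, a2, a3, a4, a5, a6, a7, a8⟩ := dg_cd3 hv (ρ g)
    obtain ⟨b0, b1, b2, b3, b4, b5, b6, b7, b8⟩ := dg_cd3 hv (ρ h)
    simp only [mm3, frc_eq, a0, a1, a2, a3, a4, a5, a6, a7, a8, b0, b1, b2, b3, b4, b5, b6, b7, b8,
      ip3, ha, hm]
    simp only [cd3, map_mul, Matrix.mul_apply, Fin.sum_univ_three]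
  one := by rw [map_one, ho]
  eq_iff := by
    rintro _ _ g h rfl rfl
    refine ⟨fun e => e ▸ rfl, fun e => hρ ?_⟩
    obtain ⟨a0, a1, a2, a3, a4, a5, a6, a7, a8⟩ := dg_cd3 hv (ρ g)
    obtain ⟨b0, b1, b2, b3, b4, b5, b6, b7, b8⟩ := dg_cd3 hv (ρ h)
    rw [e] at a0 a1 a2 a3 a4 a5 a6 a7 a8
    ext i j
    apply hi
    fin_cases i <;> fin_cases j
    exacts [a0.symm.trans b0, a1.symm.trans b1, a2.symm.trans b2, a3.symm.trans b3,
      a4.symm.trans b4, a5.symm.trans b5, a6.symm.trans b6, a7.symm.trans b7, a8.symm.trans b8]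

theorem evW_eq_1' : type_of% @evW.eq_1 := @evW.eq_1
theorem prods_eq_1' : type_of% @prods.eq_1 := @prods.eq_1
theorem prods_eq_2' : type_of% @prods.eq_2 := @prods.eq_2
theorem foldP_eq_1' : type_of% @foldP.eq_1 := @foldP.eq_1
theorem clr_eq_1' : type_of% @clr.eq_1 := @clr.eq_1
theorem ordF_eq_1' : type_of% @ordF.eq_1 := @ordF.eq_1
theorem hst_eq_1' : type_of% @hst.eq_1 := @hst.eq_1
theorem finB_eq_1' : type_of% @finB.eq_1 := @finB.eq_1
theorem dg_eq_1' : type_of% @dg.eq_1 := @dg.eq_1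
theorem pk9_eq_1' : type_of% @pk9.eq_1 := @pk9.eq_1
theorem ip3_eq_1' : type_of% @ip3.eq_1 := @ip3.eq_1
theorem mm3_eq_1' : type_of% @mm3.eq_1 := @mm3.eq_1
theorem cd3_eq_1' : type_of% @cd3.eq_1 := @cd3.eq_1

end Cfsg.Lib.Solv.Frob
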