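import Cfsg.Agent.Solv.FrobRed
import Cfsg.Agent.Solv.Hall
import Cfsg.Agent.Known.SylowCount

/-!
# Lower bounds for the number of solutions of `x ^ n = 1`
-/

set_option autoImplicit false

namespace Cfsg.Lib.Solv.Frob

open Subgroup Cfsg.Lib.Solv.Count

variable {G : Type*} [Group G] [Finite G]

theorem fiber_le {α β : Type*} [Finite α] [Finite β] (f : α → β) (P : α → Prop) (Q : β → Prop)
    {d : ℕ} (h : ∀ c, Q c → d ≤ cnt fun x => P x ∧ f x = c) : d * cnt Q ≤ cnt P := by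
  by_contra! hlt
  exact hlt.ne (fiber_eq f P Q h hlt.le).1

theorem cnt_pow_eq_succ (n : ℕ) :
    cnt (fun x : G => x ^ n = 1) = 1 + cnt fun x : G => x ≠ 1 ∧ x ^ n = 1 := by
  rw [cnt_add _ fun x : G => x = 1, cnt_eq_one (a := 1) ⟨one_pow n, rfl⟩ fun x hx => hx.2]
  exact congrArg _ (cnt_congr fun x => and_comm)

/-- Solutions conjugate into a trivial intersection subgroup. -/
theorem ti_le {T N : Subgroup G} (hT : ∀ t ∈ T, t ≠ 1 → ∀ g, g * t * g⁻¹ ∈ T → g ∈ N) (n : ℕ) :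
    N.index * (cnt (fun t : T => t ^ n = 1) - 1) ≤
      cnt fun w : G => (w ≠ 1 ∧ w ^ n = 1) ∧ w ^ Nat.card T = 1 := by
  classical
  rw [cnt_pow_eq_succ, Nat.add_sub_cancel_left]
  refine Nat.le_of_mul_le_mul_right ?_ (Nat.card_pos (α := N))
  rw [mul_right_comm, index_mul_card, cnt, cnt, ← Nat.card_prod, ← Nat.card_prod]
  let s : G → G := fun w => if h : ∃ g, g * w * g⁻¹ ∈ T then h.choose else 1
  have hs : ∀ w g, g * w * g⁻¹ ∈ T → s w * w * (s w)⁻¹ ∈ T := fun w g hg => by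
    have h : ∃ g, g * w * g⁻¹ ∈ T := ⟨g, hg⟩
    simp only [s, dif_pos h]
    exact h.choose_spec
  refine Nat.card_le_card_of_injective (fun x => (⟨x.1⁻¹ * x.2.1 * x.1, ⟨?_, ?_⟩, ?_⟩,
    ⟨s (x.1⁻¹ * x.2.1 * x.1) * x.1⁻¹, hT _ x.2.1.2 (fun e => x.2.2.1 (Subtype.ext e)) _ ?_⟩)) ?_
  · exact fun e => x.2.2.1 (Subtype.ext (by simpa [mul_assoc, inv_mul_eq_one] using e))
  · have : (x.2.1 : G) ^ n = 1 := congrArg Subtype.val x.2.2.2
    simpa [this] using conj_pow (a := x.1⁻¹) (b := (x.2.1 : G)) (i := n)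
  · have : (x.2.1 : G) ^ Nat.card T = 1 := congrArg Subtype.val (pow_card_eq_one' (x := x.2.1))
    simpa [this] using conj_pow (a := x.1⁻¹) (b := (x.2.1 : G)) (i := Nat.card T)
  · have := hs (x.1⁻¹ * x.2.1 * x.1) x.1 (by simpa [mul_assoc] using x.2.1.2)
    simpa [mul_assoc] using this
  · rintro ⟨g, t⟩ ⟨g', t'⟩ e
    simp only [Prod.mk.injEq, Subtype.mk.injEq] at e
    obtain ⟨e1, e2⟩ := e
    rw [e1, mul_right_inj, inv_inj] at e2
    subst e2
    rw [mul_left_inj, mul_right_inj] at e1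
    rw [Subtype.ext (Subtype.ext e1)]

theorem add_le_cnt {P : G → Prop} (hP : ∀ w, P w → w ≠ 1) {a b : ℕ} (hab : a.Coprime b) :
    cnt (fun w => P w ∧ w ^ a = 1) + cnt (fun w => P w ∧ w ^ b = 1) ≤
      cnt fun w => P w ∧ w ^ (a * b) = 1 := by
  rw [cnt_add (fun w => P w ∧ w ^ (a * b) = 1) fun w => w ^ a = 1]
  refine add_le_add (cnt_le fun w h => ⟨⟨h.1, by rw [pow_mul, h.2, one_pow]⟩, h.2⟩)
    (cnt_le fun w h => ⟨⟨h.1, by rw [mul_comm, pow_mul, h.2, one_pow]⟩, fun e => hP w h.1 ?_⟩)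
  have := pow_gcd_eq_one.2 ⟨e, h.2⟩
  rwa [hab, pow_one] at this

/-- Solutions with prescribed `r`-part. -/
theorem index_mul_gcd_lt {x : G} (hx : x ≠ 1) {r m n : ℕ} (hr : x ^ r = 1) (hm : m.Coprime r)
    (hn : m * r ∣ n) : (centralizer {x}).index * Nat.gcd m (Nat.card (centralizer ({x} : Set G))) <
      cnt fun w : G => w ^ n = 1 := by
  rw [cnt_pow_eq_succ, Nat.one_add, Nat.lt_succ_iff, ← card_isConj, mul_comm]
  refine fiber_le (fun w : G => w ^ m) _ (IsConj x) fun c hc => ?_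
  obtain ⟨g, rfl⟩ := isConj_iff.1 hc
  have h1 : (g * x * g⁻¹) ^ r = 1 := by rw [conj_pow, hr]; group
  have h2 : Nat.card (centralizer ({x} : Set G)) = Nat.card (centralizer ({g * x * g⁻¹} : Set G)) := by
    have : Nonempty {y : G // IsConj x y} := ⟨⟨x, IsConj.refl x⟩⟩
    refine Nat.eq_of_mul_eq_mul_left (Nat.card_pos (α := {y : G // IsConj x y})) ?_
    rw [card_isConj_mul_card_centralizer, ← card_isConj_mul_card_centralizer (g * x * g⁻¹)]
    exact congrArg (· * _) (cnt_congr fun y => ⟨fun h => hc.trans h, fun h => hc.symm.trans h⟩)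
  have h3 : g * x * g⁻¹ ≠ 1 := by simpa using hx
  generalize g * x * g⁻¹ = c at h1 h2 h3
  obtain ⟨e, he⟩ := exists_pow_eq_self_of_coprime (x := c)
    (hm.coprime_dvd_right (orderOf_dvd_of_pow_eq_one h1))
  have : Nonempty {w : G // w ^ m = c} := ⟨⟨c ^ e, by rw [← pow_mul, mul_comm, pow_mul, he]⟩⟩
  rw [h2]
  refine (Nat.le_of_dvd Nat.card_pos (gcd_dvd_card_pow_eq c m)).trans (cnt_le fun w hw =>
    ⟨⟨fun e => h3 (by rw [← hw, e, one_pow]), ?_⟩, hw⟩)
  obtain ⟨k, rfl⟩ := hn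
  rw [pow_mul, pow_mul, hw, h1, one_pow]

theorem cnt_conj_le {H N : Subgroup G} (hN : ∀ g ∈ N, ∀ h ∈ H, g * h * g⁻¹ ∈ H) :
    cnt (fun w : G => ∃ g, g * w * g⁻¹ ∈ H) * Nat.card N ≤ Nat.card G * Nat.card H := by
  rw [cnt, ← Nat.card_prod, ← Nat.card_prod]
  refine Nat.card_le_card_of_injective (fun x => (x.2 * x.1.2.choose,
    ⟨_, hN _ x.2.2 _ x.1.2.choose_spec⟩)) ?_
  rintro ⟨w, a⟩ ⟨w', a'⟩ e
  simp only [Prod.mk.injEq, Subtype.mk.injEq] at e
  obtain ⟨e1, e2⟩ := e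
  have e3 : w = w' := Subtype.ext (by
    calc w.1 = (a * w.2.choose)⁻¹ * (a * (w.2.choose * w * w.2.choose⁻¹) * (a : G)⁻¹) *
          (a * w.2.choose) := by group
      _ = _ := by rw [e2, e1]; group)
  subst e3
  rw [Subtype.ext (mul_right_cancel e1)]

theorem dvd_of_dvd_mul_prime {p k d n : ℕ} (hp : p.Prime) (hn : p ^ k ∣ n) (h : d ∣ n * p)
    (hd : ¬ p ^ (k + 1) ∣ d) : d ∣ n := by
  have h0 : d ≠ 0 := by rintro rfl; exact hd (dvd_zero _)
  obtain ⟨j, e, he, rfl⟩ := Nat.exists_eq_pow_mul_and_not_dvd h0 p hp.ne_one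
  have hc := (Nat.Prime.coprime_iff_not_dvd hp).2 he
  refine (hc.pow_left j).mul_dvd_of_dvd_of_dvd ((pow_dvd_pow p ?_).trans hn)
    (hc.symm.dvd_of_dvd_mul_right ((Dvd.intro_left _ rfl).trans h))
  by_contra hj
  exact hd ((pow_dvd_pow p (by omega)).mul_right e)

/-- No element has large `p`-part. -/
theorem cnt_ne_of_exp {p k n : ℕ} (hp : p.Prime) (hn : p ^ k ∣ n) (hG : n * p ∣ Nat.card G)
    (h : ∀ x : G, ¬ p ^ (k + 1) ∣ orderOf x) : cnt (fun x : G => x ^ n = 1) ≠ n := fun e => by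
  have h1 := (le_cnt_pow hG).trans (cnt_le (Q := fun x : G => x ^ n = 1) fun x hx =>
    orderOf_dvd_iff_pow_eq_one.1 (dvd_of_dvd_mul_prime hp hn (orderOf_dvd_of_pow_eq_one hx) (h x)))
  have h2 : 0 < n := Nat.pos_of_mul_pos_right (Nat.pos_of_dvd_of_pos hG Nat.card_pos)
  have := hp.two_le
  rw [e] at h1
  nlinarith

/-- The case of prime index. -/
theorem cnt_ne_of_prime [IsSimpleGroup G] {p n : ℕ} (hp : p.Prime) (h2 : 2 < p)
    (hG : n * p = Nat.card G) (hP : ¬ IsPGroup p G) : cnt (fun x : G => x ^ n = 1) ≠ n := fun e => by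
  have := Fact.mk hp
  obtain ⟨P⟩ : Nonempty (Sylow p G) := inferInstance
  have h1 := Known.SC.not_normalizer_le_centralizer P (P.ne_bot_of_dvd_card (Dvd.intro_left _ hG))
    fun e => hP ((e ▸ P.isPGroup').of_equiv topEquiv)
  have h3 : centralizer (P : Set G) ≤ normalizer (P : Set G) := centralizer_le_normalizer _
  obtain ⟨c, hc⟩ := card_dvd_of_le h3
  have h4 : 2 ≤ c := by
    rcases c with _ | _ | c
    · exact absurd hc Nat.card_pos.ne'
    · exact absurd (eq_of_le_of_card_ge h3 (by omega)).ge h1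
    · omega
  have h5 := cnt_conj_le (H := centralizer (P : Set G)) (N := normalizer (P : Set G))
    fun g hg h hh => mem_centralizer_iff.2 fun y hy => by
      have := mem_centralizer_iff.1 hh _ ((mem_normalizer_iff.1 (inv_mem hg) y).1 hy)
      calc y * (g * h * g⁻¹) = g * (g⁻¹ * y * g⁻¹⁻¹ * h) * g⁻¹ := by group
        _ = _ := by rw [this]; group
  obtain ⟨k, hk⟩ := IsPGroup.iff_card.1 P.isPGroup'
  have h6 : cnt (fun x : G => True ∧ ¬ x ^ n = 1) ≤
      cnt fun w : G => ∃ g, g * w * g⁻¹ ∈ centralizer (P : Set G) := cnt_le fun w hw => by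
    have k0 : k ≠ 0 := by
      rintro rfl
      exact P.ne_bot_of_dvd_card (Dvd.intro_left _ hG) (card_eq_one.1 hk)
    obtain ⟨k, rfl⟩ := Nat.exists_eq_succ_of_ne_zero k0
    have h7 : p ^ (k + 1) ∣ orderOf w := by
      by_contra h8
      refine hw.2 (orderOf_dvd_iff_pow_eq_one.1 (dvd_of_dvd_mul_prime hp ?_
        (hG ▸ orderOf_dvd_natCard w) h8))
      refine Nat.dvd_of_mul_dvd_mul_right hp.pos ?_
      rw [← pow_succ, hG, ← hk]
      exact card_subgroup_dvd_card _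
    have h8 := orderOf_pow_orderOf_div (orderOf_pos w).ne' h7
    obtain ⟨Q, hQ⟩ := Known.SC.exists_sylow_mem_of_orderOf h8
    obtain ⟨g, rfl⟩ := MulAction.exists_smul_eq G P Q
    have h9 := eq_of_le_of_card_ge (zpowers_le.2 hQ) (by
      rw [Nat.card_zpowers, h8, Known.SC.sylow_card_eq _ P, hk])
    refine ⟨g⁻¹, mem_centralizer_iff.2 fun y hy => ?_⟩
    have h10 : g * y * g⁻¹ ∈ ((g • P : Sylow p G) : Subgroup G) :=
      smul_mem_pointwise_smul _ (MulAut.conj g) _ hy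
    rw [← h9] at h10
    obtain ⟨j, hj⟩ := mem_zpowers_iff.1 h10
    have h11 : Commute (g * y * g⁻¹) w := hj ▸ ((Commute.refl w).pow_left _).zpow_left j
    calc y * (g⁻¹ * w * g⁻¹⁻¹) = g⁻¹ * (g * y * g⁻¹ * w) * g := by group
      _ = _ := by rw [h11.eq]; group
  have h7 := cnt_add (fun _ : G => True) fun x => x ^ n = 1
  rw [show cnt (fun _ : G => True) = Nat.card G from Nat.card_congr (Equiv.subtypeUnivEquiv
    fun _ => trivial), cnt_congr (Q := fun x : G => x ^ n = 1) (fun x => true_and _ ▸ Iff.rfl), e] at h7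
  rw [hc, ← mul_assoc, mul_right_comm] at h5
  have h8 := Nat.le_of_mul_le_mul_right h5 Nat.card_pos
  have h9 : 0 < n := Nat.pos_of_mul_pos_right (hG ▸ Nat.card_pos)
  nlinarith

theorem card_mul_relIndex_of_le {H K : Subgroup G} (h : H ≤ K) :
    Nat.card H * H.relIndex K = Nat.card K := by
  rw [← Nat.card_congr (subgroupOfEquivOfLe h).toEquiv]
  exact card_mul_index _

theorem exists_hall_norm {C X : Subgroup G} (hC : Group.IsSolvable C) {p q : ℕ} [hp : Fact p.Prime]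
    [hq : Fact q.Prime] (P : Sylow q G) (hP : (P : Subgroup G) ≤ C) (hX : IsPGroup p X)
    (hXC : X ≤ C) (hXN : X ≤ normalizer (P : Set G)) {k : ℕ} (hk : p ^ k ∣ Nat.card C) :
    ∃ i, p ^ i ≡ 1 [MOD q] ∧ p ^ i * Nat.card X ∣ Nat.card C ∧
      p ^ k ∣ p ^ i * Nat.card (C ⊓ normalizer (P : Set G) : Subgroup G) := by
  obtain ⟨H, ⟨h1, h2, h3⟩, h4⟩ := (hallD_of_isSolvable {p, q} C).exists_isPiHallOf_ge
    (isPiSubgroup_sup (isPiSubgroup_of_isPGroup (by simp) P.isPGroup')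
      (isPiSubgroup_of_isPGroup (by simp) hX) hXN) (sup_le hP hXC)
  have h5 : (normalizer (P : Set G)).relIndex H ≡ 1 [MOD q] := by
    have := card_sylow_modEq_one q H
    rwa [(P.subtype (le_sup_left.trans h4)).card_eq_index_normalizer,
      ← (P.subtype (le_sup_left.trans h4)).coe_coe, Sylow.coe_subtype,
      ← subgroupOf_normalizer_eq (le_sup_left.trans h4)] at this
  have h6 := (card_mul_relIndex_of_le (inf_le_left : H ⊓ normalizer (P : Set G) ≤ H))
  rw [inf_relIndex_left] at h6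
  obtain ⟨i, hi⟩ : ∃ i, (normalizer (P : Set G)).relIndex H = p ^ i :=
    ⟨_, Nat.eq_prime_pow_of_unique_prime_dvd (fun e => by simp [e, Nat.card_pos.ne] at h6)
      fun {r} hr hd => by
        rcases h2 r hr (hd.trans (Dvd.intro_left _ h6)) with e | e
        · exact e
        · obtain rfl : r = q := e
          exact absurd (Nat.dvd_one.1 ((h5.dvd_iff (dvd_refl r)).1 hd)) hr.ne_one⟩
  rw [hi] at h5 h6
  refine ⟨i, h5, ?_, ?_⟩
  · refine dvd_trans ?_ (card_dvd_of_le h1)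
    rw [← h6, mul_comm]
    exact Nat.mul_dvd_mul_right (card_dvd_of_le (le_inf (le_sup_right.trans h4) hXN)) _
  · rw [← card_mul_relIndex_of_le h1] at hk
    refine (((hp.out.coprime_iff_not_dvd.2 (h3 p hp.out (by simp))).pow_left k).dvd_of_dvd_mul_right
      hk).trans ?_
    rw [← h6, mul_comm]
    exact Nat.mul_dvd_mul_left _ (card_dvd_of_le (inf_le_inf_right _ h1))

end Cfsg.Lib.Solv.Frob
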