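import Cfsg.Agent.Solv.FrobGen
import Cfsg.Agent.Class.PGL2Borel
import Cfsg.Agent.Chev.SuzukiPart

/-!
# Solutions of `x ^ n = 1` in `PSL₂(q)` and in the Suzuki groups
-/

set_option autoImplicit false

namespace Cfsg.Lib.Solv.Frob

open Subgroup Cfsg.Lib.Solv.Count

variable {G : Type*} [Group G] [Finite G]

theorem ti_gcd_le {T N : Subgroup G} (hT : ∀ t ∈ T, t ≠ 1 → ∀ g, g * t * g⁻¹ ∈ T → g ∈ N) (n : ℕ) :
    N.index * (Nat.gcd n (Nat.card T) - 1) ≤
      cnt fun w : G => (w ≠ 1 ∧ w ^ n = 1) ∧ w ^ Nat.card T = 1 :=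
  (Nat.mul_le_mul_left _ (Nat.sub_le_sub_right (gcd_le_cnt_pow T n) 1)).trans (ti_le hT n)

theorem ti_all_le {T N : Subgroup G} (hT : ∀ t ∈ T, t ≠ 1 → ∀ g, g * t * g⁻¹ ∈ T → g ∈ N) {n : ℕ}
    (h : ∀ t ∈ T, t ^ n = 1) : N.index * (Nat.card T - 1) ≤
      cnt fun w : G => (w ≠ 1 ∧ w ^ n = 1) ∧ w ^ Nat.card T = 1 := by
  have := ti_le hT n
  rwa [show cnt (fun t : T => t ^ n = 1) = Nat.card T from Nat.card_congr
    (Equiv.subtypeUnivEquiv fun t => Subtype.ext (h t t.2))] at this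

theorem exists_card_of_le_two {n : ℕ} (hn : n ∣ Nat.card G) (h : n ≤ 2) :
    ∃ H : Subgroup G, Nat.card H = n := by
  have := Nat.pos_of_dvd_of_pos hn Nat.card_pos
  interval_cases n
  · exact ⟨⊥, card_bot⟩
  · exact Sylow.exists_subgroup_card_pow_prime 2 (n := 1) hn

theorem arith_l2 {q d a b α β i j n : ℕ} (ha : d * a + 1 = q) (hb : d * b = q + 1)
    (hi : 2 * i = q * b * d) (hj : 2 * j = q * a * d) (h1 : 0 < α) (h2 : 0 < β) (h3 : α ≤ a)
    (h4 : β ≤ b) (hn : n ≤ q * α * β * d)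
    (h : 1 + ((q + 1) * (q - 1) + i * (α - 1) + j * (β - 1)) ≤ n) : q * a * b * d ≤ n := by
  obtain ⟨α, rfl⟩ := Nat.exists_eq_add_of_le' h1
  obtain ⟨β, rfl⟩ := Nat.exists_eq_add_of_le' h2
  obtain ⟨s, rfl⟩ := Nat.exists_eq_add_of_le h3
  obtain ⟨t, rfl⟩ := Nat.exists_eq_add_of_le h4
  have hd : 0 < d := Nat.pos_of_mul_pos_right (hb.symm ▸ Nat.add_one_pos q)
  rw [show q - 1 = d * (α + 1 + s) from (Nat.eq_sub_of_add_eq ha).symm, Nat.add_sub_cancel, Nat.add_sub_cancel] at h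
  have e : q * d * ((β + 1 + t) * (α + 1) + (α + 1 + s) * (β + 1)) ≤ 2 * n := by
    zify at *
    have : (q : ℤ) * d * ((β + 1 + t) * (α + 1) + (α + 1 + s) * (β + 1)) =
        2 * (1 + ((q + 1) * (d * (α + 1 + s)) + i * α + j * β)) := by
      linear_combination (-α) * hi - β * hj + q * hb - (q + 2) * ha
    linarith
  have e2 : q * d * (t * (α + 1) + s * (β + 1)) ≤ 0 := by nlinarith
  have hq : 0 < q * d := Nat.mul_pos (by omega) hd
  have e3 : t * (α + 1) + s * (β + 1) = 0 := by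
    rcases Nat.mul_eq_zero.1 (Nat.le_zero.1 e2) with h | h <;> omega
  obtain rfl : t = 0 := by simpa using (Nat.add_eq_zero_iff.1 e3).1
  obtain rfl : s = 0 := by simpa using (Nat.add_eq_zero_iff.1 e3).2
  nlinarith

theorem arith_small {c α β a n i : ℕ} (hi : 2 * c * a ≤ i) (h1 : 1 < α) (h3 : β ≤ a)
    (hn : n ≤ α * β * c) : n < 1 + i * (α - 1) := by
  obtain ⟨α, rfl⟩ := Nat.exists_eq_add_of_le' h1
  have : c * β * (α + 1) ≤ c * a * (α + 1) := Nat.mul_le_mul_right _ (Nat.mul_le_mul_left _ h3)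
  have : 2 * c * a * (α + 1) ≤ i * (α + 1) := Nat.mul_le_mul_right _ hi
  rw [show α + (1 + 1) - 1 = α + 1 by omega]
  nlinarith

theorem fc_of_l2 {P A B NP NA NB : Subgroup G} {p q d : ℕ} (hp : p.Prime)
    (hP : ∀ t ∈ P, t ≠ 1 → ∀ g, g * t * g⁻¹ ∈ P → g ∈ NP)
    (hA : ∀ t ∈ A, t ≠ 1 → ∀ g, g * t * g⁻¹ ∈ A → g ∈ NA)
    (hB : ∀ t ∈ B, t ≠ 1 → ∀ g, g * t * g⁻¹ ∈ B → g ∈ NB) (he : ∀ t ∈ P, t ^ p = 1)
    (cP : Nat.card P = q) (cA : d * Nat.card A + 1 = q) (cB : d * Nat.card B = q + 1)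
    (cNP : Nat.card NP = q * Nat.card A) (cNA : Nat.card NA = 2 * Nat.card A)
    (cNB : Nat.card NB = 2 * Nat.card B) (cG : Nat.card G = q * Nat.card A * Nat.card B * d)
    (hd : d ≤ 2) (hq : 4 ≤ q) (hc : (Nat.card A).Coprime (Nat.card B)) : FC G := by
  intro n hn h
  have c1 : q.Coprime (Nat.card A) := by rw [← cA]; simp
  have c2 : q.Coprime (Nat.card B) :=
    Nat.Coprime.coprime_dvd_right (Dvd.intro_left _ cB) (by simp)
  have i1 : NP.index = q + 1 := by
    have := NP.index_mul_card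
    rw [cNP, cG, mul_assoc, mul_comm _ d, cB, mul_comm] at this
    exact Nat.eq_of_mul_eq_mul_left (cNP ▸ Nat.card_pos) this
  have i2 : 2 * NA.index = q * Nat.card B * d := by
    have := NA.index_mul_card
    rw [cNA, cG] at this
    exact Nat.eq_of_mul_eq_mul_left (Nat.card_pos (α := A)) (by linarith)
  have i3 : 2 * NB.index = q * Nat.card A * d := by
    have := NB.index_mul_card
    rw [cNB, cG] at this
    exact Nat.eq_of_mul_eq_mul_left (Nat.card_pos (α := B)) (by linarith)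
  have w1 := add_le_cnt (P := fun w : G => w ≠ 1 ∧ w ^ n = 1) (fun _ h => h.1) c1
  have w2 := (add_le_cnt (P := fun w : G => w ≠ 1 ∧ w ^ n = 1) (fun _ h => h.1)
    (Nat.Coprime.mul_left c2 hc)).trans (cnt_le fun _ h => h.1)
  have w3 := ti_gcd_le hA n
  have w4 := ti_gcd_le hB n
  have a1 : 0 < Nat.gcd n (Nat.card A) := Nat.gcd_pos_of_pos_right _ Nat.card_pos
  have a2 : 0 < Nat.gcd n (Nat.card B) := Nat.gcd_pos_of_pos_right _ Nat.card_pos
  have a3 : Nat.gcd n (Nat.card A) ≤ Nat.card A := Nat.gcd_le_right _ Nat.card_pos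
  have a4 : Nat.gcd n (Nat.card B) ≤ Nat.card B := Nat.gcd_le_right _ Nat.card_pos
  have hd0 : 0 < d := Nat.pos_of_mul_pos_right (cB.symm ▸ Nat.add_one_pos q)
  have h0 : n ∣ q * (Nat.gcd n (Nat.card A) * Nat.gcd n (Nat.card B) * d) := by
    rw [show q * (Nat.gcd n (Nat.card A) * Nat.gcd n (Nat.card B) * d) = Nat.gcd n (Nat.card A) *
      (q * d * Nat.gcd n (Nat.card B)) by ring, Nat.dvd_gcd_mul_iff_dvd_mul, ← mul_assoc,
      Nat.dvd_mul_gcd_iff_dvd_mul]
    exact hn.trans (dvd_of_eq (by rw [cG]; ring))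
  rw [cnt_pow_eq_succ] at h
  by_cases hpn : p ∣ n
  · have w5 := ti_all_le hP (n := n) fun t ht => by
      obtain ⟨k, rfl⟩ := hpn
      rw [pow_mul, he t ht, one_pow]
    rw [cP, i1] at w5
    exact ⟨⊤, by
      rw [card_top]
      refine le_antisymm (cG ▸ arith_l2 cA cB i2 i3 a1 a2 a3 a4 ?_ (by omega))
        (Nat.le_of_dvd Nat.card_pos hn)
      rw [mul_assoc, mul_assoc, ← mul_assoc _ _ d]
      exact Nat.le_of_dvd (by positivity) h0⟩
  · have := Fact.mk hp
    obtain ⟨k, hk⟩ := IsPGroup.iff_card.1 (show IsPGroup p P from fun t =>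
      ⟨1, Subtype.ext (by simpa using he t t.2)⟩)
    have h1 := Nat.le_of_dvd (by positivity) (Nat.Coprime.dvd_of_dvd_mul_left (by
      rw [← cP, hk]; exact ((hp.coprime_iff_not_dvd.2 hpn).pow_left k).symm) h0)
    by_cases b1 : 1 < Nat.gcd n (Nat.card A)
    · have := arith_small (i := NA.index) (by nlinarith) b1 a4 h1
      omega
    by_cases b2 : 1 < Nat.gcd n (Nat.card B)
    · have := arith_small (i := NB.index) (by nlinarith) b2 a3 (mul_comm _ (Nat.gcd n _) ▸ h1)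
      omega
    refine exists_card_of_le_two hn ?_
    rw [show Nat.gcd n (Nat.card A) = 1 by omega, show Nat.gcd n (Nat.card B) = 1 by omega] at h1
    omega

open Cfsg.Lib.Class Matrix P1 MulAction in
open scoped MatrixGroups in
theorem fc_psl2 (F : Type*) [Field F] [Finite F] (hF : 4 ≤ Nat.card F) : FC PSL(2, F) := by
  obtain ⟨p, hp⟩ := CharP.exists F
  have : Fact p.Prime := ⟨CharP.char_is_prime F p⟩
  obtain ⟨x, y, h1, c1⟩ := exists_torusPair_split (F := F) (by omega)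
  obtain ⟨u, v, h2, -, c2⟩ := exists_torusPair_nonsplit (F := F)
  have e : ∀ X : Subgroup PGL(2, F), Nat.card (X.subgroupOf (psl2 F)) =
      Nat.card (psl2 F ⊓ X : Subgroup _) := fun X => by
    rw [← inf_subgroupOf_left, Nat.card_congr (subgroupOfEquivOfLe inf_le_left).toEquiv]
  have t : ∀ {x y : P1 (Kb F)}, x ≠ y → ∀ t ∈ (fixPair x y).subgroupOf (psl2 F), t ≠ 1 →
      ∀ g, g * t * g⁻¹ ∈ (fixPair x y).subgroupOf (psl2 F) →
        g ∈ (stabPair x y).subgroupOf (psl2 F) := fun hxy t ht t1 g hg =>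
    inv_mem_iff.1 (mem_stabPair_of_conj_mem hxy (fun e => t1 (Subtype.ext e)) ht
      (g := (g : PGL(2, F))⁻¹) (by rw [inv_inv]; exact hg))
  have g1 := h1.gcd_mul_card_inf
  have g2 := h2.gcd_mul_card_inf
  have g3 := gcd_mul_card_inf_stabilizer (inf F)
  have g4 := gcd_mul_card_psl2 (F := F)
  have g0 := gcd_two_card_pos (F := F)
  rw [c1] at g1
  rw [c2] at g2
  refine (fc_of_l2 (P := (unip p (inf F)).subgroupOf (psl2 F))
    (NP := (stabilizer PGL(2, F) (inf F)).subgroupOf (psl2 F)) (p := p) (q := Nat.card F)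
    (d := Nat.gcd 2 (Nat.card F - 1)) Fact.out (fun t ht t1 g hg => ?_) (t h1.ne) (t h2.ne)
    (fun t ht => Subtype.ext ht.2) ?_ ?_ ?_ ?_ ?_ ?_ ?_ gcd_two_card_le hF ?_).congr
    (pslEquivPsl2 F).symm
  · refine inv_mem_iff.1 (eq_of_mem_unip p ht (fun e => t1 (Subtype.ext e)) ?_)
    have : ((g : PGL(2, F)) * t * (g : PGL(2, F))⁻¹) • inf F = inf F := hg.1
    rwa [mul_smul, mul_smul, smul_eq_iff_eq_inv_smul] at this
  · rw [e, inf_of_le_right (unip_le_psl2 p _), card_unip]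
  · rw [e, g1]; omega
  · rw [e, g2]
  · rw [e, e]
    exact Nat.eq_of_mul_eq_mul_left g0 (by rw [g3, mul_left_comm, g1])
  · rw [e, e, h1.card_inf_stabPair]
  · rw [e, e, h2.card_inf_stabPair]
  · rw [e, e]
    exact Nat.eq_of_mul_eq_mul_left g0 (by
      generalize Nat.gcd 2 (Nat.card F - 1) = d at *
      rw [g4, ← g2, ← g1]
      ring)
  · rw [e, e]
    by_cases h : ringChar F = 2
    · rw [gcd_two_card_eq_one h, one_mul] at g1 g2
      have h3 := gcd_two_card_eq_one h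
      rw [g1, g2, show Nat.card F + 1 = 2 + (Nat.card F - 1) by omega, Nat.coprime_add_self_right]
      exact Nat.Coprime.symm h3
    · rw [gcd_two_card_eq_two h] at g1 g2
      rw [show Nat.card (psl2 F ⊓ fixPair u v : Subgroup _) =
        1 + Nat.card (psl2 F ⊓ fixPair x y : Subgroup _) by omega]
      simp

theorem arith_sz {Q a b c α β γ i j k n : ℕ} (h0 : 4 * Q = 2 * (b * c) + a * c + a * b)
    (hQ : b * c = Q + 1) (hi : 2 * i = Q * b * c) (hj : 4 * j = Q * a * c) (hk : 4 * k = Q * a * b)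
    (h1 : 0 < α) (h2 : 0 < β) (h3 : 0 < γ) (h4 : α ≤ a) (h5 : β ≤ b) (h6 : γ ≤ c) (h7 : 0 < Q)
    (hn : n ≤ Q * (α * β * γ))
    (h : 1 + ((Q + 1) * (Q - 1) + i * (α - 1) + j * (β - 1) + k * (γ - 1)) ≤ n) :
    Q * a * b * c ≤ n := by
  obtain ⟨α, rfl⟩ := Nat.exists_eq_add_of_le' h1
  obtain ⟨β, rfl⟩ := Nat.exists_eq_add_of_le' h2
  obtain ⟨γ, rfl⟩ := Nat.exists_eq_add_of_le' h3
  obtain ⟨Q, rfl⟩ := Nat.exists_eq_add_of_le' h7
  simp only [Nat.add_sub_cancel] at h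
  have e : (Q + 1) * (2 * (b * c * (α + 1)) + a * c * (β + 1) + a * b * (γ + 1)) ≤ 4 * n := by
    zify at *
    have : ((Q : ℤ) + 1) * (2 * (b * c * (α + 1)) + a * c * (β + 1) + a * b * (γ + 1)) =
        4 * (1 + ((Q + 1 + 1) * Q + i * α + j * β + k * γ)) := by
      linear_combination (-2 * α) * hi - β * hj - γ * hk - (Q + 1) * h0
    linarith
  have e1 := Nat.le_of_mul_le_mul_left (e.trans ((Nat.mul_le_mul_left 4 hn).trans_eq
    (mul_left_comm _ _ _))) (Nat.succ_pos Q)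
  generalize α + 1 = α at *
  generalize β + 1 = β at *
  generalize γ + 1 = γ at *
  have f1 : β * γ * α ≤ b * c * α := by gcongr
  have f2 : α * γ * β ≤ a * c * β := by gcongr
  have f3 : α * β * γ ≤ a * b * γ := by gcongr
  have f4 : b * c ≤ β * γ := Nat.le_of_mul_le_mul_right (by nlinarith) h1
  have f5 : a * c ≤ α * γ := Nat.le_of_mul_le_mul_right (by nlinarith) h2
  obtain rfl : β = b := le_antisymm h5 (Nat.le_of_mul_le_mul_right
    ((Nat.mul_le_mul_left _ h6).trans f4) h3)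
  obtain rfl : α = a := le_antisymm h4 (Nat.le_of_mul_le_mul_right
    ((Nat.mul_le_mul_left _ h6).trans f5) h3)
  obtain rfl : γ = c := le_antisymm h6 (Nat.le_of_mul_le_mul_left f4 h2)
  nlinarith

open Cfsg.Lib.Chev in
theorem fc_sz {F : Type*} [Field F] [Fintype F] {τ : Tw F} (M : SzModel τ G) : FC G := by
  intro n hn h
  obtain ⟨m, hm, hF⟩ := M.exists_card
  obtain ⟨x, y, hx, hy, cB, cC, -⟩ := M.exists_tori hF
  have hab : M.inf ≠ M.pt 0 0 := (M.pt_ne_inf 0 0).symm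
  have cA := M.card_Hat hab
  have cP := M.card_Pat M.inf
  have h8 := M.eight_le_card
  have hlt := sz_tori_lt hm
  have e1 := sz_tori_mul (m := m)
  have k1 := sz_tori_coprime hm
  have k2 := SzModel.coprime_sq_add_one (τ := τ)
  have cG := M.card_G
  rw [← hF] at e1 k1 hlt
  rw [← cB, ← cC] at e1 k1
  rw [← e1, ← cA] at k2 cG
  rw [← cP] at k2 cG e1
  have k3 : (Nat.card (M.Pat M.inf)).Coprime (Nat.card (M.Hat M.inf (M.pt 0 0))) := by
    rw [cP, cA]
    refine Nat.Coprime.pow_left 2 ?_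
    conv_lhs => rw [show Fintype.card F = 1 + (Fintype.card F - 1) by omega]
    simp
  have w1 := add_le_cnt (P := fun w : G => w ≠ 1 ∧ w ^ n = 1) (fun _ h => h.1) k3
  have w2 := add_le_cnt (P := fun w : G => w ≠ 1 ∧ w ^ n = 1) (fun _ h => h.1) k1
  have w3 := (add_le_cnt (P := fun w : G => w ≠ 1 ∧ w ^ n = 1) (fun _ h => h.1) k2).trans
    (cnt_le fun _ h => h.1)
  have w4 := ti_gcd_le (N := normalizer (M.Hat M.inf (M.pt 0 0) : Set G)) (fun t ht t1 g hg =>
    (M.mem_normalizer_Hat hab).2 (M.fix_or_swap_of_conj hab ht t1 hg)) n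
  have w5 := ti_gcd_le (fun t ht t1 g hg => hx.mem_normalizer g t ht t1 hg) n
  have w6 := ti_gcd_le (fun t ht t1 g hg => hy.mem_normalizer g t ht t1 hg) n
  have i1 := (normalizer (M.Hat M.inf (M.pt 0 0) : Set G)).index_mul_card
  have i2 := (normalizer (centralizer {x} : Set G)).index_mul_card
  have i3 := (normalizer (centralizer {y} : Set G)).index_mul_card
  rw [M.card_normalizer_Hat hab, ← cA, cG] at i1
  rw [hx.card_normalizer, cG] at i2
  rw [hy.card_normalizer, cG] at i3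
  have e0 : 4 * Nat.card (M.Pat M.inf) = 2 * (Nat.card (centralizer ({x} : Set G)) *
      Nat.card (centralizer ({y} : Set G))) + Nat.card (M.Hat M.inf (M.pt 0 0)) *
      Nat.card (centralizer ({y} : Set G)) + Nat.card (M.Hat M.inf (M.pt 0 0)) *
      Nat.card (centralizer ({x} : Set G)) := by
    rw [e1, cP, cA, cB, cC]
    zify [hlt.le, show 1 ≤ Fintype.card F by omega]
    ring
  have q64 : 64 ≤ Nat.card (M.Pat M.inf) := by rw [cP]; nlinarith
  have hP := M.isPGroup_Pat M.inf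
  have w7 : 4 ∣ n → (Nat.card (M.Pat M.inf) + 1) * (Nat.card (M.Pat M.inf) - 1) ≤
      cnt fun w : G => (w ≠ 1 ∧ w ^ n = 1) ∧ w ^ Nat.card (M.Pat M.inf) = 1 := fun h4 => by
    have := ti_all_le (N := MulAction.stabilizer G M.inf) (fun t ht t1 g hg =>
      M.smul_eq_of_conj_mem_Pat ht t1 hg) (n := n) fun t ht => by
      obtain ⟨k, rfl⟩ := h4
      rw [pow_mul, (M.mem_Pat.1 ht).2, one_pow]
    rwa [M.index_stabilizer, ← cP] at this
  have a0 : 0 < Nat.card (M.Hat M.inf (M.pt 0 0)) := Nat.card_pos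
  have b0 : 0 < Nat.card (centralizer ({x} : Set G)) := Nat.card_pos
  have c0 : 0 < Nat.card (centralizer ({y} : Set G)) := Nat.card_pos
  obtain ⟨k, hk⟩ := IsPGroup.iff_card.1 hP
  clear cA cB cC cP k1 k2 k3
  generalize Nat.card (M.Hat M.inf (M.pt 0 0)) = a at *
  generalize Nat.card (centralizer ({x} : Set G)) = b at *
  generalize Nat.card (centralizer ({y} : Set G)) = c at *
  generalize Nat.card (M.Pat M.inf) = Q at *
  generalize (normalizer (M.Hat M.inf (M.pt 0 0) : Set G)).index = i at *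
  generalize (normalizer (centralizer {x} : Set G)).index = j at *
  generalize (normalizer (centralizer {y} : Set G)).index = l at *
  have j1 : 2 * i = Q * b * c := Nat.eq_of_mul_eq_mul_left a0 (by linarith)
  have j2 : 4 * j = Q * a * c := Nat.eq_of_mul_eq_mul_left b0 (by linarith)
  have j3 : 4 * l = Q * a * b := Nat.eq_of_mul_eq_mul_left c0 (by linarith)
  have a1 : 0 < Nat.gcd n a := Nat.gcd_pos_of_pos_right _ a0
  have a2 : 0 < Nat.gcd n b := Nat.gcd_pos_of_pos_right _ b0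
  have a3 : 0 < Nat.gcd n c := Nat.gcd_pos_of_pos_right _ c0
  have a4 : Nat.gcd n a ≤ a := Nat.gcd_le_right _ a0
  have a5 : Nat.gcd n b ≤ b := Nat.gcd_le_right _ b0
  have a6 : Nat.gcd n c ≤ c := Nat.gcd_le_right _ c0
  have h0 : n ∣ Nat.gcd n Q * (Nat.gcd n a * Nat.gcd n b * Nat.gcd n c) := by
    rw [Nat.dvd_gcd_mul_iff_dvd_mul, ← mul_assoc, Nat.dvd_mul_gcd_iff_dvd_mul, mul_right_comm,
      ← mul_assoc, Nat.dvd_mul_gcd_iff_dvd_mul, mul_right_comm, Nat.dvd_mul_gcd_iff_dvd_mul]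
    exact hn.trans (dvd_of_eq (by rw [cG]; ring))
  have h1 := Nat.le_of_dvd (Nat.mul_pos (Nat.gcd_pos_of_pos_right _ (by omega)) (by positivity)) h0
  rw [cnt_pow_eq_succ] at h
  by_cases h4 : 4 ∣ n
  · have := w7 h4
    exact ⟨⊤, by
      rw [card_top]
      refine le_antisymm ?_ (Nat.le_of_dvd Nat.card_pos hn)
      rw [cG, mul_right_comm, ← mul_assoc]
      exact arith_sz e0 e1 j1 j2 j3 a1 a2 a3 a4 a5 a6 (by omega)
        (h1.trans (Nat.mul_le_mul_right _ (Nat.gcd_le_right _ (by omega)))) (by omega)⟩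
  · have h2 : Nat.gcd n Q ≤ 2 := by
      obtain ⟨r, -, hr⟩ := (Nat.dvd_prime_pow Nat.prime_two).1 ((Nat.gcd_dvd_right n Q).trans hk.dvd)
      rw [hr]
      by_contra h5
      refine h4 (dvd_trans ?_ (hr ▸ Nat.gcd_dvd_left n Q))
      refine pow_dvd_pow 2 (show 2 ≤ r from ?_)
      by_contra h6
      interval_cases r <;> omega
    replace h1 := h1.trans (Nat.mul_le_mul_right _ h2)
    have sz : ∀ i s r, r ≤ 4 → r * i = Q * s → 2 * 2 * s ≤ i := fun i s r h1 h2 => by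
      have := Nat.mul_le_mul_right i h1
      have := Nat.mul_le_mul_right s q64
      omega
    by_cases b1 : 1 < Nat.gcd n a
    · have := arith_small (i := i) (c := 2) (n := n) (sz i (b * c) 2 (by omega)
        (by rw [j1, mul_assoc])) b1 (Nat.mul_le_mul a5 a6)
        (by linarith)
      omega
    by_cases b2 : 1 < Nat.gcd n b
    · have := arith_small (i := j) (c := 2) (n := n) (sz j (a * c) 4 le_rfl
        (by rw [j2, mul_assoc])) b2 (Nat.mul_le_mul a4 a6)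
        (by linarith)
      omega
    by_cases b3 : 1 < Nat.gcd n c
    · have := arith_small (i := l) (c := 2) (n := n) (sz l (a * b) 4 le_rfl
        (by rw [j3, mul_assoc])) b3 (Nat.mul_le_mul a4 a5)
        (by linarith)
      omega
    refine exists_card_of_le_two hn ?_
    rw [show Nat.gcd n a = 1 by omega, show Nat.gcd n b = 1 by omega,
      show Nat.gcd n c = 1 by omega] at h1
    omega

theorem fc_isoSuzuki (h : Cfsg.Lie.IsoSuzuki G) : FC G := by
  obtain ⟨F, _, _, m, hm, hF, ⟨e⟩⟩ := h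
  exact fc_sz ((Chev.lieSzModel hm hF).ofEquiv e)

end Cfsg.Lib.Solv.Frob
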