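import Mathlib.GroupTheory.IsSubnormal
import Mathlib.GroupTheory.SchurZassenhaus
import Cfsg.Agent.Solv.FrobCount

/-!
# Groups with exactly `n` solutions of `x ^ n = 1`: reduction to the composition factors
-/

set_option autoImplicit false

namespace Cfsg.Lib.Solv.Frob

open Subgroup Cfsg.Lib.Solv.Count

universe u

variable {G : Type*} [Group G]

/-- If `x ^ n = 1` has exactly `n` solutions, there is a subgroup of order `n`. -/
def FC (G : Type*) [Group G] : Prop :=
  ∀ n : ℕ, n ∣ Nat.card G → cnt (fun x : G => x ^ n = 1) = n → ∃ H : Subgroup G, Nat.card H = n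

theorem FC_eq_1' : type_of% @FC.eq_1 := @FC.eq_1

theorem coe_eq_of_card [Finite G] {n : ℕ} (h : cnt (fun x : G => x ^ n = 1) = n) {H : Subgroup G}
    (hH : Nat.card H = n) : (H : Set G) = {x : G | x ^ n = 1} :=
  Set.eq_of_subset_of_ncard_le (fun x hx => hH ▸
    congrArg Subtype.val (pow_card_eq_one' (G := H) (x := ⟨x, hx⟩))) (h.le.trans hH.ge)

theorem FC.congr {G' : Type*} [Group G'] (h : FC G) (e : G ≃* G') : FC G' := fun n hn hc => by
  obtain ⟨H, hH⟩ := h n (by rwa [Nat.card_congr e.toEquiv]) ((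
    cnt_congr_equiv e.toEquiv fun x => by
      change _ ↔ e x ^ n = 1
      rw [← map_pow, map_eq_one_iff e e.injective]).trans hc)
  exact ⟨H.map e.toMonoidHom, by rw [card_map_of_injective e.injective, hH]⟩

theorem fiber_eq {α β : Type*} [Finite α] [Finite β] (f : α → β) (P : α → Prop) (Q : β → Prop)
    {d : ℕ} (h : ∀ c, Q c → d ≤ cnt fun x => P x ∧ f x = c) (hle : cnt P ≤ d * cnt Q) :
    cnt P = d * cnt Q ∧ (∀ x, P x → Q (f x)) ∧ ∀ c, Q c → cnt (fun x => P x ∧ f x = c) = d := by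
  classical
  have := Fintype.ofFinite α
  have := Fintype.ofFinite β
  have h1 : cnt (fun x => P x ∧ Q (f x)) =
      ∑ c ∈ Finset.univ.filter Q, cnt fun x => P x ∧ f x = c := by
    rw [cnt_eq_card_filter, Finset.card_eq_sum_card_fiberwise (f := f) (t := Finset.univ.filter Q)
      (fun x hx => by simpa using (Finset.mem_filter.1 hx).2.2)]
    refine Finset.sum_congr rfl fun c hc => ?_
    rw [cnt_eq_card_filter, Finset.filter_filter]
    congr 1
    ext x
    simp only [Finset.mem_filter, Finset.mem_univ, true_and] at hc ⊢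
    exact ⟨fun a => ⟨a.1.1, a.2⟩, fun a => ⟨⟨a.1, a.2 ▸ hc⟩, a.2⟩⟩
  have h2 : d * cnt Q = ∑ _c ∈ Finset.univ.filter Q, d := by
    rw [Finset.sum_const, smul_eq_mul, cnt_eq_card_filter, mul_comm]
  have h3 : ∀ c ∈ Finset.univ.filter Q, d ≤ cnt fun x => P x ∧ f x = c :=
    fun c hc => h c (Finset.mem_filter.1 hc).2
  have h4 := Finset.sum_le_sum h3
  have h5 := cnt_add P fun x => Q (f x)
  refine ⟨by omega, fun x hx => ?_, fun c hc => ?_⟩
  · by_contra hn
    have : Nonempty {x // P x ∧ ¬ Q (f x)} := ⟨⟨x, hx, hn⟩⟩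
    have : 0 < cnt fun x => P x ∧ ¬ Q (f x) := Nat.card_pos
    omega
  · exact ((Finset.sum_eq_sum_iff_of_le h3).1 (by omega) c (by simpa using hc)).symm

theorem cnt_pow_pos [Finite G] (n : ℕ) : 0 < cnt fun x : G => x ^ n = 1 := by
  have : Nonempty {x : G // x ^ n = 1} := ⟨⟨1, one_pow n⟩⟩
  exact Nat.card_pos

theorem le_cnt_pow [Finite G] {n : ℕ} (hn : n ∣ Nat.card G) : n ≤ cnt fun x : G => x ^ n = 1 :=
  Nat.le_of_dvd (cnt_pow_pos n) (dvd_card_pow_eq_one hn)

theorem gcd_le_cnt_pow (G : Type*) [Group G] [Finite G] (n : ℕ) :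
    Nat.gcd n (Nat.card G) ≤ cnt fun x : G => x ^ n = 1 :=
  Nat.le_of_dvd (cnt_pow_pos n) (gcd_dvd_card_pow_eq_one G n)

theorem gcd_dvd_cnt_coset [Finite G] (K : Subgroup G) [K.Normal] (n : ℕ) (c : G ⧸ K) :
    Nat.gcd n (Nat.card K) ∣ cnt fun x : G => x ^ n = 1 ∧ (x : G ⧸ K) = c := by
  rw [Nat.dvd_iff_prime_pow_dvd_dvd]
  intro p k hp hk
  have := Fact.mk hp
  obtain ⟨L, hL⟩ := Sylow.exists_subgroup_card_pow_prime p (hk.trans (Nat.gcd_dvd_right _ _))
  have h1 : Nat.card (L.map K.subtype) = p ^ k := by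
    rw [card_map_of_injective K.subtype_injective, hL]
  have h2 : ∀ y ∈ L.map K.subtype, (y : G ⧸ K) = 1 := fun y hy =>
    (QuotientGroup.eq_one_iff y).2 (map_subtype_le L hy)
  rw [← h1]
  refine card_dvd_cnt _ _ (fun x g hg hx => ⟨by rw [conj_pow, hx.1]; group, by
    rw [QuotientGroup.mk_mul, QuotientGroup.mk_mul, QuotientGroup.mk_inv, h2 g hg, hx.2]; group⟩) ?_
  intro x M hM hx k hk' hQ
  obtain ⟨y, -, hxy⟩ := exists_pow_card_conj hx hk'
  obtain ⟨e, he⟩ := (card_dvd_of_le hM).trans (h1 ▸ hk.trans (Nat.gcd_dvd_left _ _))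
  refine ⟨?_, by rw [QuotientGroup.mk_mul, h2 k (hM hk'), hQ.2, mul_one]⟩
  rw [he, pow_mul, hxy, conj_pow, ← pow_mul, ← he, hQ.1]; group

theorem step [Finite G] (K : Subgroup G) [K.Normal] {n : ℕ} (hn : n ∣ Nat.card G)
    (hc : cnt (fun x : G => x ^ n = 1) = n) :
    n / Nat.gcd n (Nat.card K) ∣ Nat.card (G ⧸ K) ∧
      cnt (fun c : G ⧸ K => c ^ (n / Nat.gcd n (Nat.card K)) = 1) = n / Nat.gcd n (Nat.card K) ∧
      cnt (fun x : K => x ^ Nat.gcd n (Nat.card K) = 1) = Nat.gcd n (Nat.card K) := by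
  set d := Nat.gcd n (Nat.card K) with hd
  have hd0 : 0 < d := Nat.gcd_pos_of_pos_right _ Nat.card_pos
  have hcop : (n / d).Coprime (Nat.card K / d) := Nat.coprime_div_gcd_div_gcd hd0
  have e1 : n / d * d = n := Nat.div_mul_cancel (Nat.gcd_dvd_left _ _)
  have e2 : Nat.card K / d * d = Nat.card K := Nat.div_mul_cancel (Nat.gcd_dvd_right _ _)
  have h1 : n / d ∣ Nat.card (G ⧸ K) := by
    rw [K.card_eq_card_quotient_mul_card_subgroup, ← e1, ← e2, ← mul_assoc] at hn
    exact hcop.dvd_of_dvd_mul_right (Nat.dvd_of_mul_dvd_mul_right hd0 hn)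
  have h2 := le_cnt_pow h1
  obtain ⟨h3, -, h5⟩ := fiber_eq (fun x : G => (x : G ⧸ K)) (fun x => x ^ n = 1)
    (fun c => c ^ (n / d) = 1) (d := d) (fun c hc' => by
      refine Nat.le_of_dvd ?_ (gcd_dvd_cnt_coset K n c)
      obtain ⟨x, rfl⟩ := QuotientGroup.mk_surjective c
      obtain ⟨r, hr1, hr2⟩ := Nat.chineseRemainder hcop 1 0
      have : Nonempty {y : G // y ^ n = 1 ∧ (y : G ⧸ K) = x} := ⟨⟨x ^ r, ?_, ?_⟩⟩
      · exact Nat.card_pos
      · rw [← QuotientGroup.mk_pow, QuotientGroup.eq_one_iff] at hc'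
        obtain ⟨s, rfl⟩ := Nat.modEq_zero_iff_dvd.mp hr2
        have h6 : (x ^ (n / d)) ^ Nat.card K = 1 :=
          congrArg Subtype.val (pow_card_eq_one' (G := K) (x := ⟨_, hc'⟩))
        rw [← pow_mul, show Nat.card K / d * s * n = n / d * Nat.card K * s by
          conv_rhs => rw [← e2]
          conv_lhs => rw [← e1]
          ring, pow_mul, pow_mul, h6, one_pow]
      · rw [QuotientGroup.mk_pow, pow_eq_pow_of_modEq hr1 hc', pow_one])
    (by rw [hc]; conv_lhs => rw [← e1, mul_comm]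
        exact Nat.mul_le_mul_left _ h2)
  refine ⟨h1, Nat.eq_of_mul_eq_mul_left hd0 (by rw [← h3, hc, mul_comm, e1]), ?_⟩
  rw [← h5 1 (one_pow _)]
  refine cnt_congr_inj Subtype.val Subtype.val_injective (fun x => ?_) fun y hy =>
    ⟨⟨y, (QuotientGroup.eq_one_iff y).1 hy.2⟩, rfl⟩
  rw [and_iff_left ((QuotientGroup.eq_one_iff _).2 x.2), h5 1 (one_pow _), hd, pow_gcd_eq_one,
    and_iff_left pow_card_eq_one', Subtype.ext_iff]
  rfl

theorem exists_card_mul [Finite G] (K : Subgroup G) [K.Normal] (hQ : FC (G ⧸ K)) {n : ℕ}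
    (hn : n ∣ Nat.card G) (hc : cnt (fun x : G => x ^ n = 1) = n) :
    ∃ M : Subgroup G, K ≤ M ∧ Nat.card M = Nat.card K * (n / Nat.gcd n (Nat.card K)) := by
  obtain ⟨h1, h2, -⟩ := step K hn hc
  obtain ⟨H, hH⟩ := hQ _ h1 h2
  exact ⟨H.comap (QuotientGroup.mk' K), QuotientGroup.le_comap_mk' _ _,
    hH ▸ QuotientGroup.card_preimage_mk K (H : Set (G ⧸ K))⟩

/-- All composition factors have the property. -/
def CF (G : Type u) [Group G] : Prop :=
  ∀ H : Subgroup G, H.IsSubnormal → ∀ (S : Type u) [Group S] (f : H →* S), Function.Surjective f →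
    IsSimpleGroup S → FC S

theorem CF_eq_1' : type_of% @CF.eq_1 := @CF.eq_1

theorem CF.sub {G : Type u} [Group G] (h : CF G) (K : Subgroup G) [K.Normal] : CF K :=
  fun H hH S _ f hf hS => h (H.map K.subtype) (hH.trans' (Normal.isSubnormal inferInstance)) S
    (f.comp (H.equivMapOfInjective _ K.subtype_injective).symm.toMonoidHom)
    (hf.comp (MulEquiv.surjective _)) hS

theorem CF.quot {G : Type u} [Group G] (h : CF G) (K : Subgroup G) [K.Normal] : CF (G ⧸ K) :=
  fun H hH S _ f hf hS => h (H.comap (QuotientGroup.mk' K)) (hH.comap _) S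
    (f.comp ((QuotientGroup.mk' K).subgroupComap H))
    (hf.comp (MonoidHom.subgroupComap_surjective_of_surjective _ _
      (QuotientGroup.mk'_surjective K))) hS

theorem fc_of_cf_aux (N : ℕ) : ∀ (G : Type u) [Group G] [Finite G], Nat.card G = N → CF G →
    FC G := by
  induction N using Nat.strong_induction_on with
  | _ N ih =>
  intro G _ _ hN hG n hn hc
  rcases subsingleton_or_nontrivial G with h0 | h0
  · rw [Nat.card_unique, Nat.dvd_one] at hn
    exact ⟨⊥, by rw [card_bot, hn]⟩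
  by_cases hs : IsSimpleGroup G
  · exact hG ⊤ IsSubnormal.top G (⊤ : Subgroup G).subtype (fun x => ⟨⟨x, trivial⟩, rfl⟩) hs n hn hc
  obtain ⟨K, hK, h1, h2⟩ : ∃ K : Subgroup G, K.Normal ∧ K ≠ ⊥ ∧ K ≠ ⊤ := by
    by_contra! h
    exact hs ⟨fun K hK => or_iff_not_imp_left.2 (h K hK)⟩
  have hq : ∀ (L : Subgroup G) [L.Normal], L ≠ ⊥ → FC (G ⧸ L) := fun L _ hL =>
    ih _ (by
      rw [← hN, L.card_eq_card_quotient_mul_card_subgroup]
      exact lt_mul_of_one_lt_right Nat.card_pos (L.one_lt_card_iff_ne_bot.2 hL)) _ rfl (hG.quot L)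
  obtain ⟨-, -, h3⟩ := step K hn hc
  obtain ⟨L, hL⟩ := ih _ (by
    rw [← hN]
    exact lt_of_le_of_ne K.card_le_card_group fun e => h2 (K.eq_top_of_card_eq e)) K rfl (hG.sub K)
    _ (Nat.gcd_dvd_right _ _) h3
  by_cases h4 : Nat.gcd n (Nat.card K) = 1
  · obtain ⟨M, hKM, hM⟩ := exists_card_mul K (hq K h1) hn hc
    rw [h4, Nat.div_one] at hM
    have c1 : Nat.card (K.subgroupOf M) = Nat.card K :=
      Nat.card_congr (subgroupOfEquivOfLe hKM).toEquiv
    have c2 : (K.subgroupOf M).index = n := by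
      have := (K.subgroupOf M).card_mul_index
      rw [c1, hM] at this
      exact Nat.eq_of_mul_eq_mul_left Nat.card_pos this
    obtain ⟨U, hU⟩ := exists_right_complement'_of_coprime (N := K.subgroupOf M)
      (by rw [c1, c2]; exact Nat.Coprime.symm h4)
    exact ⟨U.map M.subtype, by
      rw [card_map_of_injective M.subtype_injective, ← hU.symm.index_eq_card, c2]⟩
  · have e := coe_eq_of_card h3 hL
    have c1 : Nat.card (L.map K.subtype) = Nat.gcd n (Nat.card K) := by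
      rw [card_map_of_injective K.subtype_injective, hL]
    have : (L.map K.subtype).Normal := ⟨by
      rintro _ ⟨x, hx, rfl⟩ g
      refine ⟨⟨_, hK.conj_mem _ x.2 g⟩, ?_, rfl⟩
      rw [e] at hx ⊢
      refine Subtype.ext ?_
      have : (x : G) ^ Nat.gcd n (Nat.card K) = 1 := congrArg Subtype.val hx
      change (g * x * g⁻¹) ^ _ = (1 : G)
      rw [conj_pow, this]; group⟩
    obtain ⟨M, -, hM⟩ := exists_card_mul _ (hq (L.map K.subtype) fun e => h4 (by
      rw [← c1, e, card_bot])) hn hc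
    refine ⟨M, ?_⟩
    rw [hM, c1, Nat.gcd_eq_right (Nat.gcd_dvd_left _ _), Nat.mul_div_cancel' (Nat.gcd_dvd_left _ _)]

theorem CF.fc {G : Type u} [Group G] [Finite G] (h : CF G) : FC G := fc_of_cf_aux _ G rfl h

end Cfsg.Lib.Solv.Frob
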