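import Cfsg.Agent.Solv.FrobGen

/-!
# Solutions of `x ^ n = 1` in a simple group with the local data of the Tits group
-/

set_option autoImplicit false

namespace Cfsg.Lib.Solv.Frob

open Subgroup Cfsg.Lib.Solv.Count Cfsg.Lib.Known.SC

variable {G : Type*} [Group G] [Finite G]

theorem exists_sylow_le {q k m : ℕ} [Fact q.Prime] (hG : Nat.card G = q ^ k * m) (hm : ¬ q ∣ m)
    {C : Subgroup G} (h : q ^ k ∣ Nat.card C) : ∃ P : Sylow q G, (P : Subgroup G) ≤ C := by
  obtain ⟨H, hH⟩ := Sylow.exists_subgroup_card_pow_prime q h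
  obtain ⟨P, hP⟩ := ((IsPGroup.of_card hH).map C.subtype).exists_le_sylow
  refine ⟨P, (eq_of_le_of_card_ge hP ?_).ge.trans (map_subtype_le H)⟩
  rw [sylow_card_eq_pow P hG hm, card_map_of_injective C.subtype_injective, hH]

theorem relIndex_norm_modEq {p : ℕ} [Fact p.Prime] (P : Sylow p G) {K : Subgroup G}
    (h : (P : Subgroup G) ≤ K) : (normalizer ((P : Subgroup G) : Set G)).relIndex K ≡ 1 [MOD p] := by
  have := card_sylow_modEq_one p K
  rwa [(P.subtype h).card_eq_index_normalizer, ← (P.subtype h).coe_coe, Sylow.coe_subtype,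
    ← subgroupOf_normalizer_eq h] at this

theorem card_inf_mul_relIndex' (H K : Subgroup G) :
    Nat.card (K ⊓ H : Subgroup G) * H.relIndex K = Nat.card K := by
  rw [← inf_relIndex_left]; exact card_mul_relIndex_of_le inf_le_left

omit [Finite G] in
theorem mcs {a b : G} : a ∈ centralizer {b} ↔ a * b = b * a := mem_centralizer_singleton_iff

omit [Finite G] in
theorem conj_mcs {a b : G} (g : G) (h : a ∈ centralizer {b}) :
    g * a * g⁻¹ ∈ centralizer {g * b * g⁻¹} := by
  rw [mcs] at *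
  rw [conj_mul, conj_mul, h]

omit [Finite G] in
theorem orderOf_cj (g a : G) : orderOf (g * a * g⁻¹) = orderOf a :=
  (MulAut.conj g).orderOf_eq a

theorem relIndex_cent_le {N S : Subgroup G} (hN : N ≤ normalizer (S : Set G)) {x : G} (hx : x ∈ S) :
    (centralizer {x}).relIndex N ≤ Nat.card S := by
  let _ : MulAction N G := MulAction.compHom _ (MulAut.conj.comp N.subtype)
  have h1 := MulAction.index_stabilizer N x
  have h2 : MulAction.stabilizer N x = (centralizer {x}).subgroupOf N := by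
    ext a
    rw [MulAction.mem_stabilizer_iff, mem_subgroupOf, mcs]
    exact mul_inv_eq_iff_eq_mul
  rw [relIndex, ← h2, h1]
  refine Set.ncard_le_ncard (t := (S : Set G)) ?_
  rintro _ ⟨a, rfl⟩
  exact (mem_normalizer_iff.1 (hN a.2) x).1 hx

/-- The local data. -/
structure TD (G : Type*) [Group G] (z f : G) : Prop where
  card : Nat.card G = 17971200
  solv : ∀ x : G, x ≠ 1 → Group.IsSolvable (centralizer ({x} : Set G))
  z2 : orderOf z = 2
  cz : Nat.card (centralizer ({z} : Set G)) = 10240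
  inv : ∀ t : G, orderOf t = 2 → IsConj t z ∨ Nat.card (centralizer ({t} : Set G)) = 1536
  f5 : orderOf f = 5
  zf : f ∈ centralizer {z}
  cf : ∀ c ∈ centralizer {z}, c ∈ centralizer {f} → c ^ 5 ∈ zpowers z
  rank : ¬ PRankLE 2 4 G

namespace TD

variable {z f : G} (h : TD G z f)
include h

theorem dvd {t : G} (ht : orderOf t = 2) : Nat.card (centralizer ({t} : Set G)) ∣ 30720 := by
  rcases h.inv t ht with e | e
  · have h1 := card_isConj_mul_card_centralizer t
    rw [← card_isConj_mul_card_centralizer z, h.cz, Nat.card_congr (Equiv.subtypeEquivRight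
      fun y => (⟨e.symm.trans, e.trans⟩ : IsConj t y ↔ IsConj z y))] at h1
    have : Nonempty {y : G // IsConj z y} := ⟨⟨z, IsConj.refl z⟩⟩
    rw [Nat.eq_of_mul_eq_mul_left Nat.card_pos h1]; norm_num
  · rw [e]; norm_num

theorem odd_cent {H : Subgroup G} (hH : ¬ Nat.card H ∣ 30720) :
    ¬ 2 ∣ Nat.card (centralizer (H : Set G)) := fun h2 => by
  obtain ⟨t, ht⟩ := exists_prime_orderOf_dvd_card' 2 h2
  exact hH ((card_dvd_of_le fun y hy => mcs.2 (mem_centralizer_iff.1 t.2 y hy)).trans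
    (h.dvd (by rwa [orderOf_coe])))

theorem not_four {x : G} (hx : orderOf x = 5) : ¬ 4 ∣ Nat.card (centralizer ({x} : Set G)) := by
  intro h4
  have : Fact (Nat.Prime 5) := ⟨by norm_num⟩
  obtain ⟨U, hU⟩ := Sylow.exists_subgroup_card_pow_prime 2 (n := 2) h4
  obtain ⟨t, ht⟩ := exists_prime_orderOf_dvd_card' (G := U) 2 (by rw [hU]; norm_num)
  have t2 : orderOf (t.1.1 : G) = 2 := by rwa [orderOf_coe, orderOf_coe]
  have hxt : x ∈ centralizer {t.1.1} := mcs.2 (mcs.1 t.1.2).symm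
  obtain ⟨g, hg⟩ := isConj_iff.1 ((h.inv _ t2).resolve_right fun e => by
    have := orderOf_dvd_natCard (⟨x, hxt⟩ : centralizer {t.1.1})
    rw [← orderOf_coe, hx, e] at this
    omega)
  have h1 : g * x * g⁻¹ ∈ centralizer {z} := hg ▸ conj_mcs g hxt
  obtain ⟨P, hP⟩ := exists_sylow_mem_of_orderOf (p := 5) (k := 1)
    (g := (⟨_, h1⟩ : centralizer {z})) (by rw [← orderOf_coe, orderOf_cj, hx]; rfl)
  obtain ⟨Q, hQ⟩ := exists_sylow_mem_of_orderOf (p := 5) (k := 1)
    (g := (⟨_, h.zf⟩ : centralizer {z})) (by rw [← orderOf_coe, h.f5]; rfl)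
  obtain ⟨c, rfl⟩ := MulAction.exists_smul_eq (centralizer ({z} : Set G)) P Q
  have h2 : c * ⟨_, h1⟩ * c⁻¹ ∈ ((c • P : Sylow 5 _) : Subgroup _) :=
    smul_mem_pointwise_smul _ (MulAut.conj c) _ hP
  rw [← zpowers_eq_of_card_prime (p := 5) (by norm_num)
    (sylow_card_eq_pow (k := 1) (m := 2048) _ h.cz (by norm_num)) h2 (fun e => by
      have := congrArg orderOf e
      rw [orderOf_cj, ← orderOf_coe, orderOf_cj, hx, orderOf_one] at this
      omega)] at hQ
  obtain ⟨k, hk⟩ := mem_zpowers_iff.1 hQ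
  replace hk : (c * (g * x * g⁻¹) * (c : G)⁻¹) ^ k = f := by simpa using congrArg Subtype.val hk
  have cm := (IsPGroup.isMulCommutative_of_card_eq_prime_sq hU).is_comm.comm
  have key : ∀ u : U, c * (g * u.1.1 * g⁻¹) * (c : G)⁻¹ ∈ zpowers z := fun u => by
    have a1 : g * u.1.1 * g⁻¹ ∈ centralizer {z} :=
      hg ▸ conj_mcs g (mcs.2 (congrArg (·.1.1) (cm u t)))
    have a2 := mcs.1 (conj_mcs (c : G) (conj_mcs g u.1.2))
    have a3 := h.cf _ (mul_mem (mul_mem c.2 a1) (inv_mem c.2))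
      (mcs.2 (hk ▸ (Commute.zpow_right a2 k).eq))
    have a4 : u.1.1 ^ 4 = 1 := congrArg (·.1.1) (hU ▸ pow_card_eq_one' (x := u))
    rwa [conj_pow, conj_pow, pow_succ, a4, one_mul] at a3
  have := Nat.card_le_card_of_injective (fun u : U => (⟨_, key u⟩ : zpowers z)) fun u v e =>
    Subtype.ext (Subtype.ext (by simpa using e))
  rw [Nat.card_zpowers, h.z2, hU] at this
  omega

theorem cent_dvd {x : G} (hx : orderOf x = 5) : Nat.card (centralizer ({x} : Set G)) ∣ 17550 :=
  dvd_of_dvd_mul_prime (p := 2) (k := 1) Nat.prime_two (by norm_num) (by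
    have h1 := h.card ▸ card_subgroup_dvd_card (centralizer ({x} : Set G))
    have h2 := h.not_four hx
    generalize Nat.card (centralizer ({x} : Set G)) = c at h1 h2
    obtain ⟨a, b, ha, hb, rfl⟩ := (Nat.dvd_mul (m := 2 ^ 11) (n := 8775)).1 h1
    obtain ⟨i, -, rfl⟩ := (Nat.dvd_prime_pow Nat.prime_two).1 ha
    refine (Nat.mul_dvd_mul (pow_dvd_pow 2 (show i ≤ 2 from ?_)) hb).trans (by norm_num)
    by_contra h3
    exact h2 ((pow_dvd_pow 2 (show 2 ≤ i by omega)).mul_right b)) (h.not_four hx)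

theorem norm13 (P : Sylow 13 G) : Nat.card (normalizer ((P : Subgroup G) : Set G)) = 78 ∨
    Nat.card (normalizer ((P : Subgroup G) : Set G)) = 585 ∧ 5 ∣ Nat.card (centralizer ((P : Subgroup G) : Set G)) := by
  have : Fact (Nat.Prime 13) := ⟨by norm_num⟩
  have c1 : Nat.card P = 13 := sylow_card_eq_pow (k := 1) (m := 1382400) P h.card (by norm_num)
  have : IsCyclic P := isCyclic_of_prime_card c1
  have h1 := relIndex_centralizer_dvd_card_mulAut (P : Subgroup G)
  rw [IsCyclic.card_mulAut, c1, show Nat.totient 13 = 12 by decide] at h1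
  have h2 := card_mul_relIndex_of_le (centralizer_le_normalizer ((P : Subgroup G) : Set G))
  have h3 := h.odd_cent (H := P) (by rw [c1]; norm_num)
  have h4 := h.card ▸ card_subgroup_dvd_card (centralizer ((P : Subgroup G) : Set G))
  have h5 : Nat.card (centralizer ((P : Subgroup G) : Set G)) ∣ 8775 :=
    ((Nat.prime_two.coprime_iff_not_dvd.2 h3).symm.pow_right 11).dvd_of_dvd_mul_left h4
  have h6 := card_normalizer_mul_card_sylow P
  have h7 := card_sylow_modEq_one 13 G
  rw [h.card] at h6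
  have h8 : Nat.card (normalizer ((P : Subgroup G) : Set G)) ∣ 35100 :=
    (Nat.dvd_gcd (Dvd.intro _ h6) (h2.symm.dvd.trans (Nat.mul_dvd_mul h5 h1))).trans (by norm_num)
  rw [Nat.eq_div_of_mul_eq_right Nat.card_pos.ne' h6] at h7
  have h9 := (by decide +kernel : ∀ N ∈ Nat.divisors 35100, 17971200 / N % 13 = 1 →
    N = 78 ∨ N = 585) _ (Nat.mem_divisors.2 ⟨h8, by norm_num⟩) h7
  refine h9.imp_right fun e => ⟨e, ?_⟩
  refine ((Nat.Prime.dvd_mul (by norm_num)).1 (show 5 ∣ _ by rw [h2, e]; norm_num)).resolve_right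
    fun e => absurd (e.trans h1) (by norm_num)

theorem card5 [Fact (Nat.Prime 5)] (S : Sylow 5 G) : Nat.card S = 25 :=
  sylow_card_eq_pow (k := 2) (m := 718848) S h.card (by norm_num)

theorem le_cent5 [Fact (Nat.Prime 5)] (S : Sylow 5 G) {x : G} (hx : x ∈ (S : Subgroup G)) :
    (S : Subgroup G) ≤ centralizer {x} := fun s hs => mcs.2 (congrArg Subtype.val
  ((IsPGroup.isMulCommutative_of_card_eq_prime_sq (p := 5) (h.card5 S)).is_comm.comm ⟨s, hs⟩ ⟨x, hx⟩))

theorem cent_le [Fact (Nat.Prime 5)] (S : Sylow 5 G) {x : G} (hx : x ∈ (S : Subgroup G))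
    (h5 : orderOf x = 5) : centralizer {x} ≤ normalizer ((S : Subgroup G) : Set G) := by
  refine inf_eq_left.1 (eq_of_le_of_card_ge inf_le_left (Nat.le_of_dvd Nat.card_pos ?_))
  rw [Nat.dvd_iff_prime_pow_dvd_dvd]
  intro p k hp hk
  have := Fact.mk hp
  have h1 := h.cent_dvd h5
  by_cases hp5 : p = 5
  · subst hp5
    refine dvd_trans ?_ (card_dvd_of_le (le_inf (h.le_cent5 S hx) le_normalizer))
    rw [h.card5]
    exact (Nat.Coprime.pow_left k (by norm_num : Nat.Coprime 5 702)).dvd_of_dvd_mul_right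
      (hk.trans h1)
  obtain ⟨i, h2, h3, h4⟩ := exists_hall_norm (X := ⊥) (h.solv x fun e => by simp [e] at h5) S
    (h.le_cent5 S hx) IsPGroup.of_bot bot_le bot_le hk
  have key : ∀ r, r.Prime → r ∣ p ^ i → r = p := fun r hr e =>
    (Nat.prime_dvd_prime_iff_eq hr hp).1 (hr.dvd_of_dvd_pow e)
  rcases (by decide +kernel : ∀ N ∈ Nat.divisors 17550, N % 5 = 1 → N = 1 ∨
    (2 ∣ N ∧ 3 ∣ N) ∨ (2 ∣ N ∧ 13 ∣ N) ∨ (3 ∣ N ∧ 13 ∣ N)) _
    (Nat.mem_divisors.2 ⟨((Dvd.intro _ rfl).trans h3).trans h1, by norm_num⟩) h2 with e | e | e | e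
  · rwa [e, one_mul] at h4
  all_goals
    have := key _ (by norm_num) e.1
    have := key _ (by norm_num) e.2
    omega

theorem ti5 [Fact (Nat.Prime 5)] (S T : Sylow 5 G) (hST : S ≠ T) :
    (S : Subgroup G) ⊓ T = ⊥ := by
  by_contra h1
  obtain ⟨x, hx⟩ := exists_prime_orderOf_dvd_card' (G := ((S : Subgroup G) ⊓ T : Subgroup G)) 5 (by
    obtain ⟨k, hk⟩ := IsPGroup.iff_card.1 (S.isPGroup'.to_inf_left (K := T))
    rw [hk]
    refine dvd_pow_self 5 ?_
    rintro rfl
    exact h1 (card_eq_one.1 hk))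
  have h2 : (T : Subgroup G) ⊓ normalizer ((S : Subgroup G) : Set G) = (T : Subgroup G) ⊓ S :=
    T.isPGroup'.inf_normalizer_sylow S
  rw [inf_of_le_left ((h.le_cent5 T x.2.2).trans (h.cent_le S x.2.1 (by rwa [orderOf_coe])))] at h2
  exact hST (Sylow.ext (T.is_maximal' S.isPGroup' (h2.le.trans inf_le_right)))

theorem norm5 [Fact (Nat.Prime 5)] (S : Sylow 5 G) : Nat.card (normalizer ((S : Subgroup G) : Set G)) = 1200 := by
  have : Fact (Nat.Prime 13) := ⟨by norm_num⟩
  have h1 := card_biUnion_of_ti (fun Q : Sylow 5 G => (Q : Subgroup G)) 25 h.card5 h.ti5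
  have h2 : 25 ∣ cnt fun x : G => x ^ 25 = 1 := dvd_card_pow_eq_one (by rw [h.card]; norm_num)
  rw [cnt_pow_eq_succ, cnt_congr (Q := fun g => g ≠ 1 ∧ ∃ Q : Sylow 5 G, g ∈ (Q : Subgroup G))
    fun g => and_congr_right fun _ => ⟨fun e => ?_, fun e => ?_⟩, cnt, h1] at h2
  rotate_left
  · obtain ⟨k, -, hk⟩ := (Nat.dvd_prime_pow (by norm_num : Nat.Prime 5) (m := 2)).1
      (orderOf_dvd_of_pow_eq_one e)
    exact exists_sylow_mem_of_orderOf hk
  · obtain ⟨Q, hQ⟩ := e
    exact congrArg Subtype.val (h.card5 Q ▸ pow_card_eq_one' (x := (⟨g, hQ⟩ : Q)))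
  have h6 := card_normalizer_mul_card_sylow S
  rw [h.card] at h6
  obtain ⟨x, hx⟩ := exists_prime_orderOf_dvd_card' (G := S) 5 (by rw [h.card5]; norm_num)
  rw [← orderOf_coe] at hx
  have h3 := card_mul_relIndex_of_le (h.cent_le S x.2 hx)
  have h4 := relIndex_cent_le (le_refl _) x.2
  have h5 : ¬ 2 ^ (5 + 1) ∣ Nat.card (normalizer ((S : Subgroup G) : Set G)) := fun e => by
    have e1 := (h3 ▸ e).trans (Nat.mul_dvd_mul_right (h.cent_dvd hx) _)
    rw [show 17550 = 2 * 8775 by norm_num, mul_assoc, pow_succ'] at e1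
    have e2 := Nat.le_of_dvd (Nat.pos_of_mul_pos_left (h3 ▸ Nat.card_pos))
      ((by norm_num : Nat.Coprime (2 ^ 5) 8775).dvd_of_dvd_mul_left
        (Nat.dvd_of_mul_dvd_mul_left two_pos e1))
    rw [h.card5] at h4
    exact absurd (e2.trans h4) (by norm_num)
  have h7 : Nat.card (normalizer ((S : Subgroup G) : Set G)) ∣ 25 * 11232 := by
    obtain ⟨a, b, ha, hb, e⟩ := (Nat.dvd_mul (m := 2 ^ 11) (n := 8775)).1 (Dvd.intro _ h6)
    obtain ⟨i, -, rfl⟩ := (Nat.dvd_prime_pow Nat.prime_two).1 ha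
    rw [← e] at h5 ⊢
    refine (Nat.mul_dvd_mul (pow_dvd_pow 2 (show i ≤ 5 from ?_)) hb).trans (by norm_num)
    by_contra h3
    exact h5 ((pow_dvd_pow 2 (by omega)).mul_right b)
  obtain ⟨s, hs⟩ : 25 ∣ Nat.card (normalizer ((S : Subgroup G) : Set G)) :=
    h.card5 S ▸ card_dvd_of_le le_normalizer
  rw [Nat.eq_div_of_mul_eq_right Nat.card_pos.ne' h6] at h2
  change 25 ∣ 1 + 17971200 / Nat.card (normalizer ((S : Subgroup G) : Set G)) * 24 at h2
  rw [hs] at h2 h7
  rcases (by decide +kernel : ∀ s ∈ Nat.divisors 11232, 25 ∣ 1 + 17971200 / (25 * s) * 24 →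
    s = 48 ∨ s = 1248) s (Nat.mem_divisors.2 ⟨Nat.dvd_of_mul_dvd_mul_left (by norm_num) h7,
      by norm_num⟩) h2 with rfl | rfl
  · exact hs
  obtain ⟨P, hP⟩ := exists_sylow_le (q := 13) (k := 1) (m := 1382400) h.card (by norm_num)
    (C := normalizer ((S : Subgroup G) : Set G)) (by rw [hs]; norm_num)
  have h8 := relIndex_norm_modEq P hP
  have h9 := card_inf_mul_relIndex' (normalizer ((P : Subgroup G) : Set G)) (normalizer ((S : Subgroup G) : Set G))
  rw [hs] at h9
  rw [Nat.eq_div_of_mul_eq_right Nat.card_pos.ne' h9] at h8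
  have h10 : Nat.card (normalizer ((S : Subgroup G) : Set G) ⊓ normalizer ((P : Subgroup G) : Set G) : Subgroup G) ∣ 1170 :=
    (card_dvd_of_le inf_le_right).trans (by
      rcases h.norm13 P with e | ⟨e, -⟩ <;> rw [e] <;> norm_num)
  have h11 := card_dvd_of_le (inf_le_right (a := normalizer ((S : Subgroup G) : Set G))
    (b := normalizer ((P : Subgroup G) : Set G)))
  generalize Nat.card (normalizer ((S : Subgroup G) : Set G) ⊓ normalizer ((P : Subgroup G) : Set G) : Subgroup G) = M at *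
  have := (by decide +kernel : ∀ M ∈ Nat.divisors 1170, M ∣ 25 * 1248 →
    25 * 1248 / M % 13 = 1 → ¬ M ∣ 78 ∧ ¬ M ∣ 585) M (Nat.mem_divisors.2 ⟨h10, by norm_num⟩)
    (Dvd.intro _ h9) h8
  rcases h.norm13 P with e | ⟨e, -⟩ <;> rw [e] at h11
  exacts [(this.1 h11).elim, (this.2 h11).elim]

theorem cent_dvd' {x : G} (hx : orderOf x = 5) :
    ∃ s, s ∣ 6 ∧ Nat.card (centralizer ({x} : Set G)) = 25 * s := by
  have : Fact (Nat.Prime 5) := ⟨by norm_num⟩
  obtain ⟨S, hS⟩ := exists_sylow_mem_of_orderOf (p := 5) (k := 1) hx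
  obtain ⟨s, hs⟩ := h.card5 S ▸ card_dvd_of_le (h.le_cent5 S hS)
  have h1 : Nat.card (centralizer ({x} : Set G)) ∣ 25 * 6 :=
    (Nat.dvd_gcd ((card_dvd_of_le (h.cent_le S hS hx)).trans (h.norm5 S).dvd)
      (h.cent_dvd hx)).trans (by norm_num)
  exact ⟨s, Nat.dvd_of_mul_dvd_mul_left (by norm_num) (hs ▸ h1), hs⟩

theorem norm13' (P : Sylow 13 G) : Nat.card (normalizer ((P : Subgroup G) : Set G)) = 78 := by
  have : Fact (Nat.Prime 5) := ⟨by norm_num⟩
  have : Fact (Nat.Prime 13) := ⟨by norm_num⟩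
  refine (h.norm13 P).resolve_right fun ⟨_, e⟩ => ?_
  obtain ⟨x, hx⟩ := exists_prime_orderOf_dvd_card' 5 e
  obtain ⟨s, h1, h2⟩ := h.cent_dvd' (x := x) (by rwa [orderOf_coe])
  have h3 := card_dvd_of_le (H := (P : Subgroup G)) (K := centralizer {x.1}) fun y hy =>
    mcs.2 (mem_centralizer_iff.1 x.2 y hy)
  rw [sylow_card_eq_pow (k := 1) (m := 1382400) P h.card (by norm_num), h2] at h3
  exact absurd (h3.trans (Nat.mul_dvd_mul_left 25 h1)) (by norm_num)

theorem exists_three : ∃ x : G, orderOf x = 3 ∧ 65 ∣ (centralizer ({x} : Set G)).index := by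
  have : Fact (Nat.Prime 3) := ⟨by norm_num⟩
  have : Fact (Nat.Prime 5) := ⟨by norm_num⟩
  have : Fact (Nat.Prime 13) := ⟨by norm_num⟩
  obtain ⟨T⟩ : Nonempty (Sylow 3 G) := inferInstance
  have c1 : Nat.card T = 3 ^ 3 := sylow_card_eq_pow (m := 665600) T h.card (by norm_num)
  have : Nontrivial T := Finite.one_lt_card_iff_nontrivial.1 (by rw [c1]; norm_num)
  have := T.isPGroup'.center_nontrivial
  obtain ⟨x, hx⟩ := exists_prime_orderOf_dvd_card' (G := center T) 3 (by
    obtain ⟨k, hk⟩ := IsPGroup.iff_card.1 (T.isPGroup'.to_subgroup (center T))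
    rw [hk]
    refine dvd_pow_self 3 ?_
    rintro rfl
    exact Finite.one_lt_card.ne' hk)
  rw [← orderOf_coe, ← orderOf_coe] at hx
  have h1 : 3 ^ 3 ∣ Nat.card (centralizer ({x.1.1} : Set G)) := c1 ▸ card_dvd_of_le fun y hy =>
    mcs.2 (congrArg Subtype.val (mem_center_iff.1 x.2 ⟨y, hy⟩))
  generalize x.1.1 = x at hx h1
  have hs := h.solv x fun e => by simp [e] at hx
  have h2 := h.card ▸ card_subgroup_dvd_card (centralizer ({x} : Set G))
  have h3 := (centralizer ({x} : Set G)).card_mul_index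
  have pw : ∀ i j, 3 ^ i * 3 ^ j ∣ Nat.card (centralizer ({x} : Set G)) → i + j ≤ 3 := fun i j e => by
    rw [← pow_add] at e
    exact (Nat.pow_dvd_pow_iff_le_right (by norm_num)).1 ((Nat.Coprime.pow_left _
      (by norm_num : Nat.Coprime 3 665600)).dvd_of_dvd_mul_right (e.trans h2))
  refine ⟨x, hx, (by norm_num : Nat.Coprime 5 13).mul_dvd_of_dvd_of_dvd ?_ ?_⟩
  · by_contra h4
    obtain ⟨P, hP⟩ := exists_sylow_le (q := 5) (k := 2) (m := 718848) h.card (by norm_num)
      (C := centralizer {x}) ((((Nat.Prime.coprime_iff_not_dvd (by norm_num)).2 h4).pow_left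
        2).dvd_of_dvd_mul_right (by rw [h3, h.card]; norm_num))
    obtain ⟨i, a1, a2, a3⟩ := exists_hall_norm (X := ⊥) hs P hP IsPGroup.of_bot bot_le bot_le h1
    have := pw i 0 (by simpa using a2)
    obtain rfl : i = 0 := by
      have : i ≤ 3 := by omega
      interval_cases i <;> first | rfl | exact absurd a1 (by decide)
    rw [pow_zero, one_mul] at a3
    exact absurd ((a3.trans (card_dvd_of_le inf_le_right)).trans (h.norm5 P).dvd) (by norm_num)
  · by_contra h4
    obtain ⟨P, hP⟩ := exists_sylow_le (q := 13) (k := 1) (m := 1382400) h.card (by norm_num)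
      (C := centralizer {x}) ((((Nat.Prime.coprime_iff_not_dvd (by norm_num)).2 h4).pow_left
        1).dvd_of_dvd_mul_right (by rw [h3, h.card]; norm_num))
    obtain ⟨i, a1, a2, a3⟩ := exists_hall_norm (X := zpowers x) hs P hP
      (IsPGroup.of_card (n := 1) (by rw [Nat.card_zpowers, hx]; rfl)) (zpowers_le.2 (mcs.2 rfl))
      (zpowers_le.2 (centralizer_le_normalizer _ (mem_centralizer_iff.2 fun y hy =>
        mcs.1 (hP hy)))) h1
    have := pw i 1 (by rwa [Nat.card_zpowers, hx] at a2)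
    obtain rfl : i = 0 := by
      have : i ≤ 2 := by omega
      interval_cases i <;> first | rfl | exact absurd a1 (by decide)
    rw [pow_zero, one_mul] at a3
    exact absurd ((a3.trans (card_dvd_of_le inf_le_right)).trans (h.norm13' P).dvd) (by norm_num)

theorem exp (x : G) : ¬ 2 ^ (9 + 1) ∣ orderOf x := fun e => by
  obtain ⟨A, h1, h2, h3⟩ : ∃ A : Subgroup G, IsMulCommutative A ∧ (∀ a ∈ A, a ^ 2 = 1) ∧
      2 ^ 4 < Nat.card A := by
    by_contra! h1
    exact h.rank h1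
  have h4 := orderOf_pow_orderOf_div (orderOf_pos x).ne' e
  generalize x ^ (orderOf x / 2 ^ (9 + 1)) = y at h4
  obtain ⟨S, hS⟩ := (show IsPGroup 2 A from fun a =>
    ⟨1, Subtype.ext (by simpa using h2 a a.2)⟩).exists_le_sylow
  obtain ⟨T, hT⟩ := exists_sylow_mem_of_orderOf h4
  obtain ⟨g, rfl⟩ := MulAction.exists_smul_eq G T S
  have h5 : g * y * g⁻¹ ∈ ((g • T : Sylow 2 G) : Subgroup G) :=
    smul_mem_pointwise_smul _ (MulAut.conj g) _ hT
  rw [← orderOf_cj g] at h4
  generalize g * y * g⁻¹ = w at h4 h5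
  have h6 := card_mul_relIndex_of_le (zpowers_le.2 h5)
  rw [Nat.card_zpowers, h4, sylow_card_eq_pow (k := 11) (m := 8775) _ h.card (by norm_num)] at h6
  have h7 := relIndex_le_of_le_right (H := zpowers w) hS (by omega)
  have h8 := card_inf_mul_relIndex' (zpowers w) A
  have : IsCyclic (A ⊓ zpowers w : Subgroup G) := isCyclic_of_le inf_le_right
  have h9 : Nat.card (A ⊓ zpowers w : Subgroup G) ∣ 2 := by
    rw [← IsCyclic.exponent_eq_card, Monoid.exponent_dvd_iff_forall_pow_eq_one]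
    exact fun a => Subtype.ext (h2 a a.2.1)
  have := Nat.mul_le_mul (Nat.le_of_dvd two_pos h9) h7
  omega

theorem fc [IsSimpleGroup G] : FC G := by
  intro n hn hc
  have : Fact (Nat.Prime 13) := ⟨by norm_num⟩
  have pr : ∀ p, p.Prime → 2 < p → n * p ≠ 17971200 := fun p hp h2 e =>
    cnt_ne_of_prime hp h2 (e.trans h.card.symm) (fun hP => by
      have := Fact.mk hp
      obtain ⟨k, hk⟩ := IsPGroup.iff_card.1 hP
      have := (Nat.prime_dvd_prime_iff_eq Nat.prime_two hp).1
        (Nat.prime_two.dvd_of_dvd_pow (by rw [← hk, h.card]; norm_num))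
      omega) hc
  have ex : 2 ^ 9 ∣ n → ¬ n * 2 ∣ 17971200 := fun h1 h2 =>
    cnt_ne_of_exp Nat.prime_two h1 (h.card ▸ h2) h.exp hc
  have hn' := h.card ▸ hn
  by_cases h13 : 13 ∣ n
  · obtain ⟨P⟩ : Nonempty (Sylow 13 G) := inferInstance
    have h1 := card_orderOf_eq_prime P
      (sylow_card_eq_pow (k := 1) (m := 1382400) P h.card (by norm_num))
    have h2 := card_normalizer_mul_card_sylow P
    have h3 : cnt (fun g : G => orderOf g = 13) ≤ cnt fun x : G => x ≠ 1 ∧ x ^ n = 1 :=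
      cnt_le fun g hg => ⟨fun e => by simp [e] at hg, orderOf_dvd_iff_pow_eq_one.1 (hg ▸ h13)⟩
    have h4 : Nat.card (normalizer ((P : Subgroup G) : Set G)) = 78 := h.norm13' P
    rw [h4, h.card] at h2
    rw [cnt, h1] at h3
    rw [cnt_pow_eq_succ] at hc
    obtain ⟨m, hm⟩ := hn'
    have h5 : m < 7 := by
      by_contra! h5
      have := Nat.mul_le_mul_left n h5
      omega
    interval_cases m
    · omega
    · exact ⟨⊤, by rw [card_top, h.card, hm, mul_one]⟩
    · exact (ex (by omega) hm.symm.dvd).elim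
    · exact (pr 3 (by norm_num) (by norm_num) hm.symm).elim
    · obtain rfl : n = 4492800 := by omega
      exact (ex (by norm_num) (by norm_num)).elim
    · exact (pr 5 (by norm_num) (by norm_num) hm.symm).elim
    · obtain rfl : n = 2995200 := by omega
      exact (ex (by norm_num) (by norm_num)).elim
  have h1 : n ∣ 1382400 := ((Nat.Prime.coprime_iff_not_dvd (by norm_num)).2
    h13).symm.dvd_of_dvd_mul_left (by simpa using hn')
  by_cases h5 : 5 ∣ n
  · obtain ⟨s, h2, h3⟩ := h.cent_dvd' h.f5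
    have f1 : f ≠ 1 := fun e => by simpa [e] using h.f5
    have f5 : f ^ 5 = 1 := h.f5 ▸ pow_orderOf_eq_one f
    have h4 := (centralizer ({f} : Set G)).index_mul_card
    have h6 := index_mul_gcd_lt f1 f5 (Nat.coprime_one_left 5) (n := n) (by simpa using h5)
    rw [h3, h.card] at h4
    rw [hc, Nat.gcd_one_left] at h6
    have h7 := Nat.mul_le_mul_left (centralizer ({f} : Set G)).index
      (Nat.mul_le_mul_left 25 (Nat.le_of_dvd (by norm_num) h2))
    obtain ⟨m, hm⟩ := h1
    have h8 : m < 12 := by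
      by_contra! h5
      have := Nat.mul_le_mul_left n h5
      omega
    have h9 := index_mul_gcd_lt f1 f5 (m := 6) (by norm_num) (n := n) (by interval_cases m <;> omega)
    rw [hc, h3] at h9
    have h10 := Nat.mul_le_mul_left (centralizer ({f} : Set G)).index
      (Nat.le_of_dvd (by positivity) (Nat.dvd_gcd h2 (Dvd.intro_left 25 rfl)))
    rw [mul_left_comm] at h4
    have h11 : m < 2 := by
      by_contra! h5
      have := Nat.mul_le_mul_left n h5
      omega
    exact (pr 13 (by norm_num) (by norm_num) (by interval_cases m <;> omega)).elim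
  have h2 : n ∣ 2 ^ 11 * 27 := (((Nat.Prime.coprime_iff_not_dvd (by norm_num)).2
    h5).symm.pow_right 2).dvd_of_dvd_mul_left (by simpa using h1)
  by_cases h3 : 3 ∣ n
  · obtain ⟨x, hx, h4⟩ := h.exists_three
    obtain ⟨a, b, ha, hb, rfl⟩ := Nat.dvd_mul.1 h2
    have c3 : a.Coprime 3 := Nat.Coprime.coprime_dvd_left ha (by norm_num)
    have h6 := index_mul_gcd_lt (x := x) (fun e => by simp [e] at hx)
      (hx ▸ pow_orderOf_eq_one x) c3 (Nat.mul_dvd_mul_left a (c3.symm.dvd_of_dvd_mul_left h3))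
    have h7 : a ∣ (centralizer ({x} : Set G)).index *
        Nat.gcd a (Nat.card (centralizer ({x} : Set G))) := by
      rw [Nat.dvd_mul_gcd_iff_dvd_mul, index_mul_card]
      exact (Dvd.intro _ rfl).trans hn
    have h8 := Nat.le_of_dvd (Nat.mul_pos (Nat.pos_of_ne_zero index_ne_zero_of_finite)
      (Nat.gcd_pos_of_pos_right _ Nat.card_pos)) ((Nat.Coprime.coprime_dvd_left ha
        (by norm_num : Nat.Coprime (2 ^ 11) 65)).mul_dvd_of_dvd_of_dvd h7 (h4.mul_right _))
    have h9 := Nat.mul_le_mul_left a (Nat.le_of_dvd (by norm_num) hb)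
    omega
  obtain ⟨k, -, rfl⟩ := (Nat.dvd_prime_pow Nat.prime_two).1 ((((Nat.Prime.coprime_iff_not_dvd
    (by norm_num)).2 h3).symm.pow_right 3).dvd_of_dvd_mul_right h2)
  exact Sylow.exists_subgroup_card_pow_prime 2 hn

end TD

end Cfsg.Lib.Solv.Frob
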