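import Cfsg.Agent.Solv.HallHigmanRep

/-!
# Fixed spaces of elements of prime order: linear algebra and counting
-/

set_option autoImplicit false

open Module

namespace Cfsg.Lib.Solv.HalfFix

universe u

/-- Orbit representatives of a permutation of prime order. -/
theorem exists_reps {Ω : Type*} [Finite Ω] {p : ℕ} [hp : Fact p.Prime] (π : Equiv.Perm Ω)
    (hπ : π ^ p = 1) : ∃ R : Finset Ω, (∀ ω, ∃ r ∈ R, ∃ i : ℕ, (π ^ i) r = ω) ∧
      p * R.card = Nat.card Ω + (p - 1) * Nat.card {ω // π ω = ω} := by
  classical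
  have := Fintype.ofFinite Ω
  by_cases h1 : π = 1
  · refine ⟨Finset.univ, fun ω => ⟨ω, Finset.mem_univ _, 0, rfl⟩, ?_⟩
    have : Nat.card {ω // π ω = ω} = Nat.card Ω :=
      Nat.card_congr (Equiv.subtypeUnivEquiv fun ω => by rw [h1]; rfl)
    rw [this, Finset.card_univ, ← Nat.card_eq_fintype_card]
    obtain ⟨k, hk⟩ : ∃ k, p = k + 1 := ⟨p - 1, by have := hp.out.pos; omega⟩
    subst hk
    simp only [Nat.add_sub_cancel]
    ring
  have ho : orderOf π = p := orderOf_eq_prime hπ h1
  let P := Subgroup.zpowers π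
  have hP : Nat.card P = p := by rw [Nat.card_zpowers, ho]
  have := Fintype.ofFinite P
  have := Fintype.ofFinite (MulAction.orbitRel.Quotient P Ω)
  have hB := MulAction.sum_card_fixedBy_eq_card_orbits_mul_card_group P Ω
  have hinj : Function.Injective (Quotient.out : MulAction.orbitRel.Quotient P Ω → Ω) :=
    Quotient.out_injective
  refine ⟨Finset.univ.image (Quotient.out : MulAction.orbitRel.Quotient P Ω → Ω), fun ω => ?_, ?_⟩
  · refine ⟨_, Finset.mem_image_of_mem _ (Finset.mem_univ (Quotient.mk _ ω)), ?_⟩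
    have h2 : (MulAction.orbitRel P Ω) ω (Quotient.out (Quotient.mk (MulAction.orbitRel P Ω) ω)) :=
      (MulAction.orbitRel P Ω).symm (Quotient.mk_out (s := MulAction.orbitRel P Ω) ω)
    rw [MulAction.orbitRel_apply] at h2
    obtain ⟨⟨g, hg⟩, h3⟩ := h2
    obtain ⟨i, rfl⟩ := (mem_powers_iff_mem_zpowers.2 hg)
    exact ⟨i, h3⟩
  · rw [Finset.card_image_of_injective _ hinj, Finset.card_univ, mul_comm]
    have hP' : Fintype.card P = p := by rw [← Nat.card_eq_fintype_card, hP]
    rw [hP'] at hB
    erw [← hB]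
    rw [← Finset.add_sum_erase _ _ (Finset.mem_univ (1 : P))]
    congr 1
    · rw [← Nat.card_eq_fintype_card]
      exact Nat.card_congr (Equiv.subtypeUnivEquiv fun ω => by simp)
    · rw [Finset.sum_congr rfl (g := fun _ => Nat.card {ω // π ω = ω}), Finset.sum_const,
        Finset.card_erase_of_mem (Finset.mem_univ _), Finset.card_univ, hP', smul_eq_mul]
      intro g hg
      have hg1 : g ≠ 1 := Finset.ne_of_mem_erase hg
      rw [← Nat.card_eq_fintype_card]
      refine Nat.card_congr (Equiv.subtypeEquivRight fun ω => ?_)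
      rw [MulAction.mem_fixedBy]
      constructor
      · intro h
        have h3 : (⟨π, Subgroup.mem_zpowers π⟩ : P) ∈ Subgroup.zpowers g :=
          mem_zpowers_of_prime_card hP hg1
        exact (Subgroup.zpowers_le.2 (show g ∈ MulAction.stabilizer P ω from h)) h3
      · intro h
        exact (Subgroup.zpowers_le.2 (show π ∈ MulAction.stabilizer (Equiv.Perm Ω) ω from h)) g.2

section Weight

variable {K N X : Type*} [Field K] [Group N] [Fintype N] [AddCommGroup X] [Module K X]

/-- The weight space. -/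
def wsp (τ : N →* End K X) (χ : N →* K) : Submodule K X where
  carrier := {v | ∀ n, τ n v = χ n • v}
  zero_mem' := fun n => by simp
  add_mem' := fun {a b} ha hb n => by rw [map_add, ha n, hb n, smul_add]
  smul_mem' := fun c v hv n => by rw [map_smul, hv n, smul_comm]

/-- The projection to a weight space (up to the factor `|N|`). -/
def wpr (τ : N →* End K X) (χ : N →* K) : End K X := ∑ n, χ n⁻¹ • τ n

theorem wpr_apply (τ : N →* End K X) (χ : N →* K) (v : X) :
    wpr τ χ v = ∑ n, χ n⁻¹ • τ n v := by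
  simp [wpr, LinearMap.sum_apply]

theorem wpr_mem (τ : N →* End K X) (χ : N →* K) (v : X) : wpr τ χ v ∈ wsp τ χ := by
  intro m
  rw [wpr_apply, map_sum, Finset.smul_sum]
  refine Fintype.sum_equiv (Equiv.mulLeft m) _ _ fun n => ?_
  rw [map_smul, ← End.mul_apply, ← map_mul, Equiv.coe_mulLeft, smul_smul, mul_comm (χ m),
    ← map_mul]
  congr 2
  group

theorem wpr_self (τ : N →* End K X) (χ : N →* K) {v : X} (hv : v ∈ wsp τ χ) :
    wpr τ χ v = (Fintype.card N : K) • v := by
  rw [wpr_apply, Finset.sum_congr rfl (g := fun _ => v), Finset.sum_const, Finset.card_univ,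
    Nat.cast_smul_eq_nsmul]
  intro n _
  rw [hv n, smul_smul, ← map_mul, inv_mul_cancel, map_one, one_smul]

theorem wpr_ne (τ : N →* End K X) {χ ψ : N →* K} (h : χ ≠ ψ) {v : X} (hv : v ∈ wsp τ ψ) :
    wpr τ χ v = 0 := by
  let f : N →* K :=
    { toFun := fun n => χ n⁻¹ * ψ n
      map_one' := by simp
      map_mul' := fun a b => by rw [mul_inv_rev, map_mul, map_mul]; ring }
  have hf : f ≠ 1 := by
    intro h1
    apply h
    ext n
    have h2 : χ n⁻¹ * ψ n = 1 := DFunLike.congr_fun h1 n
    calc χ n = χ n * (χ n⁻¹ * ψ n) := by rw [h2, mul_one]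
      _ = ψ n := by rw [← mul_assoc, ← map_mul, mul_inv_cancel, map_one, one_mul]
  rw [wpr_apply, Finset.sum_congr rfl (g := fun n => f n • v), ← Finset.sum_smul,
    sum_hom_units_eq_zero f hf, zero_smul]
  intro n _
  rw [hv n, smul_smul]
  rfl

/-- An operator permuting weight spaces of equal dimensions has a small fixed space. -/
theorem weight_bound [FiniteDimensional K X] {Ω : Type*} [Finite Ω]
    (hN : (Fintype.card N : K) ≠ 0) (τ : N →* End K X) (χ : Ω → N →* K)
    (hχ : Function.Injective χ)
    (hdim : ∀ ω ω', ∃ T : End K X, Function.Injective T ∧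
      ∀ v ∈ wsp τ (χ ω), T v ∈ wsp τ (χ ω'))
    (hsp : ∀ v, (∀ ω, wpr τ (χ ω) v = 0) → v = 0) (ξ : End K X) (β : N ≃* N)
    (π : Equiv.Perm Ω) (h1 : ∀ n, ξ * τ n = τ (β n) * ξ) (h2 : ∀ ω n, χ (π ω) (β n) = χ ω n)
    (R : Finset Ω) (hR : ∀ ω, ∃ r ∈ R, ∃ i : ℕ, (π ^ i) r = ω) :
    Nat.card Ω * finrank K (LinearMap.ker (ξ - 1)) ≤ R.card * finrank K X := by
  classical
  have := Fintype.ofFinite Ω
  have hle : ∀ ω ω', finrank K (wsp τ (χ ω)) ≤ finrank K (wsp τ (χ ω')) := by
    intro ω ω'
    obtain ⟨T, hT, h⟩ := hdim ω ω'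
    refine LinearMap.finrank_le_finrank_of_injective (f := T.restrict h) ?_
    intro a b hab
    exact Subtype.ext (hT (congrArg Subtype.val hab))
  have hA : ∑ ω, finrank K (wsp τ (χ ω)) ≤ finrank K X := by
    rw [← Module.finrank_pi_fintype]
    let f : (∀ ω, wsp τ (χ ω)) →ₗ[K] X := ∑ ω, (wsp τ (χ ω)).subtype ∘ₗ LinearMap.proj ω
    refine LinearMap.finrank_le_finrank_of_injective (f := f) ?_
    rw [injective_iff_map_eq_zero]
    intro v hv
    ext ω
    have h3 : f v = ∑ ω, (v ω : X) := by simp [f, LinearMap.sum_apply]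
    have h4 := congrArg (wpr τ (χ ω)) (h3.symm.trans hv)
    rw [map_zero, map_sum, Finset.sum_eq_single ω, wpr_self τ _ (v ω).2] at h4
    · exact (smul_eq_zero.1 h4).resolve_left hN
    · intro b _ hb
      exact wpr_ne τ (fun h => hb (hχ h).symm) (v b).2
    · intro h; exact absurd (Finset.mem_univ _) h
  have hstep : ∀ ω v, ξ v = v → wpr τ (χ (π ω)) v = ξ (wpr τ (χ ω) v) := by
    intro ω v hv
    rw [wpr_apply, wpr_apply, map_sum]
    refine (Fintype.sum_equiv β.toEquiv _ _ fun n => ?_).symm
    have h5 : ξ (τ n v) = τ (β n) v := by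
      rw [← End.mul_apply, h1, End.mul_apply, hv]
    rw [map_smul, h5, ← h2 ω n⁻¹, map_inv]
    rfl
  have hB : finrank K (LinearMap.ker (ξ - 1)) ≤ ∑ r : R, finrank K (wsp τ (χ r)) := by
    rw [← Module.finrank_pi_fintype]
    let f : LinearMap.ker (ξ - 1) →ₗ[K] (∀ r : R, wsp τ (χ r)) := LinearMap.pi fun r =>
      ((wpr τ (χ r)).codRestrict _ (wpr_mem τ (χ r))) ∘ₗ (LinearMap.ker (ξ - 1)).subtype
    refine LinearMap.finrank_le_finrank_of_injective (f := f) ?_
    rw [injective_iff_map_eq_zero]
    intro v hv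
    have hv1 : ξ v = v := by
      have := v.2
      rwa [LinearMap.mem_ker, LinearMap.sub_apply, sub_eq_zero] at this
    refine Subtype.ext (hsp v fun ω => ?_)
    obtain ⟨r, hr, i, rfl⟩ := hR ω
    induction i with
    | zero => exact congrArg Subtype.val (congrFun hv ⟨r, hr⟩)
    | succ i ih => rw [pow_succ', Equiv.Perm.mul_apply, hstep _ _ hv1, ih, map_zero]
  calc Nat.card Ω * finrank K (LinearMap.ker (ξ - 1))
      ≤ Nat.card Ω * ∑ r : R, finrank K (wsp τ (χ r)) := Nat.mul_le_mul_left _ hB
    _ = ∑ r : R, ∑ _ω : Ω, finrank K (wsp τ (χ r)) := by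
      rw [Finset.mul_sum]
      simp
    _ ≤ ∑ _r : R, finrank K X := Finset.sum_le_sum fun r _ =>
        (Finset.sum_le_sum fun ω _ => hle _ ω).trans hA
    _ = R.card * finrank K X := by simp

end Weight

section Lin

variable {K V : Type*} [Field K] [AddCommGroup V] [Module K V] [FiniteDimensional K V]

/-- The centraliser of `x ≠ 1` is larger than the square of its fixed space. -/
theorem sq_lt_centralizer {x : End K V} (hx : x ≠ 1) (F : Submodule K (End K V))
    (hF : ∀ f, x * f = f * x → f ∈ F) :
    finrank K (LinearMap.ker (x - 1)) ^ 2 < finrank K F := by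
  let C := LinearMap.ker (x - 1)
  let I := LinearMap.range (x - 1)
  let Φ : ((V ⧸ I) →ₗ[K] C) →ₗ[K] End K V :=
    { toFun := fun g => C.subtype ∘ₗ g ∘ₗ I.mkQ
      map_add' := fun a b => by ext; simp
      map_smul' := fun c a => by ext; simp }
  have hΦ : Function.Injective Φ := by
    rw [injective_iff_map_eq_zero]
    intro g hg
    ext v
    exact LinearMap.congr_fun hg v
  have h1 : finrank K (V ⧸ I) = finrank K C := by
    have h2 := I.finrank_quotient_add_finrank
    have h3 := (x - 1).finrank_range_add_finrank_ker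
    change finrank K I + finrank K C = _ at h3
    omega
  have h2 : finrank K (LinearMap.range Φ) = finrank K C ^ 2 := by
    rw [LinearMap.finrank_range_of_inj hΦ, Module.finrank_linearMap, h1, sq]
  rw [← h2]
  have h3 : ∀ g v, x (Φ g v) = Φ g v := fun g v => by
    have := (g (I.mkQ v)).2
    rwa [LinearMap.mem_ker, LinearMap.sub_apply, sub_eq_zero] at this
  refine Submodule.finrank_lt_finrank_of_lt (lt_of_le_of_ne ?_ ?_)
  · rintro _ ⟨g, rfl⟩
    refine hF _ (LinearMap.ext fun v => ?_)
    rw [End.mul_apply, End.mul_apply, h3]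
    have h4 : I.mkQ (x v) = I.mkQ v := by
      rw [Submodule.mkQ_apply, Submodule.mkQ_apply, Submodule.Quotient.eq]
      exact ⟨v, rfl⟩
    change C.subtype (g (I.mkQ v)) = C.subtype (g (I.mkQ (x v)))
    rw [h4]
  · intro h
    have h5 : (1 : End K V) ∈ LinearMap.range Φ := h ▸ hF 1 (by simp)
    obtain ⟨g, hg⟩ := h5
    apply hx
    ext v
    have := h3 g v
    rwa [hg] at this

theorem finrank_ker_le (f : End K V) (U : Submodule K V) (hU : ∀ v ∈ U, f v ∈ U) :
    finrank K (LinearMap.ker f) ≤
      finrank K (LinearMap.ker (f.restrict hU)) + finrank K (LinearMap.ker (U.mapQ U f hU)) := by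
  let g : LinearMap.ker f →ₗ[K] LinearMap.ker (U.mapQ U f hU) :=
    (U.mkQ ∘ₗ (LinearMap.ker f).subtype).codRestrict _ fun v => by
      rw [LinearMap.mem_ker]
      change U.mkQ (f v) = 0
      rw [v.2, map_zero]
  have h1 := g.finrank_range_add_finrank_ker
  have h2 := (LinearMap.range g).finrank_le
  have hm : ∀ v : LinearMap.ker g, ((v : LinearMap.ker f) : V) ∈ U := fun v => by
    have : U.mkQ ((v : LinearMap.ker f) : V) = 0 := congrArg Subtype.val v.2
    rwa [Submodule.mkQ_apply, Submodule.Quotient.mk_eq_zero] at this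
  let k : LinearMap.ker g →ₗ[K] LinearMap.ker (f.restrict hU) :=
    { toFun := fun v => ⟨⟨_, hm v⟩, Subtype.ext (v : LinearMap.ker f).2⟩
      map_add' := fun a b => rfl
      map_smul' := fun c a => rfl }
  have h3 : finrank K (LinearMap.ker g) ≤ finrank K (LinearMap.ker (f.restrict hU)) := by
    refine LinearMap.finrank_le_finrank_of_injective (f := k) fun a b hab => ?_
    exact Subtype.ext (Subtype.ext (congrArg (fun z => ((z.1 : U) : V)) hab))
  omega

theorem finrank_ker_le_baseChange (L : Type*) [Field L] [Algebra K L] (f : End K V) :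
    finrank K (LinearMap.ker f) ≤ finrank L (LinearMap.ker (f.baseChange L)) := by
  rw [← Module.finrank_baseChange (R := L)]
  let g := ((LinearMap.ker f).subtype.baseChange L).codRestrict (LinearMap.ker (f.baseChange L))
    fun v => by
      rw [LinearMap.mem_ker, ← LinearMap.comp_apply, ← LinearMap.baseChange_comp,
        LinearMap.comp_ker_subtype, LinearMap.baseChange_zero, LinearMap.zero_apply]
  refine LinearMap.finrank_le_finrank_of_injective (f := g) fun a b hab => ?_
  have h : Function.Injective ((LinearMap.ker f).subtype.baseChange L) :=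
    Module.Flat.lTensor_preserves_injective_linearMap (M := L) _ (Submodule.injective_subtype _)
  exact h (congrArg Subtype.val hab)

end Lin

theorem arith {p q D e r : ℕ} (hp : p.Prime) (hp3 : 3 < p) (hq : q.Prime) (hD : 2 ≤ D)
    (he : 2 * e < D) (h : p * r = q ^ D + (p - 1) * q ^ e) : 4 * r ≤ q ^ D := by
  obtain ⟨c, rfl⟩ : ∃ c, D = e + c := ⟨D - e, by omega⟩
  have hc : 2 ≤ c := by omega
  have hp5 : 5 ≤ p := by
    by_contra h5
    have : p = 4 := by omega
    subst this
    exact absurd hp (by decide)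
  obtain ⟨k, rfl⟩ : ∃ k, p = k + 1 := ⟨p - 1, by omega⟩
  rw [Nat.add_sub_cancel, pow_add, mul_comm k, ← mul_add] at h
  rw [pow_add]
  have key : 4 * k ≤ (k - 3) * q ^ c := by
    by_cases h16 : 16 ≤ q ^ c
    · obtain ⟨j, rfl⟩ : ∃ j, k = j + 4 := ⟨k - 4, by omega⟩
      have : j + 4 - 3 = j + 1 := by omega
      rw [this]; nlinarith
    have hq2 := hq.two_le
    have hq3 : q ≤ 3 := by
      by_contra h4
      have h5 : 4 ^ 2 ≤ q ^ c := le_trans (Nat.pow_le_pow_left (by omega) 2)
        (Nat.pow_le_pow_right (by omega) hc)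
      omega
    have hd : k + 1 ∣ q ^ c + k := by
      rcases (Nat.Prime.dvd_mul hp).1 (h ▸ Dvd.intro r rfl) with h1 | h1
      · have := (Nat.prime_dvd_prime_iff_eq hp hq).1 (hp.dvd_of_dvd_pow h1)
        omega
      · exact h1
    have hc3 : c ≤ 3 := by
      by_contra h4
      have h5 : 2 ^ 4 ≤ q ^ c := le_trans (Nat.pow_le_pow_right (by omega) (by omega))
        (Nat.pow_le_pow_left hq2 c)
      omega
    have hd' : k + 1 ∣ q ^ c - 1 := by
      have h1 : 1 ≤ q ^ c := Nat.one_le_pow _ _ hq.pos
      have h2 : q ^ c + k = (q ^ c - 1) + (k + 1) := by omega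
      rw [h2] at hd
      exact (Nat.dvd_add_left (dvd_refl _)).1 hd
    have hk : k + 1 ≤ 15 := by
      have h1 : 2 ^ 2 ≤ q ^ c := le_trans (Nat.pow_le_pow_left hq2 2)
        (Nat.pow_le_pow_right (by omega) hc)
      have := Nat.le_of_dvd (by omega) hd'
      omega
    have hk4 : 4 ≤ k := by omega
    have hk14 : k ≤ 14 := by omega
    interval_cases q <;> interval_cases c <;> interval_cases k <;> omega
  obtain ⟨j, rfl⟩ : ∃ j, k = j + 3 := ⟨k - 3, by omega⟩
  rw [Nat.add_sub_cancel] at key
  refine Nat.le_of_mul_le_mul_left (c := j + 3 + 1) ?_ (by omega)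
  calc (j + 3 + 1) * (4 * r) = 4 * ((j + 3 + 1) * r) := by ring
    _ = q ^ e * (4 * q ^ c + 4 * (j + 3)) := by rw [h]; ring
    _ ≤ q ^ e * (4 * q ^ c + j * q ^ c) := Nat.mul_le_mul_left _ (by omega)
    _ = (j + 3 + 1) * (q ^ e * q ^ c) := by ring

section Ratio

open Subgroup

theorem eq_top_of_conj_mem {G : Type*} [Group G] {x : G} (hx : normalClosure ({x} : Set G) = ⊤)
    {N : Subgroup G} [hN : N.Normal] {g : G} (h : g⁻¹ * x * g ∈ N) : N = ⊤ := by
  rw [eq_top_iff, ← hx]
  refine normalClosure_le_normal ?_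
  rintro _ rfl
  have := hN.conj_mem _ h g
  simpa [mul_assoc] using this

theorem normalClosure_map {G H : Type*} [Group G] [Group H] {x : G}
    (hx : normalClosure ({x} : Set G) = ⊤) (f : G →* H) (hf : Function.Surjective f) :
    normalClosure ({f x} : Set H) = ⊤ := by
  have h : (normalClosure ({f x} : Set H)).comap f = ⊤ :=
    eq_top_of_conj_mem hx (g := 1) (by
      simpa using subset_normalClosure (s := ({f x} : Set H)) rfl)
  rw [eq_top_iff]
  intro y _
  obtain ⟨z, rfl⟩ := hf y
  exact (h.ge (mem_top z) : z ∈ comap f _)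

/-- The fixed point ratio of a generating class of odd prime order in a solvable group. -/
theorem three_mul_card_le {p : ℕ} (hp : p.Prime) (hp2 : p ≠ 2) (G : Type u) [Group G] [Finite G]
    [Group.IsSolvable G] : ∀ (x : G) (H : Subgroup G), x ^ p = 1 →
      normalClosure ({x} : Set G) = ⊤ → H ≠ ⊤ →
      3 * Nat.card {g : G // g⁻¹ * x * g ∈ H} ≤ Nat.card G := by
  classical
  refine solvable_induction (P := fun G _ _ _ => ∀ (x : G) (H : Subgroup G), x ^ p = 1 →
      normalClosure ({x} : Set G) = ⊤ → H ≠ ⊤ →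
      3 * Nat.card {g : G // g⁻¹ * x * g ∈ H} ≤ Nat.card G) ?_ ?_ G
  · intro G _ _ _ hG x H _ _ hH
    exact absurd (Subsingleton.elim _ _) hH
  intro G _ _ _ r U _ hr hU hc hpow hrU ih x H hx hgen hH
  by_cases hs : H ⊔ U = ⊤
  · have hHU : H ⊓ U = ⊥ := by
      have hn : (H ⊓ U).Normal := by
        rw [← normalizer_eq_top_iff, eq_top_iff, ← hs, sup_le_iff]
        constructor
        · intro h hh
          rw [mem_normalizer_iff]
          intro y
          constructor
          · intro hy
            exact ⟨H.mul_mem (H.mul_mem hh hy.1) (H.inv_mem hh), hU.normal.conj_mem _ hy.2 _⟩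
          · intro hy
            have h1 := H.mul_mem (H.mul_mem (H.inv_mem hh) hy.1) hh
            have h2 := hU.normal.conj_mem _ hy.2 h⁻¹
            constructor
            · simpa [mul_assoc] using h1
            · simpa [mul_assoc] using h2
        · intro u hu
          rw [mem_normalizer_iff]
          intro y
          have h1 : y ∈ U → u * y * u⁻¹ = y := fun hy => by
            have : u * y = y * u := congrArg Subtype.val (mul_comm' (⟨u, hu⟩ : U) ⟨y, hy⟩)
            rw [this, mul_inv_cancel_right]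
          constructor
          · intro hy
            rwa [h1 hy.2]
          · intro hy
            have h2 : y ∈ U := by
              have := hU.normal.conj_mem _ hy.2 u⁻¹
              simpa [mul_assoc] using this
            rwa [h1 h2] at hy
      refine hU.eq_bot_of_lt (lt_of_le_of_ne inf_le_right fun h => hH ?_)
      rw [← hs]
      exact (sup_eq_left.2 (h.ge.trans inf_le_left)).symm
    -- the bound on centralisers
    have hC : ∀ g, g⁻¹ * x * g ∈ H →
        3 * Nat.card ↥(centralizer {g⁻¹ * x * g} ⊓ U) ≤ Nat.card U := by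
      intro g hg
      set y := g⁻¹ * x * g with hy
      have hyp : y ^ p = 1 := by
        have : y = g⁻¹ * x * g⁻¹⁻¹ := by rw [inv_inv]
        rw [this, conj_pow, hx]; simp
      have hi := relIndex_mul_card_inf (centralizer {y}) U
      have h0 : (centralizer {y}).relIndex U ≠ 0 := by
        intro h0
        rw [h0, zero_mul] at hi
        exact Nat.card_pos.ne hi
      have h1 : (centralizer {y}).relIndex U ≠ 1 := by
        rw [Ne, relIndex_eq_one]
        intro hle
        have hct : centralizer (U : Set G) = ⊤ := by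
          refine eq_top_of_conj_mem hgen (g := g) fun u hu => ?_
          exact (mem_centralizer_singleton_iff.1 (hle hu))
        have hn : H.Normal := by
          rw [← normalizer_eq_top_iff, eq_top_iff, ← hs, sup_le_iff]
          refine ⟨le_normalizer, fun u hu => ?_⟩
          rw [mem_normalizer_iff]
          intro z
          have : u * z = z * u := (hct.ge (mem_top z) : z ∈ centralizer (U : Set G)) u hu
          rw [this, mul_inv_cancel_right]
        exact hH (eq_top_of_conj_mem hgen hg)
      have h2 : (centralizer {y}).relIndex U ≠ 2 := by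
        intro h2
        have hr2 : r = 2 := by
          have : Fact r.Prime := ⟨hr⟩
          obtain ⟨k, hk⟩ := IsPGroup.iff_card.1 hrU
          have h3 : 2 ∣ r ^ k := by rw [← hk, ← hi, h2]; exact Dvd.intro _ rfl
          exact ((Nat.prime_dvd_prime_iff_eq Nat.prime_two hr).1
            (Nat.prime_two.dvd_of_dvd_pow h3)).symm
        subst hr2
        rw [relIndex, index_eq_two_iff_exists_notMem_and] at h2
        obtain ⟨a, ha, h3⟩ := h2
        apply ha
        rw [mem_subgroupOf, mem_centralizer_singleton_iff]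
        have hb : y * a * y⁻¹ ∈ U := hU.normal.conj_mem _ a.2 y
        have hc1 : y * a * y⁻¹ * a ∈ centralizer {y} := by
          rcases h3 ⟨_, hb⟩ with h4 | h4
          · exact h4
          · exfalso
            apply ha
            rw [mem_subgroupOf, mem_centralizer_singleton_iff] at h4 ⊢
            change y * a * y⁻¹ * y = y * (y * a * y⁻¹) at h4
            have h5 : (a : G) * y = y⁻¹ * (y * a * y⁻¹ * y) * y := by group
            rw [h5, h4]; group
        set c := y * a * y⁻¹ * a with hcdef
        have hcU : c ∈ U := U.mul_mem hb a.2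
        have ha2 : (a : G) * a = 1 := by rw [← sq]; exact hpow _ a.2
        have hya : y * a = c * a * y := by
          rw [hcdef, mul_assoc _ (a : G) a, ha2]; group
        have hcy : c * y = y * c := mem_centralizer_singleton_iff.1 hc1
        have hk : ∀ k : ℕ, y ^ k * a = c ^ k * a * y ^ k := by
          intro k
          induction k with
          | zero => simp
          | succ k ih =>
            have h6 : y * c ^ k = c ^ k * y := ((Commute.pow_left hcy k).eq).symm
            rw [pow_succ' y, mul_assoc, ih, ← mul_assoc, ← mul_assoc, h6, mul_assoc (c ^ k), hya,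
              pow_succ c]
            group
        have h7 := hk p
        rw [hyp, one_mul, mul_one, eq_comm, mul_eq_right] at h7
        have h8 : c = 1 := by
          have h9 := Nat.Coprime.eq_one_of_dvd
            (Nat.Coprime.coprime_dvd_left (orderOf_dvd_of_pow_eq_one h7)
              ((Nat.coprime_primes hp Nat.prime_two).2 hp2)) (orderOf_dvd_of_pow_eq_one (hpow c hcU))
          exact orderOf_eq_one_iff.1 h9
        rw [h8, one_mul] at hya
        exact hya.symm
      rw [← hi]
      exact Nat.mul_le_mul_right _ (by omega)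
    have := Fintype.ofFinite G
    have := Fintype.ofFinite (G ⧸ U)
    let S : Finset G := Finset.univ.filter fun g => g⁻¹ * x * g ∈ H
    have hS : Nat.card {g : G // g⁻¹ * x * g ∈ H} = S.card := by
      rw [Nat.card_eq_fintype_card, Fintype.card_subtype]
    rw [hS, Finset.card_eq_sum_card_fiberwise (f := fun g : G => (g : G ⧸ U)) (t := Finset.univ)
      (fun _ _ => Finset.mem_univ _), Finset.mul_sum, card_eq_card_quotient_mul_card_subgroup U,
      Nat.card_eq_fintype_card (α := G ⧸ U), ← Finset.card_univ, ← smul_eq_mul,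
      ← Finset.sum_const]
    refine Finset.sum_le_sum fun c _ => ?_
    rcases (S.filter fun g : G => (g : G ⧸ U) = c).eq_empty_or_nonempty with h | ⟨g, hg⟩
    · rw [h]; simp
    rw [Finset.mem_filter, Finset.mem_filter] at hg
    refine le_trans (Nat.mul_le_mul_left _ ?_) (hC g hg.1.2)
    rw [← Nat.card_eq_finsetCard]
    refine Nat.card_le_card_of_injective (fun z => ⟨g⁻¹ * z.1, ?_⟩) ?_
    · have hz := z.2
      rw [Finset.mem_filter, Finset.mem_filter] at hz
      have hu : g⁻¹ * z.1 ∈ U := QuotientGroup.eq.1 (hg.2.trans hz.2.symm)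
      refine ⟨mem_centralizer_singleton_iff.2 ?_, hu⟩
      have h1 : z.1⁻¹ * x * z.1 * (g⁻¹ * x * g)⁻¹ ∈ H ⊓ U := by
        refine ⟨H.mul_mem hz.1.2 (H.inv_mem hg.1.2), ?_⟩
        have h2 := U.mul_mem (U.inv_mem hu) (hU.normal.conj_mem _ hu (g⁻¹ * x * g))
        have h3 : z.1⁻¹ * x * z.1 * (g⁻¹ * x * g)⁻¹ =
          (g⁻¹ * z.1)⁻¹ * (g⁻¹ * x * g * (g⁻¹ * z.1) * (g⁻¹ * x * g)⁻¹) := by group
        rw [h3]
        exact h2
      rw [hHU, mem_bot, mul_inv_eq_one] at h1
      calc g⁻¹ * z.1 * (g⁻¹ * x * g) = g⁻¹ * z.1 * (z.1⁻¹ * x * z.1) := by rw [h1]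
        _ = g⁻¹ * x * g * (g⁻¹ * z.1) := by group
    · intro a b hab
      exact Subtype.ext (mul_left_cancel (congrArg Subtype.val hab))
  · have h1 := ih (G ⧸ U) (card_quotient_lt hU.ne_bot) (x : G ⧸ U) (H.map (QuotientGroup.mk' U))
      (by rw [← QuotientGroup.mk_pow, hx]; rfl)
      (normalClosure_map hgen (QuotientGroup.mk' U) (QuotientGroup.mk'_surjective U))
      (fun h => hs (by
        have := congrArg (comap (QuotientGroup.mk' U)) h
        rwa [comap_map_eq, QuotientGroup.ker_mk', comap_top] at this))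
    have h2 := QuotientGroup.card_preimage_mk U
      {g : G ⧸ U | g⁻¹ * (x : G ⧸ U) * g ∈ H.map (QuotientGroup.mk' U)}
    have h3 : Nat.card {g : G // g⁻¹ * x * g ∈ H} ≤ Nat.card (QuotientGroup.mk ⁻¹'
        {g : G ⧸ U | g⁻¹ * (x : G ⧸ U) * g ∈ H.map (QuotientGroup.mk' U)}) :=
      Nat.card_le_card_of_injective (fun z => ⟨z.1, ⟨_, z.2, rfl⟩⟩)
        fun a b hab => Subtype.ext (Subtype.mk.inj hab)
    rw [card_eq_card_quotient_mul_card_subgroup U]
    calc _ ≤ 3 * (Nat.card U * _) := Nat.mul_le_mul_left _ (h3.trans h2.le)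
      _ = Nat.card U * (3 * _) := mul_left_comm _ _ _
      _ ≤ Nat.card U * Nat.card (G ⧸ U) := Nat.mul_le_mul_left _ h1
      _ = _ := mul_comm _ _

end Ratio

end Cfsg.Lib.Solv.HalfFix
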