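import Cfsg.Agent.Solv.LieAssoc

/-! Nilpotent actions on Lie rings and the Kreknin-Shalev solvability criterion. -/

set_option autoImplicit false

namespace Cfsg.Lib.Solv.Lie

universe u

variable {L : Type u} [LieRing L]

/-- The iterated bracket `[V, U, ..., U]`. -/
def rit (V U : AddSubgroup L) : ℕ → AddSubgroup L
  | 0 => V
  | k + 1 => brk (rit V U k) U

theorem rit_add (V U : AddSubgroup L) (a b : ℕ) : rit V U (a + b) = rit (rit V U a) U b := by
  induction b with
  | zero => rfl
  | succ b ih => rw [← add_assoc, rit, ih, rit]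

theorem rit_mono {V V' U U' : AddSubgroup L} (hV : V ≤ V') (hU : U ≤ U') (k : ℕ) :
    rit V U k ≤ rit V' U' k := by
  induction k with
  | zero => exact hV
  | succ k ih => exact brk_mono ih hU

theorem rit_self (A : AddSubgroup L) (k : ℕ) : rit A A k = lcs A k := by
  induction k with
  | zero => rfl
  | succ k ih => rw [rit, ih, lcs]

theorem brk_iSup_left_le {ι : Sort*} {A : ι → AddSubgroup L} {B C : AddSubgroup L}
    (h : ∀ i, brk (A i) B ≤ C) : brk (⨆ i, A i) B ≤ C :=
  brk_le.2 fun _ ha b hb => mem_preL.1 ((iSup_le fun i _ hx =>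
    mem_preL.2 (h i (lie_mem_brk hx hb)) : (⨆ i, A i) ≤ preL b C) ha)

theorem brk_iSup_right_le {ι : Sort*} {B : ι → AddSubgroup L} {A C : AddSubgroup L}
    (h : ∀ i, brk A (B i) ≤ C) : brk A (⨆ i, B i) ≤ C :=
  brk_le.2 fun a ha _ hb => mem_preR.1 ((iSup_le fun i _ hx =>
    mem_preR.2 (h i (lie_mem_brk ha hx)) : (⨆ i, B i) ≤ preR a C) hb)

theorem brk_sup_left_le {A A' B C : AddSubgroup L} (h : brk A B ≤ C) (h' : brk A' B ≤ C) :
    brk (A ⊔ A') B ≤ C := by
  rw [sup_eq_iSup]
  exact brk_iSup_left_le fun b => by cases b <;> assumption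

theorem brk_sup_right_le {A B B' C : AddSubgroup L} (h : brk A B ≤ C) (h' : brk A B' ≤ C) :
    brk A (B ⊔ B') ≤ C := by
  rw [sup_eq_iSup]
  exact brk_iSup_right_le fun b => by cases b <;> assumption

theorem brk_bot_left (B : AddSubgroup L) : brk ⊥ B = ⊥ :=
  le_bot_iff.1 (brk_le.2 fun a ha b _ => by simp [AddSubgroup.mem_bot.1 ha])

theorem brk_bot_right (A : AddSubgroup L) : brk A ⊥ = ⊥ :=
  le_bot_iff.1 (brk_le.2 fun a _ b hb => by simp [AddSubgroup.mem_bot.1 hb])

theorem brk_brk_le {A B C D : AddSubgroup L} (h1 : brk (brk A C) B ≤ D) (h2 : brk A (brk B C) ≤ D) :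
    brk (brk A B) C ≤ D := by
  refine brk_le.2 fun x hx c hc => mem_preL.1 ((brk_le.2 fun a ha b hb => ?_ : _ ≤ preL c D) hx)
  have e : ⁅⁅a, b⁆, c⁆ = ⁅⁅a, c⁆, b⁆ + ⁅a, ⁅b, c⁆⁆ := by
    rw [lie_lie, ← lie_skew ⁅a, c⁆ b, sub_eq_neg_add]
  rw [mem_preL, e]
  exact add_mem (h1 (lie_mem_brk (lie_mem_brk ha hc) hb)) (h2 (lie_mem_brk ha (lie_mem_brk hb hc)))

theorem rit_inv {V D K : AddSubgroup L} (hV : brk V K ≤ V) (hD : brk D K ≤ D) (k : ℕ) :
    brk (rit V D k) K ≤ rit V D k := by
  induction k with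
  | zero => exact hV
  | succ k ih => exact brk_brk_le (brk_mono ih le_rfl) (brk_mono le_rfl hD)

theorem rit_le {V U : AddSubgroup L} (hV : brk V U ≤ V) (k : ℕ) : rit V U k ≤ V := by
  induction k with
  | zero => exact le_rfl
  | succ k ih => exact (brk_mono ih le_rfl).trans hV

theorem rit_iSup_le {ι : Sort*} (V : ι → AddSubgroup L) (U : AddSubgroup L) (k : ℕ) :
    rit (⨆ i, V i) U k ≤ ⨆ i, rit (V i) U k := by
  induction k with
  | zero => exact le_rfl
  | succ k ih =>
    exact (brk_mono ih le_rfl).trans (brk_iSup_left_le fun i => le_iSup_of_le i le_rfl)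

theorem rit_mul_le {V : ℕ → AddSubgroup L} {U : AddSubgroup L} {n : ℕ}
    (h : ∀ j, rit (V j) U n ≤ V (j + 1)) (m : ℕ) : rit (V 0) U (n * m) ≤ V m := by
  induction m with
  | zero => exact le_rfl
  | succ m ih => rw [Nat.mul_succ, rit_add]; exact (rit_mono ih le_rfl n).trans (h m)

/-- Two commuting nilpotent actions. -/
theorem rit_sup_le {K V W S U : AddSubgroup L} {c n : ℕ} (hV : brk V K ≤ V) (hW : brk W K ≤ W)
    (hWV : W ≤ V) (hVW : brk V (brk K K) ≤ W) (hS : S ≤ K) (hU : U ≤ K) (hc : rit V S c ≤ W)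
    (hn : rit V U n ≤ W) : rit V (S ⊔ U) (n * c) ≤ W := by
  have hVS : ∀ j, rit V S j ≤ V := rit_le ((brk_mono le_rfl hS).trans hV)
  have h1 : ∀ j, brk (rit V S j ⊔ W) K ≤ rit V S j ⊔ W := fun j => by
    refine brk_sup_left_le ?_ (hW.trans le_sup_right)
    induction j with
    | zero => exact hV.trans le_sup_left
    | succ j ih =>
      refine brk_brk_le ((brk_mono ih le_rfl).trans (brk_sup_left_le le_sup_left ?_)) ?_
      · exact ((brk_mono le_rfl hS).trans hW).trans le_sup_right
      · exact ((brk_mono (hVS j) (brk_mono hS le_rfl)).trans hVW).trans le_sup_right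
  have h2 : ∀ j t, rit (rit V S j ⊔ W) (S ⊔ U) t ≤
      rit (rit V S j ⊔ W) U t ⊔ (rit V S (j + 1) ⊔ W) := fun j t => by
    induction t with
    | zero => exact le_sup_left
    | succ t ih =>
      refine (brk_mono ih le_rfl).trans (brk_sup_left_le (brk_sup_right_le ?_ le_sup_left) ?_)
      · refine (brk_mono (rit_le ((brk_mono le_rfl hU).trans (h1 j)) t) le_rfl).trans
          (le_sup_of_le_right (brk_sup_left_le le_sup_left ?_))
        exact ((brk_mono le_rfl hS).trans hW).trans le_sup_right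
      · exact ((brk_mono le_rfl (sup_le hS hU)).trans (h1 _)).trans le_sup_right
  have h3 := rit_mul_le (V := fun j => rit V S j ⊔ W) (U := S ⊔ U) (n := n) (fun j =>
    (h2 j n).trans (sup_le (((rit_mono (sup_le (hVS j) hWV) le_rfl n).trans hn).trans le_sup_right)
      le_rfl)) c
  exact (rit_mono le_sup_left le_rfl _).trans (h3.trans (sup_le hc le_rfl))

theorem rit_finset_le {ι : Type*} {K V W : AddSubgroup L} {S : ι → AddSubgroup L} {c : ℕ}
    (hV : brk V K ≤ V) (hW : brk W K ≤ W) (hWV : W ≤ V) (hVW : brk V (brk K K) ≤ W)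
    (hS : ∀ i, S i ≤ K) (hc : ∀ i, rit V (S i) c ≤ W) (T : Finset ι) :
    rit V (⨆ i ∈ T, S i) (c ^ T.card) ≤ W := by
  classical
  induction T using Finset.induction_on with
  | empty => simp [rit, brk_bot_right]
  | insert i T hi ih =>
    rw [Finset.iSup_insert, Finset.card_insert_of_notMem hi, pow_succ]
    exact rit_sup_le hV hW hWV hVW (hS i) (iSup₂_le fun j _ => hS j) (hc i) ih

theorem der_succ' (K : AddSubgroup L) (j : ℕ) : der K (j + 1) = der (brk K K) j := by
  induction j with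
  | zero => rfl
  | succ j ih => rw [der, ih, der]

/-- A solvable subring all of whose derived terms are spanned by their intersections with finitely
many subgroups acting nilpotently acts nilpotently. -/
theorem rit_eq_bot_of_der {ι : Type*} [Fintype ι] {S : ι → AddSubgroup L} {c : ℕ}
    (hc : ∀ i, rit ⊤ (S i) c = ⊥) (s : ℕ) : ∀ K : AddSubgroup L, brk K K ≤ K → der K s = ⊥ →
      (∀ j, der K j ≤ ⨆ i, S i ⊓ der K j) → rit ⊤ K ((c ^ Fintype.card ι) ^ s) = ⊥ := by
  induction s with
  | zero =>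
    intro K _ h _
    rw [show K = ⊥ from h]
    exact brk_bot_right _
  | succ s ih =>
    intro K hK hs hS
    have hD : brk (brk K K) K ≤ brk K K := brk_mono hK le_rfl
    have h1 := ih (brk K K) (brk_mono hK hK) (by rwa [der_succ'] at hs)
      fun j => by rw [← der_succ']; exact hS _
    rw [pow_succ', eq_bot_iff, ← h1]
    refine rit_mul_le (V := rit ⊤ (brk K K)) (fun j => ?_) _
    refine (rit_mono le_rfl ?_ _).trans (rit_finset_le (S := fun i => S i ⊓ K)
      (rit_inv le_top hD j) (rit_inv le_top hD (j + 1)) (rit_inv le_top (brk_mono hK hK) j) le_rfl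
      (fun _ => inf_le_right)
      (fun i => (rit_mono le_top inf_le_left c).trans ((hc i).le.trans bot_le)) Finset.univ)
    simpa [der] using hS 0

theorem brk_ggen_zero {ι : Type*} [AddCommGroup ι] {M : ι → AddSubgroup L} (hM : gbrk M M ≤ M)
    (J : Set ι) (k : ι) : brk (ggen M J k) (M 0) ≤ ggen M J k := by
  let T : ι → AddSubgroup L := fun j => ggen M J j ⊓ ⨅ a ∈ M 0, preL a (ggen M J j)
  have hT : ∀ {j x}, x ∈ T j ↔ x ∈ ggen M J j ∧ ∀ a ∈ M 0, ⁅x, a⁆ ∈ ggen M J j := by
    simp [T, AddSubgroup.mem_iInf]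
  have h1 : ggen M J ≤ T := by
    refine ggen_le (gbrk_le.2 fun i j x hx y hy => ?_) fun j hj x hx => ?_
    · obtain ⟨hx1, hx2⟩ := hT.1 hx
      obtain ⟨hy1, hy2⟩ := hT.1 hy
      have h := gbrk_le.1 (gbrk_ggen M J) i j
      refine hT.2 ⟨h _ hx1 _ hy1, fun a ha => ?_⟩
      have e : ⁅⁅x, y⁆, a⁆ = ⁅⁅x, a⁆, y⁆ + ⁅x, ⁅y, a⁆⁆ := by
        rw [lie_lie, ← lie_skew ⁅x, a⁆ y, sub_eq_neg_add]
      rw [e]
      exact add_mem (h _ (hx2 a ha) _ hy1) (h _ hx1 _ (hy2 a ha))
    · refine hT.2 ⟨le_ggen M hj hx, fun a ha => le_ggen M hj ?_⟩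
      simpa using gbrk_le.1 hM _ _ _ hx _ ha
  exact brk_le.2 fun x hx a ha => (hT.1 (h1 k hx)).2 a ha

/-- The derived length in the Kreknin-Shalev theorem. -/
def krek (m : ℕ) : ℕ → ℕ
  | 0 => 0
  | k + 1 => (krek m k + 1) * m + krek m k

theorem shalev_aux {n m : ℕ} [NeZero n] (k : ℕ) : ∀ M : ZMod n → AddSubgroup L, gbrk M M ≤ M →
    (∀ j, rit (M j) (M 0) m = ⊥) → gder M (krek m k) ≤ ggen M {j | k ≤ j.val} := by
  induction k with
  | zero => exact fun M _ _ j => le_ggen M (Nat.zero_le _)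
  | succ k ih =>
    intro M hM h0
    have hsub : ∀ e, gder (gder M e) (krek m k) ≤ ggen (gder M e) {j | k ≤ j.val} := fun e =>
      ih _ (gder_succ_le hM e) fun j => le_bot_iff.1
        ((rit_mono (gder_le hM e j) (gder_le hM e 0) m).trans (h0 j).le)
    rw [krek, gder_add]
    refine (hsub _).trans (ggen_le (gbrk_ggen _ _) fun j (hj : k ≤ j.val) => ?_)
    by_cases hj' : k + 1 ≤ j.val
    · exact (gder_le hM _ j).trans (le_ggen M hj')
    have key : ∀ t, gder M ((krek m k + 1) * t) j ≤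
        ggen M {j | k + 1 ≤ j.val} j ⊔ rit (M j) (M 0) t := fun t => by
      induction t with
      | zero => exact le_sup_right
      | succ t iht =>
        rw [Nat.mul_succ, gder_add]
        have hE := gder_succ_le hM ((krek m k + 1) * t)
        have hle := gder_le hM ((krek m k + 1) * t)
        refine (gbrk_mono (gder_le hE _) (hsub _) j).trans (gbrk_ggen_apply_le hE ?_)
        intro i l (hl : k ≤ l.val) hil a ha b hb
        by_cases hi : i = 0
        · rw [hi, zero_add] at hil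
          rw [hi] at ha
          rw [hil] at hb
          rw [← lie_skew]
          refine neg_mem ((brk_sup_left_le ((brk_ggen_zero hM _ j).trans le_sup_left) le_sup_right)
            (lie_mem_brk (iht hb) (hle 0 ha)))
        have h1 := ZMod.val_pos.2 hi
        have h2 := ZMod.val_lt i
        have h3 := ZMod.val_lt l
        have h4 := ZMod.val_add i l
        rw [hil] at h4
        have h5 : i.val + l.val = n + j.val := by
          rcases lt_or_ge (i.val + l.val) n with h | h
          · rw [Nat.mod_eq_of_lt h] at h4; omega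
          · rw [Nat.mod_eq_sub_mod h, Nat.mod_eq_of_lt (by omega)] at h4; omega
        exact AddSubgroup.mem_sup_left (hil ▸ gbrk_le.1 (gbrk_ggen M _) _ _ _
          (le_ggen M (show k + 1 ≤ i.val by omega) (hle _ ha)) _
          (le_ggen M (show k + 1 ≤ l.val by omega) (hle _ hb)))
    simpa [h0 j] using key m

/-- The Kreknin-Shalev theorem. -/
theorem shalev {n m : ℕ} [NeZero n] {M : ZMod n → AddSubgroup L} (hM : gbrk M M ≤ M)
    (h0 : ∀ j, rit (M j) (M 0) m = ⊥) : gder M (krek m n) = ⊥ := by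
  refine le_bot_iff.1 ((shalev_aux n M hM h0).trans (ggen_le ?_ fun j (hj : n ≤ j.val) => ?_))
  · refine gbrk_le.2 fun i j a ha b _ => ?_
    obtain rfl : a = 0 := ha
    simp
  · have := ZMod.val_lt j
    omega

/-- The span of the pure tensors with second factor in `U`. -/
noncomputable def extSub (R : Type) [CommRing R] (U : AddSubgroup L) : AddSubgroup (Ext R L) :=
  ⨆ r : R, U.map (tm r)

theorem brk_extSub (R : Type) [CommRing R] (U V : AddSubgroup L) :
    brk (extSub R U) (extSub R V) ≤ extSub R (brk U V) :=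
  brk_iSup_left_le fun r => brk_iSup_right_le fun s => brk_le.2 <| by
    rintro _ ⟨x, hx, rfl⟩ _ ⟨y, hy, rfl⟩
    exact AddSubgroup.mem_iSup_of_mem (r * s) ⟨_, lie_mem_brk hx hy, rfl⟩

theorem rit_extSub (R : Type) [CommRing R] (U V : AddSubgroup L) (k : ℕ) :
    rit (extSub R U) (extSub R V) k ≤ extSub R (rit U V k) := by
  induction k with
  | zero => exact le_rfl
  | succ k ih => exact (brk_mono ih le_rfl).trans (brk_extSub R _ _)

/-- The fixed points of an additive endomorphism. -/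
def fixL (α : L →+ L) : AddSubgroup L := α.eqLocus (AddMonoidHom.id L)

theorem extHom_pow {R : Type} [CommRing R] {p : ℕ} {α : L →+ L} (hαp : ∀ x, α^[p] x = x) :
    extHom R α ^ p = 1 := by
  have : ∀ (k : ℕ) (r : R) (y : L), (extHom R α ^ k) (tm r y) = tm r (α^[k] y) := fun k r y => by
    induction k with
    | zero => rfl
    | succ k ih => rw [pow_succ', Module.End.mul_apply, ih, Function.iterate_succ_apply']; rfl
  refine LinearMap.ext fun u => ?_
  induction u using Ext.induction with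
  | h0 => simp
  | h2 x y hx hy => simp only [map_add, hx, hy]
  | h1 r y => rw [this, hαp]; rfl

/-- If the fixed points of an automorphism of order `p` act nilpotently, the ring is solvable. -/
theorem der_eq_bot_of_rit_fixL {p m e : ℕ} [hp : Fact p.Prime] (α : L →+ L)
    (hα : ∀ x y, α ⁅x, y⁆ = ⁅α x, α y⁆) (hαp : ∀ x, α^[p] x = x) (he : ∀ x : L, (e * p) • x = x)
    (hm : rit ⊤ (fixL α) m = ⊥) : der (⊤ : AddSubgroup L) (krek m p) = ⊥ := by
  obtain ⟨R, _, n, ⟨C⟩⟩ := exists_cyc p
  let M : ZMod p → AddSubgroup _ := fun i => eig (extHom R α) (C.e i)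
  have h1 : gbrk M M ≤ M := gbrk_le.2 fun i j u hu v hv => by
    simp only [M, C.e.map_add_eq_mul]
    exact lie_mem_eig (extHom_lie α hα) hu hv
  have h2 : ∀ (U : AddSubgroup L) u, (∀ j, coord C.b j u ∈ U) → u ∈ extSub R U := fun U u h => by
    rw [← sum_coord C.b u]
    exact sum_mem fun j _ => AddSubgroup.mem_iSup_of_mem (C.b j) ⟨_, h j, rfl⟩
  have h3 : M 0 ≤ extSub R (fixL α) := fun u hu => h2 _ u fun j => by
    have h3 : extHom R α u = u := by simpa using mem_eig.1 hu
    change α _ = _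
    rw [← coord_extHom, h3]; rfl
  have h4 := shalev (m := m) h1 fun j => le_bot_iff.1
    ((rit_mono (fun u _ => h2 ⊤ u fun _ => trivial) h3 m).trans
      ((rit_extSub R _ _ m).trans (by simp [hm, extSub])))
  have h5 : ∀ k, (der (⊤ : AddSubgroup L) k).map (tm (1 : R)) ≤ der (⨆ i, M i) k := fun k => by
    induction k with
    | zero =>
      rintro _ ⟨x, -, rfl⟩
      rw [← he x, mul_nsmul', map_nsmul, map_nsmul]
      exact nsmul_mem (nsmul_mem_iSup_eig C.e C.sum_e _ (extHom_pow hαp) _) e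
    | succ k ih => exact (map_brk_le _ tm_one_lie _ _).trans (brk_mono ih ih)
  refine le_bot_iff.1 fun x hx => ?_
  have h6 := der_iSup_le M _ (h5 _ ⟨x, hx, rfl⟩)
  rw [h4] at h6
  simp only [Pi.bot_apply, iSup_bot, AddSubgroup.mem_bot] at h6
  simpa [coord_zero_one C.b C.b0] using congrArg (coord C.b 0) h6

/-- Averaging: fixed points in a sum of invariant subgroups. -/
theorem fixL_le_iSup {ι : Sort*} {p e : ℕ} (α : L →+ L) (hαp : ∀ x, α^[p] x = x)
    (he : ∀ x : L, (e * p) • x = x) {S : ι → AddSubgroup L} (hS : ∀ i, ∀ x ∈ S i, α x ∈ S i)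
    (h : ⨆ i, S i = ⊤) : fixL α ≤ ⨆ i, S i ⊓ fixL α := by
  let N : L →+ L := AddMonoidHom.mk' (fun x => ∑ t ∈ Finset.range p, α^[t] x) fun x y => by
    simp [iterate_map_add, Finset.sum_add_distrib]
  have h1 : ⨆ i, S i ≤ (⨆ i, S i ⊓ fixL α).comap N := iSup_le fun i x hx => by
    refine AddSubgroup.mem_iSup_of_mem i (AddSubgroup.mem_inf.2 ⟨?_, ?_⟩)
    · exact (S i).sum_mem (t := Finset.range p) fun t _ =>
        Set.MapsTo.iterate (s := (S i : Set L)) (hS i) t hx
    · have h2 := Finset.sum_range_succ (fun t => α^[t] x) p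
      rw [Finset.sum_range_succ', hαp, Function.iterate_zero_apply, add_left_inj] at h2
      change α (∑ t ∈ Finset.range p, α^[t] x) = ∑ t ∈ Finset.range p, α^[t] x
      rw [map_sum]
      conv_rhs => rw [← h2]
      exact Finset.sum_congr rfl fun t _ => (Function.iterate_succ_apply' α t x).symm
  intro x hx
  have h2 : N x = p • x := by
    change ∑ t ∈ Finset.range p, α^[t] x = _
    rw [Finset.sum_congr rfl fun t _ => Function.iterate_fixed hx t]
    simp
  rw [← he x, mul_nsmul', ← h2]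
  exact nsmul_mem (AddSubgroup.mem_comap.1 (h1 (h ▸ AddSubgroup.mem_top x))) e

end Cfsg.Lib.Solv.Lie
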