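import Cfsg.Agent.Solv.OneInvA

/-!
Solvable groups with one class of involutions (Thompson): a normal `2`-subgroup `D` of exponent
four whose involutions are central.
-/

set_option autoImplicit false

namespace Cfsg.Lib.Solv.OneInv

open Subgroup
open scoped commutatorElement

variable {G : Type*} [Group G]

/-- `V` is the set of solutions of `x² = 1`, all involutions are conjugate, and `D > V` is a normal
subgroup with `V` central and `D / V` elementary. -/
structure Hyp (V D : Subgroup G) : Prop where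
  memV : ∀ x, x ∈ V ↔ x ^ 2 = 1
  conj : ∀ x y : G, x ≠ 1 → x ^ 2 = 1 → y ≠ 1 → y ^ 2 = 1 → IsConj x y
  three : 2 < Nat.card V
  nD : D.Normal
  le : V ≤ D
  ne : ¬ D ≤ V
  sq : ∀ d ∈ D, d ^ 2 ∈ V
  cen : ∀ v ∈ V, ∀ d ∈ D, v * d = d * v

theorem normal_of_memV {V : Subgroup G} (h : ∀ x, x ∈ V ↔ x ^ 2 = 1) : V.Normal :=
  ⟨fun v hv g => (h _).2 (by rw [conj_pow, (h v).1 hv, mul_one, mul_inv_cancel])⟩

theorem isPGroup_of_memV {V : Subgroup G} (h : ∀ x, x ∈ V ↔ x ^ 2 = 1) : IsPGroup 2 V :=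
  fun v => ⟨1, Subtype.ext (by simpa using (h v).1 v.2)⟩

theorem comm_of_fix_mod [Finite G] {V : Subgroup G} (h : ∀ x, x ∈ V ↔ x ^ 2 = 1) {x d : G}
    (hx : Odd (orderOf x)) (hxV : ∀ v ∈ V, x * v = v * x) (hd : ⁅x, d⁆ ∈ V) : x * d = d * x :=
  commutatorElement_eq_one_iff_mul_comm.1 (eq_one_of_conj_eq_mul (d := d) hx
    ⟨1, by simpa using (h _).1 hd⟩ (hxV _ hd) (by rw [commutatorElement_def]; group))

namespace Hyp

variable {V D : Subgroup G}

theorem pD (h : Hyp V D) : IsPGroup 2 D := fun d =>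
  ⟨2, Subtype.ext (by
    have := (h.memV _).1 (h.sq d d.2)
    rw [← pow_mul] at this
    simpa using this)⟩

theorem comm_mem (h : Hyp V D) {a b : G} (ha : a ∈ D) (hb : b ∈ D) : ⁅a, b⁆ ∈ V := by
  have := normal_of_memV h.memV
  have e : ⁅a, b⁆ = (a * b) ^ 2 * (b⁻¹ * a⁻¹ ^ 2 * b⁻¹⁻¹) * b⁻¹ ^ 2 := by
    simp only [commutatorElement_def, pow_two]; group
  rw [e]
  exact mul_mem (mul_mem (h.sq _ (mul_mem ha hb)) (this.conj_mem _ (h.sq _ (inv_mem ha)) _))
    (h.sq _ (inv_mem hb))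

theorem comm_mul (h : Hyp V D) {a b c : G} (ha : a ∈ D) (hb : b ∈ D) (hc : c ∈ D) :
    ⁅a, b * c⁆ = ⁅a, b⁆ * ⁅a, c⁆ := by
  have e : ⁅a, b * c⁆ = ⁅a, b⁆ * (b * ⁅a, c⁆) * b⁻¹ := by
    simp only [commutatorElement_def]; group
  rw [e, ← h.cen _ (h.comm_mem ha hc) b hb]
  group

theorem mul_sq (h : Hyp V D) {d e : G} (hd : d ∈ D) (he : e ∈ D) :
    (d * e) ^ 2 = d ^ 2 * e ^ 2 * ⁅e, d⁆ := by
  have h1 := h.cen _ (h.comm_mem he hd) (d * e ^ 2) (mul_mem hd (pow_mem he 2))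
  calc (d * e) ^ 2 = d * (⁅e, d⁆ * (d * e ^ 2)) := by
        simp only [commutatorElement_def, pow_two]; group
    _ = _ := by rw [h1]; simp only [pow_two, mul_assoc]

/-- The commutator map `d ↦ ⁅c, d⁆`. -/
def br (h : Hyp V D) (c : D) : D →* V where
  toFun d := ⟨⁅(c : G), (d : G)⁆, h.comm_mem c.2 d.2⟩
  map_one' := Subtype.ext (by simp)
  map_mul' a b := Subtype.ext (h.comm_mul c.2 a.2 b.2)

/-- The squaring map. -/
def sqm (h : Hyp V D) (d : D) : V := ⟨(d : G) ^ 2, h.sq d d.2⟩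

theorem card_fiber_eq (h : Hyp V D) {v w : V} (hv : v ≠ 1) (hw : w ≠ 1) :
    Nat.card {d // h.sqm d = v} = Nat.card {d // h.sqm d = w} := by
  have := h.nD
  obtain ⟨g, hg⟩ := isConj_iff.1 (h.conj v w (fun e => hv (Subtype.ext e)) ((h.memV _).1 v.2)
    (fun e => hw (Subtype.ext e)) ((h.memV _).1 w.2))
  refine Nat.card_congr ((MulAut.conjNormal g : MulAut D).toEquiv.subtypeEquiv fun d => ?_)
  simp only [sqm, Subtype.ext_iff, MulEquiv.toEquiv_eq_coe, EquivLike.coe_coe,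
    MulAut.conjNormal_apply, conj_pow, ← hg, mul_left_inj, mul_right_inj]

theorem card_fiber_one (h : Hyp V D) : Nat.card {d // h.sqm d = 1} = Nat.card V := by
  refine Nat.card_congr ⟨fun d => ⟨d.1, (h.memV _).2 (congrArg Subtype.val d.2)⟩,
    fun v => ⟨⟨v, h.le v.2⟩, Subtype.ext ((h.memV _).1 v.2)⟩, fun _ => rfl, fun _ => rfl⟩

/-- Translation of `V` into a fibre of the squaring map. -/
def tr (h : Hyp V D) (d : D) (v : V) : {e // h.sqm e = h.sqm d} :=
  ⟨d * ⟨v, h.le v.2⟩, Subtype.ext (by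
    change ((d : G) * v) ^ 2 = (d : G) ^ 2
    rw [(show Commute (d : G) v from (h.cen v v.2 d d.2).symm).mul_pow, (h.memV _).1 v.2,
      mul_one])⟩

theorem tr_injective (h : Hyp V D) (d : D) : Function.Injective (h.tr d) := fun v w e => by
  have := congrArg (fun z => ((z.1 : D) : G)) e
  exact Subtype.ext (by simpa [tr] using this)

theorem sum_sqm (h : Hyp V D) [Fintype D] [Fintype V] {k : ℕ}
    (hk : ∀ v : V, v ≠ 1 → Nat.card {d // h.sqm d = v} = k) (g : V → ℂ) :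
    ∑ d, g (h.sqm d) = Nat.card V * g 1 + k * (∑ v, g v - g 1) := by
  classical
  rw [← Finset.sum_fiberwise' Finset.univ h.sqm g]
  have h1 : ∀ v : V, ∑ _d ∈ Finset.univ.filter (fun d => h.sqm d = v), g v =
      (Nat.card {d // h.sqm d = v} : ℂ) * g v := fun v => by
    rw [Finset.sum_const, nsmul_eq_mul, Nat.card_eq_fintype_card, Fintype.card_subtype]
  simp only [h1]
  rw [← Finset.add_sum_erase _ _ (Finset.mem_univ 1), h.card_fiber_one,
    ← Finset.add_sum_erase _ g (Finset.mem_univ 1), add_sub_cancel_left, Finset.mul_sum]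
  congr 1
  exact Finset.sum_congr rfl fun v hv => by rw [hk v (Finset.ne_of_mem_erase hv)]

variable [Finite G]

theorem card_rad (h : Hyp V D) {k : ℕ} (hk : ∀ v : V, v ≠ 1 → Nat.card {d // h.sqm d = v} = k)
    (hlt : Nat.card V < k) (χ : V →* ℂˣ) (hχ : ∃ v, χ v ≠ 1) (R : Subgroup D)
    (hR : ∀ e, e ∈ R ↔ ∀ d, χ (h.br e d) = 1) :
    Nat.card D = Nat.card V ^ 3 ∧ Nat.card R = Nat.card V := by
  classical
  have := Fintype.ofFinite D
  have := Fintype.ofFinite V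
  have h1 := h.sum_sqm hk fun _ => 1
  have h2 := h.sum_sqm hk fun v => χ v
  have h3 : ∑ v, (χ v : ℂ) = 0 := (sum_mul_hom (fun v => (χ v : ℂ)) (by simp)).resolve_left
    fun h => by obtain ⟨v, hv⟩ := hχ; exact hv (Units.val_eq_one.1 (h v))
  simp only [Finset.sum_const, Finset.card_univ, nsmul_eq_mul, mul_one,
    ← Nat.card_eq_fintype_card] at h1
  simp only [h3, map_one, Units.val_one, mul_one, zero_sub, mul_neg] at h2
  obtain ⟨j, rfl⟩ : ∃ j, k = Nat.card V + j := ⟨k - Nat.card V, by omega⟩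
  have h4 := sq_sum (fun d => (χ (h.sqm d) : ℂ)) (fun e d => (χ (h.br e d) : ℂ)) R
    (fun d => by
      rw [← Units.val_mul, ← map_mul, ← pow_two,
        show h.sqm d ^ 2 = 1 from Subtype.ext ((h.memV _).1 (h.sqm d).2)]
      simp)
    (fun d e => by
      rw [← Units.val_mul, ← Units.val_mul, ← map_mul, ← map_mul]
      congr 2
      exact Subtype.ext (h.mul_sq d.2 e.2))
    (fun e c d => by simp) (fun e => by simp [hR])
  rw [h2] at h4
  have h5 : j ^ 2 = Nat.card D * Nat.card R := by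
    rcases h4 with h4 | h4
    · have : (j : ℂ) = 0 := by push_cast at h4; linear_combination -h4
      have : j = 0 := by exact_mod_cast this
      omega
    · have : (j : ℂ) ^ 2 = Nat.card D * Nat.card R := by
        push_cast at h4; linear_combination h4
      exact_mod_cast this
  obtain ⟨m, hm⟩ := IsPGroup.iff_card.1 h.pD
  obtain ⟨n, hn⟩ := IsPGroup.iff_card.1 (isPGroup_of_memV h.memV)
  obtain ⟨s, hs⟩ := IsPGroup.iff_card.1 (h.pD.to_subgroup R)
  obtain ⟨a, -, rfl⟩ := (Nat.dvd_prime_pow Nat.prime_two (m := m + s) (i := j)).1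
    ⟨j, by rw [pow_add, ← hm, ← hs, ← h5, pow_two]⟩
  have h6 : Nat.card V + (Nat.card V - 1) * (Nat.card V + 2 ^ a) = Nat.card D := by
    have h7 : 1 ≤ Nat.card V := Nat.card_pos
    have : ((Nat.card V + (Nat.card V - 1) * (Nat.card V + 2 ^ a) : ℕ) : ℂ) = Nat.card D := by
      rw [h1]; push_cast [h7]; ring
    exact_mod_cast this
  have hn2 : 2 ≤ n := by
    have := h.three
    rw [hn] at this
    by_contra h8
    interval_cases n <;> omega
  have h8 := numeric (a := a) (m := m) hn2 (by rw [← hn, ← hm, h6])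
  have h9 : 2 ^ a = Nat.card V ^ 2 := by rw [hn, h8, ← pow_mul, mul_comm]
  have h10 : Nat.card D = Nat.card V ^ 3 := by
    obtain ⟨t, ht⟩ : ∃ t, Nat.card V = t + 1 := ⟨Nat.card V - 1, by have := h.three; omega⟩
    rw [← h6, h9, ht]; simp; ring
  refine ⟨h10, ?_⟩
  rw [h10, h9] at h5
  have h11 : 0 < Nat.card V ^ 3 := pow_pos Nat.card_pos 3
  exact Nat.eq_of_mul_eq_mul_left h11 (by rw [← h5]; ring)

theorem dichotomy (h : Hyp V D) :
    (∀ d ∈ D, ∀ e ∈ D, d ^ 2 = e ^ 2 → d⁻¹ * e ∈ V) ∨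
    (Nat.card D = Nat.card V ^ 3 ∧
      ∀ c ∈ D, c ∉ V → Nat.card (D ⊓ centralizer {c} : Subgroup G) = Nat.card V ^ 2) := by
  obtain ⟨d₀, hd₀, hd₀V⟩ := SetLike.not_le_iff_exists.1 h.ne
  have h0 : h.sqm ⟨d₀, hd₀⟩ ≠ 1 := fun e => hd₀V ((h.memV _).2 (congrArg Subtype.val e))
  have hk := fun (v : V) (hv : v ≠ 1) => h.card_fiber_eq hv h0
  rcases (Nat.card_le_card_of_injective _ (h.tr_injective ⟨d₀, hd₀⟩)).eq_or_lt with h1 | h1
  · refine Or.inl fun d hd e he hde => ?_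
    by_cases h2 : d ∈ V
    · exact mul_mem (inv_mem h2) ((h.memV _).2 (hde ▸ (h.memV _).1 h2))
    have h3 : h.sqm ⟨d, hd⟩ ≠ 1 := fun e => h2 ((h.memV _).2 (congrArg Subtype.val e))
    obtain ⟨v, hv⟩ := ((h.tr_injective ⟨d, hd⟩).bijective_of_nat_card_le
      (by rw [hk _ h3, h1])).2 ⟨⟨e, he⟩, Subtype.ext hde.symm⟩
    have h4 : d * v = e := congrArg (fun z => ((z.1 : D) : G)) hv
    rw [← h4, inv_mul_cancel_left]
    exact v.2
  right
  let _ : CommGroup V := ⟨fun a b => Subtype.ext (h.cen a a.2 b (h.le b.2))⟩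
  have : NeZero (Monoid.exponent V) := ⟨Monoid.exponent_ne_zero_of_finite⟩
  have hbr : ∀ a b d : D, h.br (a * b) d = h.br a d * h.br b d := fun a b d => Subtype.ext (by
    change ⁅(a : G) * b, (d : G)⁆ = ⁅(a : G), (d : G)⁆ * ⁅(b : G), (d : G)⁆
    rw [← commutatorElement_inv, h.comm_mul d.2 a.2 b.2, h.cen _ (h.comm_mem d.2 a.2) _
      (h.le (h.comm_mem d.2 b.2)), mul_inv_rev, commutatorElement_inv, commutatorElement_inv])
  have hbr1 : ∀ d : D, h.br 1 d = 1 := fun d => Subtype.ext (by simp [br])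
  let rad : (V →* ℂˣ) → Subgroup D := fun χ =>
    { carrier := {e | ∀ d, χ (h.br e d) = 1}
      one_mem' := fun d => by rw [hbr1, map_one]
      mul_mem' := fun {a b} ha hb d => by rw [hbr, map_mul, ha d, hb d, mul_one]
      inv_mem' := fun {a} ha d => by
        have := congrArg χ (hbr a⁻¹ a d)
        rw [inv_mul_cancel, hbr1, map_one, map_mul, ha d, mul_one] at this
        exact this.symm }
  have key := fun χ hχ => h.card_rad hk h1 χ hχ (rad χ) fun _ => Iff.rfl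
  have hD : Nat.card D = Nat.card V ^ 3 := by
    obtain ⟨χ, hχ⟩ := CommGroup.exists_apply_ne_one_of_hasEnoughRootsOfUnity V ℂ h0
    exact (key χ ⟨_, hχ⟩).1
  refine ⟨hD, fun c hc hcV => ?_⟩
  have h2 : (h.br ⟨c, hc⟩).range = ⊤ := by
    refine eq_top_iff.2 fun x _ => (CommGroup.forall_monoidHom_apply_eq_one_iff ℂ _ x).1
      fun χ hχ => by_contra fun hx => hcV ?_
    have h3 : V.subgroupOf D ≤ rad χ := fun v hv d => by
      rw [show h.br v d = 1 from Subtype.ext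
        (commutatorElement_eq_one_iff_mul_comm.2 (h.cen _ hv _ d.2)), map_one]
    have h4 := eq_of_le_of_card_ge h3 (by
      rw [(key χ ⟨x, hx⟩).2, Nat.card_congr (subgroupOfEquivOfLe h.le).toEquiv])
    have h5 : (⟨c, hc⟩ : D) ∈ rad χ := fun d => hχ _ ⟨d, rfl⟩
    rwa [← h4] at h5
  have h3 := (h.br ⟨c, hc⟩).ker.card_mul_index
  rw [index_ker, h2, card_top, hD] at h3
  have h4 : (h.br ⟨c, hc⟩).ker = (centralizer {c}).subgroupOf D := by
    ext d
    rw [MonoidHom.mem_ker, mem_subgroupOf, mem_centralizer_singleton_iff, Subtype.ext_iff]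
    exact commutatorElement_eq_one_iff_mul_comm.trans eq_comm
  rw [h4, Solv.card_subgroupOf, inf_comm] at h3
  exact Nat.eq_of_mul_eq_mul_right (Nat.card_pos (α := V)) (by rw [h3]; ring)

theorem comm_of_fix (h : Hyp V D) (hD : Nat.card D = Nat.card V ^ 3)
    (hC : ∀ c ∈ D, c ∉ V → Nat.card (D ⊓ centralizer {c} : Subgroup G) = Nat.card V ^ 2)
    {x c : G} (hx : Odd (orderOf x)) (hxV : ∀ v ∈ V, x * v = v * x) (hc : c ∈ D) (hcV : c ∉ V)
    (hfix : ⁅x, c⁆ ∈ V) : ∀ d ∈ D, x * d = d * x := by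
  have := normal_of_memV h.memV
  have hn := h.nD
  have hm : ∀ d ∈ D, ⁅x, d⁆ ∈ D := fun d hd => mul_mem (hn.conj_mem d hd x) (inv_mem hd)
  let ψ : D →* G ⧸ V := MonoidHom.mk' (fun d => (⁅x, (d : G)⁆ : G)) fun a b => by
    rw [← QuotientGroup.mk_mul, eq_comm, QuotientGroup.eq]
    have e : (⁅x, (a : G)⁆ * ⁅x, (b : G)⁆)⁻¹ * ⁅x, ((a * b : D) : G)⁆ = ⁅⁅x, (b : G)⁆⁻¹, (a : G)⁆ := by
      simp only [commutatorElement_def, coe_mul]; group
    rw [e]
    exact h.comm_mem (inv_mem (hm _ b.2)) a.2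
  have hψ : ∀ d : D, ψ d = (⁅x, (d : G)⁆ : G) := fun _ => rfl
  have h1 : ∀ y ∈ D, x * y = y * x → ∀ d ∈ D, y * ⁅x, d⁆ = ⁅x, d⁆ * y := fun y hy hxy d hd => by
    have h2 : ⁅y, x * d * x⁻¹⁆ = ⁅y, d⁆ := by
      have h3 : y = x * y * x⁻¹ := by rw [hxy, mul_inv_cancel_right]
      calc ⁅y, x * d * x⁻¹⁆ = ⁅x * y * x⁻¹, x * d * x⁻¹⁆ := by rw [← h3]
        _ = x * ⁅y, d⁆ * x⁻¹ := by simp only [commutatorElement_def]; group
        _ = _ := by rw [hxV _ (h.comm_mem hy hd), mul_inv_cancel_right]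
    rw [← commutatorElement_eq_one_iff_mul_comm, commutatorElement_def x d,
      h.comm_mul hy (hn.conj_mem d hd x) (inv_mem hd), h2, ← h.comm_mul hy hd (inv_mem hd)]
    simp
  have hxc := comm_of_fix_mod h.memV hx hxV hfix
  intro d₀ hd₀
  by_contra hne
  have h2 : ⁅x, d₀⁆ ∉ V := fun e => hne (comm_of_fix_mod h.memV hx hxV e)
  have h3 : Nat.card ψ.ker ≤ Nat.card V ^ 2 := by
    rw [← hC _ (hm _ hd₀) h2, inf_comm, ← Solv.card_subgroupOf]
    refine card_le_of_le fun y hy => ?_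
    rw [MonoidHom.mem_ker, hψ, QuotientGroup.eq_one_iff] at hy
    exact mem_subgroupOf.2 (mem_centralizer_singleton_iff.2
      (h1 y y.2 (comm_of_fix_mod h.memV hx hxV hy) d₀ hd₀))
  have h4 : ψ.range.comap (QuotientGroup.mk' V) < D ⊓ centralizer {c} := by
    refine lt_of_le_of_ne ?_ fun e => ?_
    · rintro y ⟨d, hd⟩
      rw [hψ, QuotientGroup.mk'_apply, QuotientGroup.eq] at hd
      rw [show y = ⁅x, (d : G)⁆ * (⁅x, (d : G)⁆⁻¹ * y) by group]
      exact mul_mem ⟨hm _ d.2, mem_centralizer_singleton_iff.2 (h1 c hc hxc d d.2).symm⟩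
        ⟨h.le hd, mem_centralizer_singleton_iff.2 (h.cen _ hd c hc)⟩
    · obtain ⟨d, hd⟩ := e.ge (mem_inf.2 ⟨hc, mem_centralizer_singleton_iff.2 rfl⟩)
      rw [hψ, QuotientGroup.mk'_apply, eq_comm, QuotientGroup.eq] at hd
      have h5 : ⁅x, (d : G)⁆ = 1 := by
        refine eq_one_of_conj_eq_mul (d := (d : G)) hx (pow_two_pow_of_mem h.pD (hm _ d.2)) ?_
          (by rw [commutatorElement_def]; group)
        rw [show ⁅x, (d : G)⁆ = c * (c⁻¹ * ⁅x, (d : G)⁆) by group]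
        exact (show Commute x c from hxc).mul_right (hxV _ hd)
      rw [h5, mul_one, inv_mem_iff] at hd
      exact hcV hd
  have h5 : Nat.card V * Nat.card ψ.range < Nat.card V ^ 2 := by
    rw [← hC c hc hcV]
    have := QuotientGroup.card_preimage_mk V (ψ.range : Set (G ⧸ V))
    exact lt_of_eq_of_lt this.symm (Solv.card_lt_of_lt h4)
  have h6 := ψ.ker.card_mul_index
  rw [index_ker, hD] at h6
  have h7 : Nat.card ψ.range < Nat.card V := by
    rw [pow_two] at h5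
    exact Nat.lt_of_mul_lt_mul_left h5
  have h8 : 0 < Nat.card V ^ 2 := pow_pos Nat.card_pos 2
  have := Nat.mul_lt_mul_of_le_of_lt h3 h7 h8
  rw [h6, ← pow_succ] at this
  exact lt_irrefl _ this

end Hyp

end Cfsg.Lib.Solv.OneInv
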