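import Cfsg.Agent.Solv.ActionTransport
import Cfsg.Agent.Solv.NilpotentHall
import Cfsg.Agent.Solv.SectionAut
import Cfsg.Agent.Solv.CommCalc

/-! A nilpotency criterion for groups with a coprime abelian group of operators. -/

set_option autoImplicit false

namespace Cfsg.Lib.Solv.Act

open Subgroup
open scoped commutatorElement

universe u

/-- The iterated commutator `[V, H, ..., H]`. -/
def cit {G : Type*} [Group G] (V H : Subgroup G) : ℕ → Subgroup G
  | 0 => V
  | k + 1 => ⁅cit V H k, H⁆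

section cit

variable {G : Type*} [Group G]

theorem cit_mono {V V' H H' : Subgroup G} (hV : V ≤ V') (hH : H ≤ H') (k : ℕ) :
    cit V H k ≤ cit V' H' k := by
  induction k with
  | zero => exact hV
  | succ k ih => exact commutator_mono ih hH

theorem map_cit {G' : Type*} [Group G'] (f : G →* G') (V H : Subgroup G) (k : ℕ) :
    (cit V H k).map f = cit (V.map f) (H.map f) k := by
  induction k with
  | zero => rfl
  | succ k ih => rw [cit, Subgroup.map_commutator, ih, cit]

theorem cit_succ_le_lowerCentralSeries {V W : Subgroup G} (h : ⁅V, W⁆ ≤ W) (k : ℕ) :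
    cit V W (k + 1) ≤ W.lowerCentralSeries k := by
  induction k with
  | zero => exact h
  | succ k ih => exact commutator_mono ih le_rfl

theorem commutator_eq_one_of_cit {V U H : Subgroup G} [V.Normal] [Finite V] {h : G} (hh : h ∈ H)
    (hc : (Nat.card V).Coprime (orderOf h)) (hU : U ≤ V) {k : ℕ} (hk : cit U H k = ⊥) {v : G}
    (hv : v ∈ U) : ⁅v, h⁆ = 1 := by
  have h1 : ∀ j, (fun x => ⁅x, h⁆)^[j] v ∈ cit U H j := fun j => by
    induction j with
    | zero => exact hv
    | succ j ih => rw [Function.iterate_succ_apply']; exact commutator_mem_commutator ih hh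
  have hV : ∀ x ∈ V, ⁅x, h⁆ ∈ V := fun x hx =>
    commutator_le_left V ⊤ (commutator_mem_commutator hx (mem_top h))
  have h2 : ∀ j, ∀ x ∈ V, (fun x => ⁅x, h⁆)^[j] x = 1 → ⁅x, h⁆ = 1 := fun j => by
    induction j with
    | zero => rintro x - (rfl : x = 1); simp
    | succ j ih =>
      intro x hx hj
      have h3 := commutatorElement_eq_one_iff_commute.1 (ih _ (hV x hx) hj)
      have h4 : ⁅x, h⁆ ^ orderOf h = 1 := by
        have h5 : (⁅x, h⁆ * h) ^ orderOf h = 1 := by
          rw [commutatorElement_def, inv_mul_cancel_right, conj_pow, pow_orderOf_eq_one]; simp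
        rwa [h3.mul_pow, pow_orderOf_eq_one, mul_one] at h5
      exact orderOf_eq_one_iff.1 (Nat.eq_one_of_dvd_coprimes hc
        (V.orderOf_dvd_natCard (hV x hx)) (orderOf_dvd_of_pow_eq_one h4))
  exact h2 k v (hU hv) (by simpa [hk] using h1 k)

end cit

/-- `C` is a cocyclic subgroup. -/
def Cocyc {A : Type*} [Group A] (C : Subgroup A) : Prop := ∃ a, C ⊔ zpowers a = ⊤

variable {A : Type*} [Group A]

theorem Inv.inf {K : Type*} [Group K] {φ : A →* MulAut K} {B : Subgroup A} {H J : Subgroup K}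
    (hH : Inv φ B H) (hJ : Inv φ B J) : Inv φ B (H ⊓ J) :=
  fun b hb x hx => ⟨hH b hb x hx.1, hJ b hb x hx.2⟩

theorem Inv.commutator {K : Type*} [Group K] {φ : A →* MulAut K} {B : Subgroup A}
    {H J : Subgroup K} (hH : Inv φ B H) (hJ : Inv φ B J) : Inv φ B ⁅H, J⁆ := fun b hb x hx => by
  have : ⁅H, J⁆.map (φ b : K →* K) ≤ ⁅H, J⁆ := by
    rw [Subgroup.map_commutator]
    exact commutator_mono (map_le_iff_le_comap.2 (hH b hb)) (map_le_iff_le_comap.2 (hJ b hb))
  exact this ⟨x, hx, rfl⟩

theorem Inv.mono {K : Type*} [Group K] {φ : A →* MulAut K} {B C : Subgroup A} {H : Subgroup K}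
    (hH : Inv φ B H) (h : C ≤ B) : Inv φ C H := fun b hb => hH b (h hb)

theorem inv_of_characteristic {K : Type*} [Group K] (φ : A →* MulAut K) (B : Subgroup A)
    (H : Subgroup K) [h : H.Characteristic] : Inv φ B H :=
  fun b _ _ hx => characteristic_iff_le_comap.1 h (φ b) hx

theorem inv_fix [IsMulCommutative A] {K : Type*} [Group K] (φ : A →* MulAut K)
    (B C : Subgroup A) : Inv φ B (fix φ C) := fun b _ x hx c hc => by
  rw [← MulAut.mul_apply, ← map_mul, mul_comm', map_mul, MulAut.mul_apply, hx c hc]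

variable [Finite A] [IsMulCommutative A]

theorem le_of_forall_cocyc {K : Type*} [Group K] [Finite K] {φ : A →* MulAut K}
    (hcop : (Nat.card A).Coprime (Nat.card K)) {H U : Subgroup K} (h : Inv φ ⊤ H)
    (hU : ∀ C, Cocyc C → H ⊓ fix φ C ≤ U) : H ≤ U :=
  le_of_forall_cocyclic h (by rw [card_top]; exact hcop.coprime_dvd_right H.card_subgroup_dvd_card)
    fun C _ ⟨a, _, ha⟩ => hU C ⟨a, ha⟩

theorem exists_mul_mem_fix' {K : Type*} [Group K] [Finite K] {φ : A →* MulAut K}
    (hcop : (Nat.card A).Coprime (Nat.card K)) {H : Subgroup K} {B : Subgroup A} (h : Inv φ B H)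
    {g : K} (hg : ∀ b ∈ B, g⁻¹ * φ b g ∈ H) : ∃ x ∈ H, g * x ∈ fix φ B :=
  exists_mul_mem_fix h ((hcop.coprime_dvd_right H.card_subgroup_dvd_card).coprime_dvd_left
    B.card_subgroup_dvd_card) (Or.inl (Coprime.isSolvable_of_isMulCommutative B)) hg

theorem isNilpotent_of_cit {ι : Type*} {c : ℕ} (K : Type u) [Group K] [Finite K] :
    Group.IsSolvable K → (Nat.card A).Coprime (Nat.card K) →
    ∀ (φ : A →* MulAut K) (H : ι → Subgroup K), ⨆ i, H i = ⊤ →
      (∀ i C, Cocyc C → cit (fix φ C) (H i) c = ⊥) → Group.IsNilpotent K := by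
  refine card_induction (P := fun K _ _ => Group.IsSolvable K →
    (Nat.card A).Coprime (Nat.card K) → ∀ (φ : A →* MulAut K) (H : ι → Subgroup K),
      ⨆ i, H i = ⊤ → (∀ i C, Cocyc C → cit (fix φ C) (H i) c = ⊥) → Group.IsNilpotent K) ?_ K
  intro K _ _ ih hs hcop φ H hH hc
  rcases subsingleton_or_nontrivial K with _ | _
  · infer_instance
  obtain ⟨q, hq⟩ := not_forall.1
    (mt fitting_eq_bot_iff_forall_pCore.2 (fitting_ne_bot_of_isSolvable K))
  obtain ⟨_, hq⟩ := not_forall.1 hq
  obtain ⟨V, ⟨hV1, hV2, hV3, hV4⟩, hmin⟩ := WellFounded.has_min (wellFounded_lt (α := Subgroup K))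
    {V | V.Normal ∧ Inv φ ⊤ V ∧ V ≠ ⊥ ∧ V ≤ pCore q K}
    ⟨_, inferInstance, inv_of_characteristic φ ⊤ _, hq, le_rfl⟩
  have hVq : IsPGroup q V := (pCore_isPGroup q K).to_le hV4
  have h1 : ⁅V, pCore q K⁆ = ⊥ := by
    by_contra h
    refine hmin _ ⟨inferInstance, hV2.commutator (inv_of_characteristic φ ⊤ _), h,
      (commutator_le_left _ _).trans hV4⟩ (lt_of_le_of_ne (commutator_le_left _ _) fun h2 => hV3 ?_)
    exact eq_bot_of_le_commutator_of_isNilpotent (pCore_isPGroup q K).isNilpotent hV4 h2.ge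
  have h2 : Group.IsNilpotent (K ⧸ V) := by
    refine ih _ (card_quotient_lt hV3) inferInstance
      (hcop.coprime_dvd_right V.card_quotient_dvd_card)
      (Coprime.quotAut φ V fun a => hV2 a trivial) (fun i => (H i).map (QuotientGroup.mk' V))
      (by rw [← Subgroup.map_iSup, hH, map_top_of_surjective _ (QuotientGroup.mk'_surjective V)])
      fun i C hC => le_bot_iff.1 ?_
    have h3 : fix (Coprime.quotAut φ V fun a => hV2 a trivial) C ≤
        (fix φ C).map (QuotientGroup.mk' V) := fun x hx => by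
      obtain ⟨g, rfl⟩ := QuotientGroup.mk_surjective x
      obtain ⟨y, hy, h4⟩ := exists_mul_mem_fix' hcop (hV2.mono (le_top : C ≤ ⊤)) (g := g)
        fun b hb => QuotientGroup.eq.1 (hx b hb).symm
      exact ⟨_, h4, QuotientGroup.mk_mul_of_mem g hy⟩
    refine (cit_mono h3 le_rfl c).trans ?_
    rw [← map_cit, hc i C hC, Subgroup.map_bot]
  have h3 : ⨆ i, H i ≤ centralizer (V : Set K) := iSup_le fun i => by
    refine le_of_forall_prime_pow_mem fun r hr k x hx hxr => ?_
    by_cases hrq : r = q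
    · subst hrq
      refine le_centralizer_iff.1 (commutator_eq_bot_iff_le_centralizer.1 h1) ?_
      rw [← comap_pCore_quotient V hVq, mem_comap, mem_pCore_iff_of_isNilpotent]
      obtain ⟨j, -, hj⟩ := (Nat.dvd_prime_pow hr).1 (hxr ▸ orderOf_map_dvd (QuotientGroup.mk' V) x)
      exact ⟨j, hj⟩
    · have h4 : V ≤ centralizer {x} := le_of_forall_cocyc hcop hV2 fun C hC v hv => by
        rw [mem_centralizer_singleton_iff, ← commutatorElement_eq_one_iff_mul_comm]
        refine commutator_eq_one_of_cit (V := V) (U := V ⊓ fix φ C) hx ?_ inf_le_left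
          (le_bot_iff.1 ((cit_mono inf_le_right le_rfl c).trans (hc i C hC).le)) hv
        obtain ⟨m, hm⟩ := IsPGroup.iff_card.1 hVq
        rw [hm, hxr]
        exact Nat.Coprime.pow _ _ ((Nat.coprime_primes Fact.out hr).2 (Ne.symm hrq))
      exact fun v hv => mem_centralizer_singleton_iff.1 (h4 hv)
  refine Subgroup.isNilpotent_of_ker_le_center (QuotientGroup.mk' V) ?_
  rw [QuotientGroup.ker_mk']
  exact fun v hv => mem_center_iff.2 fun g => (h3 (hH ▸ mem_top g) v hv).symm

end Cfsg.Lib.Solv.Act
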