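import Cfsg.Agent.Solv.LieNil
import Cfsg.Agent.Solv.ShumNil
import Cfsg.Agent.Solv.Fitting

/-! Shumyatsky's bound on the class of a group with a coprime abelian group of operators. -/

set_option autoImplicit false

namespace Cfsg.Lib.Solv.Lie

open Cfsg.Lib.Solv.Act
open scoped commutatorElement

universe u

namespace NSer

variable {G : Type u} [Group G] (S : NSer G)

/-- The homogeneous subring attached to a subgroup. -/
def sub (H : Subgroup G) : AddSubgroup S.LR where
  carrier := {x | ∀ i, ∃ g ∈ H, g ∈ S.F i ∧ S.proj i x = S.cl i g}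
  zero_mem' i := ⟨1, one_mem _, one_mem _, by simp⟩
  add_mem' hx hy i := by
    obtain ⟨g, hg, hg', h1⟩ := hx i
    obtain ⟨h, hh, hh', h2⟩ := hy i
    exact ⟨g * h, mul_mem hg hh, mul_mem hg' hh', by rw [map_add, h1, h2, cl_mul hg' hh']⟩
  neg_mem' hx i := by
    obtain ⟨g, hg, hg', h1⟩ := hx i
    exact ⟨g⁻¹, inv_mem hg, inv_mem hg', by rw [map_neg, h1, cl_inv hg']⟩

variable {S}

theorem cl_mem_sub {H : Subgroup G} {i : ℕ} {g : G} (hg : g ∈ H) (hi : g ∈ S.F i) :
    S.cl i g ∈ S.sub H := fun j => by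
  rw [proj_cl]
  split_ifs with h
  · exact ⟨g, hg, h ▸ hi, rfl⟩
  · exact ⟨1, one_mem _, one_mem _, by simp⟩

theorem mem_of_proj {C : AddSubgroup S.LR} {x : S.LR} (h : ∀ i, S.proj i x ∈ C) : x ∈ C := by
  classical
  rw [← DirectSum.sum_support_of (β := S.Q) x]
  exact C.sum_mem fun i _ => h i

theorem sub_le {H : Subgroup G} {C : AddSubgroup S.LR}
    (h : ∀ i, ∀ g ∈ H, g ∈ S.F i → S.cl i g ∈ C) : S.sub H ≤ C := fun x hx =>
  mem_of_proj fun i => by
    obtain ⟨g, hg, hg', h1⟩ := hx i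
    exact h1 ▸ h i g hg hg'

theorem sub_mono {H J : Subgroup G} (h : H ≤ J) : S.sub H ≤ S.sub J :=
  sub_le fun _ _ hg hi => cl_mem_sub (h hg) hi

theorem sub_top : S.sub ⊤ = ⊤ := eq_top_iff.2 fun x _ i => by
  obtain ⟨g, hg, h⟩ := exists_proj_eq i x
  exact ⟨g, trivial, hg, h⟩

theorem sub_bot : S.sub ⊥ = ⊥ := le_bot_iff.1 (sub_le fun i g hg _ => by
  rw [Subgroup.mem_bot.1 hg]; simp)

theorem brk_sub (H J : Subgroup G) : brk (S.sub H) (S.sub J) ≤ S.sub ⁅H, J⁆ := by
  refine brk_le.2 fun x hx y hy => mem_preL.1 (sub_le (C := preL y _) (fun i g hg hi => ?_) hx)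
  refine mem_preL.2 (mem_preR.1 (sub_le (C := preR _ _) (fun j h hh hj => ?_) hy))
  rw [mem_preR, lie_cl hi hj]
  exact cl_mem_sub (Subgroup.commutator_mem_commutator hg hh) (S.comm_mem hi hj)

theorem rit_sub (V H : Subgroup G) (k : ℕ) : rit (S.sub V) (S.sub H) k ≤ S.sub (cit V H k) := by
  induction k with
  | zero => exact le_rfl
  | succ k ih => exact (brk_mono ih le_rfl).trans (brk_sub _ _)

theorem der_sub (H : Subgroup G) (k : ℕ) :
    der (S.sub H) k ≤ S.sub ((derivedSeries H k).map H.subtype) := by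
  induction k with
  | zero => exact sub_mono fun g hg => ⟨⟨g, hg⟩, trivial, rfl⟩
  | succ k ih =>
    rw [derivedSeries_succ, Subgroup.map_commutator]
    exact (brk_mono ih ih).trans (brk_sub _ _)

theorem nsmul_eq_self {n : ℕ} (h : ∀ g : G, g ^ n = g) (x : S.LR) : n • x = x := by
  induction x using induction with
  | h0 => simp
  | h1 i g hg => rw [← cl_pow hg, h]
  | h2 x y hx hy => rw [nsmul_add, hx, hy]

theorem finite_LR [Finite G] {c : ℕ} (hc : S.F c = ⊥) : Finite S.LR := by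
  have h : ∀ x : S.LR, ∃ g : Fin c → G, ∀ i : Fin c, S.proj i x = S.cl i (g i) := fun x =>
    ⟨fun i => (exists_proj_eq i x).choose, fun i => (exists_proj_eq i x).choose_spec.2⟩
  choose f hf using h
  refine Finite.of_injective f fun x y hxy => sub_eq_zero.1 (eq_zero_of_proj fun i => ?_)
  rcases lt_or_ge i c with hi | hi
  · rw [map_sub, hf x ⟨i, hi⟩, hf y ⟨i, hi⟩, hxy, sub_self]
  · obtain ⟨g, hg, h⟩ := exists_proj_eq i (x - y)
    rw [h, show g = 1 from Subgroup.mem_bot.1 (hc ▸ S.antitone hi hg), cl_one]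

end NSer

variable {K : Type u} [Group K]

theorem eq_top_of_cl_zero {C : AddSubgroup (lcsSer K).LR} (hC : brk C C ≤ C)
    (h : ∀ g, (lcsSer K).cl 0 g ∈ C) : C = ⊤ := by
  rw [eq_top_iff, ← NSer.sub_top]
  refine NSer.sub_le fun i g _ => ?_
  induction i generalizing g with
  | zero => exact fun _ => h g
  | succ i ih =>
    intro hg
    have key : ∀ x ∈ ⁅(lcsSer K).F i, (⊤ : Subgroup K)⁆,
        x ∈ (lcsSer K).F (i + 1) ∧ (lcsSer K).cl (i + 1) x ∈ C := by
      intro x hx
      induction hx using Subgroup.closure_induction with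
      | mem x hx =>
        obtain ⟨a, ha, b, -, rfl⟩ := hx
        refine ⟨(lcsSer K).comm_mem_succ ha b, ?_⟩
        have := NSer.lie_cl (S := lcsSer K) (j := 0) ha (Subgroup.mem_top b)
        rw [add_zero] at this
        rw [← this]
        exact hC (lie_mem_brk (ih a trivial ha) (h b))
      | one => exact ⟨one_mem _, by simp⟩
      | mul x y _ _ hx hy =>
        exact ⟨mul_mem hx.1 hy.1, NSer.cl_mul hx.1 hy.1 ▸ add_mem hx.2 hy.2⟩
      | inv x _ hx => exact ⟨inv_mem hx.1, NSer.cl_inv hx.1 ▸ neg_mem hx.2⟩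
    exact (key g hg).2

variable {A : Type*} [Group A] (φ : A →* MulAut K)

/-- The induced action on the associated Lie ring. -/
noncomputable def actE (a : A) : (lcsSer K).LR →+ (lcsSer K).LR :=
  NSer.mapL (φ a : K →* K) (map_mem_lcsSer _)

theorem actE_cl (a : A) {i : ℕ} {g : K} (hg : g ∈ (lcsSer K).F i) :
    actE φ a ((lcsSer K).cl i g) = (lcsSer K).cl i (φ a g) := NSer.mapL_cl hg

theorem actE_mul (a b : A) (x : (lcsSer K).LR) : actE φ (a * b) x = actE φ a (actE φ b x) := by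
  induction x using NSer.induction with
  | h0 => simp
  | h1 i g hg =>
    rw [actE_cl φ _ hg, actE_cl φ _ hg,
      actE_cl φ a (g := φ b g) (map_mem_lcsSer (φ b : K →* K) i g hg), map_mul]; rfl
  | h2 x y hx hy => simp only [map_add, hx, hy]

theorem actE_one (x : (lcsSer K).LR) : actE φ 1 x = x := by
  induction x using NSer.induction with
  | h0 => simp
  | h1 i g hg => rw [actE_cl φ _ hg, map_one]; rfl
  | h2 x y hx hy => simp only [map_add, hx, hy]

theorem actE_iterate (a : A) (k : ℕ) (x : (lcsSer K).LR) : (actE φ a)^[k] x = actE φ (a ^ k) x := by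
  induction k with
  | zero => rw [pow_zero, actE_one]; rfl
  | succ k ih => rw [Function.iterate_succ_apply', ih, pow_succ', actE_mul]

/-- The induced action on the associated Lie ring, multiplicatively. -/
noncomputable def actM : A →* MulAut (Multiplicative (lcsSer K).LR) where
  toFun a :=
    { toFun := actE φ a
      invFun := actE φ a⁻¹
      left_inv := fun x => (actE_mul φ _ _ x).symm.trans (by
        rw [inv_mul_cancel]; exact actE_one φ x)
      right_inv := fun x => (actE_mul φ _ _ x).symm.trans (by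
        rw [mul_inv_cancel]; exact actE_one φ x)
      map_mul' := map_add (actE φ a) }
  map_one' := MulEquiv.ext (actE_one φ)
  map_mul' a b := MulEquiv.ext (actE_mul φ a b)

/-- Invariant additive subgroups. -/
def InvL (U : AddSubgroup (lcsSer K).LR) : Prop := ∀ a, ∀ x ∈ U, actE φ a x ∈ U

/-- Fixed points in the associated Lie ring. -/
noncomputable def fixA (C : Subgroup A) : AddSubgroup (lcsSer K).LR := ⨅ a ∈ C, fixL (actE φ a)

variable {φ}

theorem mem_fixA {C : Subgroup A} {x : (lcsSer K).LR} :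
    x ∈ fixA φ C ↔ ∀ a ∈ C, actE φ a x = x := by
  simp only [fixA, AddSubgroup.mem_iInf]; rfl

theorem InvL.inf {U V : AddSubgroup (lcsSer K).LR} (hU : InvL φ U) (hV : InvL φ V) :
    InvL φ (U ⊓ V) := fun a x hx => ⟨hU a x hx.1, hV a x hx.2⟩

theorem InvL.brk {U V : AddSubgroup (lcsSer K).LR} (hU : InvL φ U) (hV : InvL φ V) :
    InvL φ (brk U V) := fun a x hx =>
  ((map_brk_le _ NSer.mapL_lie U V).trans (brk_mono (AddSubgroup.map_le_iff_le_comap.2 (hU a))
    (AddSubgroup.map_le_iff_le_comap.2 (hV a)))) ⟨x, hx, rfl⟩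

theorem InvL.der {U : AddSubgroup (lcsSer K).LR} (hU : InvL φ U) (k : ℕ) : InvL φ (der U k) := by
  induction k with
  | zero => exact hU
  | succ k ih => exact ih.brk ih

theorem invL_sub {H : Subgroup K} (h : Inv φ ⊤ H) : InvL φ ((lcsSer K).sub H) := fun a =>
  NSer.sub_le (C := ((lcsSer K).sub H).comap (actE φ a)) fun i g hg hi => by
    rw [AddSubgroup.mem_comap, actE_cl φ a hi]
    exact NSer.cl_mem_sub (h a trivial g hg) (map_mem_lcsSer (φ a : K →* K) i g hi)

variable [IsMulCommutative A]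

theorem invL_fixL (a : A) : InvL φ (fixL (actE φ a)) := fun b x hx => by
  change actE φ a (actE φ b x) = actE φ b x
  rw [← actE_mul, mul_comm', actE_mul, show actE φ a x = x from hx]

variable [Finite A] [Finite K] (hcop : (Nat.card A).Coprime (Nat.card K))
include hcop

theorem sub_inf_fixA_le {J : Subgroup K} (hJ : Inv φ ⊤ J) (C : Subgroup A) :
    (lcsSer K).sub J ⊓ fixA φ C ≤ (lcsSer K).sub (J ⊓ fix φ C) := by
  rintro x ⟨hx, hx'⟩ i
  obtain ⟨g, hg, hi, h⟩ := hx i
  obtain ⟨y, hy, h1⟩ := exists_mul_mem_fix' hcop (B := C) (H := J ⊓ (lcsSer K).F (i + 1))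
    ((hJ.inf fun a _ => map_mem_lcsSer (φ a : K →* K) (i + 1)).mono le_top) (g := g)
    fun b hb => ⟨J.mul_mem (J.inv_mem hg) (hJ b trivial g hg), by
      have h2 := NSer.proj_mapL (hφ := map_mem_lcsSer (φ b : K →* K)) i x
      rw [show NSer.mapL _ _ x = x from mem_fixA.1 hx' b hb, h, NSer.mapL_cl hi] at h2
      exact (NSer.cl_eq_cl_iff hi (map_mem_lcsSer (φ b : K →* K) i g hi)).1 h2⟩
  have hy' := (lcsSer K).anti i hy.2
  exact ⟨g * y, ⟨mul_mem hg hy.1, h1⟩, mul_mem hi hy', by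
    rw [h, NSer.cl_mul hi hy', NSer.cl_eq_zero hy.2, add_zero]⟩

theorem InvL.le_of_cocyc [Group.IsNilpotent K] {U X : AddSubgroup (lcsSer K).LR} (hU : InvL φ U)
    (h : ∀ C, Cocyc C → U ⊓ fixA φ C ≤ X) : U ≤ X := by
  obtain ⟨c, hc⟩ := (Subgroup.isNilpotent_iff_lowerCentralSeries (⊤ : Subgroup K)).1 inferInstance
  have := NSer.finite_LR (S := lcsSer K) hc
  have h1 : (Nat.card A).Coprime (Nat.card (Multiplicative (lcsSer K).LR)) := by
    refine Nat.Coprime.symm (Nat.coprime_of_dvd fun q hq h1 h2 => ?_)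
    have := Fact.mk hq
    obtain ⟨x, hx⟩ := exists_prime_orderOf_dvd_card' q h1
    have h3 : x ^ (Nat.card K + 1) = x := NSer.nsmul_eq_self (S := lcsSer K)
      (fun g => by rw [pow_succ, pow_card_eq_one', one_mul]) x
    rw [pow_succ, mul_eq_right, ← orderOf_dvd_iff_pow_eq_one, hx] at h3
    exact hq.one_lt.ne' (Nat.eq_one_of_dvd_coprimes hcop h2 h3)
  exact le_of_forall_cocyc (φ := actM φ) h1 (H := AddSubgroup.toSubgroup U)
    (U := AddSubgroup.toSubgroup X) (fun a _ => hU a) fun C hC x hx =>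
      h C hC ⟨hx.1, mem_fixA.2 hx.2⟩

theorem der_le_iSup [Group.IsNilpotent K] {ι : Type*} {H : ι → Subgroup K}
    (hinv : ∀ i, Inv φ ⊤ (H i)) (hbr : ∀ i j C, Cocyc C → ∃ l, ⁅H i, H j⁆ ⊓ fix φ C ≤ H l)
    {U V : AddSubgroup (lcsSer K).LR} (hU : InvL φ U) (hV : InvL φ V) (i j : ι) :
    brk ((lcsSer K).sub (H i) ⊓ U) ((lcsSer K).sub (H j) ⊓ V) ≤
      ⨆ l, (lcsSer K).sub (H l) ⊓ brk U V := by
  refine (((invL_sub (hinv i)).inf hU).brk ((invL_sub (hinv j)).inf hV)).le_of_cocyc hcop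
    fun C hC => ?_
  obtain ⟨l, hl⟩ := hbr i j C hC
  refine le_iSup_of_le l (le_inf ?_ (inf_le_left.trans (brk_mono inf_le_right inf_le_right)))
  exact (inf_le_inf_right _ ((brk_mono inf_le_left inf_le_left).trans (NSer.brk_sub _ _))).trans
    ((sub_inf_fixA_le hcop ((hinv i).commutator (hinv j)) C).trans (NSer.sub_mono hl))

/-- Shumyatsky's criterion. -/
theorem lowerCentralSeries_eq_bot_of_family [Group.IsSolvable K] {ι : Type*} [Fintype ι]
    {H : ι → Subgroup K} (hinv : ∀ i, Inv φ ⊤ (H i)) (hgen : ⨆ i, H i = ⊤)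
    (hbr : ∀ i j C, Cocyc C → ∃ l, ⁅H i, H j⁆ ⊓ fix φ C ≤ H l) {c : ℕ}
    (hnil : ∀ i C, Cocyc C → cit (fix φ C) (H i) c = ⊥) {p : ℕ} [hp : Fact p.Prime]
    (hpK : p.Coprime (Nat.card K)) {a : A} (ha : a ^ p = 1) {s : ℕ}
    (hs : derivedSeries (fix φ (Subgroup.zpowers a)) s = ⊥) :
    (⊤ : Subgroup K).lowerCentralSeries
      ((c ^ Fintype.card ι) ^ krek ((c ^ Fintype.card ι) ^ s) p) = ⊥ := by
  have := isNilpotent_of_cit K inferInstance hcop φ H hgen hnil
  let T := fun i => (lcsSer K).sub (H i)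
  have htop : InvL φ ⊤ := fun _ _ _ => trivial
  have h1 : ⨆ i, T i = ⊤ := by
    refine eq_top_of_cl_zero (brk_iSup_left_le fun i => brk_iSup_right_le fun j => ?_) fun g => ?_
    · have := der_le_iSup hcop hinv hbr htop htop i j
      rw [inf_top_eq, inf_top_eq] at this
      exact this.trans (iSup_mono fun _ => inf_le_left)
    · refine Subgroup.iSup_induction H (C := fun g => (lcsSer K).cl 0 g ∈ ⨆ i, T i)
        (hgen ▸ Subgroup.mem_top g) (fun i x hx => ?_) (by simp) fun x y hx hy => ?_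
      · exact AddSubgroup.mem_iSup_of_mem i (NSer.cl_mem_sub hx trivial)
      · rw [NSer.cl_mul (S := lcsSer K) (i := 0) trivial trivial]
        exact add_mem hx hy
  have h2 : ∀ i, rit ⊤ (T i) c = ⊥ := fun i => by
    have h3 : (⊤ : AddSubgroup (lcsSer K).LR) ≤
        ⨆ C : {C : Subgroup A // Cocyc C}, (lcsSer K).sub (fix φ C) :=
      htop.le_of_cocyc hcop fun C hC => le_iSup_of_le ⟨C, hC⟩ (by
        simpa [NSer.sub_top] using sub_inf_fixA_le hcop (inv_top (φ := φ) ⊤) C)
    refine le_bot_iff.1 ((rit_mono h3 le_rfl c).trans ((rit_iSup_le _ _ c).trans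
      (iSup_le fun C => (NSer.rit_sub _ _ c).trans ?_)))
    rw [hnil i C C.2, NSer.sub_bot]
  have h3 : ∀ U, InvL φ U → U ≤ ⨆ i, T i ⊓ U → ∀ j, der U j ≤ ⨆ i, T i ⊓ der U j :=
    fun U hU h j => by
      induction j with
      | zero => exact h
      | succ j ih =>
        exact (brk_mono ih ih).trans (brk_iSup_left_le fun i => brk_iSup_right_le fun l =>
          der_le_iSup hcop hinv hbr (hU.der j) (hU.der j) i l)
  obtain ⟨e, he⟩ : ∃ e, ∀ g : K, g ^ (e * p) = g := by
    obtain ⟨e, he⟩ := Nat.exists_mul_mod_eq_of_coprime 1 hpK (Nat.card_pos (α := K)).ne'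
    exact ⟨e, fun g => by
      rw [← pow_mod_natCard, mul_comm, he.2, pow_mod_natCard, pow_one]⟩
  have he' := NSer.nsmul_eq_self (S := lcsSer K) he
  have hap : ∀ x, (actE φ a)^[p] x = x := fun x => by rw [actE_iterate, ha, actE_one]
  have h4 : rit ⊤ (fixL (actE φ a)) ((c ^ Fintype.card ι) ^ s) = ⊥ := by
    refine rit_eq_bot_of_der h2 s _ (brk_le.2 fun x hx y hy => ?_) ?_
      (h3 _ (invL_fixL a) (fixL_le_iSup _ hap he' (fun i => invL_sub (hinv i) a) h1))
    · change actE φ a _ = _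
      rw [actE, NSer.mapL_lie]
      exact congrArg₂ _ hx hy
    · have h5 : fixL (actE φ a) ≤ (lcsSer K).sub (fix φ (Subgroup.zpowers a)) := by
        refine le_trans (fun x hx => ?_) (by
          simpa [NSer.sub_top] using sub_inf_fixA_le hcop (inv_top (φ := φ) ⊤) (Subgroup.zpowers a))
        exact mem_fixA.2 ((mem_fix_zpowers (φ := actM φ)).2 hx)
      have h6 : ∀ k, der (fixL (actE φ a)) k ≤ der ((lcsSer K).sub _) k := fun k => by
        induction k with
        | zero => exact h5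
        | succ k ih => exact brk_mono ih ih
      refine le_bot_iff.1 ((h6 s).trans ((NSer.der_sub _ s).trans ?_))
      rw [hs, Subgroup.map_bot, NSer.sub_bot]
  have h5 := rit_eq_bot_of_der h2 _ ⊤ le_top
    (der_eq_bot_of_rit_fixL _ NSer.mapL_lie hap he' h4) (h3 _ htop (by simpa using h1.ge))
  rw [rit_self] at h5
  refine eq_bot_of_le_commutator_of_isNilpotent (N := ⊤) inferInstance le_top fun g hg => ?_
  exact (NSer.cl_eq_zero_iff (S := lcsSer K) hg).1 (by simpa [h5] using cl_mem_lcs _ g hg)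

end Cfsg.Lib.Solv.Lie
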