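import Cfsg.Agent.Solv.ShumLie
import Cfsg.Agent.Solv.DerivedLength

/-! Special subgroups for a coprime elementary abelian group of operators (Shumyatsky). -/

set_option autoImplicit false

namespace Cfsg.Lib.Solv.Act

open Subgroup Cfsg.Lib.Solv.Lie

universe u

variable {A : Type*} {G : Type u} [Group A] [Group G] (φ : A →* MulAut G)

/-- A pair of families of special subgroups. -/
structure Fam {ι κ : Type*} (X : ι → Subgroup G) (Y : κ → Subgroup G) (N M : Subgroup G) :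
    Prop where
  invX : ∀ i, Inv φ ⊤ (X i)
  invY : ∀ j, Inv φ ⊤ (Y j)
  supX : ⨆ i, X i = N
  supY : ⨆ j, Y j = M
  le : ∀ i, ∃ j, X i ≤ Y j
  br : ∀ i j C, Cocyc C → ∃ l, ⁅X i, Y j⁆ ⊓ fix φ C ≤ X l

/-- The next family of special subgroups. -/
def nxt {ι κ τ : Type*} (e : τ → Subgroup A) (X : ι → Subgroup G) (Y : κ → Subgroup G)
    (x : ι × κ × τ) : Subgroup G := ⁅X x.1, Y x.2.1⁆ ⊓ fix φ (e x.2.2)

/-- Index types for the special subgroups along the lower central series. -/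
def IdxG (τ : Type) : ℕ → Type
  | 0 => τ
  | n + 1 => IdxG τ n × τ × τ

/-- Index types for the special subgroups along the derived series. -/
def IdxD (τ : Type) : ℕ → Type
  | 0 => τ
  | n + 1 => IdxD τ n × IdxD τ n × τ

instance instFintypeIdxG (τ : Type) [h : Fintype τ] : (n : ℕ) → Fintype (IdxG τ n)
  | 0 => h
  | n + 1 => @instFintypeProd _ _ (instFintypeIdxG τ n) inferInstance

instance instFintypeIdxD (τ : Type) [h : Fintype τ] : (n : ℕ) → Fintype (IdxD τ n)
  | 0 => h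
  | n + 1 => @instFintypeProd _ _ (instFintypeIdxD τ n)
      (@instFintypeProd _ _ (instFintypeIdxD τ n) h)

variable {φ}

theorem Cocyc.index_le [Finite A] [IsMulCommutative A] {p : ℕ} (hp : 0 < p) (hA : ∀ a : A, a ^ p = 1)
    {C : Subgroup A} (h : Cocyc C) : C.index ≤ p := by
  obtain ⟨a, ha⟩ := h
  have : C.Normal := ⟨fun x hx g => by rwa [mul_comm' g, mul_inv_cancel_right]⟩
  rw [← relIndex_top_right, ← ha, relIndex_sup_left]
  exact (Nat.le_of_dvd Nat.card_pos (relIndex_dvd_card _ _)).trans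
    ((Nat.card_zpowers a).le.trans (Nat.le_of_dvd hp (orderOf_dvd_of_pow_eq_one (hA a))))

theorem exists_enum_cocyc [Finite A] : ∃ e : Fin (2 ^ Nat.card A) → Subgroup A,
    (∀ t, Cocyc (e t)) ∧ ∀ C, Cocyc C → ∃ t, e t = C := by
  have h1 : Nat.card {C : Subgroup A // Cocyc C} ≤ Nat.card (Fin (2 ^ Nat.card A)) := by
    have := Fintype.ofFinite A
    classical
    rw [Nat.card_fin, Nat.card_eq_fintype_card (α := A), ← Fintype.card_set,
      ← Nat.card_eq_fintype_card]
    exact Nat.card_le_card_of_injective (fun C => (C.1 : Set A))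
      fun _ _ h => Subtype.ext (SetLike.coe_injective h)
  have : Nonempty {C : Subgroup A // Cocyc C} := ⟨⟨⊤, 1, top_sup_eq _⟩⟩
  have := Fintype.ofFinite {C : Subgroup A // Cocyc C}
  rw [Nat.card_eq_fintype_card, Nat.card_eq_fintype_card] at h1
  obtain ⟨f⟩ := Function.Embedding.nonempty_of_card_le h1
  refine ⟨fun t => (Function.invFun f t).1, fun t => (Function.invFun f t).2, fun C hC =>
    ⟨f ⟨C, hC⟩, ?_⟩⟩
  simp only [Function.leftInverse_invFun f.injective ⟨C, hC⟩]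

variable [Finite A] [IsMulCommutative A] [Finite G] (hcop : (Nat.card A).Coprime (Nat.card G))
  {τ : Type} {e : τ → Subgroup A} (he : ∀ t, Cocyc (e t)) (he' : ∀ C, Cocyc C → ∃ t, e t = C)

include hcop he' in
theorem fam_base : Fam φ (fun t => fix φ (e t)) (fun t => fix φ (e t)) ⊤ ⊤ := by
  have h : ⨆ t, fix φ (e t) = ⊤ := eq_top_iff.2 (le_of_forall_cocyc hcop (inv_top ⊤) fun C hC => by
    obtain ⟨t, rfl⟩ := he' C hC
    exact le_iSup_of_le t inf_le_right)
  refine ⟨fun t => inv_fix φ ⊤ _, fun t => inv_fix φ ⊤ _, h, h, fun t => ⟨t, le_rfl⟩,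
    fun i j C hC => ?_⟩
  obtain ⟨t, rfl⟩ := he' C hC
  exact ⟨t, inf_le_right⟩

variable {ι κ : Type*} {X : ι → Subgroup G} {Y : κ → Subgroup G} {N M : Subgroup G}

include hcop he he' in
theorem Fam.sup_nxt (h : Fam φ X Y N M) : ⨆ x, nxt φ e X Y x = ⁅N, M⁆ := by
  refine le_antisymm (iSup_le fun x => inf_le_left.trans
    (commutator_mono (h.supX ▸ le_iSup X _) (h.supY ▸ le_iSup Y _))) ?_
  have h1 : ∀ i j, ⁅X i, Y j⁆ ≤ ⨆ x, nxt φ e X Y x := fun i j =>
    le_of_forall_cocyc hcop ((h.invX i).commutator (h.invY j)) fun C hC => by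
      obtain ⟨t, rfl⟩ := he' C hC
      exact le_iSup (nxt φ e X Y) (i, j, t)
  have h2 : ∀ j, Y j ≤ normalizer ((⨆ x, nxt φ e X Y x : Subgroup G) : Set G) := fun j => by
    refine le_normalizer_iff_commutator_le_left.2 (commutator_iSup_left_le_of_le_normalizer
      (fun x => (le_iSup (nxt φ e X Y) x).trans le_normalizer) fun x => ?_)
    obtain ⟨l, hl⟩ := h.br x.1 x.2.1 _ (he x.2.2)
    exact (commutator_mono hl le_rfl).trans (h1 l j)
  rw [← h.supX, ← h.supY]
  refine commutator_iSup_left_le_of_le_normalizer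
    (fun i => (h.le i).elim fun j hj => hj.trans (h2 j)) fun i => ?_
  rw [commutator_comm]
  exact commutator_iSup_left_le_of_le_normalizer h2 fun j => (commutator_comm _ _).le.trans (h1 i j)

include hcop he he' in
theorem Fam.stepG (h : Fam φ X Y N M) : Fam φ (nxt φ e X Y) Y ⁅N, M⁆ M := by
  refine ⟨fun x => ((h.invX _).commutator (h.invY _)).inf (inv_fix φ ⊤ _), h.invY,
    h.sup_nxt hcop he he', h.supY, fun x => ?_, fun x j C hC => ?_⟩
  · obtain ⟨l, hl⟩ := h.br x.1 x.2.1 _ (he x.2.2)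
    exact (h.le l).imp fun j hj => hl.trans hj
  · obtain ⟨l, hl⟩ := h.br x.1 x.2.1 _ (he x.2.2)
    obtain ⟨t, rfl⟩ := he' C hC
    exact ⟨(l, j, t), inf_le_inf_right _ (commutator_mono hl le_rfl)⟩

include hcop he he' in
theorem Fam.stepD (h : Fam φ X X N N) : Fam φ (nxt φ e X X) (nxt φ e X X) ⁅N, N⁆ ⁅N, N⁆ := by
  have h1 := h.stepG hcop he he'
  refine ⟨h1.invX, h1.invX, h1.supX, h1.supX, fun x => ⟨x, le_rfl⟩, fun x y C hC => ?_⟩
  obtain ⟨j, hj⟩ := h1.le y
  exact (h1.br x j C hC).imp fun l hl =>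
    (inf_le_inf_right _ (commutator_mono le_rfl hj)).trans hl

include hcop he he' in
theorem exists_famG {p : ℕ} (hp : 0 < p) (hA : ∀ a : A, a ^ p = 1) (n : ℕ) :
    ∃ X : IdxG τ n → Subgroup G,
      Fam φ X (fun t => fix φ (e t)) ((⊤ : Subgroup G).lowerCentralSeries n) ⊤ ∧
      ∀ i, ∃ B : Subgroup A, B.index ≤ p ^ (n + 1) ∧ X i ≤ (fix φ B).lowerCentralSeries n := by
  induction n with
  | zero =>
    exact ⟨_, fam_base hcop he', fun t => ⟨e t, by simpa using (he t).index_le hp hA, le_rfl⟩⟩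
  | succ n ih =>
    obtain ⟨X, h1, h2⟩ := ih
    refine ⟨_, h1.stepG hcop he he', fun x => ?_⟩
    obtain ⟨B, hB, h3⟩ := h2 x.1
    refine ⟨B ⊓ e x.2.1, index_inf_le.trans ?_, inf_le_left.trans (commutator_mono
      (h3.trans (lowerCentralSeries_mono n (fix_anti inf_le_left))) (fix_anti inf_le_right))⟩
    rw [pow_succ]
    exact Nat.mul_le_mul hB ((he _).index_le hp hA)

include hcop he he' in
theorem exists_famD {p : ℕ} (hp : 0 < p) (hA : ∀ a : A, a ^ p = 1) (n : ℕ) :
    ∃ X : IdxD τ n → Subgroup G, Fam φ X X (derivedSeries G n) (derivedSeries G n) ∧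
      ∀ i, ∃ B : Subgroup A, B.index ≤ p ^ 2 ^ n ∧ ∀ J : Subgroup G, fix φ B ≤ J →
        X i ≤ (derivedSeries J n).map J.subtype := by
  induction n with
  | zero =>
    exact ⟨_, fam_base hcop he', fun t => ⟨e t, by simpa using (he t).index_le hp hA,
      fun J hJ g hg => ⟨⟨g, hJ hg⟩, trivial, rfl⟩⟩⟩
  | succ n ih =>
    obtain ⟨X, h1, h2⟩ := ih
    refine ⟨_, h1.stepD hcop he he', fun x => ?_⟩
    obtain ⟨B, hB, h3⟩ := h2 x.1
    obtain ⟨C, hC, h4⟩ := h2 x.2.1
    refine ⟨B ⊓ C, index_inf_le.trans ?_, fun J hJ => inf_le_left.trans ?_⟩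
    · rw [pow_succ, mul_two, pow_add]
      exact Nat.mul_le_mul hB hC
    · rw [map_subtype_derivedSeries_succ]
      exact commutator_mono (h3 J ((fix_anti inf_le_left).trans hJ))
        (h4 J ((fix_anti inf_le_right).trans hJ))

include hcop in
theorem Fam.lowerCentralSeries_eq_bot [Fintype ι] (h : Fam φ X Y N M) [Group.IsSolvable G]
    {p k m c s : ℕ} [hp : Fact p.Prime] (hA : ∀ a : A, a ^ p = 1) (hk : Nat.card A = p ^ k)
    (hm : m + 1 < k) {W : A → Subgroup G}
    (hW : ∀ a ≠ 1, ⁅fix φ (zpowers a), W a⁆ ≤ W a ∧ (W a).lowerCentralSeries c = ⊥ ∧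
      derivedSeries (fix φ (zpowers a)) s = ⊥)
    (hX : ∀ i, ∃ B : Subgroup A, B.index ≤ p ^ m ∧ ∀ a ∈ B, X i ≤ W a) :
    N.lowerCentralSeries
      (((c + 1) ^ Fintype.card ι) ^ krek (((c + 1) ^ Fintype.card ι) ^ s) p) = ⊥ := by
  have hXN : ∀ i, X i ≤ N := fun i => h.supX ▸ le_iSup X i
  have hN : ∀ a, ∀ x ∈ N, φ a x ∈ N := fun a => by
    rw [← h.supX]
    exact (iSup_le fun i x hx => mem_iSup_of_mem i (h.invX i a trivial x hx) :
      ⨆ i, X i ≤ (⨆ i, X i).comap (φ a : G →* G))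
  let ψ := Coprime.restrictAut φ N hN
  have hfix : ∀ C, (fix ψ C).map N.subtype ≤ fix φ C := by
    rintro C _ ⟨x, hx, rfl⟩ b hb
    exact congrArg Subtype.val (hx b hb)
  have hlt : ∀ B : Subgroup A, B.index ≤ p ^ (m + 1) → ∃ a ∈ B, a ≠ 1 := fun B hB => by
    refine (B.bot_or_exists_ne_one).resolve_left fun h1 => ?_
    rw [h1, index_bot, hk] at hB
    exact hB.not_gt (Nat.pow_lt_pow_right hp.out.one_lt hm)
  obtain ⟨a, -, ha⟩ := hlt ⊤ (by rw [index_top]; exact Nat.one_le_pow _ _ hp.out.pos)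
  have h1 := lowerCentralSeries_eq_bot_of_family (φ := ψ)
    (hcop.coprime_dvd_right N.card_subgroup_dvd_card) (H := fun i => (X i).subgroupOf N)
    (fun i b _ x hx => h.invX i b trivial x hx)
    (by
      apply map_injective N.subtype_injective
      simp only [Subgroup.map_iSup, map_subgroupOf_eq_of_le (hXN _), h.supX]
      rw [← MonoidHom.range_eq_map, range_subtype])
    (fun i j C hC => by
      obtain ⟨j', hj⟩ := h.le j
      refine (h.br i j' C hC).imp fun l hl x hx => hl ⟨?_, hfix C ⟨x, hx.2, rfl⟩⟩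
      rw [← subgroupOf_commutator_of_le (hXN i) (hXN j)] at hx
      exact commutator_mono le_rfl hj hx.1)
    (c := c + 1)
    (fun i C hC => by
      obtain ⟨B, hB, h2⟩ := hX i
      obtain ⟨b, hb, hb1⟩ := hlt (B ⊓ C) (index_inf_le.trans (by
        rw [pow_succ]; exact Nat.mul_le_mul hB (hC.index_le hp.out.pos hA)))
      rw [← map_eq_bot_iff_of_injective _ N.subtype_injective, map_cit,
        map_subgroupOf_eq_of_le (hXN i), eq_bot_iff, ← (hW b hb1).2.1]
      exact (cit_mono ((hfix C).trans (fix_anti (zpowers_le.2 hb.2))) (h2 b hb.1) _).trans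
        (cit_succ_le_lowerCentralSeries (hW b hb1).1 c))
    (p := p) (((Nat.coprime_pow_left_iff (by omega) _ _).1 (hk ▸ hcop)).coprime_dvd_right
      N.card_subgroup_dvd_card) (hA a) (s := s)
    (derivedSeries_eq_bot_of_injective
      ((fix ψ (zpowers a)).equivMapOfInjective _ N.subtype_injective).toMonoidHom
      (MulEquiv.injective _)
      (derivedSeries_eq_bot_of_le (hfix _) (hW a ha).2.2))
  have h2 := congrArg (Subgroup.map N.subtype) h1
  rwa [map_lowerCentralSeries, ← MonoidHom.range_eq_map, range_subtype, Subgroup.map_bot] at h2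

end Cfsg.Lib.Solv.Act
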