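import Cfsg.Agent.Solv.HallHigmanCore
import Cfsg.Agent.Solv.FrattiniRep
import Cfsg.Agent.Solv.Conj

/-!
# The condition `[U, S, S', …, S⁽ᵈ⁻¹⁾] = 0`
-/

set_option autoImplicit false

open Module
open scoped commutatorElement

namespace Cfsg.Lib.Solv.TwoLen

open HH

universe u

variable {G : Type*} [Group G]

/-- The derived series of a subgroup. -/
def der : ℕ → Subgroup G → Subgroup G
  | 0, S => S
  | n + 1, S => der n ⁅S, S⁆

theorem der_succ' (n : ℕ) (S : Subgroup G) : der (n + 1) S = ⁅der n S, der n S⁆ := by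
  induction n generalizing S with
  | zero => rfl
  | succ n ih => exact ih ⁅S, S⁆

theorem der_add (m n : ℕ) (S : Subgroup G) : der (m + n) S = der n (der m S) := by
  induction n with
  | zero => rfl
  | succ n ih => rw [← add_assoc, der_succ', der_succ', ih]

theorem der_le (n : ℕ) (S : Subgroup G) : der n S ≤ S := by
  induction n with
  | zero => exact le_rfl
  | succ n ih => rw [der_succ']; exact (Subgroup.commutator_le_self _).trans ih

theorem der_map {G' : Type*} [Group G'] (f : G →* G') (n : ℕ) (S : Subgroup G) :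
    (der n S).map f = der n (S.map f) := by
  induction n with
  | zero => rfl
  | succ n ih => rw [der_succ', der_succ', Subgroup.map_commutator, ih]

theorem le_normalizer_der (n : ℕ) (S : Subgroup G) :
    S ≤ Subgroup.normalizer (der n S : Set G) := by
  induction n with
  | zero => exact Subgroup.le_normalizer
  | succ n ih => rw [der_succ']; exact le_normalizer_commutator ih ih

theorem map_derivedSeries_eq_der (n : ℕ) (S : Subgroup G) :
    (derivedSeries S n).map S.subtype = der n S := by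
  induction n with
  | zero => rw [derivedSeries_zero, ← MonoidHom.range_eq_map, S.range_subtype]; rfl
  | succ n ih => rw [derivedSeries_succ, Subgroup.map_commutator, ih, der_succ']

/-- The iterated commutator `[A, S, S', …]`. -/
def ch : ℕ → Subgroup G → Subgroup G → Subgroup G
  | 0, _, A => A
  | n + 1, S, A => ch n ⁅S, S⁆ ⁅S, A⁆

theorem ch_succ' (n : ℕ) (S A : Subgroup G) : ch (n + 1) S A = ⁅der n S, ch n S A⁆ := by
  induction n generalizing S A with
  | zero => rfl
  | succ n ih => exact ih ⁅S, S⁆ ⁅S, A⁆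

theorem ch_le_der (n : ℕ) {S A : Subgroup G} (h : A ≤ S) : ch n S A ≤ der n S := by
  induction n with
  | zero => exact h
  | succ n ih => rw [ch_succ', der_succ']; exact Subgroup.commutator_mono le_rfl ih

theorem ch_le (n : ℕ) (S A : Subgroup G) [A.Normal] : ch n S A ≤ A := by
  induction n with
  | zero => exact le_rfl
  | succ n ih =>
    rw [ch_succ']
    exact (Subgroup.commutator_mono le_rfl ih).trans (Subgroup.commutator_le_right _ _)

theorem le_normalizer_ch (n : ℕ) (S A : Subgroup G) [A.Normal] :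
    S ≤ Subgroup.normalizer (ch n S A : Set G) := by
  induction n with
  | zero => exact Subgroup.le_normalizer_of_normal (H := A)
  | succ n ih => rw [ch_succ']; exact le_normalizer_commutator (le_normalizer_der n S) ih

variable {K V : Type*} [Field K] [AddCommGroup V] [Module K V]

/-- The commutator space `[U, S]`. -/
def cm (ρ : G →* End K V) (S : Subgroup G) (U : Submodule K V) : Submodule K V :=
  ⨆ s : S, U.map (ρ s - 1)

/-- `U` is invariant under `S`. -/
def InvS (ρ : G →* End K V) (S : Subgroup G) (U : Submodule K V) : Prop :=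
  ∀ s ∈ S, ∀ u ∈ U, ρ s u ∈ U

/-- `[U, S, S', …, S⁽ᵈ⁻¹⁾] = 0`. -/
def Ann (ρ : G →* End K V) : ℕ → Subgroup G → Submodule K V → Prop
  | 0, _, U => U = ⊥
  | d + 1, S, U => Ann ρ d ⁅S, S⁆ (cm ρ S U)

variable {ρ : G →* End K V}

theorem mem_cm {S : Subgroup G} {U : Submodule K V} {s : G} (hs : s ∈ S) {u : V} (hu : u ∈ U) :
    (ρ s - 1) u ∈ cm ρ S U :=
  Submodule.mem_iSup_of_mem (⟨s, hs⟩ : S) ⟨u, hu, rfl⟩

theorem cm_le_iff {S : Subgroup G} {U N : Submodule K V} :
    cm ρ S U ≤ N ↔ ∀ s ∈ S, ∀ u ∈ U, (ρ s - 1) u ∈ N :=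
  ⟨fun h _ hs _ hu => h (mem_cm hs hu), fun h => iSup_le fun s => by
    rintro _ ⟨u, hu, rfl⟩; exact h s s.2 u hu⟩

theorem cm_mono {S S' : Subgroup G} {U U' : Submodule K V} (hS : S ≤ S') (hU : U ≤ U') :
    cm ρ S U ≤ cm ρ S' U' :=
  cm_le_iff.2 fun _ hs _ hu => mem_cm (hS hs) (hU hu)

theorem InvS.mono {S S' : Subgroup G} {U : Submodule K V} (h : InvS ρ S' U) (hS : S ≤ S') :
    InvS ρ S U := fun s hs => h s (hS hs)

theorem InvS.cm_le {S : Subgroup G} {U : Submodule K V} (h : InvS ρ S U) : cm ρ S U ≤ U :=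
  cm_le_iff.2 fun s hs u hu => U.sub_mem (h s hs u hu) hu

theorem invS_of_cm_le {S : Subgroup G} {U : Submodule K V} (h : cm ρ S U ≤ U) : InvS ρ S U :=
  fun s hs u hu => by simpa using U.add_mem (h (mem_cm hs hu)) hu

theorem InvS.cm {S : Subgroup G} {U : Submodule K V} (h : InvS ρ S U) : InvS ρ S (cm ρ S U) :=
  invS_of_cm_le (cm_mono le_rfl h.cm_le)

theorem Ann.mono {d : ℕ} {S S' : Subgroup G} {U U' : Submodule K V} (h : Ann ρ d S' U')
    (hS : S ≤ S') (hU : U ≤ U') : Ann ρ d S U := by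
  induction d generalizing S S' U U' with
  | zero => exact le_bot_iff.1 (hU.trans h.le)
  | succ d ih => exact ih h (Subgroup.commutator_mono hS hS) (cm_mono hS hU)

theorem cm_commutator_le {S : Subgroup G} {U : Submodule K V} (h : InvS ρ S U) :
    cm ρ ⁅S, S⁆ U ≤ cm ρ S (cm ρ S U) := by
  let L : Subgroup G :=
    { carrier := {g | g ∈ S ∧ ∀ u ∈ U, (ρ g - 1) u ∈ cm ρ S (cm ρ S U)}
      one_mem' := ⟨S.one_mem, fun u _ => by simp⟩
      mul_mem' := fun {a b} ha hb => ⟨S.mul_mem ha.1 hb.1, fun u hu => by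
        have := add_mem (ha.2 _ (h b hb.1 u hu)) (hb.2 u hu)
        simpa using this⟩
      inv_mem' := fun {a} ha => ⟨S.inv_mem ha.1, fun u hu => by
        have := neg_mem (ha.2 _ (h _ (S.inv_mem ha.1) u hu))
        simpa [apply_inv_apply] using this⟩ }
  have : ⁅S, S⁆ ≤ L := Subgroup.commutator_le.2 fun a ha b hb =>
    ⟨Subgroup.commutator_le_self S (Subgroup.commutator_mem_commutator ha hb), fun u hu => by
      have hv := h _ (S.inv_mem (S.mul_mem hb ha)) u hu
      have := sub_mem (mem_cm (ρ := ρ) ha (mem_cm (ρ := ρ) hb hv))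
        (mem_cm (ρ := ρ) hb (mem_cm (ρ := ρ) ha hv))
      convert this using 1
      rw [show ⁅a, b⁆ = a * b * (b * a)⁻¹ by rw [commutatorElement_def]; group, map_mul]
      nth_rewrite 2 [← apply_inv_apply ρ (b * a) u]
      simp only [map_mul, LinearMap.sub_apply, End.mul_apply, End.one_apply, map_sub]
      rw [← End.mul_apply (ρ b) (ρ a), ← map_mul, apply_inv_apply]
      abel⟩
  exact cm_le_iff.2 fun s hs u hu => (this hs).2 u hu

theorem Ann.shift {f k : ℕ} {S : Subgroup G} {U : Submodule K V} (hU : InvS ρ S U)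
    (h : Ann ρ (k + (f + 1)) S U) : Ann ρ k (der (f + 1) S) (cm ρ (der (f + 1) S) U) := by
  induction f generalizing k with
  | zero => exact Ann.mono (d := k) h le_rfl (cm_mono (der_le 1 S) le_rfl)
  | succ f ih =>
    have := ih (k := k + 1) (by rwa [show k + 1 + (f + 1) = k + (f + 1 + 1) by ring])
    rw [der_succ' (f + 1)]
    exact Ann.mono (d := k) this le_rfl (cm_commutator_le (hU.mono (der_le _ S)))

theorem Ann.split {d : ℕ} {S : Subgroup G} {N₁ N₂ U N : Submodule K V} (h₁ : InvS ρ S N₁)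
    (h₂ : InvS ρ S N₂) (hd : N₁ ⊓ N₂ = ⊥) (hU : U ≤ N₁) (hU' : U ≤ N₂ ⊔ N) (h : Ann ρ d S N) :
    Ann ρ d S U := by
  induction d generalizing S U N with
  | zero =>
    have h' : N = ⊥ := h
    rw [h', sup_bot_eq] at hU'
    exact le_bot_iff.1 ((le_inf hU hU').trans hd.le)
  | succ d ih =>
    refine ih (h₁.mono (Subgroup.commutator_le_self S)) (h₂.mono (Subgroup.commutator_le_self S))
      ((cm_mono le_rfl hU).trans h₁.cm_le) (cm_le_iff.2 fun s hs u hu => ?_) h
    obtain ⟨a, ha, b, hb, rfl⟩ := Submodule.mem_sup.1 (hU' hu)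
    rw [map_add]
    exact Submodule.add_mem_sup (h₂.cm_le (mem_cm hs ha)) (mem_cm hs hb)

theorem ann_map {G' : Type*} [Group G'] (f : G' →* G) {d : ℕ} {S : Subgroup G'}
    {U : Submodule K V} : Ann ρ d (S.map f) U ↔ Ann (ρ.comp f) d S U := by
  induction d generalizing S U with
  | zero => rfl
  | succ d ih =>
    have : cm ρ (S.map f) U = cm (ρ.comp f) S U := le_antisymm
      (cm_le_iff.2 (by rintro _ ⟨s, hs, rfl⟩ u hu; exact mem_cm (ρ := ρ.comp f) hs hu))
      (cm_le_iff.2 fun s hs u hu => mem_cm (ρ := ρ) (Subgroup.mem_map_of_mem f hs) hu)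
    change Ann ρ d ⁅S.map f, S.map f⁆ _ ↔ _
    rw [← Subgroup.map_commutator, this, ih]
    rfl

theorem Ann.baseChange {d : ℕ} {S : Subgroup G} {U : Submodule K V} (h : Ann ρ d S U) :
    Ann (baseChangeRep ρ) d S (U.baseChange (AlgebraicClosure K)) := by
  induction d generalizing S U with
  | zero => rw [show U = ⊥ from h]; exact Submodule.baseChange_bot _
  | succ d ih =>
    refine Ann.mono (d := d) (ih h) le_rfl (cm_le_iff.2 fun s hs u hu => ?_)
    rw [← baseChangeRep_sub_one]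
    rw [Submodule.baseChange_eq_span] at hu
    refine Submodule.span_induction (fun x hx => ?_) (by simp) (fun x y _ _ hx hy => ?_)
      (fun a x _ hx => ?_) hu
    · obtain ⟨v, hv, rfl⟩ := hx
      exact Submodule.tmul_mem_baseChange_of_mem 1 (mem_cm hs hv)
    · rw [map_add]; exact add_mem hx hy
    · rw [map_smul]; exact Submodule.smul_mem _ a hx

theorem SecRep.ann {p : ℕ} [Fact p.Prime] {G : Type u} [Group G] {A B : Subgroup G} [A.Normal]
    (R : SecRep p A B) {d : ℕ} {S A₀ : Subgroup G} (hA : A₀ ≤ A) (h : ch d S A₀ ≤ B) :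
    Ann R.ρ d S (Submodule.span (ZMod p) (R.π '' A₀)) := by
  induction d generalizing S A₀ with
  | zero =>
    refine Submodule.span_eq_bot.2 ?_
    rintro _ ⟨a, ha, rfl⟩
    exact (R.π_eq_zero (hA ha)).2 (h ha)
  | succ d ih =>
    refine Ann.mono (d := d) (ih ((Subgroup.commutator_mono le_rfl hA).trans
      (Subgroup.commutator_le_right _ _)) h) le_rfl (cm_le_iff.2 fun s hs u hu => ?_)
    refine Submodule.span_induction (fun x hx => ?_) (by simp) (fun x y _ _ hx hy => ?_)
      (fun a x _ hx => ?_) hu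
    · obtain ⟨a, ha, rfl⟩ := hx
      rw [R.sub_one_π s (hA ha)]
      exact Submodule.subset_span ⟨_, Subgroup.commutator_mem_commutator hs ha, rfl⟩
    · rw [map_add]; exact add_mem hx hy
    · rw [map_smul]; exact Submodule.smul_mem _ a hx

theorem SecRep.ann_top {p : ℕ} [Fact p.Prime] {G : Type u} [Group G] {A B : Subgroup G} [A.Normal]
    (R : SecRep p A B) {d : ℕ} {S : Subgroup G} (h : ch d S A ≤ B) : Ann R.ρ d S ⊤ :=
  (SecRep.ann R le_rfl h).mono le_rfl fun w _ => by
    obtain ⟨a, ha, rfl⟩ := R.π_surj w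
    exact Submodule.subset_span ⟨a, ha, rfl⟩

section Descent

variable {D : Type*} [Group D] {τ : D →* End K V} {φ : G →* MulAut D}

/-- The span of the translates of `U` by the coset `S s`. -/
def orb (ρ : G →* End K V) (S : Subgroup G) (s : G) (U : Submodule K V) : Submodule K V :=
  ⨆ t : S, U.map (ρ (t * s))

theorem mem_orb {S : Subgroup G} {s t : G} (ht : t ∈ S) {U : Submodule K V} {u : V} (hu : u ∈ U) :
    ρ (t * s) u ∈ orb ρ S s U :=
  Submodule.mem_iSup_of_mem (⟨t, ht⟩ : S) ⟨u, hu, rfl⟩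

theorem orb_le_iff {S : Subgroup G} {s : G} {U N : Submodule K V} :
    orb ρ S s U ≤ N ↔ ∀ t ∈ S, ∀ u ∈ U, ρ (t * s) u ∈ N :=
  ⟨fun h _ ht _ hu => h (mem_orb ht hu), fun h => iSup_le fun s => by
    rintro _ ⟨u, hu, rfl⟩; exact h s s.2 u hu⟩

theorem invS_orb (S : Subgroup G) (s : G) (U : Submodule K V) : InvS ρ S (orb ρ S s U) := by
  intro t ht
  refine (orb_le_iff (N := (orb ρ S s U).comap (ρ t))).2 fun t' ht' u hu => ?_
  rw [Submodule.mem_comap, ← End.mul_apply, ← map_mul, ← mul_assoc]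
  exact mem_orb (S.mul_mem ht ht') hu

theorem inv_orb (hφ : ∀ g d, ρ g * τ d = τ (φ g d) * ρ g) (S : Subgroup G) (s : G)
    {U : Submodule K V} (hU : Inv τ U) : Inv τ (orb ρ S s U) := by
  intro d
  refine (orb_le_iff (N := (orb ρ S s U).comap (τ d))).2 fun t ht u hu => ?_
  obtain ⟨d, rfl⟩ := (φ (t * s)).surjective d
  rw [Submodule.mem_comap, ← End.mul_apply, ← hφ, End.mul_apply]
  exact mem_orb ht (hU d u hu)

theorem orb_inf_orb [FiniteDimensional K V] [Finite D] (hD : (Nat.card D : K) ≠ 0)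
    (hφ : ∀ g d, ρ g * τ d = τ (φ g d) * ρ g) {U : Submodule K V} {hU : Inv τ U}
    (hσ : Irr (res τ U hU)) {S : Subgroup G} {s : G}
    (hs : ∀ t ∈ S, φ (t * s) ∉ inertia (W := U) (res τ U hU)) :
    orb ρ S 1 U ⊓ orb ρ S s U = ⊥ := by
  by_contra hne
  obtain ⟨N, hN, hNle, hN0, hNi⟩ := exists_irr_le τ (U := orb ρ S 1 U ⊓ orb ρ S s U)
    (fun d w hw => ⟨inv_orb hφ S 1 hU d w hw.1, inv_orb hφ S s hU d w hw.2⟩) hne
  obtain ⟨p, hp1, hp2⟩ := exists_leftInverse hD (res τ N hN) τ (h := N.subtype)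
    N.injective_subtype (fun _ _ => rfl)
  have aux : ∀ s, N ≤ orb ρ S s U → ∃ t ∈ S, ∃ u ∈ U, p (ρ (t * s) u) ≠ 0 := by
    intro s hle
    by_contra! h
    have := hle.trans (orb_le_iff (N := LinearMap.ker p).2 h)
    apply hN0
    rw [eq_bot_iff]
    intro w hw
    exact congrArg Subtype.val ((hp1 ⟨w, hw⟩).symm.trans (this hw))
  obtain ⟨t, ht, u, hu, h1⟩ := aux 1 (hNle.trans inf_le_left)
  obtain ⟨t', ht', u', hu', h2⟩ := aux s (hNle.trans inf_le_right)
  rw [mul_one] at h1
  let f : U →ₗ[K] N := p ∘ₗ ρ t ∘ₗ U.subtype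
  have hf : ∀ d w, f (res τ U hU d w) = res τ N hN (φ t d) (f w) := fun d w => by
    change p (ρ t (τ d w)) = _
    rw [← End.mul_apply, hφ, End.mul_apply, hp2]
    rfl
  have hf0 : f ≠ 0 := fun h => h1 (LinearMap.congr_fun h ⟨u, hu⟩)
  have hinj : Function.Injective f := hσ.injective hf0 fun d w hw => by rw [hf, hw, map_zero]
  have hsurj : Function.Surjective f := by
    rw [← LinearMap.range_eq_top]
    refine (hNi _ ?_).resolve_left (by rwa [LinearMap.range_eq_bot])
    rintro d _ ⟨w, rfl⟩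
    obtain ⟨d, rfl⟩ := (φ t).surjective d
    exact ⟨_, hf d w⟩
  let e := LinearEquiv.ofBijective f ⟨hinj, hsurj⟩
  have := proj_eq_zero_of_not_mem_inertia hσ (τ := τ) (h := U.subtype) (fun _ _ => rfl)
    (π := e.symm.toLinearMap ∘ₗ p ∘ₗ ρ t) (fun d v => by
      apply e.injective
      change e (e.symm (p (ρ t (τ d v)))) = f (res τ U hU d (e.symm (p (ρ t v))))
      rw [e.apply_symm_apply, hf, ← End.mul_apply, hφ, End.mul_apply, hp2]
      exact congrArg _ (e.apply_symm_apply _).symm)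
    (hs _ (S.mul_mem (S.inv_mem ht) ht')) (hφ _) ⟨u', hu'⟩
  apply h2
  change e.symm (p (ρ t (ρ (t⁻¹ * t' * s) u'))) = 0 at this
  rwa [← End.mul_apply, ← map_mul, mul_assoc, mul_inv_cancel_left, e.symm.map_eq_zero_iff] at this

/-- Descent to the stabiliser of an irreducible constituent. -/
theorem Ann.descent [Finite G] [FiniteDimensional K V] [Finite D] (hD : (Nat.card D : K) ≠ 0)
    (hφ : ∀ g d, ρ g * τ d = τ (φ g d) * ρ g) {U : Submodule K V} {hU : Inv τ U} (hU0 : U ≠ ⊥)
    (hσ : Irr (res τ U hU)) {p : ℕ} [Fact p.Prime] {d : ℕ} {S : Subgroup G} (hS : IsPGroup p S)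
    {N : Submodule K V} (hN : InvS ρ S N) (hUN : U ≤ N) (h : Ann ρ d S N) :
    ∃ (j e : ℕ) (N' : Submodule K V), j + (e + 1) = d ∧
      der j S ≤ (inertia (W := U) (res τ U hU)).comap φ ∧ InvS ρ (der j S) N' ∧ U ≤ N' ∧
      Ann ρ (e + 1) (der j S) N' := by
  induction d generalizing S N with
  | zero => exact absurd (le_bot_iff.1 (hUN.trans h.le)) hU0
  | succ d ih =>
    by_cases hI : S ≤ (inertia (W := U) (res τ U hU)).comap φ
    · exact ⟨0, d, N, zero_add _, hI, hN, hUN, h⟩
    obtain ⟨s, hsS, hs⟩ : ∃ s ∈ S, ∀ t ∈ ⁅S, S⁆, φ (t * s) ∉ inertia (W := U) (res τ U hU) := by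
      by_contra! h
      apply hI
      have := hS.isNilpotent
      have h1 : ((inertia (W := U) (res τ U hU)).comap φ).subgroupOf S = ⊤ := by
        refine eq_top_of_sup_commutator_eq_top (eq_top_iff.2 fun s _ => ?_)
        obtain ⟨t, ht, hts⟩ := h s s.2
        rw [← Subgroup.map_subtype_commutator] at ht
        obtain ⟨t, ht, rfl⟩ := ht
        rw [← inv_mul_cancel_left t s]
        exact Subgroup.mul_mem _ (Subgroup.mem_sup_right (Subgroup.inv_mem _ ht))
          (Subgroup.mem_sup_left hts)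
      exact Subgroup.subgroupOf_eq_top.1 h1
    have hS' := Subgroup.commutator_le_self S
    obtain ⟨j, e, N', h1, h2⟩ := ih (hS.to_le hS') (invS_orb ⁅S, S⁆ 1 U)
      (fun u hu => by simpa using mem_orb (ρ := ρ) (s := 1) ⁅S, S⁆.one_mem hu)
      (Ann.split (invS_orb _ 1 U) (invS_orb _ s U) (orb_inf_orb hD hφ hσ hs) le_rfl
        (orb_le_iff.2 fun t ht u hu => by
          have h3 := mem_cm (ρ := ρ) (S.mul_mem (S.mul_mem (hS' ht) hsS) (S.inv_mem (hS' ht)))
            (hN t (hS' ht) u (hUN hu))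
          have := Submodule.add_mem_sup (mem_orb (ρ := ρ) (s := s) ht hu) (neg_mem h3)
          rwa [LinearMap.sub_apply, ← End.mul_apply, ← map_mul, inv_mul_cancel_right, neg_sub,
            add_sub_cancel, End.one_apply, ← mul_one t] at this) h)
    exact ⟨j + 1, e, N', by omega, h2⟩

end Descent

end Cfsg.Lib.Solv.TwoLen
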