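import Cfsg.Agent.Solv.TwoLenExc
import Cfsg.Agent.Solv.Fitting
import Cfsg.Agent.Solv.PGroupNormal
import Cfsg.Agent.FT.BG1.Transfer
import Cfsg.Agent.S0009

/-!
# Components for a group all of whose `2`-elements are exceptional
-/

set_option autoImplicit false

open Module
open scoped commutatorElement

namespace Cfsg.Lib.Solv.TwoLen

open HH

universe u

section Rep

variable {K : Type*} [Field K] {D : Type*} [Group D]
variable {V : Type*} [AddCommGroup V] [Module K V]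

theorem exists_irr_ne_one [FiniteDimensional K V] [Finite D] (hQ : (Nat.card D : K) ≠ 0)
    (τ : D →* End K V) {c : D} (h : τ c ≠ 1) :
    ∃ (U : Submodule K V) (hU : Inv τ U), U ≠ ⊥ ∧ Irr (res τ U hU) ∧ res τ U hU c ≠ 1 := by
  let C := Subgroup.normalClosure ({c} : Set D)
  have hc : c ∈ C := Subgroup.subset_normalClosure rfl
  have := Fintype.ofFinite C
  let P : End K V := ∑ g : C, τ g
  have hP : ∀ v, P (τ c v) = P v := by
    intro v
    simp only [P, LinearMap.sum_apply]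
    rw [← Equiv.sum_comp (Equiv.mulRight (⟨c, hc⟩ : C)) fun g : C => τ g v]
    refine Finset.sum_congr rfl fun g _ => ?_
    rw [Equiv.coe_mulRight, Subgroup.coe_mul, map_mul, End.mul_apply]
  have hPc : ∀ k, τ k * P = P * τ k := by
    intro k
    simp only [P, Finset.mul_sum, Finset.sum_mul]
    rw [← Equiv.sum_comp (MulAut.conjNormal k : MulAut C).toEquiv fun g : C => τ g * τ k]
    refine Finset.sum_congr rfl fun g _ => ?_
    change _ = τ (k * g * k⁻¹) * τ k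
    rw [← map_mul, ← map_mul, inv_mul_cancel_right]
  have hinv : Inv τ (LinearMap.ker P) := fun g w hw => by
    rw [LinearMap.mem_ker] at hw ⊢
    rw [← End.mul_apply, ← hPc, End.mul_apply, hw, map_zero]
  have hne : LinearMap.ker P ≠ ⊥ := by
    intro h0
    apply h
    ext v
    have : τ c v - v ∈ LinearMap.ker P := by rw [LinearMap.mem_ker, map_sub, hP, sub_self]
    rwa [h0, Submodule.mem_bot, sub_eq_zero] at this
  obtain ⟨U, hU, hUle, hU0, hirr⟩ := exists_irr_le τ hinv hne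
  refine ⟨U, hU, hU0, hirr, fun htriv => hU0 ?_⟩
  have hle : C ≤ (res τ U hU).ker :=
    Subgroup.normalClosure_le_normal (Set.singleton_subset_iff.2 htriv)
  rw [eq_bot_iff]
  intro w hw
  have h1 : P w = 0 := hUle hw
  have h2 : ∀ g : C, τ g w = w := fun g =>
    congrArg Subtype.val (LinearMap.congr_fun (hle g.2) ⟨w, hw⟩)
  simp only [P, LinearMap.sum_apply, h2, Finset.sum_const, Finset.card_univ] at h1
  rw [← Nat.cast_smul_eq_nsmul K, ← Nat.card_eq_fintype_card] at h1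
  refine (smul_eq_zero.1 h1).resolve_left fun h0 => hQ ?_
  rw [← C.card_mul_index, Nat.cast_mul, h0, zero_mul]

end Rep

theorem Sym.apply_eq_of_eq_one {K : Type*} [Field K] [CharP K 2] {D : Type u} [Group D]
    {W : Type*} [AddCommGroup W] [Module K W] {q : ℕ} {σ : D →* End K W} (S : Sym q σ)
    {α : inertia σ} {m : ℕ} (hα : α ^ 2 ^ m = 1) (h : S.ψ α = 1) (d : D) :
    σ (α.1 d) = σ d := by
  have hs : α.1 d * d⁻¹ ∈ scal σ := by rw [← S.π_eq_iff, ← S.ψ_π, h, End.one_apply]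
  obtain ⟨c, hc⟩ := id hs
  have h1 : ∀ i : ℕ, σ ((α ^ i).1 d) = c ^ i • σ d := by
    intro i
    induction i with
    | zero => simp
    | succ i ih =>
      rw [pow_succ, Subgroup.coe_mul, MulAut.mul_apply, ← inv_mul_cancel_right (α.1 d) d, map_mul,
        map_mul, ih, apply_eq_of_mem_scal (α ^ i).2 hs, hc, smul_mul_smul_comm, one_mul, pow_succ']
  have h2 := h1 (2 ^ m)
  rw [hα, Subgroup.coe_one, MulAut.one_apply, ← sub_eq_zero, ← one_smul K (σ d), smul_smul,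
    mul_one, ← sub_smul, smul_eq_zero] at h2
  rcases h2 with h2 | h2
  · have h3 : (1 - c) ^ 2 ^ m = 0 := by rw [sub_pow_char_pow, one_pow, h2]
    have := h1 1
    rwa [pow_one, pow_one, ← sub_eq_zero.1 (pow_eq_zero_iff (by positivity) |>.1 h3),
      one_smul] at this
  · have : (1 : End K W) = 0 := by rw [← map_one σ, ← mul_inv_cancel d, map_mul, h2, zero_mul]
    rw [← mul_one (σ _), this, mul_zero, h2]

theorem Refl.comp {R I J : Type*} [Ring R] [Group I] [Group J] {ψ : I →* R} (f : J →* I) {j : J}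
    (h : Refl ψ (f j)) : Refl (ψ.comp f) j :=
  ⟨h.1, h.2.1, fun z => h.2.2 (f z)⟩

variable {X : Type u} [Group X]

/-- The stabiliser `I` of a component and the kernel `K` of its action on the component. -/
structure Comp (n : ℕ) (I K : Subgroup X) : Prop where
  conj : ∀ g ∈ I, ∀ k ∈ K, g * k * g⁻¹ ∈ K
  mem : ∀ (g : X) (m : ℕ), g ^ 2 ^ m = 1 → g ^ 2 ^ (n + 1) ∈ I
  key : ∀ S : Subgroup X, IsPGroup 2 S → ∀ (g g' : X) (m m' : ℕ), g ^ 2 ^ m = 1 →
    g' ^ 2 ^ m' = 1 → g ^ 2 ^ n ∈ S → g' ^ 2 ^ n ∈ S → (g ^ 2 ^ n)⁻¹ * g' ^ 2 ^ n ∈ I →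
    ((g ^ 2 ^ n)⁻¹ * g' ^ 2 ^ n) ^ 4 = 1 →
    (g ^ 2 ^ (n + 1))⁻¹ * g' ^ 2 ^ (n + 1) ∈ K ∨
      (g ^ 2 ^ (n + 1))⁻¹ * g' ^ 2 ^ (n + 1) * (((g ^ 2 ^ n)⁻¹ * g' ^ 2 ^ n) ^ 2)⁻¹ ∈ K

theorem Comp.comap {n : ℕ} {I K : Subgroup X} (h : Comp n I K) {Y : Type u} [Group Y]
    (f : Y →* X) : Comp n (I.comap f) (K.comap f) where
  conj g hg k hk := by simpa using h.conj _ hg _ hk
  mem g m hg := by simpa using h.mem (f g) m (by rw [← map_pow, hg, map_one])
  key S hS g g' m m' hg hg' h1 h2 h3 h4 := by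
    simpa using h.key (S.map f) (hS.map f) (f g) (f g') m m' (by rw [← map_pow, hg, map_one])
      (by rw [← map_pow, hg', map_one]) ⟨_, h1, map_pow _ _ _⟩ ⟨_, h2, map_pow _ _ _⟩
      (by simpa using h3) (by simpa using congrArg f h4)

theorem exists_not_centralizes [Finite X] [Group.IsSolvable X] (hO : pCore 2 X = ⊥) {t : X}
    (ht1 : t ≠ 1) {m : ℕ} (ht : t ^ 2 ^ m = 1) :
    ∃ (q : ℕ) (D : Subgroup X), q.Prime ∧ q ≠ 2 ∧ D.Normal ∧ IsPGroup q D ∧
      ⁅D, D⁆ ≤ Subgroup.centralizer (D : Set X) ∧ (∀ x ∈ D, x ^ q = 1) ∧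
      t ∉ Subgroup.centralizer (D : Set X) := by
  obtain ⟨q, hq⟩ : ∃ q : Nat.Primes, t ∉ Subgroup.centralizer (pCore (q : ℕ) X : Set X) := by
    by_contra! h
    have h1 : t ∈ fittingSubgroup X := by
      refine centralizer_fitting_le X ?_
      rw [← Subgroup.zpowers_le, Subgroup.le_centralizer_iff, Agent.S0009.result]
      exact iSup_le fun q => Subgroup.le_centralizer_iff.1 (Subgroup.zpowers_le.2 (h q))
    have h2 : fittingSubgroup X ≤ pPrimeCore 2 X := by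
      rw [Agent.S0009.result]
      refine iSup_le fun q => ?_
      by_cases hq : (q : ℕ) = 2
      · rw [hq, hO]; exact bot_le
      have := Fact.mk q.2
      obtain ⟨a, ha⟩ := IsPGroup.iff_card.1 (pCore_isPGroup (q : ℕ) X)
      refine le_pPrimeCore inferInstance ?_
      rw [ha]
      exact Nat.Coprime.pow_left _ ((Nat.coprime_primes q.2 Nat.prime_two).2 hq)
    have h3 := ((coprime_card_pPrimeCore 2 X).coprime_dvd_left
      ((pPrimeCore 2 X).orderOf_dvd_natCard (h2 h1))).pow_right m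
    exact ht1 (orderOf_eq_one_iff.1 (h3.eq_one_of_dvd (orderOf_dvd_of_pow_eq_one ht)))
  have hq2 : (q : ℕ) ≠ 2 := by
    intro h
    apply hq
    rw [h, hO]
    intro x hx
    rw [Subgroup.mem_bot.1 hx, one_mul, mul_one]
  have := Fact.mk q.2
  have hP := pCore_isPGroup (q : ℕ) X
  obtain ⟨D, hDP, hN, hc, he, -, hcen⟩ := FT.critical_odd q.2 (FT.pgroup_iff.2 hP) (by
    obtain ⟨a, ha⟩ := IsPGroup.iff_card.1 hP
    rw [ha]
    exact (q.2.odd_of_ne_two hq2).pow)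
  refine ⟨q, D, q.2, hq2, Subgroup.normalizer_eq_top_iff.1 (top_le_iff.1
    ((Subgroup.normalizer_eq_top _).ge.trans hN)), hP.to_le hDP,
    ((Subgroup.commutator_mono le_rfl hDP).trans hc).trans inf_le_right, he, fun h => hq ?_⟩
  obtain ⟨k, hk⟩ := hcen t ⟨Subgroup.le_normalizer_of_normal (K := ⊤) trivial, h⟩
  have hco : (orderOf t).Coprime ((q : ℕ) ^ k) :=
    (((Nat.coprime_primes Nat.prime_two q.2).2 hq2.symm).pow m k).coprime_dvd_left
      (orderOf_dvd_of_pow_eq_one ht)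
  obtain ⟨l, hl⟩ := exists_pow_eq_self_of_coprime hco.symm
  exact hl ▸ Subgroup.pow_mem _ hk l

theorem exists_comp_of_irr [Finite X] {K V W : Type*} [Field K] [IsAlgClosed K] [CharP K 2]
    [AddCommGroup V] [Module K V] [FiniteDimensional K V] [AddCommGroup W] [Module K W]
    [FiniteDimensional K W] [Nontrivial W] (ρ : X →* End K V) (hρ : Function.Injective ρ) {n : ℕ}
    (hexc : ∀ (g : X) (m : ℕ), g ^ 2 ^ m = 1 → (ρ g - 1) ^ (2 ^ (n + 2) - 1) = 0)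
    {q : ℕ} [Fact q.Prime] (hq2 : q ≠ 2) {D : Subgroup X} [D.Normal] (hD : IsPGroup q D)
    (hcl : ⁅D, D⁆ ≤ Subgroup.centralizer (D : Set X)) (he : ∀ x ∈ D, x ^ q = 1)
    {σ : D →* End K W} (hσ : Irr σ) {h₀ : W →ₗ[K] V} (h0 : h₀ ≠ 0)
    (hh : ∀ (g : D) w, h₀ (σ g w) = ρ g (h₀ w)) :
    ∃ I K : Subgroup X, Comp n I K ∧ ∀ t ∈ K, ∀ m, t ^ 2 ^ m = 1 →
      ∀ d, σ (MulAut.conjNormal t d) = σ d := by
  let φ : X →* MulAut D := MulAut.conjNormal
  obtain ⟨S⟩ := nonempty_sym (q := q) hσ (fun a b => Subgroup.mem_center_iff.2 fun c =>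
    Subtype.ext (hcl (Subgroup.commutator_mem_commutator a.2 b.2) c c.2))
    (fun a => Subtype.ext (he a a.2))
  let I := (inertia σ).comap φ
  let ψ : I →* End (ZMod q) S.M := S.ψ.comp (φ.subgroupComap (inertia σ))
  have hA : ∀ (g : X) (m : ℕ), g ^ 2 ^ m = 1 → ∃ hy : g ^ 2 ^ (n + 1) ∈ I, ψ ⟨_, hy⟩ = 1 ∨
      ∃ hi : g ^ 2 ^ n ∈ I, Refl ψ ⟨_, hi⟩ := by
    intro g m hg
    have h1 := hexc g m hg
    have h2 : g ^ 2 ^ (n + 2) = 1 := by
      apply hρ
      rw [map_pow, map_one, ← sub_eq_zero, ← sub_one_pow_char_pow K 2,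
        ← Nat.sub_add_cancel (Nat.two_pow_pos (n + 2)), pow_succ, h1, zero_mul]
    obtain ⟨hy, h⟩ := S.refl hq2 hD hσ (τ := ρ.comp D.subtype) h0 hh
      (α := φ g) (x := ρ g) (n := n)
      (fun d => by
        change ρ g * ρ d = ρ (g * d * g⁻¹) * _
        rw [← map_mul, ← map_mul, inv_mul_cancel_right])
      (by rw [← map_pow, h2, map_one]) (by rw [← map_pow, h2, map_one]) h1
    simp only [← map_pow] at hy h
    exact ⟨hy, h.imp id fun ⟨hi, h⟩ => ⟨hi, Refl.comp _ h⟩⟩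
  have hK : ∀ (g : X) (hg : g ∈ I), g ∈ ψ.ker.map I.subtype ↔ ψ ⟨g, hg⟩ = 1 := fun g hg =>
    ⟨by rintro ⟨_, h, rfl⟩; exact h, fun h => ⟨_, h, rfl⟩⟩
  refine ⟨I, ψ.ker.map I.subtype, ⟨?_, fun g m hg => (hA g m hg).1, ?_⟩, ?_⟩
  · rintro g hg _ ⟨k, hk, rfl⟩
    exact ⟨_, (MonoidHom.normal_ker ψ).conj_mem k hk ⟨g, hg⟩, rfl⟩
  · intro T hT g g' m m' hg hg' h1 h2 h3 h4
    obtain ⟨hy, hr⟩ := hA g m hg
    obtain ⟨hy', hr'⟩ := hA g' m' hg'
    by_cases hI : g ^ 2 ^ n ∈ I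
    swap
    · have hI' : g' ^ 2 ^ n ∉ I := fun h => hI (by simpa using I.mul_mem h (I.inv_mem h3))
      left
      rw [hK _ (I.mul_mem (I.inv_mem hy) hy')]
      change ψ ((⟨_, hy⟩ : I)⁻¹ * ⟨_, hy'⟩) = 1
      exact ψ.ker.mul_mem (ψ.ker.inv_mem (hr.resolve_right fun h => hI h.1))
        (hr'.resolve_right fun h => hI' h.1)
    have hI' : g' ^ 2 ^ n ∈ I := by simpa using I.mul_mem hI h3
    have e : ∀ (g : X) (h : g ^ 2 ^ n ∈ I) (h' : g ^ 2 ^ (n + 1) ∈ I),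
        (⟨_, h'⟩ : I) = ⟨_, h⟩ ^ 2 := fun g _ _ => Subtype.ext (by
      rw [Subgroup.coe_pow, ← pow_mul, ← pow_succ])
    rw [e g hI] at hr
    rw [e g' hI'] at hr'
    have := key (S.isUnit_two hq2) (ψ := ψ) (S := T.subgroupOf I) hT.comap_subtype
      (j := ⟨_, hI⟩) (k := ⟨_, hI'⟩) h1 h2
      (by rw [← map_pow, ← map_one ψ]; exact congrArg ψ (Subtype.ext h4))
      (hr.imp (fun h => by rwa [map_pow] at h) fun h => h.2)
      (hr'.imp (fun h => by rwa [map_pow] at h) fun h => h.2)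
    rw [← e g hI hy, ← e g' hI' hy'] at this
    refine this.imp (fun h => ⟨_, h, rfl⟩) fun h => ?_
    refine ⟨(⟨_, hy⟩ : I)⁻¹ * ⟨_, hy'⟩ * (((⟨_, hI⟩ : I)⁻¹ * ⟨_, hI'⟩) ^ 2)⁻¹, ?_, rfl⟩
    change ψ _ = 1
    rw [map_mul, h, ← map_mul, mul_inv_cancel, map_one]
  · rintro _ ⟨⟨t, htI⟩, h, rfl⟩ m ht d
    exact S.apply_eq_of_eq_one (α := φ.subgroupComap (inertia σ) ⟨t, htI⟩) (m := m)
      (by rw [← map_pow, ← map_one (φ.subgroupComap _)]; exact congrArg _ (Subtype.ext ht)) h d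

theorem exists_comp_algClosed [Finite X] [Group.IsSolvable X] (hO : pCore 2 X = ⊥) {K V : Type*}
    [Field K] [IsAlgClosed K] [CharP K 2] [AddCommGroup V] [Module K V] [FiniteDimensional K V]
    (ρ : X →* End K V) (hρ : Function.Injective ρ) {n : ℕ}
    (hexc : ∀ (g : X) (m : ℕ), g ^ 2 ^ m = 1 → (ρ g - 1) ^ (2 ^ (n + 2) - 1) = 0) {t : X}
    (ht1 : t ≠ 1) {m : ℕ} (ht : t ^ 2 ^ m = 1) :
    ∃ I K : Subgroup X, Comp n I K ∧ t ∉ K := by
  obtain ⟨q, D, hq, hq2, hDn, hD, hcl, he, htD⟩ := exists_not_centralizes hO ht1 ht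
  have := Fact.mk hq
  obtain ⟨d, hd⟩ : ∃ d : D, ρ.comp D.subtype (MulAut.conjNormal t d * d⁻¹) ≠ 1 := by
    by_contra! h
    refine htD fun d hd => ?_
    have := hρ ((h ⟨d, hd⟩).trans (map_one ρ).symm)
    change t * d * t⁻¹ * d⁻¹ = 1 at this
    rw [mul_inv_eq_one, mul_inv_eq_iff_eq_mul] at this
    exact this.symm
  obtain ⟨U, hU, hU0, hσ, hσd⟩ := exists_irr_ne_one (natCast_card_ne_zero K 2 (by
    obtain ⟨a, ha⟩ := IsPGroup.iff_card.1 hD
    rw [ha]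
    exact Nat.Coprime.pow_left _ ((Nat.coprime_primes hq Nat.prime_two).2 hq2))) _ hd
  have : Nontrivial U := Submodule.nontrivial_iff_ne_bot.2 hU0
  obtain ⟨I, L, h1, h2⟩ := exists_comp_of_irr (W := U) ρ hρ hexc hq2 hD hcl he hσ
    (h₀ := U.subtype) (fun h => hU0 (by rw [← U.range_subtype, h, LinearMap.range_zero]))
    (fun _ _ => rfl)
  refine ⟨I, L, h1, fun h => hσd ?_⟩
  rw [map_mul, h2 t h m ht d, ← map_mul, mul_inv_cancel, map_one]

theorem exists_comp [Finite X] [Group.IsSolvable X] (hO : pCore 2 X = ⊥) {F V : Type*} [Field F]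
    [CharP F 2] [AddCommGroup V] [Module F V] [FiniteDimensional F V] (ρ : X →* End F V)
    (hρ : Function.Injective ρ) {n : ℕ}
    (hexc : ∀ (g : X) (m : ℕ), g ^ 2 ^ m = 1 → (ρ g - 1) ^ (2 ^ (n + 2) - 1) = 0) {t : X}
    (ht1 : t ≠ 1) {m : ℕ} (ht : t ^ 2 ^ m = 1) :
    ∃ I K : Subgroup X, Comp n I K ∧ t ∉ K :=
  exists_comp_algClosed hO (baseChangeRep ρ)
    ((injective_iff_map_eq_one _).2 fun _ h =>
      hρ (((baseChangeRep_eq_one_iff ρ _).1 h).trans (map_one ρ).symm))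
    (fun g m hg => by rw [← baseChangeRep_sub_one, ← map_pow, hexc g m hg, map_zero]) ht1 ht

end Cfsg.Lib.Solv.TwoLen
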