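import Mathlib
import Cfsg.Agent.Solv.PGroupBasic

/-!
# Quarter turns in `2`-groups of linear maps

A quarter turn is an element `j` with `(j - 1) (1 + j ^ 2) = 0` whose square is the reflection in a
"plane" (`Refl`).  `key`: the behaviour of `(i w) ^ 2` when `i` and `i w` are quarter turns or
involutions.
-/

set_option autoImplicit false

namespace Cfsg.Lib.Solv.TwoLen

variable {R : Type*} [Ring R]

theorem eq_one_of_unipotent (h2 : IsUnit (2 : R)) {a : R} (h : IsNilpotent (a - 1)) {m : ℕ}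
    (hm : a ^ 2 ^ m = 1) : a = 1 := by
  induction m with
  | zero => simpa using hm
  | succ m ih =>
    apply ih
    have hb : IsNilpotent (a ^ 2 ^ m - 1) := by
      rw [← mul_geom_sum]
      refine Commute.isNilpotent_mul_right ?_ h
      exact Commute.sum_right _ _ _ fun i _ =>
        ((Commute.refl a).sub_left (Commute.one_left a)).pow_right i
    have hu : IsUnit (a ^ 2 ^ m - 1 + 2) :=
      hb.isUnit_add_right_of_commute h2 (Commute.ofNat_right _ 2)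
    have h0 : (a ^ 2 ^ m - 1) * (a ^ 2 ^ m - 1 + 2) = 0 := by
      have : a ^ 2 ^ m * a ^ 2 ^ m = 1 := by rw [← pow_two, ← pow_mul, ← pow_succ, hm]
      calc _ = a ^ 2 ^ m * a ^ 2 ^ m - 1 := by noncomm_ring
        _ = 0 := by rw [this, sub_self]
    exact sub_eq_zero.1 (hu.mul_left_eq_zero.1 h0)

variable {I : Type*} [Group I]

theorem pow_inv_eq_one {ψ : I →* R} {a : I} {n : ℕ} (h : ψ a ^ n = 1) : ψ a⁻¹ ^ n = 1 := by
  rw [← one_mul (ψ a⁻¹ ^ n), ← h, ← map_pow, ← map_pow, ← map_mul, inv_pow, mul_inv_cancel,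
    map_one, map_pow, h]

/-- The square of a quarter turn centralises every abelian subgroup that it normalises. -/
theorem sq_comm_of_abelian (h2 : IsUnit (2 : R)) (ψ : I →* R) {C : Subgroup I}
    (hC : ∀ a ∈ C, ∀ b ∈ C, a * b = b * a) (hC2 : ∀ a ∈ C, ∃ m, a ^ 2 ^ m = 1) {j : I}
    (hj : j ∈ Subgroup.normalizer (C : Set I)) (hq : (ψ j - 1) * (1 + ψ j ^ 2) = 0)
    {c : I} (hc : c ∈ C) : ψ (j ^ 2 * c * (j ^ 2)⁻¹) = ψ c := by
  set s : ℕ → I → R := fun n c => ψ (j ^ n * c * (j ^ n)⁻¹) with hs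
  have hmem : ∀ n, ∀ c ∈ C, j ^ n * c * (j ^ n)⁻¹ ∈ C := fun n c hc =>
    (Subgroup.mem_normalizer_iff.1 (Subgroup.pow_mem _ hj n) c).1 hc
  have hsw : ∀ n c, ψ j ^ n * ψ c = s n c * ψ j ^ n := fun n c => by
    simp only [hs, ← map_pow, ← map_mul, inv_mul_cancel_right]
  have hcm : ∀ n m, ∀ c ∈ C, ∀ d ∈ C, s n c * s m d = s m d * s n c := fun n m c hc d hd => by
    simp only [hs, ← map_mul]
    rw [hC _ (hmem n c hc) _ (hmem m d hd)]
  have hs0 : ∀ c, s 0 c = ψ c := fun c => by simp [hs]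
  have rel : ψ j ^ 0 - ψ j ^ 1 + ψ j ^ 2 - ψ j ^ 3 = 0 := by
    rw [← neg_eq_zero, ← hq]; noncomm_ring
  have e1 : ∀ c ∈ C, (s 0 c - s 1 c) * ψ j ^ 1 - (s 0 c - s 2 c) * ψ j ^ 2 +
      (s 0 c - s 3 c) * ψ j ^ 3 = 0 := by
    intro c hc
    have h1 := congrArg (· * ψ c) rel
    have h2 := congrArg (s 0 c * ·) rel
    simp only [sub_mul, add_mul, hsw, zero_mul, mul_zero, mul_sub, mul_add] at h1 h2
    rw [← sub_eq_zero.2 (h1.trans h2.symm)]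
    noncomm_ring
  have e2 : ∀ c ∈ C, ∀ d ∈ C, (s 0 c - s 2 c) * (s 1 d - s 2 d) * ψ j ^ 2 +
      (s 0 c - s 3 c) * (s 3 d - s 1 d) * ψ j ^ 3 = 0 := by
    intro c hc d hd
    have h1 := congrArg (· * ψ d) (e1 c hc)
    have h2 := congrArg (s 1 d * ·) (e1 c hc)
    simp only [sub_mul, add_mul, mul_assoc, hsw, zero_mul, mul_zero, mul_sub, mul_add] at h1 h2
    simp only [← mul_assoc, hcm 1 _ d hd c hc] at h1 h2
    rw [← sub_eq_zero.2 (h1.trans h2.symm)]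
    noncomm_ring
  have e3 : ∀ c ∈ C, ∀ d ∈ C, ∀ e ∈ C,
      (s 0 c - s 2 c) * (s 1 d - s 2 d) * (s 2 e - s 3 e) = 0 := by
    intro c hc d hd e he
    have h1 := congrArg (· * ψ e) (e2 c hc d hd)
    have h2 := congrArg (s 3 e * ·) (e2 c hc d hd)
    have k1 : ∀ a b a' b' n, s 3 e * ((s a c - s b c) * (s a' d - s b' d) * ψ j ^ n) =
        (s a c - s b c) * (s a' d - s b' d) * s 3 e * ψ j ^ n := by
      intro a b a' b' n
      have c1 : Commute (s 3 e) (s a c - s b c) :=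
        Commute.sub_right (hcm _ _ e he c hc) (hcm _ _ e he c hc)
      have c2 : Commute (s 3 e) (s a' d - s b' d) :=
        Commute.sub_right (hcm _ _ e he d hd) (hcm _ _ e he d hd)
      rw [← mul_assoc, (c1.mul_right c2).eq]
    simp only [add_mul, mul_add, k1, zero_mul, mul_zero] at h1 h2
    simp only [mul_assoc _ (ψ j ^ _), hsw] at h1
    have h3 : (s 0 c - s 2 c) * (s 1 d - s 2 d) * (s 2 e - s 3 e) * ψ j ^ 2 = 0 := by
      rw [← sub_eq_zero.2 (h1.trans h2.symm)]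
      noncomm_ring
    exact (((Group.isUnit j).map ψ).pow 2).mul_left_eq_zero.1 h3
  have hsh : ∀ n m c, s (n + m) c = s n (j ^ m * c * (j ^ m)⁻¹) := fun n m c => by
    simp only [hs, pow_add, mul_inv_rev, mul_assoc]
  have hj' : j⁻¹ ∈ Subgroup.normalizer (C : Set I) := Subgroup.inv_mem _ hj
  have hback : ∀ n, ∀ c ∈ C, ∃ d ∈ C, c = j ^ n * d * (j ^ n)⁻¹ := fun n c hc =>
    ⟨(j ^ n)⁻¹ * c * j ^ n, by
      simpa using (Subgroup.mem_normalizer_iff.1 (Subgroup.pow_mem _ hj' n) c).1 hc, by group⟩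
  have e4 : ∀ d ∈ C, ∀ e ∈ C, (s 0 c - s 2 c) * (s 0 d - s 1 d) * (s 0 e - s 1 e) = 0 := by
    intro d hd e he
    obtain ⟨d, hd', rfl⟩ := hback 1 d hd
    obtain ⟨e, he', rfl⟩ := hback 2 e he
    simp only [← hsh]
    exact e3 c hc d hd' e he'
  have e5 : (s 0 c - s 2 c) ^ 3 = 0 := by
    have hc1 := hmem 1 c hc
    have a1 := e4 c hc c hc
    have a2 := e4 c hc _ hc1
    have a3 := e4 _ hc1 c hc
    have a4 := e4 _ hc1 _ hc1
    simp only [← hsh] at a2 a3 a4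
    rw [← add_zero (0 : R), ← add_zero (0 + 0 : R), ← add_zero (0 + 0 + 0 : R)]
    nth_rewrite 1 [← a1]
    nth_rewrite 1 [← a2]
    nth_rewrite 1 [← a3]
    rw [← a4]
    noncomm_ring
  have hc2 := hmem 2 c hc
  obtain ⟨m, hm⟩ := hC2 _ (C.mul_mem hc2 (C.inv_mem hc))
  have h1 : ψ (j ^ 2 * c * (j ^ 2)⁻¹ * c⁻¹) = 1 := by
    refine eq_one_of_unipotent h2 ⟨3, ?_⟩ (m := m) (by rw [← map_pow, hm, map_one])
    have e6 : ψ (j ^ 2 * c * (j ^ 2)⁻¹ * c⁻¹) - 1 = -(s 0 c - s 2 c) * ψ c⁻¹ := by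
      rw [hs0, neg_sub, sub_mul, ← map_mul ψ c, mul_inv_cancel, map_one, map_mul]
    have c1 : Commute (-(s 0 c - s 2 c)) (ψ c⁻¹) := by
      rw [← hs0 c⁻¹]
      exact (Commute.sub_left (hcm _ _ c hc _ (C.inv_mem hc))
        (hcm _ _ c hc _ (C.inv_mem hc))).neg_left
    rw [e6, c1.mul_pow, neg_pow, e5, mul_zero, zero_mul]
  rw [← inv_mul_cancel_right (j ^ 2 * c * (j ^ 2)⁻¹) c, map_mul, h1, one_mul]

/-- Squares of quarter turns in a finite `2`-group commute. -/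
theorem commute_sq (h2 : IsUnit (2 : R)) (ψ : I →* R) {S : Subgroup I} [Finite S]
    (hS : IsPGroup 2 S) {j k : I} (hj : j ∈ S) (hk : k ∈ S)
    (hqj : (ψ j - 1) * (1 + ψ j ^ 2) = 0) (hqk : (ψ k - 1) * (1 + ψ k ^ 2) = 0) :
    Commute (ψ j ^ 2) (ψ k ^ 2) := by
  let φ : S →* R := ψ.comp S.subtype
  let φ' : S ⧸ φ.ker →* R := QuotientGroup.lift φ.ker φ le_rfl
  have hinj : Function.Injective φ' := by
    rw [injective_iff_map_eq_one]
    intro x hx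
    obtain ⟨g, rfl⟩ := QuotientGroup.mk_surjective x
    exact (QuotientGroup.eq_one_iff g).2 hx
  have hQ := hS.to_quotient φ.ker
  have := hQ.isNilpotent
  obtain ⟨C, -, hCn, hCc, hC⟩ := PG.exists_normal_scn_ge (⊥ : Subgroup (S ⧸ φ.ker))
  have hcm : ∀ a ∈ C, ∀ b ∈ C, a * b = b * a := fun a ha b hb =>
    congrArg Subtype.val (mul_comm' (⟨a, ha⟩ : C) ⟨b, hb⟩)
  have key : ∀ x : S ⧸ φ.ker, (φ' x - 1) * (1 + φ' x ^ 2) = 0 → x ^ 2 ∈ C := by
    intro x hx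
    rw [← hC, Subgroup.mem_centralizer_iff]
    intro c hc
    have := hinj (sq_comm_of_abelian h2 φ' hcm (fun a _ => hQ a)
      (Subgroup.le_normalizer_of_normal (K := ⊤) trivial) hx hc)
    exact (mul_inv_eq_iff_eq_mul.1 this).symm
  have := congrArg φ' (hcm _ (key ((⟨j, hj⟩ : S) : S ⧸ φ.ker) hqj) _
    (key ((⟨k, hk⟩ : S) : S ⧸ φ.ker) hqk))
  rw [map_mul, map_mul, map_pow, map_pow] at this
  exact this

/-- A quarter turn in a plane. -/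
def Refl (ψ : I →* R) (j : I) : Prop :=
  ψ j ^ 4 = 1 ∧ (ψ j - 1) * (1 + ψ j ^ 2) = 0 ∧
    ∀ z : I, ψ z ^ 2 = 1 → Commute (ψ z) (ψ j ^ 2) →
      (1 - ψ j ^ 2) * (1 + ψ z) = 0 ∨ (1 - ψ j ^ 2) * (1 - ψ z) = 0

theorem Refl.conj {ψ : I →* R} {j : I} (h : Refl ψ j) (t : I) : Refl ψ (t * j * t⁻¹) := by
  have e : ∀ x : R, ψ t * x * ψ t⁻¹ = 0 ↔ x = 0 := fun x => by
    rw [((Group.isUnit t⁻¹).map ψ).mul_left_eq_zero, ((Group.isUnit t).map ψ).mul_right_eq_zero]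
  have h1 : ψ t⁻¹ * ψ t = 1 := by rw [← map_mul, inv_mul_cancel, map_one]
  have h1' : ψ t * ψ t⁻¹ = 1 := by rw [← map_mul, mul_inv_cancel, map_one]
  have hp : ∀ n, ψ (t * j * t⁻¹) ^ n = ψ t * ψ j ^ n * ψ t⁻¹ := fun n => by
    rw [← map_pow, conj_pow, map_mul, map_mul, map_pow]
  have hm : ∀ a b : R, ψ t * a * ψ t⁻¹ * (ψ t * b * ψ t⁻¹) = ψ t * (a * b) * ψ t⁻¹ := by
    intro a b
    simp only [mul_assoc]
    rw [← mul_assoc (ψ t⁻¹), h1, one_mul]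
  have ha : ∀ a : R, 1 + ψ t * a * ψ t⁻¹ = ψ t * (1 + a) * ψ t⁻¹ := fun a => by
    rw [mul_add, add_mul, mul_one, h1']
  have hb : ∀ a : R, 1 - ψ t * a * ψ t⁻¹ = ψ t * (1 - a) * ψ t⁻¹ := fun a => by
    rw [mul_sub, sub_mul, mul_one, h1']
  refine ⟨by rw [hp, h.1, mul_one, h1'], ?_, fun z hz hc => ?_⟩
  · rw [hp, ha, ← neg_sub, map_mul, map_mul, hb, neg_mul, hm, ← neg_sub (ψ j), neg_mul, h.2.1]
    simp
  · obtain ⟨z, rfl⟩ : ∃ z', z = t * z' * t⁻¹ := ⟨t⁻¹ * z * t, by group⟩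
    rw [hp] at hc ⊢
    rw [map_mul, map_mul] at hz hc ⊢
    rw [hb, ha, hb, hm, hm, e, e]
    refine h.2.2 z ?_ ?_
    · rw [← sub_eq_zero, ← e, mul_sub, sub_mul, mul_one, h1', pow_two, ← hm, ← pow_two, hz,
        sub_self]
    · have := hc.eq
      rw [hm, hm, ← sub_eq_zero, ← sub_mul, ← mul_sub, e, sub_eq_zero] at this
      exact this

theorem two_mul_sub_one {a : R} (h : (a - 1) * (1 + a ^ 2) = 0) :
    2 * (a - 1) = (a - 1) * (1 - a ^ 2) ∧ 2 * (a - 1) = (1 - a ^ 2) * (a - 1) := by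
  constructor
  · rw [← sub_eq_zero, ← h]; noncomm_ring
  · rw [← sub_eq_zero, ← h]; noncomm_ring

theorem Refl.sq_eq_or_commute (h2 : IsUnit (2 : R)) {ψ : I →* R} {S : Subgroup I} [Finite S]
    (hS : IsPGroup 2 S) {j k : I} (hj : j ∈ S) (hk : k ∈ S) (hrj : Refl ψ j) (hrk : Refl ψ k) :
    ψ j ^ 2 = ψ k ^ 2 ∨ Commute (ψ j) (ψ k) := by
  have hc := commute_sq h2 ψ hS hj hk hrj.2.1 hrk.2.1
  have aux : (1 - ψ j ^ 2) * (1 - ψ k ^ 2) = 0 → Commute (ψ j) (ψ k) := by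
    intro h0
    have h0' : (1 - ψ k ^ 2) * (1 - ψ j ^ 2) = 0 := by
      rw [← h0]
      exact ((Commute.one_left _).sub_left ((Commute.one_right _).sub_right hc.symm)).eq
    have a1 : (ψ j - 1) * (ψ k - 1) = 0 := by
      rw [← h2.mul_right_eq_zero, ← h2.mul_right_eq_zero]
      calc _ = 2 * (ψ j - 1) * (2 * (ψ k - 1)) := by noncomm_ring
        _ = 0 := by
          rw [(two_mul_sub_one hrj.2.1).1, (two_mul_sub_one hrk.2.1).2, mul_assoc,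
            ← mul_assoc (1 - ψ j ^ 2), h0, zero_mul, mul_zero]
    have a2 : (ψ k - 1) * (ψ j - 1) = 0 := by
      rw [← h2.mul_right_eq_zero, ← h2.mul_right_eq_zero]
      calc _ = 2 * (ψ k - 1) * (2 * (ψ j - 1)) := by noncomm_ring
        _ = 0 := by
          rw [(two_mul_sub_one hrk.2.1).1, (two_mul_sub_one hrj.2.1).2, mul_assoc,
            ← mul_assoc (1 - ψ k ^ 2), h0', zero_mul, mul_zero]
    change ψ j * ψ k = ψ k * ψ j
    rw [← sub_eq_zero, ← sub_eq_zero.2 (a1.trans a2.symm)]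
    noncomm_ring
  rcases hrj.2.2 (k ^ 2) (by rw [map_pow, ← pow_mul, hrk.1]) (by rw [map_pow]; exact hc.symm)
    with h | h
  swap
  · exact Or.inr (aux (by rwa [map_pow] at h))
  rcases hrk.2.2 (j ^ 2) (by rw [map_pow, ← pow_mul, hrj.1]) (by rw [map_pow]; exact hc)
    with h' | h'
  swap
  · refine Or.inr (aux ?_)
    rw [map_pow] at h'
    rw [← h']
    exact ((Commute.one_left _).sub_left ((Commute.one_right _).sub_right hc)).eq
  left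
  rw [map_pow] at h h'
  rw [← sub_eq_zero, ← h2.mul_right_eq_zero, ← sub_eq_zero.2 (h'.trans h.symm)]
  have := hc.eq
  rw [sub_mul, sub_mul, mul_add, mul_add, mul_add, mul_add, this]
  noncomm_ring

theorem Refl.commute_of_sq_eq_one (h2 : IsUnit (2 : R)) {ψ : I →* R} {S : Subgroup I} [Finite S]
    (hS : IsPGroup 2 S) {j k : I} (hj : j ∈ S) (hk : k ∈ S) (hrj : Refl ψ j) (hk2 : ψ k ^ 2 = 1)
    (h4 : ψ (j⁻¹ * k) ^ 4 = 1) : Commute (ψ j) (ψ k) := by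
  have hkk : ψ k⁻¹ = ψ k := by
    rw [← one_mul (ψ k⁻¹), ← hk2, pow_two, mul_assoc, ← map_mul, mul_inv_cancel, map_one, mul_one]
  have hsq : ψ j ^ 2 = ψ (k * j * k⁻¹) ^ 2 := by
    refine (hrj.sq_eq_or_commute h2 hS hj (S.mul_mem (S.mul_mem hk hj) (S.inv_mem hk))
      (hrj.conj k)).elim id fun hc => ?_
    have e1 : ψ (j⁻¹ * k)⁻¹ ^ 2 = ψ (k * j * k⁻¹) * ψ j := by
      rw [mul_inv_rev, inv_inv, map_mul, hkk, map_mul, map_mul, hkk, pow_two, mul_assoc,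
        mul_assoc, mul_assoc]
    have e2 : ψ (j⁻¹ * k)⁻¹ ^ 4 = 1 := by
      exact pow_inv_eq_one h4
    rw [show 4 = 2 * 2 from rfl, pow_mul, e1, hc.symm.mul_pow] at e2
    calc ψ j ^ 2 = ψ (k * j * k⁻¹) ^ 2 * ψ j ^ 2 * ψ j ^ 2 := by rw [e2, one_mul]
      _ = _ := by rw [mul_assoc, ← pow_add, hrj.1, mul_one]
  have hc : Commute (ψ k) (ψ j ^ 2) := by
    change ψ k * ψ j ^ 2 = ψ j ^ 2 * ψ k
    conv_rhs => rw [hsq]
    rw [← map_pow ψ (k * j * k⁻¹), conj_pow, ← map_mul, inv_mul_cancel_right, map_mul, map_pow]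
  obtain ⟨t1, t2⟩ := two_mul_sub_one hrj.2.1
  have hc' : Commute (ψ k) (1 - ψ j ^ 2) := (Commute.one_right _).sub_right hc
  have aux : ∀ ε : R, (∀ x, ε * x = x * ε) → (1 - ψ j ^ 2) * ψ k = (1 - ψ j ^ 2) * ε →
      Commute (ψ j) (ψ k) := by
    intro ε hε h
    have a1 : 2 * ((ψ j - 1) * ψ k) = 2 * (ψ k * (ψ j - 1)) := by
      calc _ = 2 * (ψ j - 1) * ψ k := by noncomm_ring
        _ = (ψ j - 1) * (1 - ψ j ^ 2) * ε := by rw [t1, mul_assoc, h, mul_assoc]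
        _ = (1 - ψ j ^ 2) * ε * (ψ j - 1) := by rw [← t1, t2, mul_assoc, ← hε, mul_assoc]
        _ = ψ k * (2 * (ψ j - 1)) := by rw [← h, ← hc'.eq, t2, mul_assoc]
        _ = _ := by noncomm_ring
    have a2 := h2.mul_left_cancel a1
    change ψ j * ψ k = ψ k * ψ j
    rw [← sub_eq_zero, ← sub_eq_zero.2 a2]
    noncomm_ring
  rcases hrj.2.2 k hk2 hc with h | h
  · refine aux (-1) (fun x => by simp) ?_
    rw [← sub_eq_zero, ← h]; noncomm_ring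
  · refine aux 1 (fun x => by simp) ?_
    rw [← sub_eq_zero, ← neg_eq_zero, ← h]; noncomm_ring

/-- The key property of quarter turns. -/
theorem key (h2 : IsUnit (2 : R)) {ψ : I →* R} {S : Subgroup I} [Finite S]
    (hS : IsPGroup 2 S) {j k : I} (hj : j ∈ S) (hk : k ∈ S) (h4 : ψ (j⁻¹ * k) ^ 4 = 1)
    (hrj : ψ j ^ 2 = 1 ∨ Refl ψ j) (hrk : ψ k ^ 2 = 1 ∨ Refl ψ k) :
    ψ ((j ^ 2)⁻¹ * k ^ 2) = 1 ∨ ψ ((j ^ 2)⁻¹ * k ^ 2) = ψ ((j⁻¹ * k) ^ 2) := by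
  have a1 : ψ j ^ 2 = ψ k ^ 2 → ψ ((j ^ 2)⁻¹ * k ^ 2) = 1 := fun h => by
    rw [map_mul, map_pow, ← h, ← map_pow, ← map_mul, inv_mul_cancel, map_one]
  have a2 : Commute (ψ j) (ψ k) → ψ ((j ^ 2)⁻¹ * k ^ 2) = ψ ((j⁻¹ * k) ^ 2) := fun h => by
    have h' : Commute (ψ j⁻¹) (ψ k) := by
      change ψ j⁻¹ * ψ k = ψ k * ψ j⁻¹
      rw [← mul_one (ψ j⁻¹ * ψ k), ← map_one ψ, ← mul_inv_cancel j, map_mul, ← mul_assoc,
        mul_assoc (ψ j⁻¹), ← h.eq, ← mul_assoc, ← map_mul, inv_mul_cancel, map_one, one_mul]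
    rw [map_pow, map_mul, map_mul, h'.mul_pow, ← inv_pow, map_pow, map_pow]
  rcases hrj with hrj | hrj <;> rcases hrk with hrk | hrk
  · exact Or.inl (a1 (hrj.trans hrk.symm))
  · refine Or.inr (a2 (hrk.commute_of_sq_eq_one h2 hS hk hj hrj ?_).symm)
    rw [show k⁻¹ * j = (j⁻¹ * k)⁻¹ by group]
    exact pow_inv_eq_one h4
  · exact Or.inr (a2 (hrj.commute_of_sq_eq_one h2 hS hj hk hrk h4))
  · exact (hrj.sq_eq_or_commute h2 hS hj hk hrk).imp a1 a2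

end Cfsg.Lib.Solv.TwoLen
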