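import Cfsg.Agent.Solv.TwoLenSym
import Cfsg.Agent.Solv.TwoLenRing
import Cfsg.Agent.Solv.PowSucc

/-!
# Exceptional `2`-elements in the Hall–Higman theorem act as quarter turns
-/

set_option autoImplicit false

open Module
open scoped commutatorElement

namespace Cfsg.Lib.Solv.TwoLen

open HH

universe u

variable {K : Type*} [Field K] {D : Type u} [Group D]
variable {W : Type*} [AddCommGroup W] [Module K W]

/-- Elements with pairwise traceless quotients are linearly independent. -/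
theorem card_le_sq_of_trace {E ι : Type*} [Group E] [Finite ι] [FiniteDimensional K W]
    (σ : E →* End K W) (hW : (finrank K W : K) ≠ 0) (g : ι → E)
    (h : ∀ i j, i ≠ j → LinearMap.trace K W (σ ((g i)⁻¹ * g j)) = 0) :
    Nat.card ι ≤ finrank K W ^ 2 := by
  classical
  have := Fintype.ofFinite ι
  have hli : LinearIndependent K fun i => σ (g i) := by
    rw [Fintype.linearIndependent_iff]
    intro c hc i
    have := congrArg (fun f => LinearMap.trace K W (σ (g i)⁻¹ * f)) hc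
    simp only [Finset.mul_sum, map_sum, mul_smul_comm, map_smul, ← map_mul, mul_zero,
      map_zero] at this
    rw [Finset.sum_eq_single i (fun j _ hj => by rw [h i j hj.symm, smul_zero]) (by simp),
      inv_mul_cancel, map_one, LinearMap.trace_one] at this
    exact (smul_eq_zero.1 this).resolve_right hW
  have := hli.fintype_card_le_finrank
  rwa [finrank_linearMap, ← pow_two, ← Nat.card_eq_fintype_card] at this

theorem trace_eq_zero_of_conj {E : Type*} [Group E] [FiniteDimensional K W] (σ : E →* End K W)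
    {g h : E} {c : K} (hc : c ≠ 1) (e : σ (h * g * h⁻¹) = c • σ g) :
    LinearMap.trace K W (σ g) = 0 := by
  have := congrArg (LinearMap.trace K W) e
  rw [map_mul, LinearMap.trace_mul_comm, ← map_mul, inv_mul_cancel_left, map_smul,
    smul_eq_mul] at this
  exact (mul_left_eq_self₀.1 this.symm).resolve_left hc

/-- A unipotent map acting compatibly on a space of homomorphisms acts trivially on it when the
Jordan block is as long as possible. -/
theorem comp_eq_comp {U : Type*} [AddCommGroup U] [Module K U] [CharP K 2]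
    (H : Submodule K (U →ₗ[K] W)) (hH : ∀ h ∈ H, h ≠ 0 → Function.Injective h)
    {u : End K W} {u₁ : End K U} {n : ℕ} (hu : u ^ 2 ^ (n + 1) = 1) (hu₁ : u₁ ^ 2 ^ (n + 1) = 1)
    (hs : (u - 1) ^ (2 ^ (n + 1) - 1) = 0) (hs₁ : (u₁ - 1) ^ (2 ^ (n + 1) - 1) = 0)
    (hs₂ : (u₁ - 1) ^ (2 ^ (n + 1) - 2) ≠ 0)
    (hinv : ∀ h ∈ H, u ∘ₗ h ∘ₗ (u₁ ^ (2 ^ (n + 1) - 1)) ∈ H) {h : U →ₗ[K] W} (hh : h ∈ H) :
    u ∘ₗ h = h ∘ₗ u₁ := by
  have hN : 2 ≤ 2 ^ (n + 1) := by
    rw [pow_succ]; have := Nat.one_le_two_pow (n := n); omega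
  set v := u₁ ^ (2 ^ (n + 1) - 1) with hv
  have hvu : v * u₁ = 1 := by rw [hv, ← pow_succ, Nat.sub_add_cancel (by omega), hu₁]
  let Φ : End K (U →ₗ[K] W) := (LinearMap.llcomp K U W W u) ∘ₗ (LinearMap.lcomp K W v)
  have hΦ : ∀ f, Φ f = u ∘ₗ f ∘ₗ v := fun _ => rfl
  have hΦp : ∀ i f, (Φ ^ i) f = (u ^ i) ∘ₗ f ∘ₗ (v ^ i) := by
    intro i f
    induction i with
    | zero => rfl
    | succ i ih => rw [pow_succ', End.mul_apply, ih, pow_succ', pow_succ]; rfl
  have hΦN : (Φ - 1) ^ 2 ^ (n + 1) = 0 := by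
    rw [sub_one_pow_char_pow K 2, sub_eq_zero]
    refine LinearMap.ext fun f => ?_
    rw [hΦp, hu, hv, ← pow_mul, mul_comm, pow_mul, hu₁, one_pow]
    rfl
  have hT : ∀ i : ℕ, ∀ f ∈ H, ((Φ - 1) ^ i : End K (U →ₗ[K] W)) f ∈ H := by
    intro i f hf
    induction i with
    | zero => exact hf
    | succ i ih => rw [pow_succ', End.mul_apply]; exact H.sub_mem (hinv _ ih) ih
  have hkey : ∀ f w, u (f w) = Φ f (u₁ w) := fun f w => by
    rw [hΦ, LinearMap.comp_apply, LinearMap.comp_apply, ← End.mul_apply v, hvu, End.one_apply]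
  by_contra hne
  have h0 : (Φ - 1) h ≠ 0 := by
    intro h0
    apply hne
    ext w
    rw [LinearMap.comp_apply, hkey, sub_eq_zero.1 (show Φ h - h = 0 from h0)]
    rfl
  obtain ⟨j, -, hj0, hj1⟩ := exists_last_ne_zero hΦN h0
  set a := ((Φ - 1) ^ j) h with ha
  set b := ((Φ - 1) ^ j) ((Φ - 1) h) with hb
  have hab : Φ a = a + b := by
    rw [hb, ← End.mul_apply _ (Φ - 1), ← pow_succ, pow_succ', End.mul_apply, ← ha, LinearMap.sub_apply,
      End.one_apply, add_sub_cancel]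
  have hbb : Φ b = b := sub_eq_zero.1 hj1
  have hbH : b ∈ H := by
    have := hT (j + 1) h hh
    rwa [pow_succ, End.mul_apply] at this
  have hb1 : ∀ w, u (b w) = b (u₁ w) := fun w => by rw [hkey, hbb]
  have ha1 : ∀ m w, ((u - 1) ^ (m + 1)) (a w) =
      a (((u₁ - 1) ^ (m + 1)) w) + (m + 1) • b (((u₁ - 1) ^ m) (u₁ w)) := by
    intro m
    have h1 : ∀ w, (u - 1) (a w) = a ((u₁ - 1) w) + b (u₁ w) := fun w => by
      rw [LinearMap.sub_apply, hkey, hab, LinearMap.sub_apply, map_sub, LinearMap.add_apply]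
      simp only [End.one_apply]
      abel
    induction m with
    | zero => intro w; simpa using h1 w
    | succ m ih =>
      intro w
      have hc : Commute (u₁ - 1) u₁ := (Commute.refl _).sub_left (Commute.one_left _)
      rw [pow_succ, End.mul_apply, h1, map_add, ih, sub_one_pow_apply_of_comm hb1,
        ← End.mul_apply, ← pow_succ, ← End.mul_apply u₁, ← hc.eq, End.mul_apply (u₁ - 1),
        ← End.mul_apply ((u₁ - 1) ^ m), ← pow_succ, add_assoc, ← succ_nsmul]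
  apply hs₂
  obtain ⟨m, hm⟩ : ∃ m, 2 ^ (n + 1) = m + 2 := ⟨2 ^ (n + 1) - 2, by omega⟩
  rw [hm] at hs hs₁ ⊢
  ext w
  have h1 := ha1 m (v w)
  have huv : u₁ * v = 1 := by rw [hv, ← pow_succ', Nat.sub_add_cancel (by omega), hu₁]
  rw [show m + 1 = m + 2 - 1 from rfl, hs, hs₁, LinearMap.zero_apply, LinearMap.zero_apply,
    map_zero, zero_add, ← End.mul_apply u₁, huv, End.one_apply, ← Nat.cast_smul_eq_nsmul K,
    eq_comm, smul_eq_zero] at h1
  rcases h1 with h1 | h1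
  · exfalso
    have h2 : ((m + 2 : ℕ) : K) = 0 := by
      rw [← hm, CharP.cast_eq_zero_iff K 2]
      exact dvd_pow_self 2 (Nat.succ_ne_zero n)
    rw [show m + 2 = (m + 2 - 1) + 1 from rfl, Nat.cast_succ, h1, zero_add] at h2
    exact one_ne_zero h2
  · exact hH b hbH hj0 (h1.trans (map_zero b).symm)

variable [IsAlgClosed K] [FiniteDimensional K W] [CharP K 2] [Finite D]
variable {q : ℕ} [hq : Fact q.Prime] {σ : D →* End K W}

theorem Sym.exc [Nontrivial W] (hq2 : q ≠ 2) (hD : IsPGroup q D) (hσ : Irr σ) (S : Sym q σ)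
    {β : inertia σ} {u : End K W} (hu : ∀ g, u * σ g = σ (β.1 g) * u) {n : ℕ}
    (hβ : β ^ 2 ^ (n + 1) = 1) (hun : u ^ 2 ^ (n + 1) = 1)
    (hs : (u - 1) ^ (2 ^ (n + 1) - 1) = 0) (hy : S.ψ (β ^ 2 ^ n) ≠ 1) :
    (∀ m, S.ψ (β ^ 2 ^ n) m = m → S.ψ β m = m) ∧
      Nat.card {m : S.M // S.ψ (β ^ 2 ^ n) m = -m} ≤ q ^ 2 := by
  classical
  set y := β ^ 2 ^ n with hydef
  have hyy : ∀ m, S.ψ y (S.ψ y m) = m := fun m => by
    rw [← End.mul_apply, ← map_mul, hydef, ← pow_two, ← pow_mul, ← pow_succ, hβ, map_one,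
      End.one_apply]
  have h2 : (2 : ZMod q) ≠ 0 := by
    intro h
    have := (ZMod.natCast_eq_zero_iff 2 q).1 (by exact_mod_cast h)
    exact hq2 ((Nat.prime_dvd_prime_iff_eq hq.out Nat.prime_two).1 this)
  let D₁ : Subgroup D :=
    { carrier := {g | S.ψ y (S.π g) = -S.π g}
      one_mem' := by simp [S.π_one]
      mul_mem' := fun {a b} ha hb => by
        change S.ψ y _ = _ at ha hb ⊢
        rw [S.π_mul, map_add, ha, hb, neg_add]
      inv_mem' := fun {a} ha => by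
        change S.ψ y _ = _ at ha ⊢
        rw [S.π_inv, map_neg, ha] }
  have hD₁ : ∀ g, g ∈ D₁ ↔ S.ψ y (S.π g) = -S.π g := fun _ => Iff.rfl
  have hdec : ∀ g, ∃ c, S.ψ y (S.π c) = S.π c ∧ c⁻¹ * g ∈ D₁ := by
    intro g
    obtain ⟨c, hc⟩ := S.π_surj ((2 : ZMod q)⁻¹ • (S.π g + S.ψ y (S.π g)))
    refine ⟨c, by rw [hc, map_smul, map_add, hyy, add_comm], ?_⟩
    rw [hD₁, S.π_mul, S.π_inv, hc, map_add, map_neg, map_smul, map_add, hyy, eq_neg_iff_add_eq_zero]
    have : S.π g + S.ψ y (S.π g) = (2 : ZMod q) • (2 : ZMod q)⁻¹ • (S.π g + S.ψ y (S.π g)) := by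
      rw [smul_smul, mul_inv_cancel₀ h2, one_smul]
    rw [two_smul] at this
    rw [add_comm (S.ψ y (S.π g)) (S.π g), ← sub_eq_zero.2 this]
    abel
  have hcm : ∀ c, S.ψ y (S.π c) = S.π c → ∀ e ∈ D₁, Commute (σ e) (σ c) := fun c hc e he =>
    S.commute_of_eigen he hc
  have hinvD : ∀ T : Submodule K W, (∀ c, S.ψ y (S.π c) = S.π c → ∀ w ∈ T, σ c w ∈ T) →
      (∀ e ∈ D₁, ∀ w ∈ T, σ e w ∈ T) → Inv σ T := by
    intro T h1 h2 g w hw
    obtain ⟨c, hc, he⟩ := hdec g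
    rw [← mul_inv_cancel_left c g, map_mul, End.mul_apply]
    exact h1 c hc _ (h2 _ he w hw)
  have hscal : ∀ g ∈ D₁, (∀ e ∈ D₁, Commute (σ g) (σ e)) → g ∈ scal σ := by
    intro g hg h
    refine mem_scal_of_commute hσ fun k => ?_
    obtain ⟨c, hc, he⟩ := hdec k
    rw [← mul_inv_cancel_left c k, map_mul]
    exact (hcm c hc g hg).mul_right (h _ he)
  have hβD : ∀ a : Subgroup.zpowers β, ∀ g ∈ D₁,
      ((inertia σ).subtype.comp (Subgroup.zpowers β).subtype) a g ∈ D₁ := by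
    rintro ⟨a, k, rfl⟩ g hg
    have hc : Commute y (β ^ k) := (Commute.refl β).pow_left _ |>.zpow_right _
    change S.ψ y (S.π ((β ^ k).1 g)) = -S.π ((β ^ k).1 g)
    rw [← S.ψ_π, ← End.mul_apply, ← map_mul, hc.eq, map_mul, End.mul_apply, (hD₁ g).1 hg, map_neg]
  let β₁ : MulAut D₁ := Coprime.restrictAut _ D₁ hβD ⟨β, Subgroup.mem_zpowers β⟩
  have hβ₁ : ∀ i (g : D₁), ((β₁ ^ i) g : D) = (β ^ i).1 g := fun i g => by
    rw [← map_pow]; rfl
  have hβ₁N : β₁ ^ 2 ^ (n + 1) = 1 := by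
    ext g
    rw [hβ₁, hβ]
    rfl
  let τ : D₁ →* End K W := σ.comp D₁.subtype
  have huτ : ∀ g, u * τ g = τ (β₁ g) * u := fun g => hu g
  have hD₁K : (Nat.card D₁ : K) ≠ 0 := natCast_card_ne_zero K 2 (by
    obtain ⟨a, ha⟩ := IsPGroup.iff_card.1 (hD.to_subgroup D₁)
    rw [ha]
    exact Nat.Coprime.pow_left _ ((Nat.coprime_primes hq.out Nat.prime_two).2 hq2))
  obtain ⟨U, hU, -, hU0, hσ₁⟩ := exists_irr_le τ (U := ⊤) (fun _ _ _ => trivial) top_ne_bot
  have : Nontrivial U := Submodule.nontrivial_iff_ne_bot.2 hU0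
  set σ₁ := res τ U hU with hσ₁def
  have hN := Nat.two_pow_pos (n + 1)
  have huinj : Function.Injective u := by
    intro a b hab
    have := congrArg (u ^ (2 ^ (n + 1) - 1) : End K W) hab
    rwa [← End.mul_apply, ← End.mul_apply, ← pow_succ, Nat.sub_add_cancel hN, hun] at this
  obtain ⟨w₀, hw₀⟩ := exists_ne (0 : U)
  have hin : β₁ ∈ inertia σ₁ := by
    obtain ⟨p, hp1, hp2⟩ := exists_leftInverse hD₁K σ₁ τ (h := U.subtype) U.injective_subtype
      (fun _ _ => rfl)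
    by_contra hnot
    let T : Submodule K W :=
      { carrier := {w | ∀ c, S.ψ y (S.π c) = S.π c → p (σ c w) = 0}
        zero_mem' := fun c _ => by simp
        add_mem' := fun ha hb c hc => by rw [map_add, map_add, ha c hc, hb c hc, add_zero]
        smul_mem' := fun a w hw c hc => by rw [map_smul, map_smul, hw c hc, smul_zero] }
    have hT : Inv σ T := by
      refine hinvD T (fun c hc w hw c' hc' => ?_) (fun e he w hw c hc => ?_)
      · rw [← End.mul_apply, ← map_mul]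
        exact hw _ (by rw [S.π_mul, map_add, hc, hc'])
      · rw [← End.mul_apply, ← (hcm c hc e he).eq, End.mul_apply]
        exact (hp2 ⟨e, he⟩ _).trans (by rw [hw c hc, map_zero])
    have hmem : u w₀ ∈ T := by
      intro c hc
      refine proj_eq_zero_of_not_mem_inertia hσ₁ (h := U.subtype) (fun _ _ => rfl) hp2 hnot
        (x := σ c * u) (fun g => ?_) w₀
      rw [mul_assoc, huτ, ← mul_assoc, ← mul_assoc]
      exact congrArg (· * u) (hcm c hc _ (β₁ g).2).eq.symm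
    rcases hσ T hT with h | h
    · rw [h, Submodule.mem_bot] at hmem
      exact hw₀ (Subtype.ext (huinj (hmem.trans (map_zero u).symm)))
    · have := (h ▸ Submodule.mem_top : (w₀ : W) ∈ T) 1 (by rw [S.π_one, map_zero])
      rw [map_one] at this
      exact hw₀ ((hp1 w₀).symm.trans this)
  obtain ⟨h₁, u₁, hinj, hh₁, hxu, hu₁⟩ := exists_stable_copy hσ₁ (τ := τ) (h₀ := U.subtype)
    (fun h => hU0 (by rw [← U.range_subtype, h, LinearMap.range_zero])) (fun _ _ => rfl) hin huτ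
  have hu₁N : u₁ ^ 2 ^ (n + 1) = 1 := by
    ext1 w
    apply hinj
    rw [← pow_apply_of_comm hxu, hun]
    rfl
  have hs₁ : (u₁ - 1) ^ (2 ^ (n + 1) - 1) = 0 := by
    ext1 w
    apply hinj
    rw [← sub_one_pow_apply_of_comm hxu, hs, LinearMap.zero_apply, LinearMap.zero_apply, map_zero]
  have hsc : ∀ (g : D₁) (c : K), σ g = c • 1 → σ₁ g = c • 1 := fun g c h => by
    ext w
    exact LinearMap.congr_fun h w
  have hsc' : ∀ g : D₁, (∃ c : K, σ₁ g = c • 1) → (g : D) ∈ scal σ := by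
    rintro g ⟨c, hc⟩
    refine hscal g g.2 fun e he => ?_
    obtain ⟨d, hd⟩ := S.commutator_mem g e
    have h1 := hsc ⁅g, ⟨e, he⟩⁆ d hd
    rw [commutatorElement_def, map_mul, map_mul, map_mul, hc, smul_mul_assoc, one_mul,
      ← mul_one (σ₁ ⟨e, he⟩), ← mul_smul_comm, ← hc, mul_assoc (σ₁ _), ← map_mul, mul_inv_cancel,
      map_one, mul_one, ← map_mul, mul_inv_cancel, map_one] at h1
    have hd1 : d = 1 := smul_left_injective K hw₀
      ((LinearMap.congr_fun h1 w₀).symm.trans (one_smul K w₀).symm)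
    rw [hd1, one_smul] at hd
    change _ = _
    rw [← map_mul, ← map_mul, show (g : D) * e = ⁅(g : D), e⁆ * (e * g) by
      rw [commutatorElement_def]; group, map_mul, hd, one_mul]
  have hhalf : ∀ m : S.M, m = -m → m = 0 := fun m hm => by
    rw [eq_neg_iff_add_eq_zero, ← two_smul (ZMod q)] at hm
    exact (smul_eq_zero.1 hm).resolve_left h2
  have hfree : ∀ g : D₁, (∃ c : K, σ₁ g = c • 1) ∨
      ∀ i, 0 < i → i < 2 ^ (n + 1) → (β₁ ^ i) g ≠ g := by
    intro g
    rw [or_iff_not_imp_right]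
    intro hg
    push Not at hg
    obtain ⟨i, hi0, hi, hg⟩ := hg
    have h1 := pow_apply_eq_of_pow_apply_eq (p := 2) (a := 0) hβ₁N (Nat.zero_le _) hi0 hi
      (by rwa [pow_zero, pow_one])
    have h3 : S.ψ y (S.π g) = S.π g := by rw [S.ψ_π, hydef, ← hβ₁, h1]
    obtain ⟨c, hc⟩ := (S.π_eq_zero g).1 (hhalf _ (h3.symm.trans g.2))
    exact ⟨c, hsc g c hc⟩
  have hu1 : u₁ ≠ 1 := by
    rintro rfl
    apply hy
    have h1 : ∀ g : D₁, S.π g = 0 := by
      intro g
      have h3 := pow_mul_rep hu₁ (2 ^ n) g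
      rw [one_pow, one_mul, mul_one] at h3
      have h4 := hsc' ((β₁ ^ 2 ^ n) g * g⁻¹)
        ⟨1, by rw [map_mul, ← h3, ← map_mul, mul_inv_cancel, map_one, one_smul]⟩
      rw [Subgroup.coe_mul, Subgroup.coe_inv, ← S.π_eq_iff, hβ₁, ← S.ψ_π] at h4
      exact hhalf _ (h4.symm.trans g.2)
    ext m
    obtain ⟨g, rfl⟩ := S.π_surj m
    obtain ⟨c, hc, he⟩ := hdec g
    rw [← mul_inv_cancel_left c g, S.π_mul, h1 ⟨_, he⟩, add_zero, hc, End.one_apply]
  obtain ⟨-, hrk⟩ := critical 2 hD₁K hσ₁ hu₁ hβ₁N hu₁N hfree hu1 hs₁ (by omega)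
  have hs₂ : (u₁ - 1) ^ (2 ^ (n + 1) - 2) ≠ 0 := fun h => by
    have := (critical 2 hD₁K hσ₁ hu₁ hβ₁N hu₁N hfree hu1 h (by omega)).1
    have h4 : 2 ≤ 2 ^ (n + 1) := by
      rw [pow_succ]; have := Nat.one_le_two_pow (n := n); omega
    omega
  constructor
  · let H : Submodule K (U →ₗ[K] W) :=
      { carrier := {h | ∀ g w, h (σ₁ g w) = τ g (h w)}
        zero_mem' := fun g w => by simp
        add_mem' := fun ha hb g w => by simp [ha g w, hb g w]
        smul_mem' := fun c a ha g w => by simp [ha g w] }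
    have hH : ∀ h ∈ H, u ∘ₗ h = h ∘ₗ u₁ := fun h hh =>
      comp_eq_comp H (fun h hh h0 => hσ₁.injective h0 fun g w hw => by rw [hh, hw, map_zero])
        hun hu₁N hs hs₁ hs₂ (fun h hh g w => by
          change u (h ((u₁ ^ (2 ^ (n + 1) - 1)) (σ₁ g w))) =
            τ g (u (h ((u₁ ^ (2 ^ (n + 1) - 1)) w)))
          rw [← End.mul_apply (u₁ ^ _), pow_mul_rep hu₁, End.mul_apply, hh, ← End.mul_apply u, huτ,
            ← MulAut.mul_apply, ← pow_succ', Nat.sub_add_cancel hN, hβ₁N, MulAut.one_apply,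
            End.mul_apply]) hh
    let T : Submodule K W :=
      { carrier := {w | ∀ c, S.ψ y (S.π c) = S.π c → u (σ c w) = σ c (u w)}
        zero_mem' := fun c _ => by simp
        add_mem' := fun ha hb c hc => by simp only [map_add, ha c hc, hb c hc]
        smul_mem' := fun a w hw c hc => by simp only [map_smul, hw c hc] }
    have hT : Inv σ T := by
      refine hinvD T (fun c hc w hw c' hc' => ?_) (fun e he w hw c hc => ?_)
      · rw [← End.mul_apply (σ c'), ← map_mul, hw _ (by rw [S.π_mul, map_add, hc, hc']), hw c hc,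
          map_mul, End.mul_apply]
      · rw [← End.mul_apply (σ c), ← (hcm c hc e he).eq, End.mul_apply, ← End.mul_apply u, hu,
          End.mul_apply, hw c hc, ← End.mul_apply u, hu, End.mul_apply, ← End.mul_apply (σ c),
          ← End.mul_apply (σ _)]
        exact LinearMap.congr_fun (hcm c hc _ (β₁ ⟨e, he⟩).2).eq _
    have hmem : h₁ w₀ ∈ T := by
      intro c hc
      have := LinearMap.congr_fun (hH (σ c ∘ₗ h₁) fun g w => by
        rw [LinearMap.comp_apply, hh₁, LinearMap.comp_apply]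
        exact (LinearMap.congr_fun (hcm c hc _ g.2).eq _).symm) w₀
      rw [hxu]
      exact this
    have hT' := (hσ T hT).resolve_left fun h => by
      rw [h, Submodule.mem_bot] at hmem
      exact hw₀ (hinj (hmem.trans (map_zero h₁).symm))
    intro m hm
    obtain ⟨c, rfl⟩ := S.π_surj m
    have h1 : σ (β.1 c) * u = σ c * u := by
      rw [← hu]
      ext w
      exact (hT' ▸ Submodule.mem_top : w ∈ T) c hm
    have h3 := congrArg (· * u ^ (2 ^ (n + 1) - 1)) h1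
    simp only [mul_assoc, ← pow_succ', Nat.sub_add_cancel hN, hun, mul_one] at h3
    rw [S.ψ_π, S.π_eq_iff]
    exact ⟨1, by rw [map_mul, h3, ← map_mul, mul_inv_cancel, map_one, one_smul]⟩
  · obtain ⟨m, hm⟩ := Irr.finrank_eq_pow D₁ (hD.to_subgroup D₁) U σ₁ hσ₁
    have hm1 : m ≤ 1 := by
      by_contra! hm1
      rcases prime_pow_eq_prime_pow_add_one Nat.prime_two hq.out (Nat.le_add_left 1 n) hm1.le
        (by omega) with h | h | ⟨h, -⟩
      · omega
      · exact hq2 h.1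
      · have : 2 ∣ 9 := h ▸ dvd_pow_self 2 (Nat.succ_ne_zero n)
        omega
    choose l hl using S.π_surj
    refine (card_le_sq_of_trace σ₁ ?_
      (fun m : {m : S.M // S.ψ y m = -m} => (⟨l m, by rw [hD₁, hl, m.2]⟩ : D₁)) ?_).trans ?_
    · rw [hm]
      exact natCast_card_ne_zero K 2
        (Nat.Coprime.pow_left _ ((Nat.coprime_primes hq.out Nat.prime_two).2 hq2))
    · intro i j hij
      set g : D₁ := (⟨l i, by rw [hD₁, hl, i.2]⟩ : D₁)⁻¹ * ⟨l j, by rw [hD₁, hl, j.2]⟩ with hg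
      have hg0 : (g : D) ∉ scal σ := by
        rw [← S.π_eq_zero, hg, Subgroup.coe_mul, Subgroup.coe_inv, S.π_mul, S.π_inv, hl, hl,
          neg_add_eq_zero]
        exact fun h => hij (Subtype.ext h)
      obtain ⟨e, he, hne⟩ : ∃ e ∈ D₁, ¬ Commute (σ g) (σ e) := by
        by_contra! h
        exact hg0 (hscal g g.2 h)
      obtain ⟨c, hc⟩ := S.commutator_mem e g
      refine trace_eq_zero_of_conj σ₁ (h := ⟨e, he⟩) (c := c) ?_ ?_
      · rintro rfl
        apply hne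
        rw [one_smul] at hc
        change _ = _
        rw [← map_mul, ← map_mul, show e * (g : D) = ⁅e, (g : D)⁆ * (g * e) by
          rw [commutatorElement_def]; group, map_mul σ ⁅_, _⁆, hc, one_mul]
      · rw [← inv_mul_cancel_right (_ * g * _) g, ← commutatorElement_def, map_mul,
          hsc ⁅(⟨e, he⟩ : D₁), g⁆ c hc, smul_mul_assoc, one_mul]
    · rw [hm]
      exact Nat.pow_le_pow_left (by simpa using Nat.pow_le_pow_right hq.out.pos hm1) 2

/-- An exceptional element: its involution fixes every irreducible constituent, and acts on the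
symplectic space trivially or as the square of a quarter turn. -/
theorem Sym.refl [Nontrivial W] (hq2 : q ≠ 2) (hD : IsPGroup q D) (hσ : Irr σ) (S : Sym q σ)
    {V : Type*} [AddCommGroup V] [Module K V] [FiniteDimensional K V] {τ : D →* End K V}
    {h₀ : W →ₗ[K] V} (h0 : h₀ ≠ 0) (hh : ∀ g w, h₀ (σ g w) = τ g (h₀ w)) {α : MulAut D}
    {x : End K V} (hx : ∀ g, x * τ g = τ (α g) * x) {n : ℕ} (hα : α ^ 2 ^ (n + 2) = 1)
    (hxn : x ^ 2 ^ (n + 2) = 1) (hs : (x - 1) ^ (2 ^ (n + 2) - 1) = 0) :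
    ∃ hy : α ^ 2 ^ (n + 1) ∈ inertia σ, S.ψ ⟨_, hy⟩ = 1 ∨
      ∃ hi : α ^ 2 ^ n ∈ inertia σ, Refl S.ψ ⟨_, hi⟩ := by
  have hQK : (Nat.card D : K) ≠ 0 := natCast_card_ne_zero K 2 (by
    obtain ⟨a, ha⟩ := IsPGroup.iff_card.1 hD
    rw [ha]
    exact Nat.Coprime.pow_left _ ((Nat.coprime_primes hq.out Nat.prime_two).2 hq2))
  obtain ⟨a, u, ha, hper, hu, hun, hus⟩ := exists_reduction 2 hQK hσ h0 hh hx hα hxn hs
  have hdiv : (2 ^ (n + 2) - 1) / 2 ^ a = 2 ^ (n + 2 - a) - 1 := by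
    have h1 := Nat.two_pow_pos a
    have h2 := Nat.two_pow_pos (n + 2 - a)
    have h3 : 2 ^ (n + 2) = 2 ^ (n + 2 - a) * 2 ^ a := by rw [← pow_add, Nat.sub_add_cancel ha]
    refine Nat.div_eq_of_lt_le ?_ ?_
    · rw [Nat.sub_mul, ← h3]; omega
    · rw [Nat.sub_add_cancel h2, ← h3]; have := Nat.two_pow_pos (n + 2); omega
  rw [hdiv] at hus
  have ha1 : a ≤ n + 1 := by
    by_contra h
    rw [show n + 2 - a = 0 by omega] at hus
    exact one_ne_zero hus
  refine ⟨(hper _).2 (pow_dvd_pow 2 ha1), ?_⟩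
  rw [or_iff_not_imp_left]
  intro hy
  obtain ⟨d, hd⟩ : ∃ d, n + 2 - a = d + 1 := ⟨n + 1 - a, by omega⟩
  rw [hd] at hun hus
  let β : inertia σ := ⟨α ^ 2 ^ a, (hper _).2 dvd_rfl⟩
  have hβ : ∀ k, (β ^ 2 ^ k).1 = α ^ 2 ^ (a + k) := fun k => by
    rw [Subgroup.coe_pow, pow_add, pow_mul]
  have hyβ : β ^ 2 ^ d = ⟨_, (hper _).2 (pow_dvd_pow 2 ha1)⟩ :=
    Subtype.ext (by rw [hβ, show a + d = n + 1 by omega])
  have hβN : β ^ 2 ^ (d + 1) = 1 := Subtype.ext (by rw [hβ, show a + (d + 1) = n + 2 by omega, hα]; rfl)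
  obtain ⟨h1, h2⟩ := S.exc hq2 hD hσ (β := β) hu hβN hun hus (hyβ ▸ hy)
  have hyy : S.ψ (β ^ 2 ^ d) ^ 2 = 1 := by rw [← map_pow, ← pow_mul, ← pow_succ, hβN, map_one]
  have hfix : ∀ m, S.ψ (β ^ 2 ^ d) ((1 + S.ψ (β ^ 2 ^ d)) m) = (1 + S.ψ (β ^ 2 ^ d)) m := by
    intro m
    rw [← End.mul_apply, mul_add, ← pow_two, hyy, mul_one, add_comm]
  obtain ⟨e, rfl⟩ : ∃ e, d = e + 1 := by
    refine ⟨d - 1, (Nat.sub_add_cancel (Nat.pos_of_ne_zero ?_)).symm⟩
    rintro rfl
    rw [zero_add, pow_one, show 2 - 1 = 1 from rfl, pow_one, sub_eq_zero] at hus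
    apply hy
    rw [← hyβ]
    ext m
    obtain ⟨g, rfl⟩ := S.π_surj m
    have := hu g
    rw [hus, one_mul, mul_one] at this
    rw [pow_zero, pow_one, S.ψ_π, End.one_apply, S.π_eq_iff]
    exact ⟨1, by rw [map_mul, ← this, ← map_mul, mul_inv_cancel, map_one, one_smul]⟩
  have hi : α ^ 2 ^ n ∈ inertia σ := (hper _).2 (pow_dvd_pow 2 (by omega))
  have hiβ : β ^ 2 ^ e = ⟨_, hi⟩ := Subtype.ext (by rw [hβ, show a + e = n by omega])
  have hsq : S.ψ (β ^ 2 ^ e) ^ 2 = S.ψ (β ^ 2 ^ (e + 1)) := by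
    rw [← map_pow, ← pow_mul, ← pow_succ]
  refine ⟨hi, hiβ ▸ ⟨?_, ?_, fun z hz hc => ?_⟩⟩
  · rw [show 4 = 2 * 2 from rfl, pow_mul, hsq, hyy]
  · ext m
    rw [hsq, End.mul_apply, LinearMap.sub_apply, End.one_apply, LinearMap.zero_apply, sub_eq_zero,
      map_pow S.ψ β (2 ^ e)]
    rw [End.pow_apply]
    exact Function.iterate_fixed (h1 _ (hfix m)) _
  · rw [hsq] at hc ⊢
    exact S.plane hq2 hσ hyy hz hc h2

end Cfsg.Lib.Solv.TwoLen
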