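import Cfsg.Agent.Solv.TwoLenAnn
import Cfsg.Agent.Solv.TwoLenComp
import Cfsg.Agent.Solv.CommCalc

/-!
# Elementary abelian `2`-groups acting on a component: relations on the module
-/

set_option autoImplicit false

open Module
open scoped commutatorElement

namespace Cfsg.Lib.Solv.TwoLen

open HH

universe u

theorem sub_one_mul_mul_sub_one (K : Type*) [Field K] [CharP K 2] {R : Type*} [Ring R]
    [Algebra K R] {a : R} (ha : a ^ 2 = 1) (b : R) : (a - 1) * (a * b - 1) = (a - 1) * (b - 1) := by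
  have h := sub_one_pow_char_pow K 2 a 1
  rw [pow_one, ha, sub_self, pow_two, mul_sub, mul_one, sub_eq_zero] at h
  rw [mul_sub, ← mul_assoc, h, mul_sub (a - 1)]

variable {K V W : Type*} [Field K] [AddCommGroup V] [Module K V] [AddCommGroup W] [Module K W]
  {D : Type u} [Group D] {G : Type*} [Group G]

/-- The homogeneous component of `σ`. -/
def hull (τ : D →* End K V) (σ : D →* End K W) : Submodule K V where
  carrier := {v | ∀ (s : D) (c : K), σ s = c • 1 → τ s v = c • v}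
  zero_mem' := fun _ _ _ => by simp
  add_mem' := fun ha hb s c h => by rw [map_add, ha s c h, hb s c h, smul_add]
  smul_mem' := fun a v hv s c h => by rw [map_smul, hv s c h, smul_comm]

variable {τ : D →* End K V} {σ : D →* End K W} {ρ : G →* End K V} {α : G →* inertia σ}

theorem inv_hull : Inv τ (hull τ σ) := fun d v hv s c h => by
  rw [← End.mul_apply, ← map_mul, show s * d = d * (d⁻¹ * s * d) by group, map_mul, End.mul_apply,
    hv _ c (by rw [map_mul, map_mul, h, mul_smul_comm, mul_one, smul_mul_assoc, ← map_mul,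
      inv_mul_cancel, map_one]), map_smul]

theorem apply_mem_hull (hα : ∀ g d, ρ g * τ d = τ ((α g).1 d) * ρ g) (g : G) {v : V}
    (hv : v ∈ hull τ σ) : ρ g v ∈ hull τ σ := fun s c h => by
  have h1 : (α g).1 ((α g)⁻¹.1 s) = s := by simp
  rw [← End.mul_apply, ← h1, ← hα, End.mul_apply,
    hv _ c ((apply_eq_of_mem_scal (α g)⁻¹.2 ⟨c, h⟩).trans h), map_smul]

/-- The endomorphisms that commute with `d` on the homogeneous component. -/
def cent (τ : D →* End K V) (σ : D →* End K W) (d : D) : Subring (End K V) where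
  carrier := {n | ∀ v ∈ hull τ σ, n v ∈ hull τ σ ∧ n (τ d v) = τ d (n v)}
  zero_mem' := fun _ _ => by simp
  one_mem' := fun _ hv => ⟨hv, rfl⟩
  add_mem' := fun ha hb v hv => ⟨add_mem (ha v hv).1 (hb v hv).1, by
    rw [LinearMap.add_apply, LinearMap.add_apply, (ha v hv).2, (hb v hv).2, map_add]⟩
  neg_mem' := fun ha v hv => ⟨neg_mem (ha v hv).1, by
    rw [LinearMap.neg_apply, LinearMap.neg_apply, (ha v hv).2, map_neg]⟩
  mul_mem' := fun ha hb v hv => ⟨(ha _ (hb v hv).1).1, by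
    rw [End.mul_apply, End.mul_apply, (hb v hv).2, (ha _ (hb v hv).1).2]⟩

theorem exists_eigen {M : Type*} [AddCommGroup M] {R : Type*} [Ring R] [Module R M]
    {P : M → Prop} {y : End R M} (hy : y ^ 2 = 1) (hP : ∀ m, P m → P (m + y m)) {m : M}
    (hm : m ≠ 0) (h : P m) : ∃ m ≠ 0, P m ∧ (y m = m ∨ y m = -m) := by
  by_cases h1 : m + y m = 0
  · exact ⟨m, hm, h, Or.inr (eq_neg_of_add_eq_zero_right h1)⟩
  · refine ⟨_, h1, hP m h, Or.inl ?_⟩
    rw [map_add, ← End.mul_apply, ← pow_two, hy, End.one_apply, add_comm]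

namespace Sym

variable {q : ℕ} (S : Sym q σ)

theorem apply_eq_of_fix [CharP K 2] {β : inertia σ} (hβ : β ^ 2 = 1) {d : D}
    (h : S.ψ β (S.π d) = S.π d) : σ (β.1 d * d⁻¹) = 1 := by
  have hs : β.1 d * d⁻¹ ∈ scal σ := by rw [← S.π_eq_iff, ← S.ψ_π, h]
  have h1 : β.1 (β.1 d * d⁻¹) = (β.1 d * d⁻¹)⁻¹ := by
    rw [map_mul, ← MulAut.mul_apply, ← Subgroup.coe_mul, ← pow_two, hβ]
    simp
  have h2 := apply_eq_of_mem_scal β.2 hs
  have h3 := sub_one_pow_char_pow K 2 (σ (β.1 d * d⁻¹)) 1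
  obtain ⟨c, hc⟩ := hs
  rw [pow_one, pow_two (σ _)] at h3
  nth_rewrite 2 [← h2] at h3
  rw [h1, ← map_mul, inv_mul_cancel, map_one, sub_self, hc, ← one_smul K (1 : End K W),
    smul_smul, mul_one, ← sub_smul, smul_pow, one_pow] at h3
  rcases smul_eq_zero.1 h3 with h | h
  · rw [hc, sub_eq_zero.1 (pow_eq_zero_iff two_ne_zero |>.1 h), one_smul]
  · rw [← mul_one (σ _), h, mul_zero]

theorem mem_cent [CharP K 2] (hα : ∀ g d, ρ g * τ d = τ ((α g).1 d) * ρ g) {y : G}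
    (hy : y ^ 2 = 1) {d : D} (h : S.ψ (α y) (S.π d) = S.π d) : ρ y ∈ cent τ σ d := fun v hv =>
  ⟨apply_mem_hull hα y hv, by
    rw [← End.mul_apply, hα, End.mul_apply, ← inv_mul_cancel_right ((α y).1 d) d, map_mul,
      End.mul_apply, inv_hull d _ (apply_mem_hull hα y hv) _ 1 (by
        rw [S.apply_eq_of_fix (by rw [← map_pow, hy, map_one]) h, one_smul]), one_smul]⟩

variable [hq : Fact q.Prime]

theorem two_ne_zero' (hq2 : q ≠ 2) : (2 : ZMod q) ≠ 0 := by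
  intro h
  have := (ZMod.natCast_eq_zero_iff 2 q).1 (by exact_mod_cast h)
  exact hq2 ((Nat.prime_dvd_prime_iff_eq hq.out Nat.prime_two).1 this)

theorem add_not_mem_perp [CharP K 2] (hq2 : q ≠ 2) {β : inertia σ} (hβ : S.ψ β ^ 2 = 1) {d : D}
    (h : S.ψ β (S.π d) = S.π d) {m : S.M} (hm : m ∉ S.perp d) : m + S.ψ β m ∉ S.perp d := by
  intro h1
  have h2 : m - S.ψ β m ∈ S.perp d := S.mem_perp_of_eigen' h (by
    rw [map_sub, ← End.mul_apply, ← pow_two, hβ, End.one_apply, neg_sub])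
  have := add_mem h1 h2
  rw [add_add_sub_cancel, ← two_smul (ZMod q)] at this
  exact hm ((Submodule.smul_mem_iff _ (two_ne_zero' hq2)).1 this)

variable {h₀ : W →ₗ[K] V}

theorem elim (hq2 : q ≠ 2) (hα : ∀ g d, ρ g * τ d = τ ((α g).1 d) * ρ g)
    (hh : ∀ d w, h₀ (σ d w) = τ d (h₀ w)) {x : G} {d d' : D}
    (hx : S.ψ (α x) (S.π d) = -S.π d) (hd : S.π d' ∉ S.perp d) {n : End K V}
    (h1 : n ∈ cent τ σ d) (h2 : n ∈ cent τ σ d') (h3 : ∀ w, ρ x (n (h₀ w)) = n (h₀ w)) (w : W) :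
    n (h₀ w) = 0 := by
  have h0 : ∀ w, h₀ w ∈ hull τ σ := fun w s c h => by
    rw [← hh, h, LinearMap.smul_apply, End.one_apply, map_smul]
  rw [S.ψ_π, ← S.π_inv, S.π_eq_iff, inv_inv] at hx
  obtain ⟨c, hc⟩ := hx
  have e1 : ∀ w, τ ((α x).1 d) (n (h₀ w)) = τ d (n (h₀ w)) := fun w => by
    rw [← h3, ← End.mul_apply, ← hα, End.mul_apply, h3, ← (h1 _ (h0 w)).2, ← hh, h3]
  have e2 : ∀ w, τ (d * d) (n (h₀ w)) = c • n (h₀ w) := fun w => by
    rw [← (h1 _ (h0 w)).1 _ c hc, map_mul, map_mul, End.mul_apply, End.mul_apply,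
      ← (h1 _ (h0 w)).2, ← hh, e1]
  obtain ⟨c', hc'⟩ := S.commutator_mem (d * d) d'
  have e3 : τ (d * d * d') (n (h₀ w)) = τ (d' * (d * d)) (n (h₀ w)) := by
    rw [map_mul, map_mul τ d', End.mul_apply, End.mul_apply (τ d'), e2, ← (h2 _ (h0 w)).2, ← hh,
      e2, hh, (h2 _ (h0 w)).2, map_smul]
  have e4 : d * d * d' = ⁅d * d, d'⁆ * (d' * (d * d)) := by rw [commutatorElement_def]; group
  rw [e4, map_mul, End.mul_apply, inv_hull _ _ (h1 _ (h0 w)).1 _ c' hc', ← sub_eq_zero,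
    ← one_smul K (τ _ _), smul_smul, mul_one, ← sub_smul, smul_eq_zero] at e3
  rcases e3 with e3 | e3
  · exfalso
    apply hd
    have : S.π (d * d) ∈ S.perp d' := by
      rw [S.π_mem_perp]
      change _ = _
      rw [← map_mul, ← map_mul, e4, map_mul σ _ (d' * _), hc', sub_eq_zero.1 e3, one_smul, one_mul]
    rw [S.π_mul, ← two_smul (ZMod q)] at this
    exact S.π_mem_perp_comm.1 ((Submodule.smul_mem_iff _ (two_ne_zero' hq2)).1 this)
  · rw [← inv_apply_apply τ (d' * (d * d)) (n (h₀ w)), e3, map_zero]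

variable [IsAlgClosed K] [FiniteDimensional K W] [CharP K 2]

theorem elim₂ (hq2 : q ≠ 2) (hσ : Irr σ) (hα : ∀ g d, ρ g * τ d = τ ((α g).1 d) * ρ g)
    (hh : ∀ d w, h₀ (σ d w) = τ d (h₀ w)) {x a b : G} (ha : a ^ 2 = 1) (hb : b ^ 2 = 1)
    (hab : Commute a b) {m : S.M} (hm : m ≠ 0) (hx : S.ψ (α x) m = -m) (ham : S.ψ (α a) m = m)
    (hbm : S.ψ (α b) m = m) {n : End K V} (hn : n ∈ Subring.closure {ρ a, ρ b})
    (h3 : ∀ w, ((ρ x - 1) * n) (h₀ w) = 0) (w : W) : n (h₀ w) = 0 := by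
  obtain ⟨d, rfl⟩ := S.π_surj m
  obtain ⟨m, hm⟩ : ∃ m, m ∉ S.perp d := by
    by_contra! h
    exact hm (S.π_eq_zero_of_forall hσ h)
  have ha' : S.ψ (α a) ^ 2 = 1 := by rw [← map_pow, ← map_pow, ha, map_one, map_one]
  have hb' : S.ψ (α b) ^ 2 = 1 := by rw [← map_pow, ← map_pow, hb, map_one, map_one]
  have h1 := S.add_not_mem_perp hq2 hb' hbm (S.add_not_mem_perp hq2 ha' ham hm)
  obtain ⟨d', hd'⟩ := S.π_surj (m + S.ψ (α a) m + S.ψ (α b) (m + S.ψ (α a) m))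
  have e : ∀ {y : End (ZMod q) S.M}, y ^ 2 = 1 → ∀ m, y (m + y m) = m + y m := fun hy m => by
    rw [map_add, ← End.mul_apply, ← pow_two, hy, End.one_apply, add_comm]
  have hc : ∀ {d : D}, S.ψ (α a) (S.π d) = S.π d → S.ψ (α b) (S.π d) = S.π d → n ∈ cent τ σ d :=
    fun h1 h2 => Subring.closure_le.2 (by
      rintro _ (rfl | rfl)
      exacts [S.mem_cent hα ha h1, S.mem_cent hα hb h2]) hn
  refine S.elim hq2 hα hh hx (hd' ▸ h1) (hc ham hbm) (hc ?_ ?_) (fun w => ?_) w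
  · rw [hd', map_add, e ha', ← End.mul_apply, ((hab.map α).map S.ψ).eq, End.mul_apply, e ha']
  · rw [hd', e hb']
  · exact sub_eq_zero.1 (h3 w)

omit hq [IsAlgClosed K] [FiniteDimensional K W] [CharP K 2] in
theorem ro₁ (hα : ∀ g d, ρ g * τ d = τ ((α g).1 d) * ρ g)
    (hh : ∀ d w, h₀ (σ d w) = τ d (h₀ w)) (hinj : Function.Injective h₀) {x : G}
    (h : ∀ w, (ρ x - 1) (h₀ w) = 0) : S.ψ (α x) = 1 := by
  have h' : ∀ w, ρ x (h₀ w) = h₀ w := fun w => sub_eq_zero.1 (h w)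
  ext m
  obtain ⟨d, rfl⟩ := S.π_surj m
  rw [S.ψ_π, End.one_apply, S.π_eq_iff]
  refine ⟨1, ?_⟩
  have : σ ((α x).1 d) = σ d := LinearMap.ext fun w => hinj (by
    rw [hh, ← h', ← End.mul_apply, ← hα, End.mul_apply, ← hh, h'])
  rw [map_mul, this, ← map_mul, mul_inv_cancel, map_one, one_smul]

omit hq [IsAlgClosed K] [FiniteDimensional K W] [CharP K 2] in
theorem exists_neg {x : G} (hx : x ^ 2 = 1) (h : S.ψ (α x) ≠ 1) :
    ∃ m ≠ 0, S.ψ (α x) m = -m := by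
  obtain ⟨m, hm⟩ : ∃ m, m - S.ψ (α x) m ≠ 0 := by
    by_contra! h1
    exact h (LinearMap.ext fun m => (sub_eq_zero.1 (h1 m)).symm)
  refine ⟨_, hm, ?_⟩
  rw [map_sub, ← End.mul_apply, ← map_mul, ← map_mul, ← pow_two, hx, map_one, map_one,
    End.one_apply, neg_sub]

omit hq [IsAlgClosed K] [FiniteDimensional K W] [CharP K 2] in
theorem exists_fix {P : S.M → Prop} {x y : G} (hy : y ^ 2 = 1)
    (hP : ∀ m, P m → P (m + S.ψ (α y) m)) (hx : ∀ m, P m → S.ψ (α x) m = -m) {m : S.M}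
    (hm : m ≠ 0) (h : P m) : ∃ y', (y' = y ∨ y' = x * y) ∧ ∃ m ≠ 0, P m ∧ S.ψ (α y') m = m := by
  obtain ⟨m, h1, h2, h3 | h3⟩ := exists_eigen (y := S.ψ (α y))
    (by rw [← map_pow, ← map_pow, hy, map_one, map_one]) hP hm h
  · exact ⟨y, Or.inl rfl, m, h1, h2, h3⟩
  · exact ⟨_, Or.inr rfl, m, h1, h2, by
      rw [map_mul, map_mul, End.mul_apply, h3, map_neg, hx m h2, neg_neg]⟩

theorem ro₂ (hq2 : q ≠ 2) (hσ : Irr σ) (hα : ∀ g d, ρ g * τ d = τ ((α g).1 d) * ρ g)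
    (hh : ∀ d w, h₀ (σ d w) = τ d (h₀ w)) (hinj : Function.Injective h₀) {x y : G}
    (hx : x ^ 2 = 1) (hy : y ^ 2 = 1) (hxy : Commute x y)
    (h : ∀ w, ((ρ x - 1) * (ρ y - 1)) (h₀ w) = 0) :
    S.ψ (α x) = 1 ∨ S.ψ (α y) = 1 ∨ S.ψ (α (x * y)) = 1 := by
  by_cases hx1 : S.ψ (α x) = 1
  · exact Or.inl hx1
  right
  obtain ⟨m, hm, h1⟩ := S.exists_neg hx hx1
  obtain ⟨y', h2, m, h3, h4, h5⟩ := S.exists_fix (P := fun m => S.ψ (α x) m = -m) (α := α) hy
    (fun m h => by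
      rw [map_add, ← End.mul_apply, ((hxy.map α).map S.ψ).eq, End.mul_apply, h, map_neg, neg_add])
    (fun _ h => h) hm h1
  have h6 : y' ^ 2 = 1 := by
    rcases h2 with rfl | rfl
    · exact hy
    · rw [hxy.mul_pow, hx, hy, mul_one]
  have := S.ro₁ hα hh hinj (S.elim₂ hq2 hσ hα hh h6 h6 (Commute.refl _) h3 h4 h5 h5
    (n := ρ y' - 1) (sub_mem (Subring.subset_closure (Or.inl rfl)) (one_mem _)) fun w => by
      rcases h2 with rfl | rfl
      · exact h w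
      · rw [map_mul, sub_one_mul_mul_sub_one K (by rw [← map_pow, hx, map_one]), h])
  rcases h2 with rfl | rfl
  exacts [Or.inl this, Or.inr this]

theorem ro₃ (hq2 : q ≠ 2) (hσ : Irr σ) (hα : ∀ g d, ρ g * τ d = τ ((α g).1 d) * ρ g)
    (hh : ∀ d w, h₀ (σ d w) = τ d (h₀ w)) (hinj : Function.Injective h₀) {x y z : G}
    (hx : x ^ 2 = 1) (hy : y ^ 2 = 1) (hz : z ^ 2 = 1) (hxy : Commute x y) (hxz : Commute x z)
    (hyz : Commute y z) (h : ∀ w, ((ρ x - 1) * ((ρ y - 1) * (ρ z - 1))) (h₀ w) = 0)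
    (hx1 : S.ψ (α x) ≠ 1) {H : Subgroup G} (hH : ∀ g, S.ψ (α g) = 1 → g ∈ H) (hxH : x ∈ H) :
    y ∈ H ∨ z ∈ H ∨ y * z ∈ H := by
  have e : ∀ {a b : G}, Commute a b → ∀ {m}, S.ψ (α a) (m + S.ψ (α b) m) =
      S.ψ (α a) m + S.ψ (α b) (S.ψ (α a) m) := fun hab m => by
    rw [map_add, ← End.mul_apply, ((hab.map α).map S.ψ).eq, End.mul_apply]
  obtain ⟨m, hm, h1⟩ := S.exists_neg hx hx1
  obtain ⟨y', h2, m, h3, h4, h5⟩ := S.exists_fix (P := fun m => S.ψ (α x) m = -m) (α := α) hy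
    (fun m h => by rw [e hxy, h, map_neg, neg_add]) (fun _ h => h) hm h1
  have hy'z : Commute y' z := by
    rcases h2 with rfl | rfl
    exacts [hyz, hxz.mul_left hyz]
  obtain ⟨z', h2', m, h3, ⟨h4, h5⟩, h6⟩ := S.exists_fix
    (P := fun m => S.ψ (α x) m = -m ∧ S.ψ (α y') m = m) (α := α) hz
    (fun m h => ⟨by rw [e hxz, h.1, map_neg, neg_add], by rw [e hy'z, h.2]⟩) (fun _ h => h.1) h3
    ⟨h4, h5⟩
  have f : ∀ {y y' : G}, y ^ 2 = 1 → Commute x y → y' = y ∨ y' = x * y →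
      y' ^ 2 = 1 ∧ Commute x y' ∧ (ρ x - 1) * (ρ y' - 1) = (ρ x - 1) * (ρ y - 1) ∧
      ∃ c ∈ H, y = c * y' := by
    rintro y _ hy hxy (rfl | rfl)
    · exact ⟨hy, hxy, rfl, 1, H.one_mem, (one_mul _).symm⟩
    · exact ⟨by rw [hxy.mul_pow, hx, hy, mul_one], (Commute.refl x).mul_right hxy,
        by rw [map_mul, sub_one_mul_mul_sub_one K (by rw [← map_pow, hx, map_one])],
        x⁻¹, H.inv_mem hxH, (inv_mul_cancel_left _ _).symm⟩
  obtain ⟨a1, a2, a3, c, hc, a4⟩ := f hy hxy h2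
  obtain ⟨b1, b2, b3, c', hc', b4⟩ := f hz hxz h2'
  have hy'z' : Commute y' z' := by
    rcases h2' with rfl | rfl
    exacts [hy'z, a2.symm.mul_right hy'z]
  have hcomm : ∀ {a b : G}, Commute a b → Commute (ρ a - 1) (ρ b - 1) := fun hab =>
    ((hab.map ρ).sub_right (Commute.one_right _)).sub_left (Commute.one_left _)
  have := S.ro₂ hq2 hσ hα hh hinj a1 b1 hy'z' (S.elim₂ hq2 hσ hα hh a1 b1 hy'z' h3 h4 h5 h6
    (mul_mem (sub_mem (Subring.subset_closure (Or.inl rfl)) (one_mem _))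
      (sub_mem (Subring.subset_closure (Or.inr rfl)) (one_mem _))) fun w => by
      rw [(hcomm hy'z').eq, ← mul_assoc, b3, mul_assoc, ← (hcomm hy'z).eq, ← mul_assoc, a3,
        mul_assoc, h])
  rcases this with h7 | h7 | h7
  · exact Or.inl (a4 ▸ H.mul_mem hc (hH _ h7))
  · exact Or.inr (Or.inl (b4 ▸ H.mul_mem hc' (hH _ h7)))
  · refine Or.inr (Or.inr ?_)
    rcases h2' with rfl | rfl
    · rw [a4, mul_assoc]
      exact H.mul_mem hc (hH _ h7)
    · have := H.mul_mem (H.mul_mem hc (H.inv_mem hxH)) (hH _ h7)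
      rwa [← mul_assoc y', ← a2.eq, mul_assoc, mul_assoc, inv_mul_cancel_left, ← mul_assoc,
        ← a4] at this

end Sym

end Cfsg.Lib.Solv.TwoLen
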