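import Cfsg.Agent.Solv.HallHigmanCore
import Cfsg.Agent.Solv.SectionAut
import Cfsg.Agent.Solv.ElemAb

/-!
# The symplectic space of an irreducible representation of a group of class two

`Sym q σ`: the quotient of `D` by the elements acting as scalars, as a module for the inertia
group of `σ`.
-/

set_option autoImplicit false

open Module
open scoped commutatorElement

namespace Cfsg.Lib.Solv.TwoLen

open HH

universe u

variable {K : Type*} [Field K] {D : Type u} [Group D]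
variable {W : Type*} [AddCommGroup W] [Module K W]

/-- The elements acting as scalars. -/
def scal (σ : D →* End K W) : Subgroup D where
  carrier := {g | ∃ c : K, σ g = c • 1}
  one_mem' := ⟨1, by simp⟩
  mul_mem' := by
    rintro a b ⟨c, hc⟩ ⟨d, hd⟩
    exact ⟨c * d, by rw [map_mul, hc, hd, smul_mul_smul_comm, mul_one]⟩
  inv_mem' := by
    rintro a ⟨c, hc⟩
    have h1 : c • σ a⁻¹ = 1 := by
      rw [← one_mul (σ a⁻¹), ← smul_mul_assoc, ← hc, ← map_mul, mul_inv_cancel, map_one]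
    by_cases hc0 : c = 0
    · subst hc0
      rw [zero_smul] at h1
      exact ⟨0, by rw [← mul_one (σ a⁻¹), ← h1, mul_zero, smul_zero]⟩
    exact ⟨c⁻¹, by rw [← h1, smul_smul, inv_mul_cancel₀ hc0, one_smul]⟩

theorem commute_of_mem_scal {σ : D →* End K W} {g : D} (hg : g ∈ scal σ) (f : End K W) :
    Commute (σ g) f := by
  obtain ⟨c, hc⟩ := hg
  rw [hc]
  exact (Commute.one_left f).smul_left c

instance scal_normal (σ : D →* End K W) : (scal σ).Normal := ⟨by
  rintro a ⟨c, hc⟩ g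
  exact ⟨c, by rw [map_mul, map_mul, hc, mul_smul_comm, mul_one, smul_mul_assoc, ← map_mul,
    mul_inv_cancel, map_one]⟩⟩

theorem apply_eq_of_mem_scal {σ : D →* End K W} {β : MulAut D} (hβ : β ∈ inertia σ) {g : D}
    (hg : g ∈ scal σ) : σ (β g) = σ g := by
  obtain ⟨u, hu⟩ := hβ
  have := hu g
  rw [← (commute_of_mem_scal hg u).eq] at this
  exact (u.isUnit.mul_right_cancel this).symm

theorem mem_scal_of_commute [IsAlgClosed K] [FiniteDimensional K W] {σ : D →* End K W}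
    (hσ : Irr σ) {g : D} (h : ∀ k, Commute (σ g) (σ k)) : g ∈ scal σ :=
  hσ.exists_scalar h

/-- The symplectic space of `σ`. -/
structure Sym (q : ℕ) (σ : D →* End K W) where
  /-- the space -/
  M : Type u
  [acg : AddCommGroup M]
  [mod : Module (ZMod q) M]
  /-- the projection -/
  π : D → M
  π_mul : ∀ a b, π (a * b) = π a + π b
  π_surj : Function.Surjective π
  π_eq_zero : ∀ a, π a = 0 ↔ a ∈ scal σ
  /-- the action of the inertia group -/
  ψ : inertia σ →* End (ZMod q) M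
  ψ_π : ∀ (β : inertia σ) (a : D), ψ β (π a) = π (β.1 a)

attribute [instance] Sym.acg Sym.mod

theorem nonempty_sym [IsAlgClosed K] [FiniteDimensional K W] {q : ℕ} {σ : D →* End K W}
    (hσ : Irr σ) (hcl : ∀ a b : D, ⁅a, b⁆ ∈ Subgroup.center D) (hq : ∀ a : D, a ^ q = 1) :
    Nonempty (Sym q σ) := by
  have : ElemAb q (D ⧸ scal σ) := (ElemAb.quotient_iff _).2
    ⟨by
      rw [commutator_def, Subgroup.commutator_le]
      intro a _ b _
      refine mem_scal_of_commute hσ fun k => ?_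
      change _ = _
      rw [← map_mul, ← map_mul, Subgroup.mem_center_iff.1 (hcl a b) k],
    fun x => by rw [hq]; exact one_mem _⟩
  refine ⟨{ M := Vec q (D ⧸ scal σ)
            π := fun a => Vec.ofMul q (QuotientGroup.mk a)
            π_mul := fun _ _ => rfl
            π_surj := fun w => ?_
            π_eq_zero := fun a => QuotientGroup.eq_one_iff a
            ψ := Vec.rep q (Coprime.quotAut (inertia σ).subtype (scal σ) fun β x hx => ?_)
            ψ_π := fun _ _ => rfl }⟩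
  · obtain ⟨a, ha⟩ := QuotientGroup.mk_surjective (Vec.toMul w)
    exact ⟨a, congrArg (Vec.ofMul q) ha⟩
  · obtain ⟨c, hc⟩ := id hx
    exact ⟨c, (apply_eq_of_mem_scal β.2 hx).trans hc⟩

namespace Sym

variable {q : ℕ} {σ : D →* End K W} (S : Sym q σ)

theorem π_one : S.π 1 = 0 := (S.π_eq_zero 1).2 (one_mem _)

theorem π_inv (a : D) : S.π a⁻¹ = -S.π a := by
  rw [eq_neg_iff_add_eq_zero, ← S.π_mul, inv_mul_cancel, π_one]

theorem π_pow (a : D) (n : ℕ) : S.π (a ^ n) = n • S.π a := by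
  induction n with
  | zero => rw [pow_zero, π_one, zero_smul]
  | succ n ih => rw [pow_succ, S.π_mul, ih, succ_nsmul]

theorem π_eq_iff {a b : D} : S.π a = S.π b ↔ a * b⁻¹ ∈ scal σ := by
  rw [← S.π_eq_zero, S.π_mul, S.π_inv, ← sub_eq_add_neg, sub_eq_zero]

instance finite [Finite D] : Finite S.M := Finite.of_surjective _ S.π_surj

theorem commute_congr {a b b' : D} (h : S.π b = S.π b') (hc : Commute (σ a) (σ b')) :
    Commute (σ a) (σ b) := by
  rw [← inv_mul_cancel_right b b', map_mul]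
  exact (commute_of_mem_scal (S.π_eq_iff.1 h) _).symm.mul_right hc

/-- The vectors orthogonal to `a`. -/
def perp (a : D) : Submodule (ZMod q) S.M :=
  AddSubgroup.toZModSubmodule q
    { carrier := {m | ∃ b, S.π b = m ∧ Commute (σ a) (σ b)}
      zero_mem' := ⟨1, S.π_one, by rw [map_one]; exact Commute.one_right _⟩
      add_mem' := by
        rintro _ _ ⟨b, rfl, hb⟩ ⟨c, rfl, hc⟩
        exact ⟨b * c, S.π_mul _ _, by rw [map_mul]; exact hb.mul_right hc⟩
      neg_mem' := by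
        rintro _ ⟨b, rfl, hb⟩
        refine ⟨b⁻¹, S.π_inv _, ?_⟩
        have := (Commute.units_inv_right (u := σ.toHomUnits b) hb)
        rwa [← map_inv] at this }

theorem π_mem_perp {a b : D} : S.π b ∈ S.perp a ↔ Commute (σ a) (σ b) :=
  ⟨fun ⟨_, h, hc⟩ => S.commute_congr h.symm hc, fun h => ⟨b, rfl, h⟩⟩

theorem π_mem_perp_comm {a b : D} : S.π b ∈ S.perp a ↔ S.π a ∈ S.perp b := by
  rw [π_mem_perp, π_mem_perp]
  exact ⟨Commute.symm, Commute.symm⟩

theorem π_mem_perp_self (a : D) : S.π a ∈ S.perp a := S.π_mem_perp.2 (Commute.refl _)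

theorem π_eq_zero_of_forall [IsAlgClosed K] [FiniteDimensional K W] (hσ : Irr σ) {a : D}
    (h : ∀ m, m ∈ S.perp a) : S.π a = 0 :=
  (S.π_eq_zero a).2 (mem_scal_of_commute hσ fun _ => S.π_mem_perp.1 (h _))

include S in
theorem commutator_mem (a b : D) : ⁅a, b⁆ ∈ scal σ := by
  rw [← S.π_eq_zero, commutatorElement_def, S.π_mul, S.π_mul, S.π_mul, S.π_inv, S.π_inv]
  abel

/-- Eigenvectors for the eigenvalues `1` and `-1` are orthogonal. -/
theorem commute_of_eigen [CharP K 2] {β : inertia σ} {a b : D}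
    (ha : S.ψ β (S.π a) = -S.π a) (hb : S.ψ β (S.π b) = S.π b) : Commute (σ a) (σ b) := by
  rw [S.ψ_π, ← S.π_inv, S.π_eq_iff] at ha
  rw [S.ψ_π, S.π_eq_iff] at hb
  have h1 := apply_eq_of_mem_scal β.2 (S.commutator_mem a b)
  rw [map_commutatorElement] at h1
  have e : ∀ s x y : D, s ∈ scal σ → σ ⁅s * x, y⁆ = σ ⁅x, y⁆ := by
    intro s x y hs
    have : ⁅s * x, y⁆ = s * (x * y * x⁻¹) * s⁻¹ * y⁻¹ := by
      rw [commutatorElement_def]; group
    rw [this, map_mul, map_mul, map_mul σ s, (commute_of_mem_scal hs _).eq, mul_assoc _ (σ s),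
      ← map_mul σ s, mul_inv_cancel, map_one, mul_one, ← map_mul, commutatorElement_def]
  have e' : ∀ s x y : D, s ∈ scal σ → σ ⁅y, s * x⁆ = σ ⁅y, x⁆ := by
    intro s x y hs
    have : ⁅y, s * x⁆ = y * (s * (x * y⁻¹ * x⁻¹) * s⁻¹) := by
      rw [commutatorElement_def]; group
    rw [this, map_mul, map_mul, map_mul σ s, (commute_of_mem_scal hs _).eq, mul_assoc _ (σ s),
      ← map_mul σ s, mul_inv_cancel, map_one, mul_one, ← map_mul, commutatorElement_def]
    simp only [mul_assoc]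
  rw [← inv_mul_cancel_right (β.1 a) a⁻¹, ← inv_mul_cancel_right (β.1 b) b, e _ _ _ ha,
    e' _ _ _ hb] at h1
  obtain ⟨c, hc⟩ := S.commutator_mem a b
  have h2 : σ ⁅a, b⁆ * σ ⁅a, b⁆ = 1 := by
    have : ⁅a⁻¹, b⁆ = a⁻¹ * ⁅a, b⁆⁻¹ * a := by simp only [commutatorElement_def]; group
    nth_rewrite 1 [← h1]
    rw [this, map_mul, map_mul, ← (commute_of_mem_scal (inv_mem (S.commutator_mem a b)) _).eq,
      mul_assoc (σ _), ← map_mul σ a⁻¹, inv_mul_cancel, map_one, mul_one, ← map_mul,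
      inv_mul_cancel, map_one]
  have h3 : σ ⁅a, b⁆ = 1 := by
    have := sub_one_pow_char_pow K 2 (σ ⁅a, b⁆) 1
    rw [pow_one, pow_two (σ _), h2, sub_self, hc, ← one_smul K (1 : End K W), smul_smul, mul_one,
      ← sub_smul, smul_pow, one_pow] at this
    rcases smul_eq_zero.1 this with h | h
    · rw [hc, sub_eq_zero.1 (pow_eq_zero_iff two_ne_zero |>.1 h), one_smul]
    · rw [← mul_one (σ _), h, mul_zero]
  change _ = _
  rw [← map_mul, ← map_mul, show a * b = ⁅a, b⁆ * (b * a) by rw [commutatorElement_def]; group,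
    map_mul, h3, one_mul]

theorem mem_perp_of_eigen [CharP K 2] {β : inertia σ} {a : D} {m : S.M}
    (ha : S.ψ β (S.π a) = -S.π a) (hb : S.ψ β m = m) : m ∈ S.perp a := by
  obtain ⟨b, rfl⟩ := S.π_surj m
  exact S.π_mem_perp.2 (S.commute_of_eigen ha hb)

theorem mem_perp_of_eigen' [CharP K 2] {β : inertia σ} {a : D} {m : S.M}
    (ha : S.ψ β (S.π a) = S.π a) (hb : S.ψ β m = -m) : m ∈ S.perp a := by
  obtain ⟨b, rfl⟩ := S.π_surj m
  exact S.π_mem_perp.2 (S.commute_of_eigen hb ha).symm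

theorem isUnit_two [hq : Fact q.Prime] (hq2 : q ≠ 2) : IsUnit (2 : End (ZMod q) S.M) := by
  have h : (2 : ZMod q) ≠ 0 := by
    intro h
    have := (ZMod.natCast_eq_zero_iff 2 q).1 (by exact_mod_cast h)
    exact hq2 ((Nat.prime_dvd_prime_iff_eq hq.out Nat.prime_two).1 this)
  have := (IsUnit.mk0 _ h).map (algebraMap (ZMod q) (End (ZMod q) S.M))
  rwa [map_ofNat] at this

/-- In a plane the eigenspaces of an isometric involution cannot both be nonzero. -/
theorem plane [IsAlgClosed K] [FiniteDimensional K W] [CharP K 2] [Finite D] [hq : Fact q.Prime]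
    (hq2 : q ≠ 2) (hσ : Irr σ) {y z : inertia σ} (hy : S.ψ y ^ 2 = 1) (hz : S.ψ z ^ 2 = 1)
    (hc : Commute (S.ψ z) (S.ψ y)) (hcard : Nat.card {m : S.M // S.ψ y m = -m} ≤ q ^ 2) :
    (1 - S.ψ y) * (1 + S.ψ z) = 0 ∨ (1 - S.ψ y) * (1 - S.ψ z) = 0 := by
  by_contra! h
  obtain ⟨h1, h2⟩ := h
  obtain ⟨m₁, hm₁⟩ : ∃ m, ((1 - S.ψ y) * (1 + S.ψ z)) m ≠ 0 := by
    by_contra! h; exact h1 (LinearMap.ext h)
  obtain ⟨m₂, hm₂⟩ : ∃ m, ((1 - S.ψ y) * (1 - S.ψ z)) m ≠ 0 := by
    by_contra! h; exact h2 (LinearMap.ext h)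
  rw [pow_two] at hy hz
  have y1 : ∀ f : End (ZMod q) S.M, ∀ m, S.ψ y (((1 - S.ψ y) * f) m) = -((1 - S.ψ y) * f) m := by
    intro f m
    rw [← End.mul_apply, ← LinearMap.neg_apply, ← mul_assoc, mul_sub, hy]
    congr 1
    noncomm_ring
  have z1 : ∀ m, S.ψ z (((1 - S.ψ y) * (1 + S.ψ z)) m) = ((1 - S.ψ y) * (1 + S.ψ z)) m := by
    intro m
    rw [← End.mul_apply, ← mul_assoc, ((Commute.one_right _).sub_right hc).eq, mul_assoc, mul_add,
      hz, mul_one, add_comm]
  have z2 : ∀ m, S.ψ z (((1 - S.ψ y) * (1 - S.ψ z)) m) = -((1 - S.ψ y) * (1 - S.ψ z)) m := by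
    intro m
    rw [← End.mul_apply, ← mul_assoc, ((Commute.one_right _).sub_right hc).eq, mul_assoc, mul_sub,
      hz, mul_one, ← LinearMap.neg_apply, ← mul_neg, neg_sub]
  obtain ⟨a, ha⟩ := S.π_surj (((1 - S.ψ y) * (1 + S.ψ z)) m₁)
  obtain ⟨m, hm⟩ : ∃ m, m ∉ S.perp a := by
    by_contra! h
    exact hm₁ (ha ▸ S.π_eq_zero_of_forall hσ h)
  obtain ⟨a', ha'⟩ := S.π_surj (((1 - S.ψ y) * (1 + S.ψ z)) m)
  have hya : S.ψ y (S.π a) = -S.π a := by rw [ha, y1]
  have hza : S.ψ z (S.π a) = S.π a := by rw [ha, z1]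
  have hya' : S.ψ y (S.π a') = -S.π a' := by rw [ha', y1]
  have hza' : S.ψ z (S.π a') = S.π a' := by rw [ha', z1]
  have haa' : S.π a' ∉ S.perp a := by
    intro h
    apply hm
    have e1 : ((1 + S.ψ y) * 2) m ∈ S.perp a := by
      refine S.mem_perp_of_eigen hya ?_
      rw [← End.mul_apply, ← mul_assoc, mul_add, hy, mul_one, add_comm]
    have e2 := S.mem_perp_of_eigen' hza (z2 m)
    have e3 := add_mem (add_mem e1 e2) (ha' ▸ h)
    rw [← LinearMap.add_apply, ← LinearMap.add_apply, show (1 + S.ψ y) * 2 +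
      (1 - S.ψ y) * (1 - S.ψ z) + (1 - S.ψ y) * (1 + S.ψ z) = 1 + 1 + (1 + 1) by
        noncomm_ring] at e3
    have h2 : (2 : ZMod q) ≠ 0 := by
      intro h
      have := (ZMod.natCast_eq_zero_iff 2 q).1 (by exact_mod_cast h)
      exact hq2 ((Nat.prime_dvd_prime_iff_eq hq.out Nat.prime_two).1 this)
    have e4 : ((1 + 1 + (1 + 1) : End (ZMod q) S.M)) m = (2 * 2 : ZMod q) • m := by
      rw [mul_smul, two_smul, two_smul]
      rfl
    rw [e4] at e3
    exact (Submodule.smul_mem_iff _ (mul_ne_zero h2 h2)).1 e3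
  set b := ((1 - S.ψ y) * (1 - S.ψ z)) m₂ with hb
  have hba : b ∈ S.perp a := S.mem_perp_of_eigen' hza (z2 m₂)
  have hba' : b ∈ S.perp a' := S.mem_perp_of_eigen' hza' (z2 m₂)
  have hyb : S.ψ y b = -b := y1 _ _
  let F : ZMod q × ZMod q × ZMod q → {m : S.M // S.ψ y m = -m} := fun t =>
    ⟨t.1 • S.π a + t.2.1 • S.π a' + t.2.2 • b, by
      simp only [map_add, map_smul, hya, hya', hyb, smul_neg, neg_add]⟩
  have hF : Function.Injective F := by
    rintro ⟨r, s, t⟩ ⟨r', s', t'⟩ h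
    have h0 : (r - r') • S.π a + (s - s') • S.π a' + (t - t') • b = 0 := by
      have := congrArg Subtype.val h
      simp only [F] at this
      rw [← sub_eq_zero.2 this]
      simp only [sub_smul]
      abel
    have hs : s - s' = 0 := by
      by_contra hs
      refine haa' ((Submodule.smul_mem_iff _ hs).1 ?_)
      rw [show (s - s') • S.π a' = -((r - r') • S.π a + (t - t') • b) by
        rw [eq_neg_iff_add_eq_zero, ← h0]; abel]
      exact neg_mem (add_mem (Submodule.smul_mem _ _ (S.π_mem_perp_self a))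
        (Submodule.smul_mem _ _ hba))
    rw [hs, zero_smul, add_zero] at h0
    have hr : r - r' = 0 := by
      by_contra hr
      refine haa' (S.π_mem_perp_comm.1 ((Submodule.smul_mem_iff _ hr).1 ?_))
      rw [eq_neg_of_add_eq_zero_left h0]
      exact neg_mem (Submodule.smul_mem _ _ hba')
    rw [hr, zero_smul, zero_add] at h0
    have ht := (smul_eq_zero.1 h0).resolve_right hm₂
    rw [sub_eq_zero.1 hr, sub_eq_zero.1 hs, sub_eq_zero.1 ht]
  have := (Nat.card_le_card_of_injective F hF).trans hcard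
  rw [Nat.card_prod, Nat.card_prod, Nat.card_zmod] at this
  have h1 := hq.out.one_lt
  nlinarith [mul_pos (zero_lt_one.trans h1) (zero_lt_one.trans h1)]

end Sym

end Cfsg.Lib.Solv.TwoLen
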